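import Mathlib

/-! Two primes at distance at least three between `m / 2` and `m`. -/

set_option autoImplicit false

namespace H19.AP
open Nat

theorem exists_prime_notMem (n : ℕ) (hn : 512 ≤ n) (T : Finset ℕ) (hT : T.card ≤ 3) :
    ∃ p : ℕ, p.Prime ∧ n < p ∧ p ≤ 2 * n ∧ p ∉ T := by
  wlog hq : ∀ q ∈ T, n < q ∧ q ≤ 2 * n generalizing T
  · obtain ⟨p, h1, h2, h3, h4⟩ := this (T.filter fun q => n < q ∧ q ≤ 2 * n)
      ((Finset.card_filter_le _ _).trans hT) (fun q hq => (Finset.mem_filter.1 hq).2)
    exact ⟨p, h1, h2, h3, fun h => h4 (Finset.mem_filter.2 ⟨h, h2, h3⟩)⟩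
  have h0 : 4 ^ n < n * n.centralBinom := Nat.four_pow_lt_mul_centralBinom n (by omega)
  contrapose! h0
  suffices h : n.centralBinom ≤ (2 * n) ^ sqrt (2 * n) * 4 ^ (2 * n / 3) by
    grw [h, ← mul_assoc, bertrand_main_inequality hn]
  let f x := x ^ n.centralBinom.factorization x
  let S := {p ∈ Finset.range (2 * n / 3 + 1) | Nat.Prime p}
  have fle : ∀ p, f p ≤ 2 * n := fun p => pow_factorization_choose_le (by omega)
  have hd : Disjoint T S := Finset.disjoint_left.2 fun x hx hx' => by
    have := hq x hx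
    simp only [S, Finset.mem_filter, Finset.mem_range] at hx'
    omega
  have e : n.centralBinom = (∏ x ∈ T, f x) * ∏ x ∈ S, f x := by
    rw [← Finset.prod_union hd]
    refine (Eq.trans ?_ n.prod_pow_factorization_centralBinom).symm
    apply Finset.prod_subset
    · intro x hx
      simp only [Finset.mem_union, S, Finset.mem_filter, Finset.mem_range] at hx ⊢
      rcases hx with hx | hx
      · have := hq x hx; omega
      · omega
    intro x hx h2x
    simp only [Finset.mem_union, S, Finset.mem_filter, Finset.mem_range, not_or, not_and] at hx h2x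
    by_cases hp : x.Prime
    · have h2 : ¬ n < x := fun h => h2x.1 (h0 x hp h (by omega))
      have h3 : ¬ x < 2 * n / 3 + 1 := fun h => h2x.2 h hp
      simp only [f]
      rw [factorization_centralBinom_of_two_mul_self_lt_three_mul (by omega) (by omega) (by omega),
        Nat.pow_zero]
    · simp only [f]; rw [factorization_eq_zero_of_not_prime n.centralBinom hp, Nat.pow_zero]
  have s1 : 6 ≤ sqrt (2 * n) := by rw [Nat.le_sqrt]; omega
  rw [e, ← Finset.prod_filter_mul_prod_filter_not S (· ≤ sqrt (2 * n)), ← mul_assoc]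
  apply mul_le_mul'
  · obtain ⟨k, hk⟩ : ∃ k, sqrt (2 * n) = 3 + k := ⟨sqrt (2 * n) - 3, by omega⟩
    rw [hk, _root_.pow_add]
    refine mul_le_mul' ((Finset.prod_le_prod' fun p _ => fle p).trans ?_)
      ((Finset.prod_le_prod' fun p _ => fle p).trans ?_)
    · rw [Finset.prod_const]
      exact pow_right_mono₀ (by omega) hT
    have : (((Finset.Icc 2 (3 + k)).erase 4).erase 6).card = k := by
      rw [Finset.card_erase_of_mem (by simp; omega), Finset.card_erase_of_mem (by simp; omega),
        card_Icc]; omega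
    rw [Finset.prod_const]
    refine pow_right_mono₀ (by omega) ((Finset.card_le_card fun x hx => ?_).trans this.le)
    obtain ⟨h1, h2⟩ := Finset.mem_filter.1 hx
    have hp := (Finset.mem_filter.1 h1).2
    refine Finset.mem_erase.2 ⟨?_, Finset.mem_erase.2 ⟨?_, Finset.mem_Icc.mpr ⟨hp.two_le, h2⟩⟩⟩
    · rintro rfl; exact absurd hp (by decide)
    · rintro rfl; exact absurd hp (by decide)
  · refine le_trans ?_ (primorial_le_four_pow (2 * n / 3))
    refine (Finset.prod_le_prod' fun p hp => (?_ : f p ≤ p)).trans ?_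
    · obtain ⟨h1, h2⟩ := Finset.mem_filter.1 hp
      refine (pow_right_mono₀ (Finset.mem_filter.1 h1).2.one_lt.le ?_).trans (pow_one p).le
      exact Nat.factorization_choose_le_one (sqrt_lt'.mp <| not_le.1 h2)
    refine Finset.prod_le_prod_of_subset_of_one_le' (Finset.filter_subset _ _) ?_
    exact fun p hp _ => (Finset.mem_filter.1 hp).2.one_lt.le

theorem exists_far_primes (n : ℕ) (hn : 17 ≤ n) :
    ∃ p q : ℕ, p.Prime ∧ q.Prime ∧ p + 3 ≤ q ∧ n < 2 * p ∧ q ≤ n := by
  by_cases h : 1024 ≤ n
  · obtain ⟨p, h1, h2, h3, -⟩ := exists_prime_notMem (n / 2) (by omega) ∅ (by simp)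
    obtain ⟨q, k1, k2, k3, k4⟩ := exists_prime_notMem (n / 2) (by omega) {p - 2, p, p + 2}
      Finset.card_le_three
    simp only [Finset.mem_insert, Finset.mem_singleton, not_or] at k4
    have o1 := h1.eq_two_or_odd
    have o2 := k1.eq_two_or_odd
    rcases lt_or_gt_of_ne k4.2.1 with c | c
    · exact ⟨q, p, k1, h1, by omega, by omega, by omega⟩
    · exact ⟨p, q, h1, k1, by omega, by omega, by omega⟩
  by_cases h : 607 ≤ n
  · exact ⟨601, 607, by norm_num, by norm_num, by omega, by omega, h⟩
  by_cases h : 311 ≤ n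
  · exact ⟨307, 311, by norm_num, by norm_num, by omega, by omega, h⟩
  by_cases h : 163 ≤ n
  · exact ⟨157, 163, by norm_num, by norm_num, by omega, by omega, h⟩
  by_cases h : 89 ≤ n
  · exact ⟨83, 89, by norm_num, by norm_num, by omega, by omega, h⟩
  by_cases h : 53 ≤ n
  · exact ⟨47, 53, by norm_num, by norm_num, by omega, by omega, h⟩
  by_cases h : 37 ≤ n
  · exact ⟨31, 37, by norm_num, by norm_num, by omega, by omega, h⟩
  by_cases h : 23 ≤ n
  · exact ⟨19, 23, by norm_num, by norm_num, by omega, by omega, h⟩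
  exact ⟨13, 17, by norm_num, by norm_num, by omega, by omega, hn⟩

end H19.AP
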