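import Cfsg.Agent.H18.A8a
import Cfsg.Agent.H2.Nm3
import Cfsg.Agent.H6.Count
import Cfsg.Agent.S4220
import Cfsg.Agent.S0713

/-! Groups generated by two elements of large prime orders in an alternating group. -/

set_option autoImplicit false
open MulAction Equiv Equiv.Perm Subgroup SubMulAction

namespace H19.AP
variable {α : Type*} [Fintype α] [DecidableEq α]

theorem card_ofs (G : Subgroup (Perm α)) (g : Perm α) :
    Nat.card (ofFixingSubgroup G ((g.support : Set α)ᶜ)) = g.support.card := by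
  rw [← Set.ncard_coe_finset, ← Nat.card_coe_set_eq]
  apply Nat.card_congr
  exact Equiv.subtypeEquivRight fun x => by simp [SubMulAction.mem_ofFixingSubgroup_iff]

omit [Fintype α] [DecidableEq α] in
theorem faithful_ofs (G : Subgroup (Perm α)) (s : Set α) :
    FaithfulSMul (fixingSubgroup G s) (ofFixingSubgroup G s) := ⟨fun {a b} h => by
  apply Subtype.ext; apply Subtype.ext
  ext x
  by_cases hx : x ∈ s
  · exact ((mem_fixingSubgroup_iff G).1 a.2 x hx).trans ((mem_fixingSubgroup_iff G).1 b.2 x hx).symm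
  · exact congrArg Subtype.val (h ⟨x, hx⟩)⟩

theorem prim_of_cycle (G : Subgroup (Perm α)) [IsPretransitive G α] {g : Perm α} (hgc : g.IsCycle)
    (hp : g.support.card.Prime) (hg : g ∈ G) (hn : Fintype.card α < 2 * g.support.card) :
    IsPreprimitive G α := by
  have htr := Perm.isPretransitive_of_isCycle_mem hgc hg
  have hprim : IsPreprimitive (fixingSubgroup G ((g.support : Set α)ᶜ))
      (ofFixingSubgroup G ((g.support : Set α)ᶜ)) :=
    IsPreprimitive.of_prime_card (by rw [card_ofs]; exact hp)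
  refine IsPreprimitive.of_card_lt (f := ofFixingSubgroup_equivariantMap G ((g.support : Set α)ᶜ)) ?_
  rw [Set.ncard_range_of_injective ofFixingSubgroup_equivariantMap_injective, card_ofs,
    Nat.card_eq_fintype_card]
  exact hn

theorem trans_of (G : Subgroup (Perm α)) {x y : Perm α} (hx : x ∈ G) (hy : y ∈ G) {p : ℕ}
    (hp : p.Prime) (hxp : orderOf x = p) (hyc : y.IsCycle) (hu : x.support ∪ y.support = Finset.univ)
    (hn : Fintype.card α < p + y.support.card) : IsPretransitive G α := by
  obtain ⟨b, hb, hb'⟩ := hyc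
  have key : ∀ a : α, ∃ g : G, g • a = b := by
    have k1 : ∀ a : α, y a ≠ a → ∃ g : G, g • a = b := fun a ha => by
      obtain ⟨i, hi⟩ := (hb' ha).symm
      exact ⟨⟨y ^ i, G.zpow_mem hy i⟩, hi⟩
    intro a
    by_cases ha : y a ≠ a
    · exact k1 a ha
    by_contra hne
    classical
    let s : Finset α := Finset.univ.filter fun t => ¬ ∃ g : G, g • t = b
    have hs : ∀ t ∈ s, t ∉ y.support := fun t ht h =>
      (Finset.mem_filter.1 ht).2 (k1 t (mem_support.1 h))
    have hd := H25.prime_dvd_card_of_invariant hp hxp s (fun t ht => by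
      refine Finset.mem_filter.2 ⟨Finset.mem_univ _, fun ⟨g, hg⟩ => (Finset.mem_filter.1 ht).2 ?_⟩
      exact ⟨g * ⟨x, hx⟩, by rw [mul_smul]; exact hg⟩) (fun t ht => by
      have : t ∈ x.support ∪ y.support := hu ▸ Finset.mem_univ t
      exact mem_support.1 ((Finset.mem_union.1 this).resolve_right (hs t ht)))
    have h1 : 0 < s.card := Finset.card_pos.2 ⟨a, Finset.mem_filter.2 ⟨Finset.mem_univ _, hne⟩⟩
    have h2 := Nat.le_of_dvd h1 hd
    have h3 : s.card ≤ y.supportᶜ.card :=
      Finset.card_le_card fun t ht => Finset.mem_compl.2 (hs t ht)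
    rw [Finset.card_compl] at h3
    have := y.support.card_le_univ
    omega
  refine ⟨fun a c => ?_⟩
  obtain ⟨g, hg⟩ := key a
  obtain ⟨h, hh⟩ := key c
  exact ⟨h⁻¹ * g, by rw [mul_smul, hg, ← hh, inv_smul_smul]⟩

theorem seven (hα : Fintype.card α = 7) (G : Subgroup (Perm α)) [IsPretransitive G α]
    (h5 : 5 ∣ Nat.card G) : alternatingGroup α ≤ G := by
  by_contra hA
  have : Fact (Nat.Prime 7) := ⟨by decide⟩
  by_cases hs : Group.IsSolvable G
  · obtain ⟨d, h1, h2⟩ := H2.nm_solv (G := G) (Ω := α) (p := 7)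
      (by rw [Nat.card_eq_fintype_card, hα]) hs
    have := Nat.le_of_dvd (by decide) h1
    rw [h2] at h5
    interval_cases d <;> omega
  · rw [(Cfsg.Agent.S0678.result hα G hs hA).1] at h5
    omega

theorem six (hα : Fintype.card α = 6) (G : Subgroup (Perm α)) (hG : IsPreprimitive G α)
    (hA : G ≤ alternatingGroup α) :
    G = alternatingGroup α ∨ Nonempty (G ≃* alternatingGroup (Fin 5)) := by
  have hα' : Nat.card α = 6 := by rw [Nat.card_eq_fintype_card, hα]
  have : Nontrivial α := Fintype.one_lt_card_iff_nontrivial.1 (by omega)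
  have hs : ¬ Group.IsSolvable G := fun hs => by
    have htop : (⊤ : Subgroup G) ≠ ⊥ := fun h => by
      obtain ⟨a, b, hab⟩ := exists_pair_ne α
      obtain ⟨g, hg⟩ := exists_smul_eq G a b
      have : g ∈ (⊥ : Subgroup G) := h ▸ mem_top g
      rw [mem_bot.1 this, one_smul] at hg
      exact hab hg
    obtain ⟨N, q, hNn, hN0, -, hq, hcomm, -, hP, -⟩ :=
      H1.exists_minimal_normal_elementary (⊤ : Subgroup G) inferInstance htop
    have hNtr : IsPretransitive N α := H25.normal_transitive_of_primitive N hN0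
    obtain ⟨a⟩ : Nonempty α := inferInstance
    have hcard := H25.card_eq_of_regular a
      (H25.stabilizer_eq_bot_of_comm (fun x y : N => hcomm.is_comm.comm x y) a)
    have := Fact.mk hq
    obtain ⟨k, hk⟩ := IsPGroup.iff_card.1 hP
    rw [hk, hα'] at hcard
    have h2 := (Nat.prime_dvd_prime_iff_eq Nat.prime_two hq).1
      (Nat.prime_two.dvd_of_dvd_pow (hcard ▸ (by decide : 2 ∣ 6)))
    have h3 := (Nat.prime_dvd_prime_iff_eq Nat.prime_three hq).1
      (Nat.prime_three.dvd_of_dvd_pow (hcard ▸ (by decide : 3 ∣ 6)))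
    omega
  by_cases he : G.subgroupOf (alternatingGroup α) = ⊤
  · exact Or.inl (le_antisymm hA (subgroupOf_eq_top.1 he))
  right
  have := alternatingGroup.isSimpleGroup (α := α) (by omega)
  have h1 := H6.card_dvd_factorial_of_simple he
  have h2 := (G.subgroupOf (alternatingGroup α)).index_mul_card
  have h3 : Nat.card (alternatingGroup α) = 360 := by
    have := two_mul_nat_card_alternatingGroup (α := α)
    rw [Nat.card_perm, hα'] at this
    change _ = 720 at this
    omega
  rw [Nat.card_congr (subgroupOfEquivOfLe hA).toEquiv, h3] at h2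
  rw [h3] at h1
  have h4 : 6 ≤ (G.subgroupOf (alternatingGroup α)).index := by
    by_contra h
    have := h1.trans (Nat.factorial_dvd_factorial (show _ ≤ 5 by omega))
    revert this; decide
  have h5 := H18.A8.sixty_dvd hs (Dvd.intro_left _ h2 |>.trans (by norm_num))
  have h6 := Nat.le_of_dvd Nat.card_pos h5
  exact H18.A8.a5_of_sixty hs (by nlinarith)

theorem thirteen (hα : Fintype.card α = 13) (G : Subgroup (Perm α)) (hG : IsPreprimitive G α)
    (hA : G ≤ alternatingGroup α) {g : Perm α} (hgc : g.IsCycle) (hgp : g.support.card = 11)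
    (hg : g ∈ G) : alternatingGroup α ≤ G := by
  have hα' : Nat.card α = 13 := by rw [Nat.card_eq_fintype_card, hα]
  have : Fact (Nat.Prime 11) := ⟨by decide⟩
  have : Fact (Nat.Prime 13) := ⟨by decide⟩
  set s : Set α := (g.support : Set α)ᶜ with hs
  have hsc : s.ncard = 2 := by
    rw [hs, Set.ncard_compl, Set.ncard_coe_finset, hgp, hα']
  have htr := Perm.isPretransitive_of_isCycle_mem hgc hg
  have hc : Nat.card (ofFixingSubgroup G s) = 11 := by rw [hs, card_ofs, hgp]
  have hprim : IsPreprimitive (fixingSubgroup G s) (ofFixingSubgroup G s) :=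
    IsPreprimitive.of_prime_card (by rw [hc]; decide)
  have h3 : IsMultiplyPretransitive G α 3 := (hG.isMultiplyPreprimitive (s := s) (n := 1) hsc
    (by omega) hprim).isMultiplyPretransitive
  have h2 : IsMultiplyPretransitive G α 2 := isMultiplyPretransitive_of_le (n := 3) (by omega) (by omega)
  have := faithful_ofs G s
  by_cases hK : Group.IsSolvable (fixingSubgroup G s)
  swap
  · have k2 := H25.fixing_two_trans_iff.1 (H2.nm_two hc hK)
    obtain ⟨a₀, b₀, hab, he⟩ := Set.ncard_eq_two.1 hsc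
    refine Cfsg.Agent.S4220.result G (k := 2) (p := 5) (r := 3) (by decide) hα (by omega) (by omega)
      (by omega) (by omega) (H25.four_trans_iff.2 ?_)
    intro a b c d a' b' c' d' e1 e2 e3 e4 e5 e6 f1 f2 f3 f4 f5 f6
    obtain ⟨u, u1, u2⟩ := is_two_pretransitive_iff.1 h2 e1 hab
    obtain ⟨v, v1, v2⟩ := is_two_pretransitive_iff.1 h2 f1 hab
    have ns : ∀ (w : G) (x y z : α), w • x = a₀ → w • y = b₀ → x ≠ z → y ≠ z → w • z ∉ s := by
      intro w x y z w1 w2 n1 n2 h
      rw [he, ← w1, ← w2] at h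
      rcases h with h | h
      · exact n1 (smul_left_cancel w h).symm
      · exact n2 (smul_left_cancel w h).symm
    obtain ⟨k, k0, k3, k4⟩ := k2 (u • c) (u • d) (v • c') (v • d') (ns u a b c u1 u2 e2 e4)
      (ns u a b d u1 u2 e3 e5) (ns v a' b' c' v1 v2 f2 f4) (ns v a' b' d' v1 v2 f3 f5)
      (fun h => e6 (smul_left_cancel u h)) (fun h => f6 (smul_left_cancel v h))
    refine ⟨v⁻¹ * k * u, ?_, ?_, ?_, ?_⟩ <;> rw [mul_smul, mul_smul, inv_smul_eq_iff]
    · rw [u1, v1, k0 _ (by simp [he])]
    · rw [u2, v2, k0 _ (by simp [he])]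
    · exact k3
    · exact k4
  exfalso
  obtain ⟨d, d1, d2⟩ := H2.nm_solv hc hK
  have i1 := h2.index_of_fixingSubgroup_mul hsc
  rw [hα'] at i1
  have i2 : (fixingSubgroup G s).index = 156 := by
    have : Nat.factorial 13 = 156 * Nat.factorial (13 - 2) := by decide +kernel
    rw [this] at i1
    exact Nat.eq_of_mul_eq_mul_right (Nat.factorial_pos _) i1
  have i3 := (fixingSubgroup G s).index_mul_card
  rw [i2, d2] at i3
  have dl := Nat.le_of_dvd (by decide) d1
  have d0 := Nat.pos_of_dvd_of_pos d1 (by decide)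
  -- the count of Sylow 13-subgroups
  obtain ⟨Q⟩ : Nonempty (Sylow 13 G) := inferInstance
  obtain ⟨t, n, t1, t2, -, t3⟩ := H25.sylow_count_prime_degree hα' Q
  -- the count of Sylow 11-subgroups
  have hord : orderOf (⟨g, hg⟩ : G) = 11 := by rw [← hgp, ← hgc.orderOf, orderOf_mk]
  have hz : Nat.card (zpowers (⟨g, hg⟩ : G)) = 11 := by rw [Nat.card_zpowers, hord]
  have hPG : IsPGroup 11 (zpowers (⟨g, hg⟩ : G)) := IsPGroup.of_card (n := 1) (by rw [hz, pow_one])
  have hi : ¬ 11 ∣ (zpowers (⟨g, hg⟩ : G)).index := by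
    have := (zpowers (⟨g, hg⟩ : G)).index_mul_card
    rw [hz, ← i3] at this
    omega
  obtain ⟨r, m, r1, r2, -, r3⟩ := H25.sylow_count (hPG.toSylow hi) hz (fun c hc => by
    have h1 : (⟨g, hg⟩ : G) * c = c * ⟨g, hg⟩ := mem_centralizer_iff.1 hc _ (mem_zpowers _)
    obtain ⟨i, hi⟩ := Cfsg.Agent.S0713.agree hgc (c := c.1) (congrArg Subtype.val h1).symm
    have h4 : (g ^ i)⁻¹ * c.1 = 1 := H18.A8.even_small
      (mem_alternatingGroup.1 (hA (G.mul_mem (G.inv_mem (G.zpow_mem hg i)) c.2))) (by
        have : ((g ^ i)⁻¹ * c.1).support ⊆ g.supportᶜ := fun x hx => Finset.mem_compl.2 fun h =>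
          mem_support.1 hx (by rw [Perm.mul_apply, hi x h]; simp)
        have := Finset.card_le_card this
        rw [Finset.card_compl, hα, hgp] at this
        exact this)
    exact ⟨i, Subtype.ext (inv_mul_eq_one.1 h4)⟩)
  have tl := Nat.le_of_dvd (by decide) t1
  have rl := Nat.le_of_dvd (by decide) r1
  unfold Nat.ModEq at t2 r2
  have hd : d = 1 := by
    rw [← i3] at t3 r3
    have e1 : 156 * d = r * m := by nlinarith
    have e2 : 132 * d = t * n := by nlinarith
    have e3 : (2 * d) % 11 = r % 11 := by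
      have : (r * m) % 11 = r % 11 := by rw [Nat.mul_mod, r2]; simp
      omega
    have e4 : (2 * d) % 13 = t % 13 := by
      have : (t * n) % 13 = t % 13 := by rw [Nat.mul_mod, t2]; simp
      omega
    clear * - d1 dl d0 r1 rl t1 tl e3 e4
    interval_cases d <;> interval_cases r <;> interval_cases t <;> omega
  subst hd
  obtain ⟨a⟩ : Nonempty α := Fintype.card_pos_iff.1 (by omega)
  have k2 := (ofStabilizer.isMultiplyPretransitive (a := a) (n := 2)).1 h3
  have : IsPretransitive (stabilizer G a) (ofStabilizer G a) := isPretransitive_of_is_two_pretransitive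
  have hc' : Nat.card (ofStabilizer G a) = 12 := by rw [H25.card_ofStabilizer, hα']
  have : Nontrivial (ofStabilizer G a) := Finite.one_lt_card_iff_nontrivial.1 (by omega)
  obtain ⟨b⟩ : Nonempty (ofStabilizer G a) := inferInstance
  obtain ⟨N, hNn, -, hNt, hNr⟩ := H25.frobenius_perm (G := stabilizer G a) b (fun x y hxy k k1 k2 => by
    have e : ({a, x.1, y.1} : Set α).ncard = 3 := Set.ncard_eq_three.2
      ⟨a, x, y, fun h => x.2 h.symm, fun h => y.2 h.symm, fun h => hxy (Subtype.ext h), rfl⟩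
    have j1 := h3.index_of_fixingSubgroup_mul e
    rw [hα'] at j1
    have j2 : (fixingSubgroup G ({a, x.1, y.1} : Set α)).index = 1716 := by
      have : Nat.factorial 13 = 1716 * Nat.factorial (13 - 3) := by decide +kernel
      rw [this] at j1
      exact Nat.eq_of_mul_eq_mul_right (Nat.factorial_pos _) j1
    have j3 := (fixingSubgroup G ({a, x.1, y.1} : Set α)).index_mul_card
    rw [j2, ← i3] at j3
    have j4 := card_eq_one.1 (show Nat.card (fixingSubgroup G ({a, x.1, y.1} : Set α)) = 1 by omega)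
    have j5 : k.1 ∈ fixingSubgroup G ({a, x.1, y.1} : Set α) := by
      rw [mem_fixingSubgroup_iff]
      rintro z (rfl | rfl | rfl)
      · exact k.2
      · exact congrArg Subtype.val k1
      · exact congrArg Subtype.val k2
    rw [j4] at j5
    exact Subtype.ext (mem_bot.1 j5))
  obtain ⟨q, k, hq, -, hk, -⟩ := H25.elemAb_of_regular_normal k2 N hNt hNr
  rw [hc'] at hk
  have h2 := (Nat.prime_dvd_prime_iff_eq Nat.prime_two hq).1
    (Nat.prime_two.dvd_of_dvd_pow (hk ▸ (by decide : 2 ∣ 12)))
  have h3 := (Nat.prime_dvd_prime_iff_eq Nat.prime_three hq).1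
    (Nat.prime_three.dvd_of_dvd_pow (hk ▸ (by decide : 3 ∣ 12)))
  omega

theorem core {x y : Perm α} {p q : ℕ} (hp : p.Prime) (hq : q.Prime) (hpq : p < q) (h5 : 5 ≤ q)
    (hx : orderOf x = p) (hy : orderOf y = q) (ex : x ∈ alternatingGroup α)
    (ey : y ∈ alternatingGroup α) (hu : x.support ∪ y.support = Finset.univ)
    (hn : Fintype.card α ≤ 2 * p)
    (h1 : p + 3 ≤ q ∨ (p = 3 ∧ q = 5) ∨ (p = 5 ∧ q = 7) ∨ (p = 11 ∧ q = 13))
    (h2 : Fintype.card α < 2 * p ∨ q + 3 ≤ 2 * p ∨ (p = 3 ∧ q = 5)) :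
    ∃ d : ℕ, 5 ≤ d ∧ Nonempty (closure ({x, y} : Set (Perm α)) ≃* alternatingGroup (Fin d)) := by
  set G := closure ({x, y} : Set (Perm α)) with hG
  have hxG : x ∈ G := subset_closure (by simp)
  have hyG : y ∈ G := subset_closure (by simp)
  have hA : G ≤ alternatingGroup α := (closure_le _).2 (by rintro _ (rfl | rfl) <;> assumption)
  obtain ⟨c, c0, c1, c2⟩ := H25.support_prime_order hq hy
  have c3 := y.support.card_le_univ
  obtain rfl : c = 1 := by nlinarith
  have hyc : y.IsCycle := Perm.card_cycleType_eq_one.1 (by rw [c2, Multiset.card_replicate])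
  rw [one_mul] at c1
  have htr := trans_of G hxG hyG hp hx hyc hu (by omega)
  have hpr := prim_of_cycle G hyc (c1 ▸ hq) hyG (by omega)
  have fin : alternatingGroup α ≤ G →
      ∃ d : ℕ, 5 ≤ d ∧ Nonempty (G ≃* alternatingGroup (Fin d)) := fun h =>
    ⟨Fintype.card α, by omega, ⟨(MulEquiv.subgroupCongr (le_antisymm hA h)).trans
      (Fintype.equivFin α).altCongrHom⟩⟩
  by_cases k1 : q + 3 ≤ Fintype.card α
  · exact fin (Cfsg.Agent.S0713.result G hpr hq (by omega) k1 hyc c1 hyG)
  obtain ⟨e, e0, e1, e2⟩ := H25.support_prime_order hp hx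
  have e3 := x.support.card_le_univ
  by_cases he : e = 1
  · subst he
    have hxc : x.IsCycle := Perm.card_cycleType_eq_one.1 (by rw [e2, Multiset.card_replicate])
    rw [one_mul] at e1
    by_cases k2 : p + 3 ≤ Fintype.card α
    · exact fin (Cfsg.Agent.S0713.result G hpr hp (by omega) k2 hxc e1 hxG)
    rcases h1 with h1 | ⟨rfl, rfl⟩ | ⟨rfl, rfl⟩ | ⟨rfl, rfl⟩
    · omega
    · exact fin (Perm.alternatingGroup_le_of_isPreprimitive_of_isThreeCycle_mem hpr
        (card_support_eq_three_iff.1 e1) hxG)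
    · refine fin (seven (by omega) G ?_)
      rw [← hx, ← orderOf_mk (H := G) x hxG]
      exact orderOf_dvd_natCard _
    · exact fin (thirteen (by omega) G hpr hA hxc e1 hxG)
  · have e4 : 2 * p ≤ Fintype.card α := by
      have : 2 * p ≤ e * p := Nat.mul_le_mul_right p (by omega)
      omega
    obtain ⟨rfl, rfl⟩ : p = 3 ∧ q = 5 := by omega
    rcases six (by omega) G hpr hA with h | h
    · exact fin h.ge
    · exact ⟨5, le_rfl, h⟩

end H19.AP
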