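import Cfsg.Agent.H20.Loc
import Cfsg.Agent.H20.Wed

/-! Linear algebra for symmetric local algebras with five-dimensional centre: the generic case. -/

set_option autoImplicit false
set_option linter.unusedSectionVars false

namespace H19.CK
open Module Submodule Function

variable {k V W X Y : Type*} [Field k] [AddCommGroup V] [Module k V] [AddCommGroup W] [Module k W]
  [AddCommGroup X] [Module k X] [AddCommGroup Y] [Module k Y]

theorem exists_char [IsAlgClosed k] {C : Type*} [Ring C] [Algebra k C] [FiniteDimensional k C]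
    [Nontrivial C] (h : finrank k C ≤ 3) :
    ∃ χ : C →ₗ[k] k, χ 1 = 1 ∧ ∀ a b, χ (a * b) = χ a * χ b := by
  obtain ⟨W⟩ := H20.nonempty_wed k C
  have hn : W.n ≠ 0 := fun h0 => by
    obtain ⟨N, hN⟩ := W.nilp
    have := hN (List.replicate N 1) (by simp) fun a _ => funext fun i => absurd i.2 (by omega)
    simp at this
  let i : Fin W.n := ⟨0, Nat.pos_of_ne_zero hn⟩
  let φ : C →ₐ[k] Matrix (Fin (W.d i + 1)) (Fin (W.d i + 1)) k := (Pi.evalAlgHom k _ i).comp W.π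
  have hφ : Surjective φ := (Function.surjective_eval i).comp W.surj
  have h1 := LinearMap.finrank_le_finrank_of_surjective (f := φ.toLinearMap) hφ
  rw [Module.finrank_matrix, Fintype.card_fin, finrank_self] at h1
  have hd : W.d i = 0 := by nlinarith
  refine ⟨⟨⟨fun c => φ c 0 0, fun a b => by simp⟩, fun a b => by simp⟩, by simp, fun a b => ?_⟩
  show φ (a * b) 0 0 = φ a 0 0 * φ b 0 0
  rw [map_mul, Matrix.mul_apply, Finset.sum_eq_single 0 (fun j _ hj => absurd (Fin.ext (by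
    have := j.2; simp; omega)) hj) (by simp)]

theorem exists_ext {g : W →ₗ[k] X} (hg : Injective g) (F : W →ₗ[k] k) :
    ∃ F' : X →ₗ[k] k, ∀ w, F' (g w) = F w := by
  obtain ⟨g', h⟩ := g.exists_leftInverse_of_injective (LinearMap.ker_eq_bot.2 hg)
  exact ⟨F ∘ₗ g', fun w => congrArg F (LinearMap.congr_fun h w)⟩

theorem exists_char' [IsAlgClosed k] [FiniteDimensional k V] (lam : V →ₗ[k] V →ₗ[k] V) {u : V}
    (hu : u ≠ 0) (hlu : ∀ y, lam u y = y) (σs : Surjective (lam.flip u))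
    (K1 : ∀ x x' y, lam (lam x u) (lam x' y) = lam (lam x x') y) (hV : finrank k V ≤ 3) :
    ∃ χ : V →ₗ[k] k, χ u = 1 ∧ ∀ a b, χ (lam a b) = χ (lam a u) * χ b := by
  let C : Subalgebra k (Module.End k V) := (LinearMap.range lam).toSubalgebra
    ⟨u, LinearMap.ext hlu⟩ (by
      rintro _ _ ⟨x, rfl⟩ ⟨y, rfl⟩
      obtain ⟨x, rfl⟩ := σs x
      exact ⟨lam x y, LinearMap.ext fun z => (K1 x y z).symm⟩)
  have : Nontrivial V := ⟨⟨u, 0, hu⟩⟩
  have hC : finrank k C ≤ 3 := (LinearMap.finrank_range_le lam).trans hV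
  obtain ⟨χ, h1, h2⟩ := exists_char hC
  let L : V →ₗ[k] C := lam.codRestrict (LinearMap.range lam) fun x => ⟨x, rfl⟩
  refine ⟨χ ∘ₗ L, ?_, fun a b => ?_⟩
  · exact (congrArg χ (Subtype.ext (LinearMap.ext hlu))).trans h1
  · exact (congrArg χ (Subtype.ext (LinearMap.ext fun z => (K1 a b z).symm))).trans
      (h2 (L (lam a u)) (L b))

theorem li_of_inj [FiniteDimensional k V] (lam : V →ₗ[k] V →ₗ[k] V) {u : V}
    (hlu : ∀ y, lam u y = y) (σb : Bijective (lam.flip u)) {ι : Type*} {P : ι → V →ₗ[k] k}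
    (P1 : ∀ i, P i u = 1) (P2 : ∀ i x y, P i (lam x y) = P i (lam x u) * P i y)
    (hP : Injective P) : LinearIndependent k P := by
  let e := LinearEquiv.ofBijective _ σb
  have he : ∀ x, lam (e.symm x) u = x := fun x => e.apply_symm_apply x
  let _ : MulOneClass V :=
    { mul := fun x y => lam (e.symm x) y
      one := u
      one_mul := fun y => by
        show lam (e.symm u) y = y
        rw [show e.symm u = u from e.symm_apply_eq.2 (hlu u).symm, hlu]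
      mul_one := he }
  let Q : ι → V →* k := fun i =>
    { toFun := fun c => P i c
      map_one' := P1 i
      map_mul' := fun x y => (P2 i _ y).trans (by rw [he]) }
  have h4 : Injective Q := fun i j h => hP (LinearMap.ext fun x => DFunLike.congr_fun h x)
  let T : (V →ₗ[k] k) →ₗ[k] (V → k) :=
    { toFun := fun f c => f c, map_add' := fun _ _ => rfl, map_smul' := fun _ _ => rfl }
  exact LinearIndependent.of_comp T ((linearIndependent_monoidHom V k).comp _ h4)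

theorem period [FiniteDimensional k V] {P : ℕ → V →ₗ[k] k} {σ : V → V} (σs : Surjective σ)
    (P3 : ∀ i x, P (i + 1) x = P i (σ x)) (hV : finrank k V ≤ 3)
    (li : ∀ n, Injective (fun i : Fin n => P i) → LinearIndependent k fun i : Fin n => P i) :
    (∀ i, P (i + 1) = P i) ∨ ((∀ i, P (i + 2) = P i) ∧ P 1 ≠ P 0) ∨
      ((∀ i, P (i + 3) = P i) ∧ P 0 + P 1 + P 2 ≠ 0 ∧ finrank k V = 3) := by
  have P4 : ∀ i j, P (i + 1) = P (j + 1) → P i = P j := fun i j h => LinearMap.ext fun x => by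
    obtain ⟨x, rfl⟩ := σs x
    rw [← P3, h, P3]
  have P5 : ∀ j, P j = P 0 → ∀ i, P (i + j) = P i := fun j h i => by
    induction i with
    | zero => rwa [zero_add]
    | succ i ih => exact LinearMap.ext fun x => by rw [add_right_comm, P3, P3, ih]
  have P6 : ∀ i j, P (i + j) = P i → P j = P 0 := fun i j => by
    induction i with
    | zero => simp
    | succ i ih => exact fun h => ih (P4 _ _ (by rwa [add_right_comm] at h))
  have li' : ∀ n, (∀ j, 0 < j → j < n → P j ≠ P 0) →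
      LinearIndependent k fun i : Fin n => P i := fun n h => by
    have h1 : ∀ i j : Fin n, (i : ℕ) ≤ j → P i = P j → i = j := fun i j hlt h5 => by
      obtain ⟨m, hm⟩ := Nat.exists_eq_add_of_le hlt
      by_contra hne
      have : m ≠ 0 := fun h0 => hne (Fin.ext (by omega))
      exact h m (by omega) (by omega) (P6 i m (by rw [← hm, h5]))
    exact li n fun i j hij => (le_total (i : ℕ) j).elim (fun a => h1 i j a hij)
      fun a => (h1 j i a hij.symm).symm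
  by_cases a1 : P 1 = P 0
  · exact .inl (P5 1 a1)
  by_cases a2 : P 2 = P 0
  · exact .inr (.inl ⟨P5 2 a2, a1⟩)
  have l3 := li' 3 fun j h1 h2 => by interval_cases j; exacts [a1, a2]
  have l4 := l3.fintype_card_le_finrank
  rw [Fintype.card_fin, Subspace.dual_finrank_eq] at l4
  refine .inr (.inr ⟨P5 3 (by_contra fun a3 => ?_), fun h => ?_, le_antisymm hV l4⟩)
  · have l5 := (li' 4 fun j h1 h2 => by
      interval_cases j; exacts [a1, a2, a3]).fintype_card_le_finrank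
    rw [Fintype.card_fin, Subspace.dual_finrank_eq] at l5
    omega
  · simpa using Fintype.linearIndependent_iff.1 l3 (fun _ => 1) (by
      simpa [Fin.sum_univ_three] using h) 0

theorem exists_P [IsAlgClosed k] [FiniteDimensional k V] (μ : V →ₗ[k] V →ₗ[k] W)
    (l : V →ₗ[k] W →ₗ[k] X) (r : W →ₗ[k] V →ₗ[k] X) (as : ∀ x y z, l x (μ y z) = r (μ x y) z)
    {u : V} (hu : u ≠ 0) (h1 : Bijective (μ u)) (h2 : Injective (μ.flip u))
    (h3 : Injective (l u)) (hV : finrank k V ≤ 3) :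
    ∃ (P : ℕ → V →ₗ[k] k) (lam : V →ₗ[k] V →ₗ[k] V), (∀ x y, μ u (lam x y) = μ x y) ∧
      (∀ i, P i u = 1) ∧ (∀ i x y, P i (lam x y) = P (i + 1) x * P i y) ∧
      ((∀ i, P (i + 1) = P i) ∨ ((∀ i, P (i + 2) = P i) ∧ P 1 ≠ P 0) ∨
        ((∀ i, P (i + 3) = P i) ∧ P 0 + P 1 + P 2 ≠ 0 ∧ finrank k V = 3)) := by
  obtain ⟨lam, hl⟩ : ∃ lam : V →ₗ[k] V →ₗ[k] V, ∀ x y, μ u (lam x y) = μ x y :=
    ⟨μ.compr₂ (LinearEquiv.ofBijective (μ u) h1).symm.toLinearMap,
      fun x y => (LinearEquiv.ofBijective (μ u) h1).apply_symm_apply _⟩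
  have hlu : ∀ y, lam u y = y := fun y => h1.1 (hl _ _)
  have σi : Injective (lam.flip u) := fun x y h => h2 (show μ x u = μ y u by
    rw [← hl, show lam x u = lam y u from h, hl])
  have σs : Surjective (lam.flip u) := LinearMap.injective_iff_surjective.1 σi
  have K1 : ∀ x x' y, lam (lam x u) (lam x' y) = lam (lam x x') y := fun x x' y =>
    h1.1 (h3 (by rw [hl, as, hl, ← as, hl, hl, as u, hl, as]))
  have K2 : ∀ x y, lam (lam x y) u = lam (lam x u) (lam y u) := fun x y =>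
    h1.1 (h3 (by rw [hl, as, hl, hl, as u, hl, ← as x u, hl, as]))
  obtain ⟨χ, c1, c2⟩ := exists_char' lam hu hlu σs K1 hV
  obtain ⟨P, P0, P3⟩ : ∃ P : ℕ → V →ₗ[k] k, P 0 = χ ∧ ∀ i x, P (i + 1) x = P i (lam x u) :=
    ⟨fun i => χ ∘ₗ (lam.flip u ^ i), by simp [Module.End.one_eq_id], fun i x => by
      simp [pow_succ]⟩
  have P1 : ∀ i, P i u = 1 := fun i => by
    induction i with
    | zero => rw [P0, c1]
    | succ i ih => rw [P3, hlu, ih]
  have P2 : ∀ i x y, P i (lam x y) = P i (lam x u) * P i y := fun i => by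
    induction i with
    | zero => rw [P0]; exact c2
    | succ i ih => intro x y; rw [P3, K2, ih, P3, P3]
  exact ⟨P, lam, hl, P1, fun i x y => by rw [P2, P3], period σs P3 hV fun n hn =>
    li_of_inj lam hlu ⟨σi, σs⟩ (fun i => P1 i) (fun i => P2 i) hn⟩

theorem exists_F [IsAlgClosed k] [FiniteDimensional k V] (μ : V →ₗ[k] V →ₗ[k] W)
    (l : V →ₗ[k] W →ₗ[k] X) (r : W →ₗ[k] V →ₗ[k] X) (m : V →ₗ[k] X →ₗ[k] Y)
    (n : W →ₗ[k] W →ₗ[k] Y) (as : ∀ x y z, l x (μ y z) = r (μ x y) z)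
    (as2 : ∀ x y w, m x (l y w) = n (μ x y) w)
    {u : V} (hu : u ≠ 0) (h1 : Bijective (μ u)) (h2 : Injective (μ.flip u))
    (h3 : Injective (l u)) (h4 : Injective (m u)) (hV : finrank k V ≤ 3) :
    ∃ (P : ℕ → V →ₗ[k] k) (F2 : ℕ → W →ₗ[k] k) (F3 : ℕ → X →ₗ[k] k) (F4 : ℕ → Y →ₗ[k] k),
      (∀ i, P i u = 1) ∧ (∀ i x y, F2 i (μ x y) = P (i + 1) x * P i y) ∧
      (∀ i x y z, F3 i (l x (μ y z)) = P (i + 2) x * P (i + 1) y * P i z) ∧
      (∀ i x y z w, F4 i (m x (l y (μ z w))) = P (i + 3) x * P (i + 2) y * P (i + 1) z * P i w) ∧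
      ((∀ i, P (i + 1) = P i) ∨ ((∀ i, P (i + 2) = P i) ∧ P 1 ≠ P 0) ∨
        ((∀ i, P (i + 3) = P i) ∧ P 0 + P 1 + P 2 ≠ 0 ∧ finrank k V = 3)) := by
  obtain ⟨P, lam, hl, P1, P2, hP⟩ := exists_P μ l r as hu h1 h2 h3 hV
  choose F2 e2 using fun i => exists_ext h1.1 (P i)
  choose F3 e3 using fun i => exists_ext h3 (F2 i)
  choose F4 e4 using fun i => exists_ext h4 (F3 i)
  have f2 : ∀ i x y, F2 i (μ x y) = P (i + 1) x * P i y := fun i x y => by rw [← hl, e2, P2]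
  have f3 : ∀ i x y z, F3 i (l x (μ y z)) = P (i + 2) x * P (i + 1) y * P i z :=
    fun i x y z => by rw [as, ← hl, ← as, e3, f2, P2]
  exact ⟨P, F2, F3, F4, P1, f2, f3, fun i x y z w => by rw [as2, ← hl, ← as2, e4, f3, P2], hP⟩

theorem quad_zero [Infinite k] {a b c : k} (h : ∀ t, a * t ^ 2 + b * t + c = 0) :
    a = 0 ∧ b = 0 ∧ c = 0 := by
  classical
  obtain ⟨t, ht⟩ := Infinite.exists_notMem_finset ({0, 1} : Finset k)
  simp only [Finset.mem_insert, Finset.mem_singleton, not_or] at ht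
  have h0 : c = 0 := by simpa using h 0
  have h1 : a * (t * (t - 1)) = 0 := by linear_combination h t - t * h 1 - (1 - t) * h0
  have h2 : a = 0 := (mul_eq_zero.1 h1).resolve_right (mul_ne_zero ht.1 (sub_ne_zero.2 ht.2))
  exact ⟨h2, by linear_combination h 1 - h0 - h2, h0⟩

theorem fun_mul_zero {f g : V →ₗ[k] k} (h : ∀ u, f u * g u = 0) {v : V} (hv : f v ≠ 0) (u : V) :
    g u = 0 := by
  have h1 := (mul_eq_zero.1 (h v)).resolve_left hv
  refine (mul_eq_zero.1 (h u)).elim (fun h2 => ?_) id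
  simpa [h1, h2, hv] using h (u + v)

theorem det_zero {f : V →ₗ[k] W} (hf : ¬ Surjective f) (b : Basis (Fin 3) k W) (v : Fin 3 → V) :
    (Matrix.of fun i j => b.repr (f (v j)) i).det = 0 := by
  by_contra h
  set M := Matrix.of fun i j => b.repr (f (v j)) i with hM
  have h1 := Matrix.mul_nonsing_inv M (isUnit_iff_ne_zero.2 h)
  refine hf (LinearMap.range_eq_top.1 (top_le_iff.1 (b.span_eq ▸ span_le.2 ?_)))
  rintro _ ⟨i, rfl⟩
  refine ⟨∑ j, M⁻¹ j i • v j, b.repr.injective (Finsupp.ext fun a => ?_)⟩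
  have h2 := congrFun (congrFun h1 a) i
  rw [Matrix.mul_apply, Matrix.one_apply] at h2
  simp only [map_sum, map_smul, Finsupp.finsetSum_apply, Finsupp.smul_apply, smul_eq_mul,
    Basis.repr_self, Finsupp.single_apply, eq_comm (a := i), ← h2]
  exact Finset.sum_congr rfl fun j _ => mul_comm _ _

theorem key [Infinite k] {μ : V →ₗ[k] V →ₗ[k] W} (hn : ∀ u, ¬ Surjective (μ u)) {u0 v0 v1 v2 : V}
    (b : Basis (Fin 3) k W) (h0 : μ u0 v0 = 0) (h1 : μ u0 v1 = b 0) (h2 : μ u0 v2 = b 1) (u : V) :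
    b.repr (μ u v0) 2 = 0 ∧
    b.repr (μ u v0) 0 * b.repr (μ u v1) 2 + b.repr (μ u v0) 1 * b.repr (μ u v2) 2 = 0 ∧
    b.repr (μ u v0) 0 * (b.repr (μ u v1) 1 * b.repr (μ u v2) 2 -
      b.repr (μ u v2) 1 * b.repr (μ u v1) 2) -
      b.repr (μ u v0) 1 * (b.repr (μ u v1) 0 * b.repr (μ u v2) 2 -
      b.repr (μ u v2) 0 * b.repr (μ u v1) 2) = 0 := by
  have h := fun t : k => det_zero (hn (u + t • u0)) b ![v0, v1, v2]
  simp only [Matrix.det_fin_three, Matrix.of_apply, map_add, map_smul, LinearMap.add_apply,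
    LinearMap.smul_apply, Matrix.cons_val_zero, Matrix.cons_val_one, Matrix.cons_val, h0, h1, h2,
    Finsupp.add_apply, Finsupp.smul_apply, Basis.repr_self, smul_eq_mul, map_zero,
    Finsupp.zero_apply, Finsupp.single_apply] at h
  simp only [Fin.reduceEq, if_true, if_false, mul_one, mul_zero, add_zero] at h
  obtain ⟨a1, a2, -⟩ := quad_zero (a := b.repr (μ u v0) 2) (b := b.repr (μ u v0) 2 *
    (b.repr (μ u v1) 0 + b.repr (μ u v2) 1) - (b.repr (μ u v0) 0 * b.repr (μ u v1) 2 +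
      b.repr (μ u v0) 1 * b.repr (μ u v2) 2)) (c := 0) fun t => by
    linear_combination h t - h 0
  have a3 := h 0
  rw [a1] at a2 a3
  exact ⟨a1, by linear_combination -a2, by linear_combination a3⟩

theorem R1 {μ : V →ₗ[k] V →ₗ[k] W} [FiniteDimensional k V] [FiniteDimensional k W]
    (hV : 2 ≤ finrank k V) (hW : 2 ≤ finrank k W)
    (hsp : ∀ T : Submodule k W, (∀ x y, μ x y ∈ T) → T = ⊤)
    (N1 : ∀ v, (∀ x, μ x v = 0) → v = 0) : ∃ u, 2 ≤ finrank k (LinearMap.range (μ u)) := by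
  by_contra! h
  have h1 : ∀ u v v', μ u v ≠ 0 → μ u v' ∈ span k {μ u v} := fun u v v' h0 => by
    obtain ⟨w, hw⟩ := finrank_le_one_iff.1 (Nat.le_of_lt_succ (h u))
    obtain ⟨c, hc⟩ := hw ⟨_, v, rfl⟩
    obtain ⟨c', hc'⟩ := hw ⟨_, v', rfl⟩
    have e : c • (w : W) = μ u v := congrArg Subtype.val hc
    have e' : c' • (w : W) = μ u v' := congrArg Subtype.val hc'
    have : c ≠ 0 := fun a => h0 (by rw [← e, a, zero_smul])
    exact mem_span_singleton.2 ⟨c' / c, by rw [← e, ← e', smul_smul, div_mul_cancel₀ _ this]⟩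
  have h2 : ∀ w, ∃ x y, μ x y ∉ span k {w} := fun w => by
    by_contra! h3
    have := finrank_span_le_card (R := k) ({w} : Set W)
    rw [hsp _ h3, finrank_top] at this
    simp at this; omega
  obtain ⟨u1, v1, h3⟩ := h2 0
  have h3 : μ u1 v1 ≠ 0 := by simpa using h3
  obtain ⟨u2, v2, h4⟩ := h2 (μ u1 v1)
  obtain ⟨v0, h5, h6⟩ : ∃ v0, μ u1 v0 = 0 ∧ v0 ≠ 0 := by
    by_contra! h5
    have := LinearMap.finrank_range_of_inj ((injective_iff_map_eq_zero (μ u1)).2 h5)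
    have := h u1
    omega
  have h7 : ∀ x y, μ x y ∉ span k {μ u1 v1} → μ x v0 = 0 := fun x y hy => by
    by_contra h8
    have h9 := h1 (u1 + x) v0 v1 (by simpa [h5] using h8)
    simp only [map_add, LinearMap.add_apply, h5, zero_add] at h9
    obtain ⟨c, hc⟩ := mem_span_singleton.1 (sub_mem h9 (h1 x v0 v1 h8))
    rw [add_sub_cancel_right] at hc
    have : c ≠ 0 := fun a => h3 (by rw [← hc, a, zero_smul])
    obtain ⟨d, hd⟩ := mem_span_singleton.1 (h1 x v0 y h8)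
    exact hy (mem_span_singleton.2 ⟨d / c, by rw [← hc, smul_smul, div_mul_cancel₀ _ this, hd]⟩)
  refine h6 (N1 _ fun x => ?_)
  by_cases h8 : μ x v2 ∈ span k {μ u1 v1}
  · have := h7 (x + u2) v2 fun a => h4 (by simpa using sub_mem a h8)
    simpa [h7 u2 v2 h4] using this
  · exact h7 x v2 h8

theorem compr {μ : V →ₗ[k] V →ₗ[k] W} {l : V →ₗ[k] W →ₗ[k] X} {r : W →ₗ[k] V →ₗ[k] X}
    (as : ∀ x y z, l x (μ y z) = r (μ x y) z) (N1 : ∀ v, (∀ x, μ x v = 0) → v = 0)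
    (N2 : ∀ w, (∀ x, l x w = 0) → w = 0) {v0 v1 v2 : V} {w : W} (hw : w ≠ 0)
    (li : ∀ a b : k, a • v0 + b • v1 = 0 → a = 0 ∧ b = 0)
    (hv : ∀ x, ∃ a b c : k, x = a • v0 + b • v1 + c • v2)
    (h0 : ∀ x, ∃ c : k, μ x v0 = c • w) (h1 : ∀ x, ∃ c : k, μ x v1 = c • w) : False := by
  set P := span k {v0, v1}
  have hP : ∀ x, ∀ p ∈ P, ∃ c : k, μ x p = c • w := fun x p hp => by
    obtain ⟨a, b, rfl⟩ := mem_span_pair.1 hp
    obtain ⟨c, hc⟩ := h0 x
    obtain ⟨d, hd⟩ := h1 x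
    exact ⟨a * c + b * d, by rw [map_add, map_smul, map_smul, hc, hd, add_smul, mul_smul, mul_smul]⟩
  have K : ∀ y, ∃ p ∈ P, p ≠ 0 ∧ μ y p = 0 := fun y => by
    obtain ⟨c, hc⟩ := h0 y
    obtain ⟨d, hd⟩ := h1 y
    by_cases e : c = 0
    · exact ⟨v0, subset_span (by simp), fun a => by simpa using li 1 0 (by simp [a]),
        by rw [hc, e, zero_smul]⟩
    · exact ⟨d • v0 + (-c) • v1, mem_span_pair.2 ⟨_, _, rfl⟩, fun a => e (by simpa using (li _ _ a).2),
        by rw [map_add, map_smul, map_smul, hc, hd, smul_smul, smul_smul, ← add_smul]; simp [mul_comm]⟩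
  obtain ⟨y, hy⟩ : ∃ y, l y w ≠ 0 := by by_contra! h; exact hw (N2 _ h)
  have e : ∀ x, ∀ p ∈ P, l y (μ x p) = 0 → μ x p = 0 := fun x p hp h => by
    obtain ⟨c, hc⟩ := hP x p hp
    rw [hc, map_smul, smul_eq_zero, or_iff_left hy] at h
    rw [hc, h, zero_smul]
  obtain ⟨x, hx, hx0, hx1⟩ := K y
  obtain ⟨y', hy'⟩ : ∃ y', μ y' x ≠ 0 := by by_contra! h; exact hx0 (N1 _ h)
  obtain ⟨c, hc⟩ := hP y' x hx
  have e1 : ∀ p ∈ P, r w p = 0 := fun p hp => by
    have := as y' x p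
    rw [e x p hp (by rw [as, hx1]; simp), hc, map_zero, map_smul, LinearMap.smul_apply, eq_comm,
      smul_eq_zero] at this
    exact this.resolve_left fun a => hy' (by rw [hc, a, zero_smul])
  have e2 : ∀ x ∈ P, ∀ p ∈ P, μ x p = 0 := fun x hx p hp => e x p hp (by
    obtain ⟨c, hc⟩ := hP y x hx
    rw [as, hc, map_smul, LinearMap.smul_apply, e1 p hp, smul_zero])
  obtain ⟨p, hp, hp0, hp1⟩ := K v2
  refine hp0 (N1 _ fun x => ?_)
  obtain ⟨a, b, c, rfl⟩ := hv x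
  rw [map_add, LinearMap.add_apply, e2 _ (mem_span_pair.2 ⟨_, _, rfl⟩) p hp, map_smul,
    LinearMap.smul_apply, hp1, smul_zero, add_zero]

theorem skew {μ : V →ₗ[k] V →ₗ[k] W} {l : V →ₗ[k] W →ₗ[k] X} {r : W →ₗ[k] V →ₗ[k] X}
    {m : V →ₗ[k] X →ₗ[k] Y} {n : W →ₗ[k] W →ₗ[k] Y}
    (as : ∀ x y z, l x (μ y z) = r (μ x y) z) (as2 : ∀ x y w, m x (l y w) = n (μ x y) w)
    (N2 : ∀ w, (∀ x, l x w = 0) → w = 0) (N3 : ∀ t, (∀ x, m x t = 0) → t = 0) {κ : V →ₗ[k] V}
    (hκ : Surjective κ) (h : ∀ x, μ x (κ x) = 0) {u0 u1 u2 : V}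
    (hu : ∀ x, ∃ a b c : k, x = a • u0 + b • u1 + c • u2) (y z : V) : μ y z = 0 := by
  obtain ⟨τ, hτ⟩ : ∃ τ : V →ₗ[k] V →ₗ[k] V →ₗ[k] X, ∀ x y z,
      τ x y z = l (κ x) (μ (κ (κ y)) (κ (κ (κ z)))) :=
    ⟨(LinearMap.llcomp k V (W →ₗ[k] X) (V →ₗ[k] V →ₗ[k] X)
      { toFun := fun f => (μ.compl₁₂ (κ ∘ₗ κ) (κ ∘ₗ κ ∘ₗ κ)).compr₂ f
        map_add' := fun _ _ => rfl
        map_smul' := fun _ _ => rfl }) (l ∘ₗ κ), fun _ _ _ => rfl⟩
  have t1 : ∀ x z, τ x x z = 0 := fun x z => by rw [hτ, as, h]; simp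
  have t2 : ∀ x y, τ x y y = 0 := fun x y => by rw [hτ, h, map_zero]
  have s1 : ∀ x y z, τ x y z = - τ y x z := fun x y z => by
    have := t1 (x + y) z
    simp only [map_add, LinearMap.add_apply, t1] at this
    exact eq_neg_of_add_eq_zero_left (by rw [← this]; abel)
  have s2 : ∀ x y z, τ x y z = - τ x z y := fun x y z => by
    have := t2 x (y + z)
    simp only [map_add, LinearMap.add_apply, t2] at this
    exact eq_neg_of_add_eq_zero_left (by rw [← this]; abel)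
  have t3 : ∀ x y, τ x y x = 0 := fun x y => by rw [s2, t1, neg_zero]
  have m1 : ∀ x y z, m x (τ x y z) = 0 := fun x y z => by rw [hτ, as2, h]; simp
  have t4 : τ u0 u1 u2 = 0 := N3 _ fun x => by
    obtain ⟨a, b, c, rfl⟩ := hu x
    have a1 : m u1 (τ u0 u1 u2) = 0 := by rw [s1, map_neg, m1, neg_zero]
    have a2 : m u2 (τ u0 u1 u2) = 0 := by rw [s2, s1, neg_neg, m1]
    simp [a1, a2, m1]
  have t5 : τ u0 u2 u1 = 0 := by rw [s2, t4, neg_zero]
  have t6 : τ u1 u0 u2 = 0 := by rw [s1, t4, neg_zero]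
  have t7 : τ u1 u2 u0 = 0 := by rw [s2, t6, neg_zero]
  have t8 : τ u2 u0 u1 = 0 := by rw [s1, t5, neg_zero]
  have t9 : τ u2 u1 u0 = 0 := by rw [s2, t8, neg_zero]
  refine N2 _ fun x => ?_
  obtain ⟨x, rfl⟩ := hκ x
  obtain ⟨y, rfl⟩ := (hκ.comp hκ) y
  obtain ⟨z, rfl⟩ := (hκ.comp (hκ.comp hκ)) z
  refine (hτ x y z).symm.trans ?_
  obtain ⟨a, b, c, rfl⟩ := hu x
  obtain ⟨a', b', c', rfl⟩ := hu y
  obtain ⟨a'', b'', c'', rfl⟩ := hu z
  simp only [map_add, map_smul, LinearMap.add_apply, LinearMap.smul_apply, t1, t2, t3, t4, t5, t6,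
    t7, t8, t9, smul_zero, add_zero]

theorem coords (b : Basis (Fin 3) k W) (w : W) :
    w = b.repr w 0 • b 0 + b.repr w 1 • b 1 + b.repr w 2 • b 2 := by
  conv_lhs => rw [← b.sum_repr w, Fin.sum_univ_three]

theorem fr_one (a : W) : finrank k (span k {a}) ≤ 1 := by
  simpa using finrank_span_le_card (R := k) ({a} : Set W)

theorem fr_sup [FiniteDimensional k W] (a : W) (M : Submodule k W) :
    finrank k ↥(span k {a} ⊔ M) ≤ finrank k M + 1 :=
  (Submodule.finrank_add_le_finrank_add_finrank _ _).trans (by have := fr_one (k := k) a; omega)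

theorem span_of_ker {f : V →ₗ[k] W} {v0 v1 v2 : V} (h0 : ∀ x, f x = 0 → ∃ c : k, x = c • v0)
    (h : ∀ x, ∃ a b : k, f x = a • f v1 + b • f v2) (x : V) :
    ∃ a b c : k, x = a • v0 + b • v1 + c • v2 := by
  obtain ⟨a, b, hab⟩ := h x
  obtain ⟨c, hc⟩ := h0 (x - a • v1 - b • v2) (by simp [hab])
  exact ⟨c, a, b, by rw [← hc]; abel⟩

theorem ker_line [FiniteDimensional k V] {f : V →ₗ[k] W} (hV : finrank k V = 3)
    (hf : 2 ≤ finrank k (LinearMap.range f)) {v0 : V} (h0 : f v0 = 0) (h1 : v0 ≠ 0) (x : V)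
    (hx : f x = 0) : ∃ c : k, x = c • v0 := by
  have h2 := f.finrank_range_add_finrank_ker
  have h3 : span k {v0} = LinearMap.ker f := eq_of_le_of_finrank_le
    ((span_singleton_le_iff_mem _ _).2 h0) (by rw [finrank_span_singleton h1]; omega)
  obtain ⟨c, hc⟩ := mem_span_singleton.1 (h3.ge hx)
  exact ⟨c, hc.symm⟩

theorem exists_basis3 [FiniteDimensional k W] (hW : finrank k W = 3) {w1 w2 : W} (h1 : w1 ≠ 0)
    (h2 : w2 ∉ span k {w1}) : ∃ b : Basis (Fin 3) k W, b 0 = w1 ∧ b 1 = w2 := by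
  obtain ⟨w3, h3⟩ : ∃ w3, w3 ∉ span k {w1, w2} := by
    by_contra! h
    have := fr_sup w1 (span k {w2})
    rw [← span_insert, eq_top_iff'.2 h, finrank_top] at this
    have h4 := fr_one (k := k) w2
    omega
  have li : LinearIndependent k ![w1, w2, w3] := by
    rw [Fintype.linearIndependent_iff]
    intro g hg
    simp only [Fin.sum_univ_three, Matrix.cons_val_zero, Matrix.cons_val_one, Matrix.cons_val] at hg
    have a2 : g 2 = 0 := by_contra fun a => h3 (mem_span_pair.2 ⟨-g 0 / g 2, -g 1 / g 2, by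
      rw [← smul_right_inj a, smul_add, smul_smul, smul_smul, mul_div_cancel₀ _ a,
        mul_div_cancel₀ _ a, neg_smul, neg_smul, ← neg_add, neg_eq_iff_add_eq_zero, hg]⟩)
    rw [a2, zero_smul, add_zero] at hg
    have a1 : g 1 = 0 := by_contra fun a => h2 (mem_span_singleton.2 ⟨-g 0 / g 1, by
      rw [← smul_right_inj a, smul_smul, mul_div_cancel₀ _ a, neg_smul, neg_eq_iff_add_eq_zero, hg]⟩)
    rw [a1, zero_smul, add_zero, smul_eq_zero, or_iff_left h1] at hg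
    intro i; fin_cases i; exacts [hg, a1, a2]
  exact ⟨basisOfLinearIndependentOfCardEqFinrank li (by simp [hW]), by simp, by simp⟩

theorem caseA [Infinite k] [FiniteDimensional k V] {μ : V →ₗ[k] V →ₗ[k] W}
    (hn : ∀ u, ¬ Surjective (μ u)) (hV : finrank k V = 3)
    (hsp : ∀ T : Submodule k W, (∀ x y, μ x y ∈ T) → T = ⊤) {u0 u1 u2 v0 v1 v2 : V}
    (b : Basis (Fin 3) k W) (h0 : μ u0 v0 = 0) (h1 : μ u0 v1 = b 0) (h2 : μ u0 v2 = b 1)
    (h3 : μ u1 v0 = b 0) (h4 : μ u2 v0 = b 1)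
    (hu : ∀ x, ∃ a b c : k, x = a • u0 + b • u1 + c • u2)
    (hv : ∀ x, ∃ a b c : k, x = a • v0 + b • v1 + c • v2) :
    ∃ κ : V →ₗ[k] V, Surjective κ ∧ ∀ x, μ x (κ x) = 0 := by
  have K := fun t : k => key hn b h0 h1 h2 (u1 + t • u2)
  have K2 := key hn b h0 h1 h2 u2
  simp only [map_add, map_smul, LinearMap.add_apply, LinearMap.smul_apply, h3, h4,
    Finsupp.add_apply, Finsupp.smul_apply, Basis.repr_self, smul_eq_mul, Finsupp.single_apply,
    Fin.reduceEq, if_true, if_false, mul_one, mul_zero, add_zero, zero_add, one_mul, zero_mul,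
    true_and, zero_sub, neg_eq_zero] at K K2
  have c1 := coords b (μ u1 v1)
  have c2 := coords b (μ u2 v1)
  have c3 := coords b (μ u1 v2)
  have c4 := coords b (μ u2 v2)
  generalize b.repr (μ u1 v1) 0 = A1, b.repr (μ u1 v1) 1 = B1, b.repr (μ u1 v1) 2 = Y1,
    b.repr (μ u2 v1) 0 = A2, b.repr (μ u2 v1) 1 = B2, b.repr (μ u2 v1) 2 = Y2,
    b.repr (μ u1 v2) 0 = C1, b.repr (μ u1 v2) 1 = D1, b.repr (μ u1 v2) 2 = Z1,
    b.repr (μ u2 v2) 0 = C2, b.repr (μ u2 v2) 1 = D2, b.repr (μ u2 v2) 2 = Z2 at K K2 c1 c2 c3 c4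
  obtain ⟨rfl, K2⟩ := K2
  obtain rfl : Y1 = 0 := by simpa using (K 0).1
  obtain rfl : Z1 = -Y2 := by linear_combination (K 1).1
  have hY : Y2 ≠ 0 := by
    rintro rfl
    have : b 2 ∈ LinearMap.ker (b.coord 2) := (hsp _ fun x y => by
      obtain ⟨a1, a2, a3, rfl⟩ := hu x
      obtain ⟨d1, d2, d3, rfl⟩ := hv y
      simp [h0, h1, h2, h3, h4, c1, c2, c3, c4]).ge trivial
    simp at this
  obtain rfl : C2 = 0 := by simpa [hY] using K2
  obtain ⟨a1, a2, a3⟩ := quad_zero (a := C1 + A2 - D2) (b := A1 - D1 - B2) (c := -B1) fun t =>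
    mul_left_cancel₀ hY (by linear_combination (K t).2)
  obtain rfl : B1 = 0 := neg_eq_zero.1 a3
  have hu' : ⊤ ≤ span k (Set.range ![u0, u1, u2]) := fun x _ => by
    obtain ⟨a1, a2, a3, rfl⟩ := hu x
    exact add_mem (add_mem (smul_mem _ _ (subset_span ⟨0, rfl⟩))
      (smul_mem _ _ (subset_span ⟨1, rfl⟩))) (smul_mem _ _ (subset_span ⟨2, rfl⟩))
  let B := basisOfTopLeSpanOfCardEqFinrank _ hu' (by simp [hV])
  obtain ⟨κ, k0, k1, k2⟩ : ∃ κ : V →ₗ[k] V, κ u0 = -v0 ∧ κ u1 = v1 - A1 • v0 ∧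
      κ u2 = v2 - D2 • v0 := by
    have := B.constr_basis k ![-v0, v1 - A1 • v0, v2 - D2 • v0]
    rw [coe_basisOfTopLeSpanOfCardEqFinrank] at this
    exact ⟨_, this 0, this 1, this 2⟩
  refine ⟨κ, fun x => ?_, fun x => ?_⟩
  · obtain ⟨d1, d2, d3, rfl⟩ := hv x
    refine ⟨-(d1 + d2 * A1 + d3 * D2) • u0 + d2 • u1 + d3 • u2, ?_⟩
    simp only [map_add, map_smul, k0, k1, k2]
    module
  · obtain ⟨a, d, c, rfl⟩ := hu x
    simp only [map_add, map_smul, map_sub, map_neg, k0, k1, k2, LinearMap.add_apply,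
      LinearMap.smul_apply, h0, h1, h2, h3, h4, c1, c2, c3, c4]
    rw [show A1 = D1 + B2 by linear_combination a2, show D2 = C1 + A2 by linear_combination -a1]
    module

theorem exists_surj [Infinite k] [FiniteDimensional k V] [FiniteDimensional k W] [Nontrivial W]
    {μ : V →ₗ[k] V →ₗ[k] W} {l : V →ₗ[k] W →ₗ[k] X} {r : W →ₗ[k] V →ₗ[k] X}
    {m : V →ₗ[k] X →ₗ[k] Y} {n : W →ₗ[k] W →ₗ[k] Y}
    (as : ∀ x y z, l x (μ y z) = r (μ x y) z) (as2 : ∀ x y w, m x (l y w) = n (μ x y) w)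
    (hsp : ∀ T : Submodule k W, (∀ x y, μ x y ∈ T) → T = ⊤)
    (N1 : ∀ v, (∀ x, μ x v = 0) → v = 0)
    (N2 : ∀ w, (∀ x, l x w = 0) → w = 0) (N3 : ∀ t, (∀ x, m x t = 0) → t = 0)
    (hW : finrank k W ≤ 3) (hWV : finrank k W = 3 → finrank k V = 3) :
    ∃ u, Surjective (μ u) := by
  by_contra! hn
  have hne : ¬ ∀ y z, μ y z = 0 := fun h => bot_ne_top (hsp ⊥ h)
  have hW2 : 2 ≤ finrank k W := by
    by_contra! h
    refine hne fun y z => by_contra fun h0 => hn y (LinearMap.range_eq_top.1 ?_)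
    have : Nontrivial (LinearMap.range (μ y)) := Submodule.nontrivial_iff_ne_bot.2 fun a =>
      h0 (LinearMap.congr_fun (LinearMap.range_eq_bot.1 a) z)
    exact eq_top_of_finrank_eq (le_antisymm (finrank_le _)
      ((Nat.le_of_lt_succ h).trans finrank_pos))
  have hV2 : 2 ≤ finrank k V := by
    by_contra! h
    obtain ⟨u, hu⟩ := finrank_le_one_iff.1 (Nat.le_of_lt_succ h)
    refine hn u (LinearMap.range_eq_top.1 (hsp _ fun x y => ?_))
    obtain ⟨c, rfl⟩ := hu x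
    exact ⟨c • y, by simp⟩
  obtain ⟨u0, hu0⟩ := R1 hV2 hW2 hsp N1
  have h1 := finrank_lt (mt LinearMap.range_eq_top.1 (hn u0))
  have hW3 : finrank k W = 3 := by omega
  have hV3 := hWV hW3
  obtain ⟨v0, h0, h0'⟩ : ∃ v0, μ u0 v0 = 0 ∧ v0 ≠ 0 := by
    by_contra! h5
    have := LinearMap.finrank_range_of_inj ((injective_iff_map_eq_zero (μ u0)).2 h5)
    omega
  have hk := ker_line hV3 hu0 h0 h0'
  have hr : ∀ (f : V →ₗ[k] W) w, 2 ≤ finrank k (LinearMap.range f) →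
      ∃ v, f v ∉ span k {w} := fun f w hf => by
    by_contra! h
    have := finrank_mono (show LinearMap.range f ≤ span k {w} by rintro _ ⟨v, rfl⟩; exact h v)
    have := fr_one (k := k) w
    omega
  have hb : ∀ (b : Basis (Fin 3) k W) v1 v2, μ u0 v1 = b 0 → μ u0 v2 = b 1 → ∀ x,
      ∃ a d c : k, x = a • v0 + d • v1 + c • v2 := fun b v1 v2 e1 e2 =>
    span_of_ker hk fun x => ⟨b.repr (μ u0 x) 0, b.repr (μ u0 x) 1, by
      have h3 : b.repr (μ u0 x) 2 = 0 := by_contra fun a => hn u0 fun w => by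
        refine ⟨(b.repr w 0 - b.repr w 2 / b.repr (μ u0 x) 2 * b.repr (μ u0 x) 0) • v1 +
          (b.repr w 1 - b.repr w 2 / b.repr (μ u0 x) 2 * b.repr (μ u0 x) 1) • v2 +
          (b.repr w 2 / b.repr (μ u0 x) 2) • x, b.repr.injective (Finsupp.ext fun i => ?_)⟩
        fin_cases i <;> simp [e1, e2, a]
      rw [e1, e2]
      conv_lhs => rw [coords b (μ u0 x), h3, zero_smul, add_zero]⟩
  have hR : ∀ u, ∃ v, μ u0 v = μ u v0 := fun u => by
    obtain ⟨v1, e1⟩ := hr (μ u0) 0 hu0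
    obtain ⟨v2, e2⟩ := hr (μ u0) (μ u0 v1) hu0
    obtain ⟨b, b0, b1⟩ := exists_basis3 hW3 (by simpa using e1) e2
    refine ⟨b.repr (μ u v0) 0 • v1 + b.repr (μ u v0) 1 • v2, ?_⟩
    conv_rhs => rw [coords b (μ u v0), (key hn b h0 b0.symm b1.symm u).1, b0, b1]
    simp
  obtain ⟨u1, e1⟩ : ∃ u1, μ u1 v0 ≠ 0 := by by_contra! h; exact h0' (N1 _ h)
  obtain ⟨v1, f1⟩ := hR u1
  by_cases hc : ∃ u2, μ u2 v0 ∉ span k {μ u1 v0}
  · obtain ⟨u2, e2⟩ := hc
    obtain ⟨v2, f2⟩ := hR u2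
    obtain ⟨b, b0, b1⟩ := exists_basis3 hW3 e1 e2
    have hu : ∀ x, ∃ a b c : k, x = a • u0 + b • u1 + c • u2 := by
      refine span_of_ker (f := μ.flip v0) (ker_line hV3 ?_ h0 fun a => ?_) fun x =>
        ⟨b.repr (μ x v0) 0, b.repr (μ x v0) 1, ?_⟩
      · by_contra! h
        obtain ⟨w, hw⟩ := finrank_le_one_iff.1 (Nat.le_of_lt_succ h)
        obtain ⟨c, hc⟩ := hw ⟨_, u1, rfl⟩
        obtain ⟨c', hc'⟩ := hw ⟨_, u2, rfl⟩
        have e : c • (w : W) = μ u1 v0 := congrArg Subtype.val hc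
        have e' : c' • (w : W) = μ u2 v0 := congrArg Subtype.val hc'
        have : c ≠ 0 := fun a => e1 (by rw [← e, a, zero_smul])
        exact e2 (mem_span_singleton.2 ⟨c' / c, by
          rw [← e, ← e', smul_smul, div_mul_cancel₀ _ this]⟩)
      · exact e1 (by rw [← f1, a]; simp)
      · simp only [LinearMap.flip_apply]
        conv_lhs => rw [coords b (μ x v0), (key hn b h0 (f1.trans b0.symm) (f2.trans b1.symm) x).1,
          b0, b1, zero_smul, add_zero]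
    obtain ⟨κ, k1, k2⟩ := caseA hn hV3 hsp b h0 (f1.trans b0.symm) (f2.trans b1.symm) b0.symm
      b1.symm hu (hb b _ _ (f1.trans b0.symm) (f2.trans b1.symm))
    exact hne (skew as as2 N2 N3 k1 k2 hu)
  push Not at hc
  obtain ⟨v2, e2⟩ := hr (μ u0) (μ u1 v0) hu0
  obtain ⟨b, b0, b1⟩ := exists_basis3 hW3 e1 e2
  have hv := hb b _ _ (f1.trans b0.symm) b1.symm
  have K := key hn b h0 (f1.trans b0.symm) b1.symm
  have x2 : ∀ x, b.repr (μ x v0) 1 = 0 := fun x => by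
    obtain ⟨c, hc⟩ := mem_span_singleton.1 (hc x)
    simp [← hc, ← b0]
  simp only [x2, zero_mul, add_zero, sub_zero] at K
  have x1 : b.coord 0 (μ u1 v0) ≠ 0 := by simp [← b0]
  have y1 : ∀ x, b.repr (μ x v1) 2 = 0 := fun_mul_zero (f := b.coord 0 ∘ₗ μ.flip v0)
    (g := b.coord 2 ∘ₗ μ.flip v1) (fun x => (K x).2.1) x1
  simp only [y1, mul_zero, sub_zero] at K
  obtain ⟨u3, g1, g2⟩ : ∃ u, b.repr (μ u v0) 0 ≠ 0 ∧ b.repr (μ u v2) 2 ≠ 0 := by
    by_contra! h
    have y2 : ∀ x, b.repr (μ x v2) 2 = 0 := fun_mul_zero (f := b.coord 0 ∘ₗ μ.flip v0)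
      (g := b.coord 2 ∘ₗ μ.flip v2) (fun x => mul_eq_zero.2 (or_iff_not_imp_left.2 (h x))) x1
    have : b 2 ∈ LinearMap.ker (b.coord 2) := (hsp _ fun x y => by
      obtain ⟨d1, d2, d3, rfl⟩ := hv y
      simp [y1, y2, (K x).1]).ge trivial
    simp at this
  have g3 : b.repr (μ u3 v1) 1 = 0 := by simpa [g1, g2] using (K u3).2.2
  have y3 : ∀ x, b.repr (μ x v1) 1 = 0 := fun x => by
    have := (quad_zero (a := b.repr (μ u3 v0) 0 * b.repr (μ u3 v2) 2 * b.repr (μ x v1) 1)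
      (b := (b.repr (μ u3 v0) 0 * b.repr (μ x v2) 2 + b.repr (μ x v0) 0 * b.repr (μ u3 v2) 2) *
        b.repr (μ x v1) 1) (c := 0) fun t => by
      have h5 := (K (x + t • u3)).2.2
      simp only [map_add, map_smul, LinearMap.add_apply, LinearMap.smul_apply, Finsupp.add_apply,
        Finsupp.smul_apply, smul_eq_mul, g3] at h5
      linear_combination h5 - (K x).2.2).1
    simpa [g1, g2] using this
  refine compr as N1 N2 e1 (fun a d h => ?_) hv (fun x => ?_) fun x => ⟨b.repr (μ x v1) 0, ?_⟩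
  · have h5 : d = 0 := by simpa [h0, f1, e1] using congrArg (μ u0) h
    exact ⟨by simpa [h5, h0'] using h, h5⟩
  · exact (mem_span_singleton.1 (hc x)).imp fun c h => h.symm
  · conv_lhs => rw [coords b (μ x v1), y1, y3, b0, zero_smul, zero_smul, add_zero, add_zero]

end H19.CK
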