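import Cfsg.Agent.H19.CK1

/-! The graded symmetric quotient of a symmetric local algebra. -/

set_option autoImplicit false
set_option linter.unusedSectionVars false

namespace H19.CK
open Module Submodule Function

section
variable {k V W : Type*} [Field k] [AddCommGroup V] [Module k V] [AddCommGroup W] [Module k W]
  [FiniteDimensional k V] {M N : Submodule k V}

omit [FiniteDimensional k V] in
theorem exsub {c x : V} (h : x ∈ span k {c} ⊔ M) : ∃ t : k, x - t • c ∈ M := by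
  obtain ⟨y, hy, z, hz, rfl⟩ := mem_sup.1 h
  obtain ⟨t, rfl⟩ := mem_span_singleton.1 hy
  exact ⟨t, by simpa using hz⟩

theorem fr_lt {z : V} (h : z ∉ M) : finrank k M < finrank k ↥(span k {z} ⊔ M) :=
  finrank_lt_finrank_of_lt (right_lt_sup.2 (mt (span_singleton_le_iff_mem _ _).1 h))

theorem gen1 {n : ℕ} (h : finrank k N ≤ finrank k M + (n + 1)) :
    ∃ a ∈ N, finrank k N ≤ finrank k ↥(span k {a} ⊔ M) + n := by
  by_cases h1 : N ≤ M
  · exact ⟨0, zero_mem _, (finrank_mono (h1.trans le_sup_right)).trans (Nat.le_add_right _ _)⟩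
  obtain ⟨a, ha, ha'⟩ := SetLike.not_le_iff_exists.1 h1
  exact ⟨a, ha, by have := fr_lt ha'; omega⟩

theorem gen2 (hM : M ≤ N) (h : finrank k N ≤ finrank k M + 2) :
    ∃ a ∈ N, ∃ b ∈ N, ∀ x ∈ N, ∃ α β : k, ∃ z ∈ M, x = α • a + β • b + z := by
  obtain ⟨b, hb, h1⟩ := gen1 h
  obtain ⟨a, ha, h2⟩ := gen1 h1
  have := eq_of_le_of_finrank_le (sup_le ((span_singleton_le_iff_mem _ _).2 ha)
    (sup_le ((span_singleton_le_iff_mem _ _).2 hb) hM)) h2
  refine ⟨a, ha, b, hb, fun x hx => ?_⟩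
  obtain ⟨α, h3⟩ := exsub (this.ge hx)
  obtain ⟨β, h4⟩ := exsub h3
  exact ⟨α, β, _, h4, by abel⟩

theorem gen3 (hM : M ≤ N) (h : finrank k N ≤ finrank k M + 3) :
    ∃ a ∈ N, ∃ b ∈ N, ∃ c ∈ N, ∀ x ∈ N, ∃ α β γ : k, ∃ z ∈ M, x = α • a + β • b + γ • c + z := by
  obtain ⟨c, hc, h1⟩ := gen1 h
  obtain ⟨a, ha, b, hb, h2⟩ := gen2 (sup_le ((span_singleton_le_iff_mem _ _).2 hc) hM) h1
  refine ⟨a, ha, b, hb, c, hc, fun x hx => ?_⟩
  obtain ⟨α, β, z, hz, rfl⟩ := h2 x hx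
  obtain ⟨γ, h3⟩ := exsub hz
  exact ⟨α, β, γ, _, h3, by abel⟩

theorem dual2 (hM : M ≤ N) (h : finrank k N ≤ finrank k M + 2) {f g : V →ₗ[k] k}
    (hf : ∀ x ∈ M, f x = 0) (hg : ∀ x ∈ M, g x = 0) {p q : V} (hp : p ∈ N) (hq : q ∈ N)
    (fp : f p = 1) (gp : g p = 0) (fq : f q = 0) (gq : g q = 1) {x : V} (hx : x ∈ N) :
    ∃ z ∈ M, x = f x • p + g x • q + z := by
  have l1 := fr_lt (M := M) (z := q) fun a => by simp [hg q a] at gq
  have l2 := fr_lt (M := span k {q} ⊔ M) (z := p) fun a => by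
    obtain ⟨t, ht⟩ := exsub a
    simpa [fp, fq] using hf _ ht
  have := eq_of_le_of_finrank_le (sup_le ((span_singleton_le_iff_mem _ _).2 hp)
    (sup_le ((span_singleton_le_iff_mem _ _).2 hq) hM)) (by omega)
  obtain ⟨α, h3⟩ := exsub (this.ge hx)
  obtain ⟨β, h4⟩ := exsub h3
  have e1 := hf _ h4
  have e2 := hg _ h4
  simp only [map_sub, map_smul, fp, fq, gp, gq, smul_eq_mul, mul_one, mul_zero, sub_zero,
    sub_eq_zero] at e1 e2
  exact ⟨_, h4, by rw [e1, e2]; abel⟩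

theorem fr_le3 (a b c : V) (h : N ≤ span k {a} ⊔ (span k {b} ⊔ (span k {c} ⊔ M))) :
    finrank k N ≤ finrank k M + 3 := by
  have h1 := finrank_mono h
  have h2 := fr_sup a (span k {b} ⊔ (span k {c} ⊔ M))
  have h3 := fr_sup b (span k {c} ⊔ M)
  have h4 := fr_sup c M
  omega

omit [FiniteDimensional k V] in
theorem mem3 {a b c z : V} (α β γ : k) (hz : z ∈ M) :
    α • a + β • b + γ • c + z ∈ span k {a} ⊔ (span k {b} ⊔ (span k {c} ⊔ M)) := by
  rw [add_assoc, add_assoc]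
  exact add_mem_sup (smul_mem _ _ (mem_span_singleton_self _)) (add_mem_sup (smul_mem _ _
    (mem_span_singleton_self _)) (add_mem_sup (smul_mem _ _ (mem_span_singleton_self _)) hz))

omit [FiniteDimensional k V] in
theorem of_mem3 {a b c x : V} (h : x ∈ span k {a} ⊔ (span k {b} ⊔ (span k {c} ⊔ M))) :
    ∃ α β γ : k, x - α • a - β • b - γ • c ∈ M := by
  obtain ⟨α, h1⟩ := exsub h
  obtain ⟨β, h2⟩ := exsub h1
  obtain ⟨γ, h3⟩ := exsub h2
  exact ⟨α, β, γ, h3⟩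

theorem indep3 {a b c : V} (h : N ≤ span k {a} ⊔ (span k {b} ⊔ (span k {c} ⊔ M)))
    (hd : finrank k M + 3 ≤ finrank k N) {α β γ : k} (h0 : α • a + β • b + γ • c ∈ M) :
    α = 0 ∧ β = 0 ∧ γ = 0 := by
  have key : ∀ {a b c : V} {α β γ : k}, (∀ x ∈ N, ∃ α β γ : k, x - α • a - β • b - γ • c ∈ M) →
      α • a + β • b + γ • c ∈ M → α = 0 := fun {a b c α β γ} h h0 => by
    by_contra hα
    have h1 : N ≤ span k {b} ⊔ (span k {c} ⊔ M) := fun x hx => by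
      obtain ⟨s, t, r, h2⟩ := h x hx
      have := mem3 (a := 0) (b := b) (c := c) 0 (t - s / α * β) (r - s / α * γ)
        (add_mem h2 (smul_mem _ (s / α) h0))
      rw [span_zero_singleton, bot_sup_eq] at this
      convert this using 1
      simp only [smul_add, smul_smul, div_mul_cancel₀ _ hα]
      module
    have h2 := finrank_mono h1
    have h3 := fr_sup b (span k {c} ⊔ M)
    have h4 := fr_sup c M
    omega
  refine ⟨key (fun x hx => of_mem3 (h hx)) h0, key (a := b) (b := c) (c := a) (β := γ) (γ := α)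
    (fun x hx => ?_) (by convert h0 using 1; abel), key (a := c) (b := a) (c := b) (β := α) (γ := β)
    (fun x hx => ?_) (by convert h0 using 1; abel)⟩
  · obtain ⟨s, t, r, h2⟩ := of_mem3 (h hx)
    exact ⟨t, r, s, by convert h2 using 1; abel⟩
  · obtain ⟨s, t, r, h2⟩ := of_mem3 (h hx)
    exact ⟨r, s, t, by convert h2 using 1; abel⟩

theorem fr_comm [FiniteDimensional k W] {μ : V →ₗ[k] V →ₗ[k] W}
    (h : ∀ T : Submodule k W, (∀ x y, μ x y - μ y x ∈ T) → T = ⊤) (hV : finrank k V ≤ 3) :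
    finrank k W ≤ 3 ∧ (finrank k W = 3 → finrank k V = 3) := by
  constructor
  · obtain ⟨a, -, b, -, c, -, h1⟩ := gen3 (k := k) (V := V) (M := ⊥) (N := ⊤) bot_le (by simpa using hV)
    have := fr_le3 (N := ⊤) (M := ⊥) (μ a b - μ b a) (μ b c - μ c b) (μ c a - μ a c) (h _ fun x y => by
      obtain ⟨α, β, γ, _, rfl, rfl⟩ := h1 x trivial
      obtain ⟨α', β', γ', _, rfl, rfl⟩ := h1 y trivial
      convert mem3 (α * β' - β * α') (β * γ' - γ * β') (γ * α' - α * γ') (zero_mem _) using 1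
      simp only [map_add, map_smul, add_zero, LinearMap.add_apply, LinearMap.smul_apply]
      module).ge
    simpa using this
  · intro hW
    by_contra hV'
    obtain ⟨a, -, b, -, h1⟩ := gen2 (k := k) (M := ⊥) (N := ⊤) (V := V) bot_le (by simp; omega)
    have := fr_one (k := k) (μ a b - μ b a)
    rw [h (span k {μ a b - μ b a}) fun x y => by
      obtain ⟨α, β, _, rfl, rfl⟩ := h1 x trivial
      obtain ⟨α', β', _, rfl, rfl⟩ := h1 y trivial
      refine mem_span_singleton.2 ⟨α * β' - β * α', ?_⟩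
      simp only [map_add, map_smul, add_zero, LinearMap.add_apply, LinearMap.smul_apply]
      module, finrank_top] at this
    omega

end

variable {k R : Type*} [Field k] [Ring R] [Algebra k R] {J : Submodule k R} {s : R →ₗ[k] k}
  {L i j n : ℕ} {x y u : R}

theorem mm (hx : x ∈ J ^ i) (hy : y ∈ J ^ j) : x * y ∈ J ^ (i + j) := by
  rw [pow_add]; exact mul_mem_mul hx hy

theorem m1 (hx : x ∈ J) : x ∈ J ^ 1 := by rwa [pow_one]

theorem pow_ind (h : i + j = n) {T : Submodule k R} (hT : ∀ x ∈ J ^ i, ∀ y ∈ J ^ j, x * y ∈ T) :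
    J ^ n ≤ T := by
  rw [← h, pow_add]; exact mul_le.2 hT

variable (J s L) in
/-- the radical of the form in degree `i` -/
def NN (i : ℕ) : Submodule k R where
  carrier := {x | ∀ m, L ≤ i + m → ∀ w ∈ J ^ m, s (x * w) = 0}
  add_mem' ha hb m hm w hw := by rw [add_mul, map_add, ha m hm w hw, hb m hm w hw, add_zero]
  zero_mem' m _ w _ := by simp
  smul_mem' c x hx m hm w hw := by rw [smul_mul_assoc, map_smul, hx m hm w hw, smul_zero]

variable (J s L) in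
/-- the graded pieces -/
abbrev B (i : ℕ) := ↥(J ^ i) ⧸ (NN J s L i).comap (J ^ i).subtype

variable (J s L) in
/-- the projection onto a graded piece -/
noncomputable def pj (i : ℕ) : R →ₗ[k] B J s L i :=
  (LinearMap.exists_extend ((NN J s L i).comap (J ^ i).subtype).mkQ).choose

theorem pj_mk (hx : x ∈ J ^ i) : pj J s L i x = Submodule.Quotient.mk ⟨x, hx⟩ :=
  LinearMap.congr_fun (LinearMap.exists_extend
    ((NN J s L i).comap (J ^ i).subtype).mkQ).choose_spec ⟨x, hx⟩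

theorem pj_surj (b : B J s L i) : ∃ x ∈ J ^ i, pj J s L i x = b := by
  obtain ⟨x, rfl⟩ := Submodule.Quotient.mk_surjective _ b
  exact ⟨x, x.2, pj_mk x.2⟩

theorem pj_eq_zero (hx : x ∈ J ^ i) : pj J s L i x = 0 ↔ x ∈ NN J s L i := by
  rw [pj_mk hx, Submodule.Quotient.mk_eq_zero]; rfl

theorem NN_mul (hx : x ∈ NN J s L i) (hy : y ∈ J ^ j) : x * y ∈ NN J s L (i + j) :=
  fun m hm w hw => by rw [mul_assoc]; exact hx (j + m) (by omega) _ (mm hy hw)

variable (J s L) in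
/-- standing hypotheses -/
structure Hy : Prop where
  sq : J * J ≤ J
  cyc : ∀ a b, s (a * b) = s (b * a)
  nil : J ^ (L + 1) = ⊥
  five : 5 ≤ L
  top : ¬ J ^ L ≤ LinearMap.ker s

theorem pow_le (hJ : J * J ≤ J) (hi : 1 ≤ i) (h : i ≤ j) : J ^ j ≤ J ^ i := by
  induction h with
  | refl => rfl
  | @step m hm ih =>
    obtain ⟨m, rfl⟩ : ∃ m', m = m' + 1 := ⟨m - 1, by have : i ≤ m := hm; omega⟩
    refine le_trans ?_ ih
    rw [pow_succ, pow_succ, mul_assoc]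
    exact mul_le_mul_right hJ _

namespace Hy
variable (H : Hy J s L)
include H

theorem zero (h : L < n) (hx : x ∈ J ^ n) : x = 0 :=
  (mem_bot k).1 (H.nil ▸ pow_le H.sq (by omega) h hx)

theorem mul_NN (hx : x ∈ J ^ i) (hy : y ∈ NN J s L j) : x * y ∈ NN J s L (i + j) :=
  fun m hm w hw => by rw [mul_assoc, H.cyc, mul_assoc]; exact hy (m + i) (by omega) _ (mm hw hx)

theorem succ_le (hx : x ∈ J ^ (i + 1)) : x ∈ NN J s L i := fun m hm w hw => by
  rw [H.zero (by omega) (mm hx hw), map_zero]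

theorem pj_succ (hi : 1 ≤ i) (hx : x ∈ J ^ (i + 1)) : pj J s L i x = 0 :=
  (pj_eq_zero (pow_le H.sq hi (Nat.le_succ i) hx)).2 (H.succ_le hx)

theorem exists_mul (i j n : ℕ) (h : i + j = n) :
    ∃ μ : B J s L i →ₗ[k] B J s L j →ₗ[k] B J s L n, ∀ x ∈ J ^ i, ∀ y ∈ J ^ j,
      μ (pj J s L i x) (pj J s L j y) = pj J s L n (x * y) := by
  subst h
  refine ⟨LinearMap.liftQ₂ _ _ (((LinearMap.mul k R).compl₁₂ (J ^ i).subtype
    (J ^ j).subtype).compr₂ (pj J s L (i + j))) (fun x hx => LinearMap.ext fun y => ?_)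
    (fun y hy => LinearMap.ext fun x => ?_), fun x hx y hy => by rw [pj_mk hx, pj_mk hy]; rfl⟩
  · exact (pj_eq_zero (mm x.2 y.2)).2 (NN_mul hx y.2)
  · exact (pj_eq_zero (mm x.2 y.2)).2 (H.mul_NN x.2 hy)

theorem nondeg (hi : i < L) (h : ∀ y ∈ J ^ 1, y * x ∈ NN J s L (1 + i)) : x ∈ NN J s L i :=
  fun m hm w hw => pow_ind (T := LinearMap.ker (s ∘ₗ LinearMap.mulLeft k x)) (i := m - 1) (j := 1)
    (by omega) (fun a ha b hb => by
      show s (x * (a * b)) = 0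
      rw [← mul_assoc, H.cyc, ← mul_assoc]
      exact h b hb (m - 1) (by omega) a ha) hw

theorem not_le (hi : i ≤ L) : ¬ J ^ i ≤ NN J s L i := fun h =>
  H.top (pow_ind (i := i) (j := L - i) (by omega) fun x hx y hy => h hx _ (by omega) y hy)

theorem injR (h : ∀ w ∈ J ^ 2, ∃ v ∈ J ^ 1, w - u * v ∈ NN J s L 2) (hx : x ∈ J ^ i)
    (hi : i + 2 ≤ L) (h1 : x * u ∈ NN J s L (i + 1)) : x ∈ NN J s L i := fun m hm w hw =>
  pow_ind (T := LinearMap.ker (s ∘ₗ LinearMap.mulLeft k x)) (i := 2) (j := m - 2)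
    (by omega) (fun a ha b hb => by
      obtain ⟨v, hv, h2⟩ := h a ha
      show s (x * (a * b)) = 0
      rw [← sub_add_cancel a (u * v), add_mul, mul_add, map_add, H.cyc, mul_assoc,
        h2 (m - 2 + i) (by omega) _ (mm hb hx), zero_add, mul_assoc, ← mul_assoc]
      exact h1 (1 + (m - 2)) (by omega) _ (mm hv hb)) hw

theorem injL (h : ∀ w ∈ J ^ 2, ∃ v ∈ J ^ 1, w - v * u ∈ NN J s L 2) (hx : x ∈ J ^ i)
    (hi : i + 2 ≤ L) (h1 : u * x ∈ NN J s L (1 + i)) : x ∈ NN J s L i := fun m hm w hw =>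
  pow_ind (T := LinearMap.ker (s ∘ₗ LinearMap.mulLeft k x)) (i := m - 2) (j := 2)
    (by omega) (fun b hb a ha => by
      obtain ⟨v, hv, h2⟩ := h a ha
      show s (x * (b * a)) = 0
      rw [← sub_add_cancel a (v * u), mul_add, mul_add, map_add, ← mul_assoc, H.cyc,
        h2 (i + (m - 2)) (by omega) _ (mm hx hb), zero_add, ← mul_assoc, ← mul_assoc, H.cyc,
        mul_assoc, ← mul_assoc]
      exact h1 (m - 2 + 1) (by omega) _ (mm hb hv)) hw

theorem fr_B [FiniteDimensional k R] (hi : 1 ≤ i) :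
    finrank k (B J s L i) + finrank k ↥(J ^ (i + 1)) ≤ finrank k ↥(J ^ i) := by
  rw [← finrank_quotient_add_finrank ((NN J s L i).comap (J ^ i).subtype),
    ← (comapSubtypeEquivOfLe (pow_le H.sq hi (Nat.le_succ i))).finrank_eq]
  exact Nat.add_le_add_left (finrank_mono (comap_mono fun x hx => H.succ_le hx)) _

theorem exists_F [IsAlgClosed k] [FiniteDimensional k R]
    (h1 : finrank k ↥(J ^ 1) ≤ finrank k ↥(J ^ 2) + 3)
    (h2 : J ^ 2 ≤ H20.cmm J ⊔ J ^ 3 ∨ finrank k ↥(J ^ 2) ≤ finrank k ↥(J ^ 3) + 2) :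
    ∃ u ∈ J ^ 1, ∃ P F2 F3 F4 : ℕ → R →ₗ[k] k, (∀ i, P i u = 1) ∧ (∀ i, ∀ x ∈ J ^ 2, P i x = 0) ∧
      (∀ i, ∀ x ∈ J ^ 3, F2 i x = 0) ∧ (∀ i, ∀ x ∈ J ^ 4, F3 i x = 0) ∧
      (∀ i, ∀ x ∈ J ^ 5, F4 i x = 0) ∧
      (∀ i, ∀ x ∈ J ^ 1, ∀ y ∈ J ^ 1, F2 i (x * y) = P (i + 1) x * P i y) ∧
      (∀ i, ∀ x ∈ J ^ 1, ∀ y ∈ J ^ 1, ∀ z ∈ J ^ 1,
        F3 i (x * (y * z)) = P (i + 2) x * P (i + 1) y * P i z) ∧
      (∀ i, ∀ x ∈ J ^ 1, ∀ y ∈ J ^ 1, ∀ z ∈ J ^ 1, ∀ w ∈ J ^ 1,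
        F4 i (x * (y * (z * w))) = P (i + 3) x * P (i + 2) y * P (i + 1) z * P i w) ∧
      ((∀ i, P (i + 1) = P i) ∨ ((∀ i, P (i + 2) = P i) ∧ ∃ x ∈ J ^ 1, P 1 x ≠ P 0 x) ∨
        ((∀ i, P (i + 3) = P i) ∧ (∃ x ∈ J ^ 1, P 0 x + P 1 x + P 2 x ≠ 0) ∧
          finrank k ↥(J ^ 2) + 3 ≤ finrank k ↥(J ^ 1) ∧ finrank k ↥(J ^ 3) + 3 ≤ finrank k ↥(J ^ 2))) := by
  have h5 := H.five
  obtain ⟨μ, hμ⟩ := H.exists_mul 1 1 2 rfl
  obtain ⟨l, hl⟩ := H.exists_mul 1 2 3 rfl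
  obtain ⟨r, hr⟩ := H.exists_mul 2 1 3 rfl
  obtain ⟨m, hm⟩ := H.exists_mul 1 3 4 rfl
  obtain ⟨n, hn⟩ := H.exists_mul 2 2 4 rfl
  have as : ∀ x y z, l x (μ y z) = r (μ x y) z := fun x y z => by
    obtain ⟨x, hx, rfl⟩ := pj_surj x
    obtain ⟨y, hy, rfl⟩ := pj_surj y
    obtain ⟨z, hz, rfl⟩ := pj_surj z
    rw [hμ _ hy _ hz, hμ _ hx _ hy, hl _ hx _ (mm hy hz), hr _ (mm hx hy) _ hz, mul_assoc]
  have as2 : ∀ x y w, m x (l y w) = n (μ x y) w := fun x y z => by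
    obtain ⟨x, hx, rfl⟩ := pj_surj x
    obtain ⟨y, hy, rfl⟩ := pj_surj y
    obtain ⟨z, hz, rfl⟩ := pj_surj z
    rw [hl _ hy _ hz, hμ _ hx _ hy, hm _ hx _ (mm hy hz), hn _ (mm hx hy) _ hz, mul_assoc]
  have hsp : ∀ T : Submodule k (B J s L 2), (∀ x y, μ x y ∈ T) → T = ⊤ := fun T hT =>
    eq_top_iff'.2 fun w => by
      obtain ⟨w, hw, rfl⟩ := pj_surj w
      exact pow_ind (T := T.comap (pj J s L 2)) (i := 1) (j := 1) rfl
        (fun x hx y hy => by rw [mem_comap, ← hμ x hx y hy]; exact hT _ _) hw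
  have N : ∀ {i} (ν : B J s L 1 →ₗ[k] B J s L i →ₗ[k] B J s L (1 + i)), i < L →
      (∀ x ∈ J ^ 1, ∀ y ∈ J ^ i, ν (pj J s L 1 x) (pj J s L i y) = pj J s L (1 + i) (x * y)) →
      ∀ v, (∀ x, ν x v = 0) → v = 0 := fun ν hi hν v h => by
    obtain ⟨v, hv, rfl⟩ := pj_surj v
    exact (pj_eq_zero hv).2 (H.nondeg hi fun y hy =>
      (pj_eq_zero (mm hy hv)).1 (by rw [← hν y hy v hv, h]))
  have : Nontrivial (B J s L 2) := by
    obtain ⟨x, hx, hx'⟩ := SetLike.not_le_iff_exists.1 (H.not_le (i := 2) (by omega))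
    exact ⟨⟨_, 0, mt (pj_eq_zero hx).1 hx'⟩⟩
  have f1 := H.fr_B (i := 1) le_rfl
  have f2 := H.fr_B (i := 2) (by omega)
  simp only [Nat.reduceAdd] at f1 f2
  have hV : finrank k (B J s L 1) ≤ 3 := by omega
  have hW : finrank k (B J s L 2) ≤ 3 ∧ (finrank k (B J s L 2) = 3 → finrank k (B J s L 1) = 3) := by
    refine h2.elim (fun h2 => fr_comm (μ := μ) (fun T hT => eq_top_iff'.2 fun w => ?_) hV)
      fun h2 => ⟨by omega, fun _ => by omega⟩
    obtain ⟨w, hw, rfl⟩ := pj_surj w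
    refine (sup_le (span_le.2 ?_) fun x hx => ?_ : _ ≤ T.comap (pj J s L 2)) (h2 hw)
    · rintro _ ⟨a, ha, b, hb, rfl⟩
      rw [SetLike.mem_coe, mem_comap, map_sub, ← hμ _ (m1 ha) _ (m1 hb), ← hμ _ (m1 hb) _ (m1 ha)]
      exact hT _ _
    · rw [mem_comap, H.pj_succ (by omega) hx]; exact zero_mem _
  obtain ⟨u, hu⟩ := exists_surj as as2 hsp (N μ (by omega) hμ) (N l (by omega) hl)
    (N m (by omega) hm) hW.1 hW.2
  obtain ⟨u, hu1, rfl⟩ := pj_surj u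
  have i1 : Injective (μ.flip (pj J s L 1 u)) := (injective_iff_map_eq_zero _).2 fun x h => by
    obtain ⟨x, hx, rfl⟩ := pj_surj x
    refine (pj_eq_zero hx).2 (H.injR (u := u) (fun w hw => ?_) hx (by omega)
      ((pj_eq_zero (mm hx hu1)).1 (by rw [← hμ x hx u hu1]; exact h)))
    obtain ⟨v, hv⟩ := hu (pj J s L 2 w)
    obtain ⟨v, hv1, rfl⟩ := pj_surj v
    exact ⟨v, hv1, (pj_eq_zero (sub_mem hw (mm hu1 hv1))).1 (by
      rw [map_sub, ← hv, hμ _ hu1 _ hv1, sub_self])⟩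
  have e : finrank k (B J s L 1) = finrank k (B J s L 2) := le_antisymm
    (LinearMap.finrank_le_finrank_of_injective i1) (LinearMap.finrank_le_finrank_of_surjective hu)
  have i2 := (LinearMap.injective_iff_surjective_of_finrank_eq_finrank e).1 i1
  have I : ∀ {i} (ν : B J s L 1 →ₗ[k] B J s L i →ₗ[k] B J s L (1 + i)), i + 2 ≤ L →
      (∀ x ∈ J ^ 1, ∀ y ∈ J ^ i, ν (pj J s L 1 x) (pj J s L i y) = pj J s L (1 + i) (x * y)) →
      Injective (ν (pj J s L 1 u)) := fun ν hi hν => (injective_iff_map_eq_zero _).2 fun x h => by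
    obtain ⟨x, hx, rfl⟩ := pj_surj x
    refine (pj_eq_zero hx).2 (H.injL (u := u) (fun w hw => ?_) hx hi
      ((pj_eq_zero (mm hu1 hx)).1 (by rw [← hν u hu1 x hx]; exact h)))
    obtain ⟨v, hv⟩ := i2 (pj J s L 2 w)
    obtain ⟨v, hv1, rfl⟩ := pj_surj v
    exact ⟨v, hv1, (pj_eq_zero (sub_mem hw (mm hv1 hu1))).1 (by
      rw [map_sub, ← hv, LinearMap.flip_apply, hμ _ hv1 _ hu1, sub_self])⟩
  obtain ⟨P, F2, F3, F4, p1, p2, p3, p4, hP⟩ := CK.exists_F μ l r m n as as2 (fun h => by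
    obtain ⟨w, hw⟩ := exists_ne (0 : B J s L 2)
    obtain ⟨v, rfl⟩ := hu w
    simp [h] at hw) ⟨I μ (by omega) hμ, hu⟩ i1 (I l (by omega) hl) (I m (by omega) hm) hV
  refine ⟨u, hu1, fun i => P i ∘ₗ pj J s L 1, fun i => F2 i ∘ₗ pj J s L 2,
    fun i => F3 i ∘ₗ pj J s L 3, fun i => F4 i ∘ₗ pj J s L 4, p1,
    fun i x hx => by simp [H.pj_succ le_rfl hx], fun i x hx => by simp [H.pj_succ (by omega) hx],
    fun i x hx => by simp [H.pj_succ (by omega) hx], fun i x hx => by simp [H.pj_succ (by omega) hx],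
    fun i x hx y hy => ?_, fun i x hx y hy z hz => ?_, fun i x hx y hy z hz w hw => ?_, ?_⟩
  · simp only [LinearMap.comp_apply, ← hμ x hx y hy, p2]
  · simp only [LinearMap.comp_apply, ← hl x hx _ (mm hy hz), ← hμ y hy z hz, p3]
  · simp only [LinearMap.comp_apply, ← hm x hx _ (mm hy (mm hz hw)), ← hl y hy _ (mm hz hw),
      ← hμ z hz w hw, p4]
  refine hP.imp (fun h i => by simp only [h]) (Or.imp (fun h => ⟨fun i => by simp only [h.1], ?_⟩)
    fun h => ⟨fun i => by simp only [h.1], ?_, by omega, by omega⟩)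
  · by_contra! h0
    refine h.2 (LinearMap.ext fun x => ?_)
    obtain ⟨x, hx, rfl⟩ := pj_surj x
    exact h0 x hx
  · by_contra! h0
    refine h.2.1 (LinearMap.ext fun x => ?_)
    obtain ⟨x, hx, rfl⟩ := pj_surj x
    exact h0 x hx

end Hy

end H19.CK
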