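import Cfsg.Agent.H19.CK2

/-! Symmetric local algebras with five-dimensional centre have dimension at most eleven. -/

set_option autoImplicit false
set_option linter.unusedSectionVars false

namespace H19.CK
open Module Submodule Function H20

variable {k R : Type*} [Field k] [Ring R] [Algebra k R] {J T : Submodule k R} {s : R →ₗ[k] k}
  {L : ℕ} {a b c u : R}

theorem mm' {i j n : ℕ} {x y : R} (hx : x ∈ J ^ i) (hy : y ∈ J ^ j) (h : i + j = n := by omega) :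
    x * y ∈ J ^ n := h ▸ mm hx hy

theorem cmm_le3 (hJ : J * J ≤ J)
    (hg : ∀ x ∈ J ^ 1, ∃ α β γ : k, ∃ z ∈ J ^ 2, x = α • a + β • b + γ • c + z)
    (hT : ∀ x ∈ J ^ 1, ∀ w ∈ J ^ 2, x * w - w * x ∈ T) :
    cmm J ≤ span k {a * b - b * a} ⊔ (span k {b * c - c * b} ⊔ (span k {c * a - a * c} ⊔ T)) :=
  span_le.2 <| by
    rintro _ ⟨x, hx, y, hy, rfl⟩
    obtain ⟨α, β, γ, z, hz, e⟩ := hg x (m1 hx)
    obtain ⟨α', β', γ', z', hz', e'⟩ := hg y (m1 hy)
    have h1 := sub_mem (hT x (m1 hx) z' hz') (hT _ (sub_mem (m1 hy)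
      (pow_le hJ le_rfl (by omega) hz')) z hz)
    rw [SetLike.mem_coe]
    convert mem3 (α * β' - β * α') (β * γ' - γ * β') (γ * α' - α * γ') h1 using 1
    rw [e, e']
    simp only [mul_add, add_mul, smul_mul_assoc, mul_smul_comm, add_sub_cancel_right]
    module

theorem cmm_le2 (hJ : J * J ≤ J)
    (hg : ∀ x ∈ J ^ 1, ∃ α β : k, ∃ z ∈ J ^ 2, x = α • a + β • b + z)
    (hT : ∀ x ∈ J ^ 1, ∀ w ∈ J ^ 2, x * w - w * x ∈ T) :
    cmm J ≤ span k {a * b - b * a} ⊔ T := by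
  simpa using cmm_le3 (c := 0) hJ (fun x hx => by simpa using hg x hx) hT

theorem cm_mem {i : ℕ} {x w : R} (hx : x ∈ J ^ 1) (hw : w ∈ J ^ i) : x * w - w * x ∈ J ^ (i + 1) :=
  sub_mem (add_comm 1 i ▸ mm hx hw) (mm hw hx)

theorem kill2 {G : R →ₗ[k] k}
    (h : ∀ x ∈ J ^ 1, ∀ y ∈ J ^ 1, ∀ z ∈ J ^ 1, G (x * (y * z)) = G (y * (z * x))) :
    ∀ x ∈ J ^ 1, ∀ w ∈ J ^ 2, x * w - w * x ∈ J ^ 3 ⊓ LinearMap.ker G := fun x hx w hw =>
  ⟨cm_mem hx hw, pow_ind (T := LinearMap.ker (G ∘ₗ (LinearMap.mulLeft k x - LinearMap.mulRight k x)))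
    (i := 1) (j := 1) rfl (fun y hy z hz => by simp [h x hx y hy z hz, mul_assoc]) hw⟩

theorem kill3 {G : R →ₗ[k] k} (h : ∀ x ∈ J ^ 1, ∀ y ∈ J ^ 1, ∀ z ∈ J ^ 1, ∀ w ∈ J ^ 1,
    G (x * (y * (z * w))) = G (y * (z * (w * x)))) :
    ∀ x ∈ J ^ 1, ∀ w ∈ J ^ 3, x * w - w * x ∈ J ^ 4 ⊓ LinearMap.ker G := fun x hx w hw =>
  ⟨cm_mem hx hw, pow_ind (T := LinearMap.ker (G ∘ₗ (LinearMap.mulLeft k x - LinearMap.mulRight k x)))
    (i := 1) (j := 2) rfl (fun y hy _ hv => pow_ind (T := LinearMap.ker (G ∘ₗ (LinearMap.mulLeft k x -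
      LinearMap.mulRight k x) ∘ₗ LinearMap.mulLeft k y)) (i := 1) (j := 1) rfl
      (fun z hz w hw => by simp [h x hx y hy z hz w hw, mul_assoc]) hv) hw⟩

theorem killK {G : R →ₗ[k] k} (h : ∀ x ∈ J ^ 1, ∀ y ∈ J ^ 1, G (x * y) = G (y * x)) :
    cmm J ≤ LinearMap.ker G := span_le.2 <| by
  rintro _ ⟨x, hx, y, hy, rfl⟩
  simp [h x (m1 hx) y (m1 hy)]

theorem cmm_le_two : cmm J ≤ J ^ 2 := by rw [sq]; exact cmm_le_sq

namespace Hy
variable [FiniteDimensional k R] (H : Hy J s L)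
include H

theorem dec {i : ℕ} {x : R} (hi : 2 ≤ i) (hL : i < L) (hx : x ∈ J ^ i) (h : x ∈ cmm J ⊔ J ^ L) :
    ∃ κ ∈ cmm J, κ ∈ J ^ i ∧ x - κ ∈ J ^ (i + 1) := by
  obtain ⟨κ, h1, j, h2, rfl⟩ := mem_sup.1 h
  exact ⟨κ, h1, by simpa using sub_mem hx (pow_le H.sq (by omega) hL.le h2),
    by simpa using pow_le H.sq (by omega) hL h2⟩

theorem caseB1 (h3 : J ^ 3 ≤ cmm J ⊔ J ^ L) (hu : u ∈ J ^ 1) (hb : b ∈ J ^ 1)
    (hg : ∀ x ∈ J ^ 1, ∃ α β : k, ∃ z ∈ J ^ 2, x = α • u + β • b + z)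
    (h1 : ∀ x ∈ J ^ 1, b * x ∈ J ^ 3) (h2 : ∀ x ∈ J ^ 1, x * b ∈ J ^ 3) : False := by
  have h5 := H.five
  have hp : ∀ n, u ^ n ∈ J ^ n := fun n => pow_mem_pow _ (by simpa using hu) n
  have h4 : ∀ n, J ^ (n + 2) ≤ span k {u ^ (n + 2)} ⊔ J ^ (n + 3) := fun n => by
    induction n with
    | zero =>
      refine pow_ind (i := 1) (j := 1) rfl fun x hx y hy => ?_
      obtain ⟨α, β, z, hz, rfl⟩ := hg x hx
      obtain ⟨α', β', z', hz', e⟩ := hg y hy
      rw [add_mul, add_mul, smul_mul_assoc, smul_mul_assoc, add_assoc]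
      refine add_mem (smul_mem _ _ ?_) (mem_sup_right (add_mem (smul_mem _ _ (h1 y hy)) (mm' hz hy)))
      rw [e, mul_add, mul_add, mul_smul_comm, mul_smul_comm, add_assoc, ← pow_two]
      exact add_mem_sup (smul_mem _ _ (mem_span_singleton_self _))
        (add_mem (smul_mem _ _ (h2 u hu)) (mm' hu hz'))
    | succ n ih =>
      refine pow_ind (i := n + 2) (j := 1) rfl fun x hx y hy => ?_
      obtain ⟨t, ht⟩ := exsub (ih hx)
      obtain ⟨α', β', z', hz', e⟩ := hg y hy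
      rw [← sub_add_cancel x (t • u ^ (n + 2)), add_mul, smul_mul_assoc]
      refine add_mem (mem_sup_right (mm' ht hy)) (smul_mem _ _ ?_)
      rw [e, mul_add, mul_add, mul_smul_comm, mul_smul_comm, add_assoc (_ : R), ← pow_succ]
      refine add_mem_sup (smul_mem _ _ (mem_span_singleton_self _))
        (add_mem (smul_mem _ _ ?_) (mm' (n := n + 1 + 3) (hp (n + 2)) hz'))
      rw [pow_succ u, mul_assoc]
      exact mm' (hp _) (h2 u hu)
  obtain ⟨m, rfl⟩ : ∃ m, L = m + 3 := ⟨L - 3, by omega⟩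
  have h6 : ∀ x ∈ J ^ 4, s (x * u ^ m) = 0 := fun x hx => by
    rw [H.zero (by omega) (mm hx (hp m)), map_zero]
  have h7 : ∀ z ∈ J ^ 2, b * z ∈ J ^ 4 := fun z hz =>
    mem_comap.1 (pow_ind (T := (J ^ 4).comap (LinearMap.mulLeft k b)) (i := 1) (j := 1) rfl
      (fun x hx y hy => by simpa [mul_assoc] using mm (h1 x hx) hy) hz)
  have h8 : ∀ z ∈ J ^ 2, z * b ∈ J ^ 4 := fun z hz =>
    mem_comap.1 (pow_ind (T := (J ^ 4).comap (LinearMap.mulRight k b)) (i := 1) (j := 1) rfl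
      (fun x hx y hy => by simpa [mul_assoc] using mm hx (h2 y hy)) hz)
  have h9 : ∀ y, s (u * y * u ^ m) = s (y * u * u ^ m) := fun y => by
    rw [mul_assoc, H.cyc, mul_assoc, mul_assoc, ← pow_succ, ← pow_succ']
  have hK : cmm J ≤ LinearMap.ker (s ∘ₗ LinearMap.mulRight k (u ^ m)) := span_le.2 <| by
    rintro _ ⟨x, hx, y, hy, rfl⟩
    obtain ⟨α, β, z, hz, rfl⟩ := hg x (m1 hx)
    obtain ⟨α', β', z', hz', rfl⟩ := hg y (m1 hy)
    simp [add_mul, mul_add, sub_mul, h9, h6 _ (h7 z hz), h6 _ (h7 z' hz'), h6 _ (h8 z hz),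
      h6 _ (h8 z' hz'), h6 _ (mm hz hz'), h6 _ (mm hz' hz)]
    ring
  obtain ⟨κ, k1, -, k2⟩ := H.dec (by omega) (by omega) (hp 3) (h3 (hp 3))
  have h10 : s (u ^ (m + 3)) = 0 := by
    have := h6 _ k2
    rwa [sub_mul, map_sub, show s (κ * u ^ m) = 0 from hK k1, sub_zero, ← pow_add, add_comm] at this
  refine H.top ((h4 (m + 1)).trans (sup_le ((span_singleton_le_iff_mem _ _).2 h10) ?_))
  rw [show m + 1 + 3 = m + 3 + 1 by omega, H.nil]
  exact bot_le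

theorem caseB2 (h3 : J ^ 3 ≤ cmm J ⊔ J ^ L) {p q : R} (hp : p ∈ J ^ 1) (hq : q ∈ J ^ 1)
    (hg : ∀ x ∈ J ^ 1, ∃ α β : k, ∃ z ∈ J ^ 2, x = α • p + β • q + z)
    (hg2 : ∀ x ∈ J ^ 2, ∃ α β : k, ∃ z ∈ J ^ 3, x = α • (p * q) + β • (q * p) + z)
    (pp : p * p ∈ J ^ 3) (qq : q * q ∈ J ^ 3) {f g h G : R →ₗ[k] k}
    (f0 : ∀ x ∈ J ^ 3, f x = 0) (g0 : ∀ x ∈ J ^ 4, g x = 0) (h0 : ∀ x ∈ J ^ 4, h x = 0)
    (G0 : ∀ x ∈ J ^ 5, G x = 0) (f1 : f (p * q) = 0) (f2 : f (q * p) = 1)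
    (g1 : g (p * (q * p)) = 1) (g2 : g (q * (p * q)) = 0) (h2 : h (q * (p * q)) = 1)
    (hG : ∀ x ∈ J ^ 1, ∀ w ∈ J ^ 3, x * w - w * x ∈ J ^ 4 ⊓ LinearMap.ker G) {x : R}
    (hx : x ∈ J ^ 4) : G x = 0 := by
  have h5 := H.five
  set T := J ^ 4 ⊓ LinearMap.ker G
  have a1 : ∀ w ∈ J ^ 2, ∀ z ∈ J ^ 2, z * w - w * z ∈ T := fun w hw z hz =>
    pow_ind (T := T.comap (LinearMap.mulRight k w - LinearMap.mulLeft k w)) (i := 1) (j := 1) rfl
      (fun x hx y hy => by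
        have := add_mem (hG x hx _ (mm hy hw)) (hG y hy _ (mm hw hx))
        simpa [mul_assoc] using this) hz
  have a2 := cmm_le2 (T := span k {p * (p * q) - p * q * p} ⊔ (span k {q * (p * q) - p * q * q} ⊔ T))
    H.sq hg fun x hx w hw => by
      obtain ⟨α, β, z, hz, e⟩ := hg x hx
      obtain ⟨γ, δ, t, ht, e'⟩ := hg2 w hw
      have := mem3 (a := 0) (b := p * (p * q) - p * q * p) (c := q * (p * q) - p * q * q) 0
        (α * γ - α * δ) (β * γ - β * δ) (add_mem (add_mem (hG x hx t ht) (a1 _ (sub_mem hw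
          (pow_le H.sq (by omega) (by omega) ht)) z hz)) (neg_mem (add_mem
          (smul_mem _ (α * δ) (hG q hq _ pp)) (smul_mem _ (β * δ) (hG p hp _ qq)))))
      rw [span_zero_singleton, bot_sup_eq] at this
      convert this using 1
      rw [e, e']
      simp only [mul_add, add_mul, smul_mul_assoc, mul_smul_comm, add_sub_cancel_right, mul_assoc]
      module
  obtain ⟨κ, k1, k2, k3⟩ := H.dec (by omega) (by omega) hx (h3 (pow_le H.sq (by omega) (by omega) hx))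
  obtain ⟨c, α, β, k4⟩ := of_mem3 (a2 k1)
  have l43 : J ^ 4 ≤ J ^ 3 := pow_le H.sq (by omega) (by omega)
  have e1 := f0 _ (l43 k4.1)
  simp only [map_sub, map_smul, f0 _ (l43 k2), f1, f2, f0 _ (mm hp (mm hp hq)),
    f0 _ (mm (mm hp hq) hp), f0 _ (mm hq (mm hp hq)), f0 _ (mm (mm hp hq) hq)] at e1
  obtain rfl : c = 0 := by simpa using e1
  have e2 := g0 _ k4.1
  have e3 := h0 _ k4.1
  have b1 : p * (p * q) ∈ J ^ 4 := by rw [← mul_assoc]; exact mm pp hq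
  have b2 : p * (q * q) ∈ J ^ 4 := mm hp qq
  simp only [map_sub, map_smul, g0 _ k2, h0 _ k2, mul_assoc, g0 _ b1, g0 _ b2, h0 _ b1, h0 _ b2,
    g1, g2, h2, zero_smul] at e2 e3
  obtain rfl : α = 0 := by simpa using e2
  obtain rfl : β = 0 := by simpa using e3
  have e4 : G κ = 0 := by simpa using k4.2
  simpa [e4] using G0 _ k3

theorem contra [IsAlgClosed k] (hd : finrank k ↥(J ^ 1) ≤ finrank k (cmm J) + 4)
    (hn : finrank k ↥(J ^ 2) + 2 ≤ finrank k ↥(J ^ 1)) : False := by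
  have h5 := H.five
  have hK : cmm J ≤ LinearMap.ker s := killK fun x _ y _ => H.cyc x y
  have l1 := finrank_lt_finrank_of_lt (left_lt_sup.2 fun h : J ^ L ≤ cmm J => H.top (h.trans hK))
  have s1 : cmm J ⊔ J ^ L ≤ cmm J ⊔ J ^ 3 :=
    sup_le_sup_left (pow_le H.sq (by omega) (by omega)) _
  have l32 : J ^ 3 ≤ J ^ 2 := pow_le H.sq (by omega) (by omega)
  have l21 : J ^ 2 ≤ J ^ 1 := pow_le H.sq (by omega) (by omega)
  have s2 : cmm J ⊔ J ^ 3 ≤ J ^ 2 := sup_le cmm_le_two l32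
  have l2 := finrank_mono s1
  have l3 := finrank_mono s2
  by_cases hA : J ^ 2 ≤ cmm J ⊔ J ^ 3
  · obtain ⟨u, hu, P, F2, F3, F4, p1, z1, z2, z3, z4, f2, f3, f4, hP⟩ :=
      H.exists_F (by omega) (.inl hA)
    rcases hP with h | ⟨h, x, hx, hx'⟩ | ⟨h, ⟨x, hx, hx'⟩, d1, d2⟩
    · have := (sup_le (killK (G := F2 0) fun x hx y hy => by
        rw [f2 _ _ hx _ hy, f2 _ _ hy _ hx, h, mul_comm]) (z2 0)) (hA (mm hu hu))
      simp [f2 _ _ hu _ hu, p1] at this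
    · have h1 : cmm J ⊔ J ^ 3 ≤ _ := sup_le (killK (G := F2 0 + F2 1) fun x hx y hy => by
        simp only [LinearMap.add_apply, f2 _ _ hx _ hy, f2 _ _ hy _ hx, zero_add,
          show P (1 + 1) = P 0 from h 0]
        ring) fun x hx => by simp [z2 _ x hx]
      have h2 := h1 (hA (mm hx hu))
      have h3 := h1 (hA (mm hu hu))
      simp only [LinearMap.mem_ker, LinearMap.add_apply, f2 _ _ hx _ hu, f2 _ _ hu _ hu, p1,
        zero_add, show P (1 + 1) = P 0 from h 0] at h2 h3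
      exact hx' (by linear_combination h2 - P 0 x * h3)
    · obtain ⟨a, -, b, -, c, -, hg⟩ := gen3 l21 (by omega)
      have e := (eq_of_le_of_finrank_le (s1.trans s2) (by omega)).ge
      have t1 := cmm_le3 H.sq hg (kill2 (G := F3 0 + F3 1 + F3 2) fun x hx y hy z hz => by
        simp only [LinearMap.add_apply, f3 _ _ hx _ hy _ hz, f3 _ _ hy _ hz _ hx, zero_add,
          Nat.reduceAdd, show P 3 = P 0 from h 0, show P 4 = P 1 from h 1]
        ring)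
      have t2 := hA.trans (sup_le (cmm_le3 H.sq hg fun x hx w hw => cm_mem hx hw)
        (le_sup_of_le_right (le_sup_of_le_right le_sup_right)))
      have m3 := mm hx (mm hu hu)
      obtain ⟨κ, k1, k2, k3⟩ := H.dec (by omega) (by omega) m3 (e (l32 m3))
      obtain ⟨α, β, γ, k4⟩ := of_mem3 (t1 k1)
      obtain ⟨rfl, rfl, rfl⟩ := indep3 t2 d2 (α := α) (β := β) (γ := γ) (by
        convert sub_mem k2 k4.1 using 1; abel)
      have e4 : (F3 0 + F3 1 + F3 2) κ = 0 := by simpa using k4.2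
      have e5 : (F3 0 + F3 1 + F3 2) (x * (u * u) - κ) = 0 := by simp [z3 _ _ k3]
      rw [map_sub, e4] at e5
      simp only [LinearMap.add_apply, f3 _ _ hx _ hu _ hu, p1, zero_add,
          Nat.reduceAdd, show P 3 = P 0 from h 0, show P 4 = P 1 from h 1] at e5
      exact hx' (by linear_combination e5)
  have l4 := finrank_lt_finrank_of_lt (lt_of_le_of_ne s2 fun h => hA h.ge)
  have h3 : J ^ 3 ≤ cmm J ⊔ J ^ L := le_sup_right.trans (eq_of_le_of_finrank_le s1 (by omega)).ge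
  have d2 : finrank k ↥(J ^ 2) ≤ finrank k ↥(J ^ 3) + 2 := by
    obtain ⟨a, -, b, -, hg⟩ := gen2 l21 (by omega)
    have := finrank_mono (sup_le (cmm_le2 H.sq hg fun x hx w hw => cm_mem hx hw) le_sup_right)
    have := fr_sup (a * b - b * a) (J ^ 3)
    simp only [Nat.reduceAdd] at *
    omega
  obtain ⟨u, hu, P, F2, F3, F4, p1, z1, z2, z3, z4, f2, f3, f4, hP⟩ :=
    H.exists_F (by omega) (.inr d2)
  rcases hP with h | ⟨h, x, hx, hx'⟩ | ⟨-, -, d1, -⟩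
  · have hP : ∀ i, P i = P 0 := fun i => by
      induction i with
      | zero => rfl
      | succ i ih => rw [h, ih]
    have l5 := fr_lt (M := J ^ 2) (z := u) fun a => by simpa [p1] using z1 0 u a
    obtain ⟨b, hb, l6⟩ := gen1 (N := J ^ 1) (M := span k {u} ⊔ J ^ 2) (n := 0) (by omega)
    have e := eq_of_le_of_finrank_le (sup_le ((span_singleton_le_iff_mem _ _).2 hb)
      (sup_le ((span_singleton_le_iff_mem _ _).2 hu) l21)) l6
    obtain ⟨b, hb, b0, hg⟩ : ∃ b ∈ J ^ 1, P 0 b = 0 ∧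
        ∀ x ∈ J ^ 1, ∃ α β : k, ∃ z ∈ J ^ 2, x = α • u + β • b + z := by
      refine ⟨b - P 0 b • u, sub_mem hb (smul_mem _ _ hu), by simp [p1], fun x hx => ?_⟩
      obtain ⟨β, h1⟩ := exsub (e.ge hx)
      obtain ⟨α, h2⟩ := exsub h1
      exact ⟨α + β * P 0 b, β, _, h2, by module⟩
    by_cases hc : u * b - b * u ∈ J ^ 3
    · have l7 := finrank_mono (sup_le ((cmm_le2 H.sq hg fun x hx w hw => cm_mem hx hw).trans
        (sup_le ((span_singleton_le_iff_mem _ _).2 hc) le_rfl)) le_rfl)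
      have l8 := fr_lt (M := J ^ 3) (z := u * u) fun a => by
        simpa [p1, f2 _ _ hu _ hu] using z2 0 _ a
      have e2 := eq_of_le_of_finrank_le (sup_le ((span_singleton_le_iff_mem _ _).2 (mm hu hu)) l32)
        (by simp only [Nat.reduceAdd] at *; omega)
      have h4 : ∀ w ∈ J ^ 2, F2 0 w = 0 → w ∈ J ^ 3 := fun w hw h0 => by
        obtain ⟨t, ht⟩ := exsub (e2.ge hw)
        obtain rfl : t = 0 := by simpa [h0, p1, f2 _ _ hu _ hu] using z2 0 _ ht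
        simpa using ht
      exact H.caseB1 h3 hu hb hg (fun x hx => h4 _ (mm hb hx) (by rw [f2 _ _ hb _ hx, hP, b0, zero_mul]))
        fun x hx => h4 _ (mm hx hb) (by rw [f2 _ _ hx _ hb, b0, mul_zero])
    · have t1 := cmm_le2 H.sq hg (kill2 (G := F3 0) fun x hx y hy z hz => by
        rw [f3 _ _ hx _ hy _ hz, f3 _ _ hy _ hz _ hx, hP (0 + 2), hP (0 + 1)]; ring)
      have m3 := mm hu (mm hu hu)
      obtain ⟨κ, k1, k2, k3⟩ := H.dec (by omega) (by omega) m3 (h3 m3)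
      obtain ⟨t, ht⟩ := exsub (t1 k1)
      obtain rfl : t = 0 := by_contra fun h0 => hc (by
        simpa [h0] using smul_mem _ t⁻¹ (sub_mem k2 ht.1))
      have e4 : F3 0 κ = 0 := by simpa using ht.2
      simpa [e4, f3 _ _ hu _ hu _ hu, p1] using z3 0 _ k3
  · obtain ⟨p, hp, a1, a2⟩ : ∃ p ∈ J ^ 1, P 0 p = 1 ∧ P 1 p = 0 :=
      ⟨(P 0 x - P 1 x)⁻¹ • (x - P 1 x • u), smul_mem _ _ (sub_mem hx (smul_mem _ _ hu)),
        by simp [p1, sub_ne_zero.2 hx'.symm], by simp [p1]⟩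
    obtain ⟨q, hq, a3, a4⟩ : ∃ q ∈ J ^ 1, P 0 q = 0 ∧ P 1 q = 1 :=
      ⟨u - p, sub_mem hu hp, by simp [p1, a1], by simp [p1, a2]⟩
    have P2 : P 2 = P 0 := h 0
    have P3 : P 3 = P 1 := h 1
    have P4 : P 4 = P 0 := (h 2).trans P2
    have hg2 := fun w hw => dual2 (x := w) l32 d2 (z2 1) (z2 0) (mm hp hq) (mm hq hp)
      (by simp [f2 _ _ hp _ hq, P2, a1, a4]) (by simp [f2 _ _ hp _ hq, a2])
      (by simp [f2 _ _ hq _ hp, a2]) (by simp [f2 _ _ hq _ hp, a1, a4]) hw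
    have := H.caseB2 h3 hp hq (fun x hx => ⟨_, _, dual2 l21 (by omega) (z1 0) (z1 1) hp hq a1 a2
      a3 a4 hx⟩) (fun w hw => ⟨_, _, hg2 w hw⟩) (by
        obtain ⟨z, hz, e⟩ := hg2 _ (mm hp hp)
        rw [e]; simpa [f2 _ _ hp _ hp, a2] using hz) (by
        obtain ⟨z, hz, e⟩ := hg2 _ (mm hq hq)
        rw [e]; simpa [f2 _ _ hq _ hq, a3, P2] using hz) (z2 0) (z3 0) (z3 1)
      (G := F4 0 + F4 1) (fun x hx => by simp [z4 _ x hx]) (by simp [f2 _ _ hp _ hq, a2])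
      (by simp [f2 _ _ hq _ hp, a1, a4]) (by simp [f3 _ _ hp _ hq _ hp, a1, a4, P2])
      (by simp [f3 _ _ hq _ hp _ hq, a2]) (by simp [f3 _ _ hq _ hp _ hq, a1, a4, P2, P3])
      (kill3 fun x hx y hy z hz w hw => by
        simp only [LinearMap.add_apply, f4 _ _ hx _ hy _ hz _ hw, f4 _ _ hy _ hz _ hw _ hx, zero_add,
          Nat.reduceAdd, P2, P3, P4]
        ring) (mm hp (mm hu (mm hu hu)))
    simp [f4 _ _ hp _ hu _ hu _ hu, p1, P3, P4, a1, a2] at this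
  · omega

end Hy

theorem bound [IsAlgClosed k] [FiniteDimensional k R] {N : ℕ} (hN : J ^ N = ⊥)
    (hJ : J * J ≤ J) (s : R →ₗ[k] k) (hs : ∀ a b, s (a * b) = s (b * a))
    (hnd : ∀ x ∈ J, s x = 0 → (∀ y ∈ J, s (x * y) = 0) → x = 0)
    (hd : finrank k J ≤ finrank k (cmm J) + 4) {x y : R} (hx : x ∈ J) (hy : y ∈ J)
    (hxy : x * y ≠ y * x) : finrank k J ≤ 10 := by
  have hz : ∀ i, 1 ≤ i → J ^ i ≤ LinearMap.ker s → J ^ i = ⊥ := fun i hi h =>
    eq_bot_iff.2 fun z hz => hnd z (by simpa using pow_le hJ le_rfl hi hz) (h hz) fun w hw =>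
      h (pow_le hJ hi (Nat.le_succ i) (mm hz (m1 hw)))
  have l21 : J ^ 2 ≤ J ^ 1 := pow_le hJ (by omega) (by omega)
  rw [← show finrank k ↥(J ^ 1) = finrank k J by rw [pow_one]] at hd ⊢
  by_cases h5 : J ^ 5 = ⊥
  · have hK : cmm J ≤ LinearMap.ker s := killK fun x _ y _ => hs x y
    have h3 : ¬ J ^ 3 ≤ cmm J := fun h => hxy (sub_eq_zero.1 (hnd _ (sub_mem (hJ (mul_mem_mul hx hy))
      (hJ (mul_mem_mul hy hx))) (by rw [map_sub, hs, sub_self]) fun w hw =>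
        hK (h (mm (cm_mem (m1 hx) (m1 hy)) (m1 hw)))))
    have l1 := finrank_lt_finrank_of_lt (left_lt_sup.2 h3)
    have l2 := finrank_mono (sup_le cmm_le_two (pow_le hJ (by omega) (by omega) : J ^ 3 ≤ J ^ 2))
    obtain ⟨a, -, b, -, c, -, hg⟩ := gen3 l21 (by omega)
    have l3 := fr_le3 _ _ _ (sup_le (cmm_le3 hJ hg fun x hx w hw => cm_mem hx hw)
      (le_sup_of_le_right (le_sup_of_le_right le_sup_right)))
    have l4 := LinearMap.finrank_le_finrank_of_injective (f := LinearMap.pi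
      (![s, s ∘ₗ LinearMap.mulRight k a, s ∘ₗ LinearMap.mulRight k b,
        s ∘ₗ LinearMap.mulRight k c] ·) ∘ₗ (J ^ 3).subtype)
      ((injective_iff_map_eq_zero _).2 fun w h => Subtype.ext (show (w : R) = 0 from hnd w (by
        simpa using pow_le hJ le_rfl (by omega) w.2) (congrFun h 0) fun v hv => by
          obtain ⟨α, β, γ, z, hz, rfl⟩ := hg v (m1 hv)
          have e1 : s (w * a) = 0 := congrFun h 1
          have e2 : s (w * b) = 0 := congrFun h 2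
          have e3 : s (w * c) = 0 := congrFun h 3
          have e4 : w * z = 0 := (mem_bot k).1 (h5 ▸ mm w.2 hz)
          simp [mul_add, e1, e2, e3, e4]))
    simp only [finrank_fintype_fun_eq_card, Fintype.card_fin, Nat.reduceAdd] at l3 l4
    omega
  classical
  have hex : ∃ n, J ^ (n + 1) = ⊥ := ⟨N, by rw [pow_succ, hN, bot_mul]⟩
  have h1 : 5 ≤ Nat.find hex := by
    by_contra! h
    exact h5 (eq_bot_iff.2 ((pow_le hJ (by omega) h).trans (Nat.find_spec hex).le))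
  refine (Hy.contra (s := s) ⟨hJ, hs, Nat.find_spec hex, h1, fun h => Nat.find_min hex
    (m := Nat.find hex - 1) (by omega) ?_⟩ hd ?_).elim
  · rw [Nat.sub_add_cancel (by omega)]
    exact hz _ (by omega) h
  by_contra! h
  obtain ⟨a, ha, h2⟩ := gen1 (N := J ^ 1) (M := J ^ 2) (n := 0) (by omega)
  have := eq_of_le_of_finrank_le (sup_le ((span_singleton_le_iff_mem _ _).2 ha) l21) h2
  rw [pow_one, sq] at this
  exact hxy (comm_of_one_gen hN (by simpa using ha) hJ this.ge hx hy)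

end H19.CK
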