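import Cfsg.Agent.H19.CK3
import Cfsg.Agent.H19.Wat
import Cfsg.Agent.H20.Eq
import Cfsg.Agent.H20.Kb

/-! Blocks with one simple module and five ordinary characters. -/

set_option autoImplicit false
set_option linter.unusedSectionVars false

namespace H19.CK
open MonoidAlgebra Subgroup H10 Cfsg H17 Finset H20

variable {O : ValuationSubring ℂ} {G : Type*} [Group G] [Finite G] {p : ℕ} [hp : Fact p.Prime]
  [CharP (kk O) p] {β : Blk O G} {W : Wed (kk O) (kk O)[G]} {i : Fin W.n}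

theorem sole_five (h : W.Sole β i) (hk : Nat.card (irr β) ≤ 5) [DecidablePred (· ∈ irr β)] :
    (∀ χ ∈ irr β, W.dn p (χ : G → ℂ) i = 1) ∨
      ∑ χ with χ ∈ irr β, W.dn p (χ : G → ℂ) i * W.dn p (χ : G → ℂ) i ≤ 11 := by
  classical
  obtain ⟨x, y, hxy⟩ := h.exists_sum
  set f := W.f i with hf0
  have hf := W.idem i
  set A := LinearMap.range (LinearMap.mulLeftRight (kk O) (f, f))
  have hA : ∀ {a}, a ∈ A ↔ f * a = a ∧ a * f = a := Subsemigroup.mem_corner_iff hf
  set J := A ⊓ LinearMap.ker (W.t i)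
  have hπ : ∀ a ∈ J, W.π a = 0 := fun a ha => by
    rw [W.π_corner (i := i) (by rw [(hA.1 ha.1).1, (hA.1 ha.1).2]), ha.2, zero_smul]
  have hAA : ∀ a ∈ A, ∀ b ∈ A, a * b ∈ A := fun a ha b hb =>
    hA.2 ⟨by rw [← mul_assoc, (hA.1 ha).1], by rw [mul_assoc, (hA.1 hb).2]⟩
  have hfA : f ∈ A := hA.2 ⟨hf, hf⟩
  have hdec : ∀ a ∈ A, a - W.t i a • f ∈ J := fun a ha =>
    ⟨sub_mem ha (A.smul_mem _ hfA), by simp [hf0, W.t_f]⟩
  obtain ⟨N, hN⟩ := pow_eq_bot_of_list (J := J) (W.nilp.imp fun N hN l h1 h2 =>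
    hN l h1 fun a ha => hπ a (h2 a ha))
  let s : (kk O)[G] →ₗ[kk O] kk O := ⟨⟨fun a => a.coeff 1, fun a b => by simp⟩, fun c a => by simp⟩
  have hs : ∀ a b, s (a * b) = s (b * a) := fun a b => coeff_one_comm a b
  have hnd : ∀ a ∈ A, s a = 0 → (∀ b ∈ J, s (a * b) = 0) → a = 0 := fun a ha h1 h2 =>
    ext_coeff fun g => by
      have h3 := h2 _ (hdec _ ⟨single g⁻¹ 1, rfl⟩)
      rw [mul_sub, mul_smul_comm, (hA.1 ha).2, map_sub, map_smul, h1, smul_zero, sub_zero,
        LinearMap.mulLeftRight_apply, ← mul_assoc, hs, ← mul_assoc, ← mul_assoc,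
        (hA.1 ha).1, (hA.1 ha).2] at h3
      simpa using show (a * single g⁻¹ (1 : kk O)).coeff 1 = 0 from h3
  set Z := A ⊓ (Subalgebra.centralizer (kk O) (A : Set (kk O)[G])).toSubmodule
  have hZ : Module.finrank (kk O) Z ≤ Nat.card (irr β) := by
    let T : (kk O)[G] →ₗ[kk O] (kk O)[G] := ∑ l, LinearMap.mulLeftRight (kk O) (x l, y l)
    have hT : ∀ z, T z = ∑ l, x l * z * y l := fun z => by simp [T]
    have hfe : f * eG β = f := h.blk ▸ W.f_mul_blk i
    have h1 : ∀ z ∈ Z, ∀ a, f * a * z = z * a * f := fun z hz a => by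
      have := hz.2 (f * a * f) ⟨a, rfl⟩
      rwa [mul_assoc, (hA.1 hz.1).1, ← mul_assoc, ← mul_assoc, (hA.1 hz.1).2] at this
    have h2 : ∀ z ∈ Z, f * T z * f = z := fun z hz => by
      rw [hT, mul_sum, sum_mul, sum_congr rfl fun l _ => by
        rw [← mul_assoc, ← mul_assoc, h1 z hz, mul_assoc z, mul_assoc z], ← sum_mul, ← mul_sum,
        hxy, ← (hA.1 hz.1).2, mul_assoc z, hfe, mul_assoc, hf.eq]
    have e1 : ∀ z ∈ Z, eG β * T z = T z := fun z hz => by
      rw [hT, mul_sum]; exact sum_congr rfl fun l _ => by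
        rw [← Wed.eG_comm, mul_assoc, Wed.eG_comm, ← mul_assoc, ← (hA.1 hz.1).2, ← mul_assoc,
          mul_assoc _ f, hfe]
    have h3 : ∀ z ∈ Z, ∀ a, a * T z = T z * a := fun z hz a => by
      calc a * T z = eG β * a * T z := by rw [← Wed.eG_comm, mul_assoc, e1 z hz]
        _ = T z * a * eG β := by
          rw [← hxy, hT, sum_mul, sum_mul, sum_mul, sum_mul]
          refine sum_congr rfl fun l _ => ?_
          rw [mul_sum, mul_sum]
          refine sum_congr rfl fun m _ => ?_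
          simpa only [mul_assoc] using congrArg (x l * · * y m) (h1 z hz (y l * a * x m))
        _ = T z * a := by rw [Wed.eG_comm, ← mul_assoc, e1 z hz]
    rw [← LinearMap.finrank_range_of_inj (f := T.domRestrict Z) (fun a b e => Subtype.ext <| by
      rw [← h2 a a.2, ← h2 b b.2]; exact congrArg (f * · * f) e), card_eq_filter]
    refine (finrank_le_of_lift (S := Submodule.span ℂ (((univ.filter (· ∈ irr β)).image
      fun ξ => fB {ξ} : Finset ℂ[G]) : Set ℂ[G])) ?_).trans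
      ((finrank_span_finset_le_card _).trans card_image_le)
    rintro _ ⟨z, rfl⟩
    have h4 : T z ∈ ZZ (kk O) G := Subalgebra.mem_center_iff.2 (h3 z z.2)
    refine ⟨fB (irr β) * liftG O (T z), ?_, mul_mem (H19.fB_irr_mem_OG β) (H19.liftG_mem_OG _), ?_⟩
    · rw [H19.eq_sum_fB (mul_mem (H19.fB_mem_ZZ _) (H19.liftG_mem_ZZ h4))]
      refine sum_mem fun ξ _ => ?_
      by_cases hξ : ξ ∈ irr β
      · exact Submodule.smul_mem _ _ (Submodule.subset_span (by
          rw [coe_image]; exact ⟨ξ, by simpa using hξ, rfl⟩))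
      · rw [H19.om_central_mul ξ.2 (H19.fB_mem_ZZ _), H19.om_fB_of_not_mem hξ]; simp
    · rw [H19.red_mul (H19.fB_irr_mem_OG β) (H19.liftG_mem_OG _), red_fB, H19.red_liftG]
      exact e1 z z.2
  have hc : ∀ a ∈ A, (∀ b ∈ J, b * a = a * b) → a ∈ Z := fun a ha h1 => ⟨ha, fun b hb => by
    rw [← sub_add_cancel b (W.t i b • f), add_mul, mul_add, h1 _ (hdec b hb), smul_mul_assoc,
      mul_smul_comm, (hA.1 ha).1, (hA.1 ha).2]⟩
  have hJJ : J * J ≤ J := Submodule.mul_le.2 fun a ha b hb =>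
    ⟨hAA a ha.1 b hb.1, by simp [W.t_apply, hπ a ha]⟩
  have h1 : Module.finrank (kk O) A ≤ Module.finrank (kk O) (cmm J) + Module.finrank (kk O) Z := by
    let Ψ : A →ₗ[kk O] Module.Dual (kk O) (cmm J) :=
      ((LinearMap.mul (kk O) (kk O)[G]).compr₂ s).compl₁₂ A.subtype (cmm J).subtype
    rw [← Ψ.finrank_range_add_finrank_ker, ← Subspace.dual_finrank_eq (V := cmm J),
      ← Submodule.finrank_map_subtype_eq]
    refine add_le_add (Submodule.finrank_le _) (Submodule.finrank_mono ?_)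
    rintro _ ⟨a, ha, rfl⟩
    refine hc _ a.2 fun b hb => sub_eq_zero.1 (hnd _ (sub_mem (hAA _ hb.1 _ a.2) (hAA _ a.2 _ hb.1))
      (by rw [map_sub, hs, sub_self]) fun c hc => ?_)
    have := LinearMap.congr_fun ha ⟨c * b - b * c, Submodule.subset_span ⟨c, hc, b, hb, rfl⟩⟩
    rw [sub_mul, map_sub, mul_assoc, hs, ← map_sub, mul_assoc, mul_assoc, ← mul_sub]
    exact this
  have h2 : Module.finrank (kk O) J < Module.finrank (kk O) A :=
    Submodule.finrank_lt_finrank_of_lt (inf_lt_left.2 fun e => by simpa [hf0, W.t_f] using e hfA)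
  have h6 := (sum_le_sum_of_subset (filter_subset (· ∈ irr β) univ)).trans
    (W.finrank_f (p := p) i i).ge
  by_cases hcm : ∀ a ∈ J, ∀ b ∈ J, a * b = b * a
  · refine .inl fun χ hχ => ?_
    have h3 := Submodule.finrank_mono (show A ≤ Z from fun a ha => hc a ha fun b hb => by
      rw [← sub_add_cancel a (W.t i a • f), add_mul, mul_add, hcm _ hb _ (hdec a ha),
        smul_mul_assoc, mul_smul_comm, (hA.1 hb.1).1, (hA.1 hb.1).2])
    have h4 := (h6.trans h3).trans hZ
    rw [card_eq_filter, card_eq_sum_ones] at h4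
    have h5 := fun ξ (hξ : ξ ∈ univ.filter (· ∈ irr β)) => Nat.pos_of_ne_zero
      (mul_self_ne_zero.2 (h.dn_ne_zero (p := p) (mem_filter.1 hξ).2))
    exact Nat.eq_one_of_mul_eq_one_left ((sum_eq_sum_iff_of_le h5).1
      (le_antisymm (sum_le_sum h5) h4) χ (mem_filter.2 ⟨mem_univ _, hχ⟩)).symm
  · push Not at hcm
    obtain ⟨a, ha, b, hb, hab⟩ := hcm
    have h3 := bound hN hJJ s hs (fun a ha => hnd a ha.1) (by omega) ha hb hab
    have h4 := Submodule.finrank_mono (show A ≤ Submodule.span (kk O) {f} ⊔ J from fun a ha => by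
      rw [← add_sub_cancel (W.t i a • f) a]
      exact Submodule.add_mem_sup (Submodule.smul_mem _ _ (Submodule.mem_span_singleton_self _))
        (hdec a ha))
    have h5 := fr_sup f J
    exact .inr (h6.trans (show Module.finrank (kk O) A ≤ 11 by omega))

theorem d_le {φ : G → ℂ} {d : IrrCharacter G → ℕ} (h : W.Sole β i) (R : H20.R1 p β φ d)
    {χ : IrrCharacter G} (hχ : χ ∈ irr β) : d χ ≤ W.dn p (χ : G → ℂ) i := by
  classical
  have hp1 : ¬ p ∣ orderOf (1 : G) := by simpa using hp.out.ne_one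
  have h1 := congrFun (R.dec χ hχ) 1
  rw [Pi.smul_apply, H19.pr_of_reg _ hp1, H19.pr_of_reg _ hp1, W.deg_eq (p := p) χ.2.isCharacter,
    h.dec hχ, smul_eq_mul] at h1
  have h2 : φ 1 = (W.d i + 1 : ℕ) * ∑ ξ : IrrCharacter G, bil φ ξ * W.dn p (ξ : G → ℂ) i := by
    conv_lhs => rw [eq_sum_bil R.gen.isClassFunction]
    rw [Finset.sum_apply, mul_sum]
    refine sum_congr rfl fun ξ _ => ?_
    by_cases hξ : ξ ∈ irr β
    · rw [Pi.smul_apply, W.deg_eq (p := p) ξ.2.isCharacter, h.dec hξ, smul_eq_mul, mul_left_comm]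
    · simp [(mem_LB_iff.1 R.mem).2 ξ hξ]
  have h3 : (d χ : ℂ) ≠ 0 := by exact_mod_cast (R.pos χ hχ).ne'
  refine Nat.le_of_dvd (Nat.pos_of_ne_zero (h.dn_ne_zero hχ))
    (nat_dvd_of_isIntegral_div (R.pos χ hχ).ne' ?_)
  rw [h2, mul_left_comm, mul_right_inj' (Nat.cast_ne_zero.2 (Nat.succ_ne_zero _))] at h1
  rw [h1, mul_div_cancel_left₀ _ h3]
  exact (show _ ∈ ZB from sum_mem fun ξ _ => mul_mem (bil_mem_of_GC (H19.gen_mem_GC R.gen)
    (H19.irr_mem_GC ξ)) (natCast_mem _ _))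

theorem five_cases (hl : blockRank p (irr β) = 1) (hk : Nat.card (irr β) = 5) :
    p ^ blockDefect p (irr β) = 5 ∨ p ^ blockDefect p (irr β) = 8 ∨
      p ^ blockDefect p (irr β) = 11 := by
  classical
  obtain ⟨W⟩ := nonempty_wed (kk O) (kk O)[G]
  obtain ⟨i, h⟩ := W.exists_sole hl
  refine (sole_five (p := p) h hk.le).elim (fun h1 => .inl (by rw [← h.card_eq h1, hk])) fun h1 => ?_
  obtain ⟨φ, d, R⟩ := exists_R1 hl
  have h2 := R.sum_sq
  have h3 : ∑ χ with χ ∈ irr β, d χ ^ 2 ≤ 11 := (sum_le_sum fun χ hχ => by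
    rw [sq]; exact Nat.mul_self_le_mul_self (d_le h R (mem_filter.1 hχ).2)).trans h1
  rw [card_eq_filter] at hk
  have h4 : ∀ χ ∈ univ.filter (· ∈ irr β), 1 ≤ d χ ^ 2 := fun χ hχ =>
    Nat.one_le_pow _ _ (R.pos χ (mem_filter.1 hχ).2)
  have h5 : ∀ χ ∈ univ.filter (· ∈ irr β), d χ ^ 2 ≡ 1 [MOD 3] := fun χ hχ => by
    have h6 := card_nsmul_le_sum _ _ 1 fun ξ (hξ : ξ ∈ (univ.filter (· ∈ irr β)).erase χ) =>
      h4 ξ (mem_of_mem_erase hξ)
    rw [card_erase_of_mem hχ, hk, smul_eq_mul] at h6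
    rw [← add_sum_erase _ _ hχ] at h3
    have h7 := R.pos χ (mem_filter.1 hχ).2
    have h8 : d χ < 3 := by nlinarith
    interval_cases d χ <;> rfl
  have h6 := card_nsmul_le_sum _ _ 1 h4
  have h7 : (∑ χ with χ ∈ irr β, d χ ^ 2) % 3 = 2 := by
    rw [sum_nat_mod, sum_congr rfl h5, sum_const, hk]; rfl
  rw [hk, smul_eq_mul] at h6
  omega

theorem orbit7 {T X : Type*} [Group T] [MulAction T X] [Finite X] (hX : Nat.card X = 8) {x0 : X}
    (h0 : ∀ t : T, t • x0 = x0) (hodd : ∀ x : X, Odd (MulAction.orbit T x).ncard)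
    (hfix : ∀ x ≠ x0, (MulAction.orbit T x).ncard ≠ 1) {x : X} (hx : x ≠ x0) :
    (MulAction.orbit T x).ncard = 7 := by
  have h1 : ∀ x ≠ x0, MulAction.orbit T x ⊆ {x0}ᶜ := fun x hx => by
    rintro _ ⟨t, rfl⟩ h
    exact hx (by rw [← h0 t⁻¹, ← show t • x = x0 from h, inv_smul_smul])
  have h2 : ({x0}ᶜ : Set X).ncard = 7 := by
    have := Set.ncard_add_ncard_compl ({x0} : Set X)
    rw [Set.ncard_singleton, hX] at this
    omega
  have h3 : ∀ x ≠ x0, 3 ≤ (MulAction.orbit T x).ncard := fun x hx => by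
    obtain ⟨m, hm⟩ := hodd x
    have := hfix x hx
    omega
  have h4 : ∀ S ⊆ ({x0}ᶜ : Set X), S.ncard ≠ 7 → ∃ y ≠ x0, y ∉ S := fun S hS h => by
    by_contra! h5
    exact h (by rw [← h2, Set.Subset.antisymm hS h5])
  have h5 : ∀ x y : X, y ∉ MulAction.orbit T x →
      Disjoint (MulAction.orbit T x) (MulAction.orbit T y) := fun x y h =>
    Set.disjoint_left.2 fun z h1 h2 => h (by
      rw [← MulAction.orbit_eq_iff.2 h1, MulAction.orbit_eq_iff.2 h2]
      exact MulAction.mem_orbit_self y)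
  by_contra h
  obtain ⟨y, hy, hy'⟩ := h4 _ (h1 x hx) h
  have e1 := Set.ncard_union_eq (h5 x y hy')
  obtain ⟨z, hz, hz'⟩ := h4 _ (Set.union_subset (h1 x hx) (h1 y hy)) (by
    obtain ⟨m, hm⟩ := hodd x
    obtain ⟨n, hn⟩ := hodd y
    omega)
  rw [Set.mem_union, not_or] at hz'
  have e2 := Set.ncard_union_eq (Set.disjoint_union_left.2 ⟨h5 x z hz'.1, h5 y z hz'.2⟩)
  have e3 := Set.ncard_le_ncard (Set.union_subset (Set.union_subset (h1 x hx) (h1 y hy)) (h1 z hz))
  have := h3 x hx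
  have := h3 y hy
  have := h3 z hz
  omega

theorem rank_le_three [CharP (kk O) 2] {u : G} (h1 : u ≠ 1) (hu : IsPElt 2 u)
    {γ : Blk O (centralizer ({u} : Set G))} (hd : 2 ^ blockDefect 2 (irr γ) = 8) :
    blockRank 2 (irr γ) ≤ 3 := by
  set u' : centralizer ({u} : Set G) := ⟨u, mem_centralizer_singleton_iff.2 rfl⟩
  have hc : zpowers u' ≤ center _ := zpowers_le.2 (mem_center_iff.2 fun c =>
    Subtype.ext (mem_centralizer_singleton_iff.1 c.2))
  have : (zpowers u').Normal := ⟨fun n hn g => by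
    rwa [mem_center_iff.1 (hc hn) g, mul_inv_cancel_right]⟩
  obtain ⟨m, hm⟩ := hu
  obtain ⟨b, h2, h3⟩ := H19.exists_dom_central (p := 2)
    (H19.IsPElt.isPGroup_zpowers ⟨m, (orderOf_coe u').symm.trans hm⟩) hc γ
  rw [Nat.card_zpowers, ← orderOf_coe u', hm, ← pow_add, hd, show 8 = 2 ^ 3 from rfl,
    Nat.pow_right_inj one_lt_two] at h3
  have h4 : m ≠ 0 := fun h => h1 (by simpa [h] using hm)
  rw [← h2]
  by_cases h0 : blockDefect 2 (irr b) = 0
  · rw [blockRank_of_defect h0]; omega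
  have h5 := H19.rank_lt_card h0
  have h6 := card_irr_le_of_defect (p := 2) (β := b) (by omega)
  have h7 : 2 ^ blockDefect 2 (irr b) ≤ 2 ^ 2 := Nat.pow_le_pow_right two_pos (by omega)
  omega

theorem not_ab8 [CharP (kk O) 2] {D : Subgroup G} (hD : H20.IsDef 2 ⊤ (eG β) D) (h8 : Nat.card D = 8)
    (hab : D ≤ cent D) (hl : blockRank 2 (irr β) = 1) (hk : Nat.card (irr β) = 5) : False := by
  classical
  obtain ⟨e, he⟩ := exists_max (isBlk_eG β) hD
  obtain ⟨b, S⟩ := H19.exists_SB he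
  have := Fintype.ofFinite D
  have h1 := S.card_of_ab hab
  have hE := he.not_dvd_TT hab
  have hcT : cent D ≤ TT D e := he.isPair.cent_le_TT
  have hc : ∀ u : D, cent D ≤ TT D e ⊓ centralizer {(u : G)} := fun u =>
    le_inf hcT fun x hx => mem_centralizer_singleton_iff.2 (mem_centralizer_iff.1 hx u u.2).symm
  have hcard : ∀ {A B : Subgroup G}, A ≤ B → Nat.card A * A.relIndex B = Nat.card B := fun h => by
    rw [← Nat.card_congr (subgroupOfEquivOfLe h).toEquiv]
    exact card_mul_index _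
  by_cases hz : ∃ z ∈ D, z ≠ 1 ∧ TT D e ≤ centralizer {z}
  · obtain ⟨z, hz, z1, z2, hT⟩ : ∃ z ∈ D, z ≠ 1 ∧ z * z = 1 ∧ TT D e ≤ centralizer {z} := by
      obtain ⟨z, hz, z1, hT⟩ := hz
      obtain ⟨m, hm⟩ := S.pelt hz
      obtain ⟨w, hw⟩ := exists_prime_orderOf_dvd_card' (G := zpowers z) 2 (by
        rw [Nat.card_zpowers, hm]
        exact dvd_pow_self 2 fun h => z1 (by simpa [h] using hm))
      rw [← orderOf_coe] at hw
      refine ⟨w, zpowers_le.2 hz w.2, fun h => by simp [h] at hw, by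
        rw [← sq, ← hw, pow_orderOf_eq_one], fun x hx => mem_centralizer_singleton_iff.2 ?_⟩
      obtain ⟨n, hn⟩ := mem_zpowers_iff.1 w.2
      rw [← hn]
      exact (Commute.zpow_right (mem_centralizer_singleton_iff.1 (hT hx)) n).eq
    have h2 : ∀ u ∈ D, blockRank 2 (irr (b u)) =
        H19.ark 2 (cent (zpowers u ⊔ zpowers z)) (bl 2 D e (zpowers u ⊔ zpowers z)) := fun u hu => by
      rw [S.rank_eq hu, H19.ark_sup he hab (zpowers_le.2 hu) hz (inf_le_right.trans hT)]
    have h3 : ∀ u, zpowers (u * z) ⊔ zpowers z = zpowers u ⊔ zpowers z := fun u =>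
      le_antisymm (sup_le (zpowers_le.2 (mul_mem_sup (mem_zpowers u) (mem_zpowers z))) le_sup_right)
        (sup_le (zpowers_le.2 (by
          simpa [mul_assoc, z2] using mul_mem_sup (mem_zpowers (u * z)) (mem_zpowers z)))
          le_sup_right)
    have h4 : ∀ u, TT D e ⊓ centralizer {u * z} = TT D e ⊓ centralizer {u} := fun u => by
      ext x
      refine and_congr_right fun hx => ?_
      have := mem_centralizer_singleton_iff.1 (hT hx)
      show x ∈ centralizer {u * z} ↔ x ∈ centralizer {u}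
      rw [mem_centralizer_singleton_iff, mem_centralizer_singleton_iff, mul_assoc, ← this,
        ← mul_assoc, ← mul_assoc, mul_left_inj]
    rw [← hcard hcT, sum_congr rfl fun u _ => by rw [← hcard (hc u), mul_assoc], ← mul_sum,
      mul_assoc, Nat.mul_right_inj Nat.card_pos.ne', hk] at h1
    have h5 : 2 ∣ (cent D).relIndex (TT D e) * 5 := by
      rw [← ZMod.natCast_eq_zero_iff, h1, Nat.cast_sum]
      refine sum_involution (fun u _ => u * ⟨z, hz⟩) (fun u _ => ?_) (fun u _ _ h => z1 ?_)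
        (fun _ _ => mem_univ _) fun u _ => Subtype.ext (by simp [mul_assoc, z2])
      · rw [Subgroup.coe_mul, h4, h2 _ (mul_mem u.2 hz), h3, ← h2 _ u.2]
        exact CharTwo.add_self_eq_zero _
      · simpa using congrArg Subtype.val h
    omega
  push Not at hz
  let φ : TT D e →* MulAut D := D.normalizerMonoidHom.comp (inclusion inf_le_left)
  let _ : MulAction (TT D e) D := MulAction.compHom D φ
  have hst : ∀ u : D, (MulAction.orbit (TT D e) u).ncard =
      (TT D e ⊓ centralizer {(u : G)}).relIndex (TT D e) := fun u => by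
    rw [← MulAction.index_stabilizer, relIndex]
    congr 1
    ext t
    rw [MulAction.mem_stabilizer_iff, mem_subgroupOf, Subgroup.mem_inf, and_iff_right t.2,
      mem_centralizer_singleton_iff, Subtype.ext_iff]
    exact mul_inv_eq_iff_eq_mul
  have h7 := fun (u : D) (hu : u ≠ 1) => orbit7 (T := TT D e) h8 (fun t => map_one (φ t))
    (fun u => by
      rw [hst, ← Nat.not_even_iff_odd, even_iff_two_dvd]
      exact fun h => hE (h.trans (relIndex_dvd_of_le_left _ (hc u))))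
    (fun u hu h => by
      rw [hst, relIndex_eq_one] at h
      exact hz u u.2 (by simpa using hu) (h.trans inf_le_right)) hu
  rw [← add_sum_erase _ _ (mem_univ 1), hk, OneMemClass.coe_one, S.rank_one, hl,
    show centralizer {(1 : G)} = ⊤ by ext; simp [mem_centralizer_singleton_iff], inf_top_eq] at h1
  have h9 := sum_le_card_nsmul (univ.erase (1 : D)) (fun u => 7 * (Nat.card (TT D e ⊓ centralizer
    {(u : G)} : Subgroup G) * blockRank 2 (irr (b u)))) (Nat.card (TT D e) * 3) fun u hu => by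
      have hu := ne_of_mem_erase hu
      have a1 := hcard (inf_le_left : TT D e ⊓ centralizer {(u : G)} ≤ _)
      rw [← hst, h7 u hu] at a1
      rw [← a1, ← mul_assoc, mul_comm 7]
      exact Nat.mul_le_mul_left _ (rank_le_three (by simpa using hu) (S.pelt u.2) (by
        rw [S.defect_eq u.2 fun x hx => mem_centralizer_singleton_iff.2
          (mem_centralizer_iff.1 (hab u.2) x hx), ← hD.card_eq_pow, h8]))
  rw [← mul_sum, card_erase_of_mem (mem_univ _), card_univ, ← Nat.card_eq_fintype_card, h8,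
    smul_eq_mul] at h9
  have : 0 < Nat.card (TT D e) := Nat.card_pos
  omega

theorem main {D : Subgroup G} (hD : H20.IsDef p ⊤ (eG β) D) (hl : blockRank p (irr β) = 1)
    (hk : Nat.card (irr β) = 5) : Nat.card D = 5 ∨ (Nat.card D = 8 ∧ ¬ IsMulCommutative D) := by
  have h1 := five_cases hl hk
  rw [← hD.card_eq_pow] at h1
  rcases h1 with h | h | h
  · exact .inl h
  · obtain rfl : p = 2 := (Nat.prime_dvd_prime_iff_eq hp.out Nat.prime_two).1
      (hp.out.dvd_of_dvd_pow (n := 3) (by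
        rw [show 2 ^ 3 = 8 from rfl, ← h, hD.card_eq_pow]
        exact dvd_pow_self p fun h0 => by simp [hD.card_eq_pow, h0] at h))
    exact .inr ⟨h, fun hc => not_ab8 hD h (Subgroup.le_centralizer D) hl hk⟩
  · obtain ⟨e, he⟩ := exists_max (isBlk_eG β) hD
    have : Fact (Nat.Prime 11) := ⟨by norm_num⟩
    have C : Cy p (eG β) D e := ⟨he, isCyclic_of_prime_card h, fun h0 => by simp [h0] at h⟩
    have h2 := C.card_IB
    rw [card_IB_top, ← C.blockRank, hl, hk, h] at h2
    omega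

end H19.CK
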