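import Cfsg.Agent.H25.B2g
import Cfsg.Agent.Lead.PH

/-! A module is not covered by the fixed spaces of one class inside an odd normal `p`-subgroup. -/

set_option autoImplicit false

namespace H19.Cov

open Subgroup MulAction Module H25 H25.B2 H15
open scoped Pointwise commutatorElement

universe u

theorem gluck' {G X : Type*} [Group G] [Finite G] [MulAction G X] [Finite X]
    (hG : Odd (Nat.card G)) : RS G X := by
  let e := Finite.equivFin X
  let f : G →* Equiv.Perm (Fin (Nat.card X)) :=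
    (e.permCongrHom).toMonoidHom.comp (toPermHom G X)
  obtain ⟨D, hD⟩ := gluck_odd (G := f.range) (X := Fin (Nat.card X)) (odd_range hG f)
  refine ⟨e ⁻¹' D, fun g hg x => e.injective ?_⟩
  have h : ∀ y, (⟨f g, g, rfl⟩ : f.range) • y = e (g • e.symm y) := fun y => rfl
  have := hD ⟨f g, g, rfl⟩ (fun y => by
    rw [h]; simpa using hg (e.symm y)) (e x)
  rwa [h, e.symm_apply_apply] at this

variable {G V : Type*} [Group G] [AddCommGroup V] [Finite V] [DistribMulAction G V]

/-- A normal abelian subgroup whose envelope is not a field gives an imprimitivity system. -/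
theorem exists_sys {F : Type} [Field F] [Module F V] (σ : G →* End F V)
    (hσ : ∀ g v, σ g v = g • v)
    (A : Subgroup G) [A.Normal] (hA : A ≤ centralizer (A : Set G)) {T : End F V}
    (hT : T ∈ envA σ A) (h0 : T ≠ 0) (hi : ¬ Function.Injective T) :
    ∃ W : AddSubgroup V, W ≠ ⊥ ∧ W ≠ ⊤ ∧ ∀ i : orbit G W, ∃ T : V →+ V,
      (∀ j : orbit G W, j ≠ i → ∀ x ∈ j.1, T x = 0) ∧ ∀ x ∈ i.1, T x = 0 → x = 0 := by
  classical
  have : Finite (AddSubgroup V) := Finite.of_injective _ SetLike.coe_injective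
  have comm : ∀ S ∈ envA σ A, ∀ S' ∈ envA σ A, S * S' = S' * S := fun S hS S' hS' =>
    envA_comm (fun n hn => (envA_comm (fun m hm => by
      rw [← map_mul, ← map_mul, hA hn m hm]) hS).symm) hS'
  let Q : AddSubgroup V → Prop := fun W => W ≠ ⊥ ∧
    ∀ v, (∀ S ∈ envA σ A, (∀ x ∈ W, S x = 0) → S v = 0) → v ∈ W
  obtain ⟨W, hWT, hW, hmin⟩ := exists_minimal_le_of_wellFoundedLT Q (LinearMap.ker T).toAddSubgroup
    ⟨fun e => hi (LinearMap.ker_eq_bot.1 ((Submodule.toAddSubgroup_injective (by simpa using e)))),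
      fun v hv => hv T hT fun x hx => hx⟩
  have hQ : ∀ (g : G) (X : AddSubgroup V), Q X → Q (g • X) := fun g X hX =>
    ⟨fun e => hX.1 ((AddSubgroup.eq_bot_iff_forall _).2 fun x hx => (smul_eq_zero_iff_eq g).1
      (AddSubgroup.mem_bot.1 (e ▸ AddSubgroup.smul_mem_pointwise_smul x g X hx))), fun v hv => by
      rw [AddSubgroup.mem_pointwise_smul_iff_inv_smul_mem]
      refine hX.2 _ fun S hS h => ?_
      have := hv _ (conj_mem_envA g hS) fun x hx => by
        rw [End.mul_apply, End.mul_apply, hσ g⁻¹,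
          h _ (AddSubgroup.mem_pointwise_smul_iff_inv_smul_mem.1 hx), map_zero]
      rw [End.mul_apply, End.mul_apply, hσ g⁻¹, hσ] at this
      exact (smul_eq_zero_iff_eq _).1 this⟩
  have hm : ∀ i : orbit G W, Q i.1 ∧ ∀ X, Q X → X ≤ i.1 → i.1 ≤ X := by
    rintro ⟨_, g, rfl⟩
    refine ⟨hQ g W hW, fun X hX h => ?_⟩
    have := hmin (hQ g⁻¹ X hX) (by
      have := AddSubgroup.pointwise_smul_le_pointwise_smul_iff (a := g⁻¹) |>.2 h
      rwa [inv_smul_smul] at this)
    have := AddSubgroup.pointwise_smul_le_pointwise_smul_iff (a := g) |>.2 this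
    rwa [smul_inv_smul] at this
  have inv : ∀ X, Q X → ∀ S ∈ envA σ A, ∀ x ∈ X, S x ∈ X := fun X hX S hS x hx =>
    hX.2 _ fun S' hS' h => by
      rw [← End.mul_apply, comm _ hS' _ hS, End.mul_apply, h x hx, map_zero]
  have pair : ∀ i j : orbit G W, j ≠ i → ∃ S ∈ envA σ A, (∀ x ∈ j.1, S x = 0) ∧
      ∀ x ∈ i.1, S x = 0 → x = 0 := fun i j hij => by
    obtain ⟨S, hS, s1, y, hy, s2⟩ : ∃ S ∈ envA σ A, (∀ x ∈ j.1, S x = 0) ∧ ∃ y ∈ i.1, S y ≠ 0 := by
      by_contra h
      push Not at h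
      have h1 : i.1 ≤ j.1 := fun y hy => (hm j).1.2 y fun S hS s => h S hS s y hy
      exact hij (Subtype.ext (le_antisymm ((hm j).2 _ (hm i).1 h1) h1))
    refine ⟨S, hS, s1, fun x hx e => by_contra fun hx0 => s2 ?_⟩
    exact ((hm i).2 (i.1 ⊓ (LinearMap.ker S).toAddSubgroup) ⟨fun e' => hx0
      (AddSubgroup.mem_bot.1 (e' ▸ (⟨hx, e⟩ : x ∈ i.1 ⊓ (LinearMap.ker S).toAddSubgroup))),
      fun v hv => ⟨(hm i).1.2 v fun S' hS' h => hv S' hS' fun x hx => h x hx.1,
        hv S hS fun x hx => hx.2⟩⟩ inf_le_left hy).2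
  refine ⟨W, hW.1, fun e => h0 (LinearMap.ext fun v => hWT (e ▸ trivial)), fun i => ?_⟩
  let := Fintype.ofFinite (orbit G W)
  suffices h : ∀ J : Finset (orbit G W), i ∉ J → ∃ S ∈ envA σ A, (∀ j ∈ J, ∀ x ∈ j.1, S x = 0) ∧
      ∀ x ∈ i.1, S x = 0 → x = 0 by
    obtain ⟨S, -, a, b⟩ := h (Finset.univ.erase i) (by simp)
    exact ⟨S.toAddMonoidHom, fun j hj => a j (by simpa using hj), b⟩
  intro J
  induction J using Finset.induction_on with
  | empty => exact fun _ => ⟨1, one_mem _, by simp, fun x _ e => e⟩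
  | insert j J _ ih =>
    intro hi
    rw [Finset.mem_insert, not_or] at hi
    obtain ⟨S, hS, a, b⟩ := ih hi.2
    obtain ⟨S', hS', a', b'⟩ := pair i j (Ne.symm hi.1)
    refine ⟨S * S', mul_mem hS hS', fun l hl x hx => ?_, fun x hx e =>
      b' x hx (b _ (inv _ (hm i).1 _ hS' x hx) e)⟩
    rcases Finset.mem_insert.1 hl with rfl | hl
    · rw [End.mul_apply, a' x hx, map_zero]
    · rw [comm _ hS _ hS', End.mul_apply, a l hl x hx, map_zero]

omit [Finite V] in
theorem span_of_irr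
    (hirr : ∀ U : AddSubgroup V, (∀ a : G, ∀ v ∈ U, a • v ∈ U) → U = ⊥ ∨ U = ⊤)
    {X Y : AddSubgroup V} (hX : X ≠ ⊥) (h : ∀ g : G, ∀ x ∈ X, g • x ∈ Y) (v : V) : v ∈ Y := by
  let Z : AddSubgroup V :=
    { carrier := {v | ∀ g : G, g • v ∈ Y}
      add_mem' := fun ha hb g => by rw [smul_add]; exact add_mem (ha g) (hb g)
      zero_mem' := fun g => by rw [smul_zero]; exact zero_mem _
      neg_mem' := fun ha g => by rw [smul_neg]; exact neg_mem (ha g) }
  rcases hirr Z (fun a v hv g => by rw [← mul_smul]; exact hv _) with e | e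
  · exact (hX (eq_bot_iff.2 (e ▸ fun x hx g => h g x hx))).elim
  · simpa using (e.ge (AddSubgroup.mem_top v)) 1

theorem imp [Finite G] (hirr : ∀ U : AddSubgroup V, (∀ a : G, ∀ v ∈ U, a • v ∈ U) → U = ⊥ ∨ U = ⊤)
    (P : Subgroup G) [hPn : P.Normal] (hP : Odd (Nat.card P))
    (W : AddSubgroup V) (h0 : W ≠ ⊥)
    (hsep : ∀ i : orbit G W, ∃ T : V →+ V, (∀ j : orbit G W, j ≠ i → ∀ x ∈ j.1, T x = 0) ∧
      ∀ x ∈ i.1, T x = 0 → x = 0)
    (ih : ∀ H : Subgroup G, (∀ h ∈ H, ∀ u ∈ W, h • u ∈ W) →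
      (∀ X ≤ W, (∀ h ∈ H, ∀ u ∈ X, h • u ∈ X) → X = ⊥ ∨ X = W) → ∀ a ∈ P, a ∈ H →
      (∃ v ∈ W, a • v ≠ v) → ∃ v ∈ W, ∀ h ∈ H, a • h • v ≠ h • v)
    {a : G} (ha : a ∈ P) (hav : ∃ v : V, a • v ≠ v) : ∃ v : V, ∀ g : G, a • g • v ≠ g • v := by
  classical
  let i0 : orbit G W := ⟨W, mem_orbit_self W⟩
  have mv : ∀ (g : G) (i : orbit G W), ∀ x ∈ i.1, g • x ∈ (g • i).1 := fun g i x hx =>
    AddSubgroup.smul_mem_pointwise_smul x g _ hx
  have hst : ∀ h ∈ stabilizer G i0, ∀ u ∈ W, h • u ∈ W := fun h hh u hu => by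
    have := mv h i0 u hu
    rwa [mem_stabilizer_iff.1 hh] at this
  have : Finite (AddSubgroup V) := Finite.of_injective _ SetLike.coe_injective
  let := Fintype.ofFinite (orbit G W)
  have htr : ∀ i : orbit G W, ∃ g : G, g • i0 = i := fun ⟨_, g, rfl⟩ => ⟨g, rfl⟩
  choose t ht using htr
  have tm : ∀ i, ∀ u ∈ W, t i • u ∈ i.1 := fun i u hu => by
    have := mv (t i) i0 u hu; rwa [ht] at this
  have uniq : ∀ (f : orbit G W → V), (∀ i, f i ∈ i.1) → ∀ h : G, h • ∑ i, f i = ∑ i, f i →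
      ∀ i, h • f i = f (h • i) := fun f hf h e i => by
    obtain ⟨T, t1, t2⟩ := hsep (h • i)
    rw [Finset.smul_sum, ← Equiv.sum_comp (MulAction.toPerm h) f, ← sub_eq_zero,
      ← Finset.sum_sub_distrib] at e
    have := congrArg T e
    simp only [toPerm_apply] at this
    rw [map_sum, map_zero, Finset.sum_eq_single i (fun j _ hj => t1 (h • j)
      (fun e => hj (MulAction.injective h e)) _ (sub_mem (mv h j _ (hf j)) (hf _))) (by simp)] at this
    exact sub_eq_zero.1 (t2 _ (sub_mem (mv h i _ (hf i)) (hf _)) this)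
  by_cases hfix : ∀ i : orbit G W, a • i = i
  · obtain ⟨s, u, hu, hsu⟩ : ∃ s : G, ∃ u ∈ W, a • s • u ≠ s • u := by
      by_contra h
      push Not at h
      obtain ⟨v, hv⟩ := hav
      exact hv (span_of_irr hirr (Y := fx V a) h0 h v)
    have hb : s⁻¹ * a * s ∈ stabilizer G i0 := by
      rw [mem_stabilizer_iff, mul_smul, mul_smul, hfix, inv_smul_smul]
    obtain ⟨v0, hv0, hv⟩ := ih (stabilizer G i0) hst (fun X hX hX' => by
      refine or_iff_not_imp_left.2 fun hX0 => le_antisymm hX fun y hy => ?_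
      obtain ⟨T, t1, t2⟩ := hsep i0
      obtain ⟨x, hx, z, hz, rfl⟩ := AddSubgroup.mem_sup.1
        (span_of_irr hirr (Y := X ⊔ T.ker) hX0 (fun g x hx => by
          by_cases hg : g ∈ stabilizer G i0
          · exact AddSubgroup.mem_sup_left (hX' g hg x hx)
          · exact AddSubgroup.mem_sup_right (t1 _ hg _ (mv g i0 x (hX hx)))) y)
      rwa [t2 z (by simpa using sub_mem hy (hX hx)) hz, add_zero]) (s⁻¹ * a * s)
      (by simpa using hPn.conj_mem a ha s⁻¹) hb
      ⟨u, hu, by rw [mul_smul, mul_smul, Ne, inv_smul_eq_iff]; exact hsu⟩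
    refine ⟨∑ i, t i • v0, fun g e => ?_⟩
    have h1 := uniq _ (fun i => tm i v0 hv0) (g⁻¹ * a * g)
      (by rw [mul_smul, mul_smul, e, inv_smul_smul]) ((g⁻¹ * s) • i0)
    rw [mul_smul _ g ((g⁻¹ * s) • i0), mul_smul g⁻¹ a (g • _), hfix, inv_smul_smul] at h1
    refine hv ((g⁻¹ * s)⁻¹ * t ((g⁻¹ * s) • i0)) (by
      rw [mem_stabilizer_iff, mul_smul, ht, inv_smul_smul]) ?_
    rw [mul_smul (g⁻¹ * s)⁻¹, ← mul_smul (s⁻¹ * a * s), eq_inv_smul_iff, ← mul_smul, ← h1]
    congr 1
    group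
  · obtain ⟨D, hD⟩ := gluck' (G := P) (X := orbit G W) hP
    obtain ⟨u0, hu0, hu0'⟩ : ∃ u ∈ W, u ≠ 0 := by
      by_contra h; push Not at h; exact h0 ((AddSubgroup.eq_bot_iff_forall _).2 h)
    refine ⟨∑ i, if i ∈ D then t i • u0 else 0, fun g e => hfix fun i => ?_⟩
    have h1 := uniq (fun i => if i ∈ D then t i • u0 else 0) (fun i => by
      split_ifs
      exacts [tm i u0 hu0, zero_mem _]) (g⁻¹ * a * g)
      (by rw [mul_smul, mul_smul, e, inv_smul_smul])
    have h2 := hD ⟨g⁻¹ * a * g, by simpa using hPn.conj_mem a ha g⁻¹⟩ (fun j => by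
      have := h1 j
      change (g⁻¹ * a * g) • j ∈ D ↔ _
      by_cases h3 : j ∈ D <;> by_cases h4 : (g⁻¹ * a * g) • j ∈ D <;>
        simp_all [smul_eq_zero_iff_eq, eq_comm (a := (0 : V))]) (g⁻¹ • i)
    change (g⁻¹ * a * g) • g⁻¹ • i = _ at h2
    rw [mul_smul, mul_smul, smul_inv_smul] at h2
    exact MulAction.injective g⁻¹ h2

theorem num (d : ℕ) : d ^ 9 < 8 * 16 ^ d := by
  have : ∀ k, (k + 3) ^ 9 < 8 * 16 ^ (k + 3) := by
    intro k
    induction k with
    | zero => norm_num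
    | succ k ih =>
      have h1 : 3 * (k + 1 + 3) ≤ 4 * (k + 3) := by omega
      have h2 := Nat.pow_le_pow_left h1 9
      rw [mul_pow, mul_pow] at h2
      have e : 16 ^ (k + 1 + 3) = 16 * 16 ^ (k + 3) := by ring
      rw [e]
      generalize 16 ^ (k + 3) = A at *
      generalize (k + 3) ^ 9 = B at *
      generalize (k + 1 + 3) ^ 9 = C at *
      omega
  rcases Nat.lt_or_ge d 3 with h | h
  · interval_cases d <;> norm_num
  · obtain ⟨k, rfl⟩ := Nat.exists_eq_add_of_le' h
    exact this k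

theorem heis' {K : Type*} [Field K] [Module K V] [Nontrivial V] [Finite G]
    (κ : center G →* Kˣ) (hκ : Function.Injective κ)
    (hz : ∀ (z : center G) (v : V), z.1 • v = (κ z : K) • v)
    (hl : ∀ (g : G) (k : K) (v : V), g • k • v = k • g • v)
    (hc : ∀ x y : G, ⁅x, y⁆ ∈ center G) : (center G).index ≤ finrank K V ^ 2 := by
  let L : G → End K V := fun x =>
    { toFun := fun v => x • v, map_add' := smul_add x, map_smul' := hl x }
  have hli := indep_of_chars (fun y : G => LinearMap.mulLeftRight K (L y, L y⁻¹))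
    (fun a : G ⧸ center G => L a.out) (fun a y => (κ ⟨_, hc a.out y⟩⁻¹ : K)) (fun a e => by
      obtain ⟨v, hv⟩ := exists_ne (0 : V)
      exact hv ((smul_eq_zero_iff_eq a.out).1 (DFunLike.congr_fun e v))) (fun a y => by
      ext v
      show y • a.out • y⁻¹ • v = (κ ⟨_, hc a.out y⟩⁻¹ : K) • a.out • v
      rw [← hz, ← mul_smul, ← mul_smul, ← mul_smul]
      congr 1
      show _ = ⁅a.out, y⁆⁻¹ * a.out
      rw [commutatorElement_def]; group) fun a b e => by
      rw [← a.out_eq', ← b.out_eq', QuotientGroup.eq, mem_center_iff]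
      intro u
      exact inv_mul_mem_cent (U := ⊤) (fun u _ => congrArg Subtype.val
        (inv_injective (hκ (Units.ext (congrFun e u))))) u trivial
  let := Fintype.ofFinite (G ⧸ center G)
  have := hli.fintype_card_le_finrank
  rwa [finrank_linearMap, ← sq, ← Nat.card_eq_fintype_card] at this

/-- The count for a class two `p`-group whose centre acts by scalars. -/
theorem count {K : Type*} [Field K] [Module K V] [Nontrivial V] [Finite G] {p : ℕ}
    [hp : Fact p.Prime] (hp2 : p ≠ 2) (hG : IsPGroup p G)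
    (κ : center G →* Kˣ) (hκ : Function.Injective κ)
    (hz : ∀ (z : center G) (v : V), z.1 • v = (κ z : K) • v)
    (hl : ∀ (g : G) (k : K) (v : V), g • k • v = k • g • v)
    (hc : ∀ x y : G, ⁅x, y⁆ ∈ center G) :
    ∃ v : V, ∀ x : G, x ≠ 1 → x ^ p = 1 → x • v ≠ v := by
  classical
  by_contra hcon
  push Not at hcon
  have := Fintype.ofFinite G
  have := Fintype.ofFinite V
  obtain ⟨n, hn⟩ := hG.exists_card_eq
  have hodd : Odd (Nat.card G) := hn ▸ (hp.out.odd_of_ne_two hp2).pow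
  let S : Finset G := Finset.univ.filter fun x => x ^ p = 1 ∧ x ∉ center G
  obtain ⟨v0, hv0⟩ := exists_ne (0 : V)
  have hS : ∀ v : V, v ≠ 0 → ∀ x : G, x ≠ 1 → x ^ p = 1 → x • v = v → x ∈ S :=
    fun v hv x h1 h2 h3 => Finset.mem_filter.2 ⟨Finset.mem_univ _, h2, fun h =>
      hv (AddSubgroup.mem_bot.1 (fx_bot κ hκ hz h h1 ▸ mem_fx.2 h3))⟩
  have h2 : ∀ v : V, 2 ≤ (S.filter fun x => x • v = v).card := fun v => by
    obtain ⟨x, hx, h1, h3⟩ : ∃ x ∈ S, x ≠ 1 ∧ x • v = v := by
      by_cases hv : v = 0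
      · obtain ⟨x, h1, h2, h3⟩ := hcon v0
        exact ⟨x, hS v0 hv0 x h1 h2 h3, h1, by rw [hv, smul_zero]⟩
      · obtain ⟨x, h1, h2, h3⟩ := hcon v
        exact ⟨x, hS v hv x h1 h2 h3, h1, h3⟩
    have hx' := (Finset.mem_filter.1 hx).2
    refine Finset.one_lt_card.2 ⟨x, Finset.mem_filter.2 ⟨hx, h3⟩, x⁻¹, Finset.mem_filter.2
      ⟨Finset.mem_filter.2 ⟨Finset.mem_univ _, by rw [inv_pow, hx'.1, inv_one],
        fun h => hx'.2 (inv_mem_iff.1 h)⟩, inv_smul_eq_iff.2 h3.symm⟩, fun e => h1 ?_⟩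
    have : x • (1 : G) = 1 := odd_fix hodd (by
      simp only [smul_eq_mul, mul_one]; exact mul_eq_one_iff_eq_inv.2 e)
    simpa using this
  have hne : S.Nonempty := by
    obtain ⟨x, h1, h2, h3⟩ := hcon v0
    exact ⟨x, hS v0 hv0 x h1 h2 h3⟩
  obtain ⟨x0, hx0, hmax⟩ := S.exists_max_image (fun x => Nat.card (fx V x)) hne
  have hcube : Nat.card (fx V x0) ^ 3 ≤ Nat.card V := by
    obtain ⟨y, hy⟩ : ∃ y : G, ⁅x0, y⁆ ≠ 1 := by
      by_contra h; push Not at h
      exact (Finset.mem_filter.1 hx0).2.2 (mem_center_iff.2 fun y =>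
        (commutatorElement_eq_one_iff_mul_comm.1 (h y)).symm)
    exact fx_cube κ hκ hz (fun g _ => hl g) hodd (fun z hz => (mem_center_iff.1 hz x0).symm)
      (fun z hz => (mem_center_iff.1 hz y).symm) (hc x0 y) hy
  have hsum : 2 * Nat.card V ≤ S.card * Nat.card (fx V x0) := by
    calc 2 * Nat.card V = ∑ _v : V, 2 := by simp [mul_comm]
      _ ≤ ∑ v : V, (S.filter fun x => x • v = v).card := Finset.sum_le_sum fun v _ => h2 v
      _ = ∑ x ∈ S, (Finset.univ.filter fun v : V => x • v = v).card := by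
        simp only [Finset.card_filter]; exact Finset.sum_comm
      _ ≤ ∑ _x ∈ S, Nat.card (fx V x0) := Finset.sum_le_sum fun x hx => by
        refine le_trans (le_of_eq ?_) (hmax x hx)
        rw [Nat.card_eq_fintype_card, Fintype.card_subtype]; rfl
      _ = _ := by simp
  have hcyc : IsCyclic (center G) := isCyclic_of_injective_ringHom
    ((Units.coeHom K).comp κ) (Units.val_injective.comp hκ)
  have hSc : S.card ≤ p * (center G).index := by
    have := Fintype.ofFinite (G ⧸ center G)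
    refine (Finset.card_le_mul_card_image (f := fun x : G => (x : G ⧸ center G)) S p ?_).trans ?_
    · intro b hb
      obtain ⟨x, hx, rfl⟩ := Finset.mem_image.1 hb
      refine le_trans ?_ (IsCyclic.card_pow_eq_one_le (α := center G) hp.out.pos)
      refine Finset.card_le_card_of_injOn
        (fun y => if h : x⁻¹ * y ∈ center G then ⟨_, h⟩ else 1) (fun y hy => ?_) ?_
      · have hy' := Finset.mem_filter.1 hy
        have h1 : x⁻¹ * y ∈ center G := QuotientGroup.eq.1 hy'.2.symm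
        simp only [Finset.coe_filter, Finset.mem_univ, true_and, Set.mem_ofPred_eq, dif_pos h1]
        apply Subtype.ext
        have c : Commute x (x⁻¹ * y) := mem_center_iff.1 h1 x
        have := c.mul_pow p
        rw [mul_inv_cancel_left, (Finset.mem_filter.1 hy'.1).2.1, (Finset.mem_filter.1 hx).2.1,
          one_mul] at this
        exact this.symm
      · intro y hy y' hy' e
        have h1 : x⁻¹ * y ∈ center G := QuotientGroup.eq.1 (Finset.mem_filter.1 hy).2.symm
        have h2 : x⁻¹ * y' ∈ center G := QuotientGroup.eq.1 (Finset.mem_filter.1 hy').2.symm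
        simp only [dif_pos h1, dif_pos h2, Subtype.mk.injEq] at e
        exact mul_left_cancel e
    · exact Nat.mul_le_mul_left _ ((Finset.card_le_univ _).trans_eq Nat.card_eq_fintype_card.symm)
  have hh := heis' κ hκ hz hl hc
  have hp2' : p ^ 2 ≤ (center G).index := by
    obtain ⟨k, hk⟩ := (hG.to_quotient (center G)).exists_card_eq
    have hk' : (center G).index = p ^ k := hk
    rw [hk']
    refine Nat.pow_le_pow_right hp.out.pos (by_contra fun h => ?_)
    have : IsCyclic (G ⧸ center G) := by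
      have : k = 0 ∨ k = 1 := by omega
      rcases this with rfl | rfl
      · have : Subsingleton (G ⧸ center G) := (Nat.card_eq_one_iff_unique.1 hk).1
        infer_instance
      · exact isCyclic_of_prime_card (p := p) (by rw [hk, pow_one])
    exact (Finset.mem_filter.1 hx0).2.2 (mem_center_iff.2 fun y =>
      (MonoidHom.isMulCommutative_of_isCyclic_of_ker_le_center (QuotientGroup.mk' (center G))
        (by rw [QuotientGroup.ker_mk'])).1.1 y x0)
  have hpd : p ≤ finrank K V := (Nat.pow_le_pow_iff_left two_ne_zero).1 (hp2'.trans hh)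
  have : Finite K := finite_scalars K V
  have hN : Nat.card V = Nat.card K ^ finrank K V := natCard_eq_pow_finrank
  have hw : 4 ≤ Nat.card K := by
    have h1 := Nat.card_le_card_of_injective κ hκ
    rw [Nat.card_units] at h1
    have : Nontrivial G := ⟨x0, 1, fun e => (Finset.mem_filter.1 hx0).2.2 (e ▸ one_mem _)⟩
    have := hG.center_nontrivial
    obtain ⟨k, hk0, hk⟩ := (hG.to_subgroup (center G)).nontrivial_iff_card.1 inferInstance
    have h3 : p ≤ p ^ k := Nat.le_self_pow hk0.ne' p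
    have := hp.out.two_le
    omega
  set d := finrank K V
  have h16 : 16 ^ d ≤ Nat.card V ^ 2 := by
    rw [hN, ← pow_mul, mul_comm, pow_mul]
    exact Nat.pow_le_pow_left (by nlinarith) d
  have hS3 : S.card ≤ d ^ 3 := hSc.trans (by
    rw [pow_succ' d 2]; exact Nat.mul_le_mul hpd hh)
  have h8 := Nat.pow_le_pow_left (hsum.trans (Nat.mul_le_mul_right _ hS3)) 3
  rw [mul_pow, mul_pow, ← pow_mul] at h8
  have h9 := num d
  have hV : 0 < Nat.card V := Nat.card_pos
  have : 2 ^ 3 * Nat.card V ^ 3 ≤ d ^ 9 * Nat.card V := h8.trans (Nat.mul_le_mul_left _ hcube)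
  nlinarith

theorem class_two [Finite G] {p : ℕ} [hp : Fact p.Prime] (hp2 : p ≠ 2) (hG : IsPGroup p G)
    (hs : ∀ A : Subgroup G, A.Characteristic → IsMulCommutative A → IsCyclic A) (x y : G) :
    ⁅x, y⁆ ∈ center G := by
  obtain ⟨R, E, hc, htop, hE, hR⟩ := Lead.PH.main hG hs
  have hR := hR.resolve_right fun h => hp2 h.1
  have cen : ∀ z : G, (∀ e ∈ E, e * z = z * e) → (∀ r ∈ R, r * z = z * r) → z ∈ center G :=
    fun z h1 h2 => mem_center_iff.2 fun g => by
      have : E ⊔ R ≤ centralizer {z} := sup_le (fun e he => mem_centralizer_singleton_iff.2 (h1 e he))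
        fun e he => mem_centralizer_singleton_iff.2 (h2 e he)
      exact mem_centralizer_singleton_iff.1 (this (htop ▸ mem_top g))
  have hRZ : R ≤ center G := fun r hr => cen r (fun e he => hc e he r hr) fun s hs =>
    congrArg Subtype.val (hR.commGroup.mul_comm ⟨s, hs⟩ ⟨r, hr⟩)
  have : R.Normal := ⟨fun u hu g => by
      rwa [mem_center_iff.1 (hRZ hu) g, mul_inv_cancel_right]⟩
  have dec : ∀ g : G, ∃ e ∈ E, ∃ r ∈ R, e * r = g := fun g => by
    have : g ∈ ((E ⊔ R : Subgroup G) : Set G) := htop ▸ mem_top g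
    rwa [mul_normal] at this
  obtain ⟨e, he, r, hr, rfl⟩ := dec x
  obtain ⟨f, hf, s, hs, rfl⟩ := dec y
  have e1 : ⁅e * r, f * s⁆ = ⁅e, f⁆ := by
    have a := mem_center_iff.1 (hRZ hr)
    have b := mem_center_iff.1 (hRZ hs)
    simp only [commutatorElement_def, mul_inv_rev]
    calc _ = e * (r * (f * s) * r⁻¹) * (e⁻¹ * s⁻¹) * f⁻¹ := by group
      _ = e * (f * s) * (s⁻¹ * e⁻¹) * f⁻¹ := by
        rw [← a, mul_inv_cancel_right, mem_center_iff.1 (inv_mem (hRZ hs)) e⁻¹]
      _ = _ := by group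
  rw [e1]
  rcases hE with rfl | hE
  · rw [mem_bot.1 he, commutatorElement_one_left]; exact one_mem _
  have h1 : ⁅(⟨e, he⟩ : E), ⟨f, hf⟩⁆ ∈ center E :=
    hE.1.2.2 ▸ commutator_mem_commutator trivial trivial
  exact cen _ (fun g hg => congrArg Subtype.val (mem_center_iff.1 h1 ⟨g, hg⟩))
    fun r hr => (mem_center_iff.1 (hRZ hr) _).symm

theorem main {p q : ℕ} [hp : Fact p.Prime] [hq : Fact q.Prime] (hp2 : p ≠ 2) (n : ℕ) :
    ∀ (G V : Type u) [Group G] [Finite G] [AddCommGroup V] [Finite V] [DistribMulAction G V],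
    Nat.card V = n → (∀ v : V, q • v = 0) →
    (∀ U : AddSubgroup V, (∀ a : G, ∀ v ∈ U, a • v ∈ U) → U = ⊥ ∨ U = ⊤) →
    ∀ P : Subgroup G, P.Normal → IsPGroup p P → ∀ a ∈ P, (∃ v : V, a • v ≠ v) →
    ∃ v : V, ∀ g : G, a • g • v ≠ g • v := by
  induction n using Nat.strong_induction_on with
  | _ n ih =>
  suffices key : ∀ (G V : Type u) [Group G] [Finite G] [AddCommGroup V] [Finite V]
      [DistribMulAction G V] [FaithfulSMul G V], Nat.card V = n → (∀ v : V, q • v = 0) →
      (∀ U : AddSubgroup V, (∀ a : G, ∀ v ∈ U, a • v ∈ U) → U = ⊥ ∨ U = ⊤) →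
      ∀ P : Subgroup G, P.Normal → IsPGroup p P → ∀ a ∈ P, (∃ v : V, a • v ≠ v) →
      ∃ v : V, ∀ g : G, a • g • v ≠ g • v by
    intro G V _ _ _ _ _ hn hqV hirr P hPn hP a ha hav
    obtain ⟨v, hv⟩ := key (toPermHom G V).range V hn hqV
      (fun U hU => hirr U fun a => hU ⟨_, a, rfl⟩) (P.map (toPermHom G V).rangeRestrict)
      (hPn.map _ (toPermHom G V).rangeRestrict_surjective) (hP.map _) _ (mem_map_of_mem _ ha) hav
    exact ⟨v, fun g => hv ⟨_, g, rfl⟩⟩
  intro G V _ _ _ _ _ _ hn hqV hirr P hPn hP a ha hav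
  by_contra hb
  have : Nontrivial V := by
    obtain ⟨v, hv⟩ := hav
    exact ⟨_, _, hv⟩
  obtain ⟨_⟩ : Nonempty (Module (ZMod q) V) := ⟨AddCommGroup.zmodModule hqV⟩
  have : SMulCommClass G (ZMod q) V :=
    ⟨fun g c v => ZMod.map_smul (DistribSMul.toAddMonoidHom V g) c v⟩
  let σ : G →* End (ZMod q) V := DistribMulAction.toModuleEnd (ZMod q) V
  have hσ : Function.Injective σ := fun a b e =>
    eq_of_smul_eq_smul (α := V) (DFunLike.congr_fun e)
  obtain ⟨m, hm⟩ := hP.exists_card_eq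
  have hodd : Odd (Nat.card P) := hm ▸ (hp.out.odd_of_ne_two hp2).pow
  have field : ∀ A : Subgroup G, A.Normal → A ≤ centralizer (A : Set G) →
      ∀ T : End (ZMod q) V, T ∈ envA σ A → T ≠ 0 → Function.Injective T :=
      fun A _ hA T hT h0 => by_contra fun hi => by
    obtain ⟨W, w0, w1, hsep⟩ := exists_sys σ (fun _ _ => rfl) A hA hT h0 hi
    refine hb (imp hirr P hodd W w0 hsep (fun H hU hX b hb hbH hbv => ?_) ha hav)
    let : DistribMulAction H W :=
      { smul := fun h u => ⟨h.1 • u.1, hU _ h.2 _ u.2⟩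
        one_smul := fun u => Subtype.ext (one_smul G u.1)
        mul_smul := fun a b u => Subtype.ext (mul_smul a.1 b.1 u.1)
        smul_zero := fun a => Subtype.ext (smul_zero a.1)
        smul_add := fun a u v => Subtype.ext (smul_add a.1 u.1 v.1) }
    obtain ⟨v, hv⟩ := ih (Nat.card W)
      (hn ▸ Set.ncard_lt_card (s := (W : Set V)) fun e => w1 (SetLike.coe_injective e)) H W rfl
      (fun v => Subtype.ext (hqV v.1)) (fun X hX' => by
        rcases hX (X.map W.subtype) (AddSubgroup.map_subtype_le X) (by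
          rintro h hh _ ⟨x, hx, rfl⟩
          exact ⟨_, hX' ⟨h, hh⟩ x hx, rfl⟩) with e | e
        · left
          apply AddSubgroup.map_injective W.subtype_injective
          rw [e, AddSubgroup.map_bot]
        · right
          apply AddSubgroup.map_injective W.subtype_injective
          rw [e, ← AddMonoidHom.range_eq_map, AddSubgroup.range_subtype])
      (P.subgroupOf H) inferInstance (hP.comap_subtype) ⟨b, hbH⟩ hb (by
        obtain ⟨v, hv, h⟩ := hbv
        exact ⟨⟨v, hv⟩, fun e => h (congrArg Subtype.val e)⟩)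
    exact ⟨v, v.2, fun h hh e => hv ⟨h, hh⟩ (Subtype.ext e)⟩
  have hcm : ∀ A : Subgroup P, IsMulCommutative A →
      A.map P.subtype ≤ centralizer (A.map P.subtype : Set G) := by
    rintro A hA _ ⟨x, hx, rfl⟩ _ ⟨y, hy, rfl⟩
    exact congrArg (fun z : A => (z.1.1 : G)) (hA.1.1 ⟨y, hy⟩ ⟨x, hx⟩)
  have hc := class_two hp2 hP fun A hA hA' => by
    obtain ⟨K, _, _, _, _, hK⟩ := exists_scalar_field (envA σ (A.map P.subtype))
      (field _ inferInstance (hcm A hA'))
    have hK' : ScalF K σ (A.map P.subtype) := hK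
    have := hK'.isCyclic hσ
    exact isCyclic_of_surjective _ (A.equivMapOfInjective _ P.subtype_injective).symm.surjective
  obtain ⟨K, _, _, _, _, hK⟩ := exists_scalar_field (envA σ ((center P).map P.subtype))
    (field _ inferInstance (hcm _ inferInstance))
  have hK' : ScalF K σ ((center P).map P.subtype) := hK
  obtain ⟨κ, hκ, hz⟩ := hK'.exists_units hσ
  let e := (center P).equivMapOfInjective _ P.subtype_injective
  obtain ⟨v, hv⟩ := count (G := P) (V := V) hp2 hP (κ.comp e.toMonoidHom) (hκ.comp e.injective)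
    (fun z v => hz (e z) v) (fun g => hK'.map_smul (g := g.1) (by
      rintro _ ⟨z, hz, rfl⟩
      exact congrArg Subtype.val (mem_center_iff.1 hz g).symm)) hc
  refine hb ⟨v, fun g h => ?_⟩
  let c : P := ⟨g⁻¹ * a * g, by simpa using hPn.conj_mem a ha g⁻¹⟩
  have hc1 : c ≠ 1 := fun e => by
    have : g⁻¹ * a * g = 1 := congrArg Subtype.val e
    rw [mul_assoc, inv_mul_eq_one, eq_comm, mul_eq_right] at this
    obtain ⟨v, hv⟩ := hav
    exact hv (by rw [this, one_smul])
  have hcv : c ∈ stabilizer P v := by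
    change (g⁻¹ * a * g) • v = v
    rw [mul_smul, mul_smul, h, inv_smul_smul]
  obtain ⟨k, hk⟩ := hP.exists_orderOf_eq_pow c
  have hd : p ∣ orderOf c := by
    rw [hk]; exact dvd_pow_self p fun e => hc1 (orderOf_eq_one_iff.1 (by rw [hk, e, pow_zero]))
  have ho := orderOf_pow_orderOf_div (orderOf_pos c).ne' hd
  refine hv (c ^ (orderOf c / p)) (fun e => ?_) (orderOf_dvd_iff_pow_eq_one.1 ho.dvd) (pow_mem hcv _)
  rw [e, orderOf_one] at ho
  exact hp.out.one_lt.ne ho

end H19.Cov
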