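import Mathlib

set_option autoImplicit false

/-! Nondegenerate cocycles and Gagola's wreath construction. -/

namespace H19.Gg

universe u

/-- A normalised nondegenerate 2-cocycle. -/
structure Coc (Γ : Type u) [Group Γ] (A : Type) [CommGroup A] where
  c : Γ → Γ → A
  one_left : ∀ g, c 1 g = 1
  one_right : ∀ g, c g 1 = 1
  assoc : ∀ g h k, c g h * c (g * h) k = c h k * c g (h * k)
  nd : ∀ g, g ≠ 1 → ∃ h, g * h = h * g ∧ c g h ≠ c h g

variable {Γ : Type u} [Group Γ] {A : Type} [CommGroup A]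

/-- The twisted product. -/
@[ext] structure Tw (κ : Coc Γ A) where
  a : A
  g : Γ

namespace Tw
variable {κ : Coc Γ A}

instance : Mul (Tw κ) := ⟨fun x y => ⟨x.a * y.a * κ.c x.g y.g, x.g * y.g⟩⟩
instance : One (Tw κ) := ⟨⟨1, 1⟩⟩
instance : Inv (Tw κ) := ⟨fun x => ⟨x.a⁻¹ * (κ.c x.g⁻¹ x.g)⁻¹, x.g⁻¹⟩⟩

@[simp] theorem mul_a (x y : Tw κ) : (x * y).a = x.a * y.a * κ.c x.g y.g := rfl
@[simp] theorem mul_g (x y : Tw κ) : (x * y).g = x.g * y.g := rfl
@[simp] theorem one_a : (1 : Tw κ).a = 1 := rfl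
@[simp] theorem one_g : (1 : Tw κ).g = 1 := rfl
theorem inv_a (x : Tw κ) : (x⁻¹).a = x.a⁻¹ * (κ.c x.g⁻¹ x.g)⁻¹ := rfl
@[simp] theorem inv_g (x : Tw κ) : (x⁻¹).g = x.g⁻¹ := rfl

instance : Group (Tw κ) := Group.ofLeftAxioms
  (fun x y z => by
    ext
    · simp only [mul_a, mul_g]
      have := κ.assoc x.g y.g z.g
      calc _ = x.a * y.a * z.a * (κ.c x.g y.g * κ.c (x.g * y.g) z.g) := by ac_rfl
        _ = _ := by rw [this]; ac_rfl
    · simp [mul_assoc])
  (fun x => by ext <;> simp [κ.one_left])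
  (fun x => by
    ext
    · simp only [mul_a, inv_a, inv_g, one_a]
      rw [mul_right_comm _ x.a, inv_mul_cancel_right, inv_mul_cancel]
    · simp)

/-- Underlying set. -/
def equiv (κ : Coc Γ A) : Tw κ ≃ A × Γ := ⟨fun x => (x.a, x.g), fun y => ⟨y.1, y.2⟩,
  fun _ => rfl, fun _ => rfl⟩

/-- Projection. -/
def pr (κ : Coc Γ A) : Tw κ →* Γ := ⟨⟨fun x => x.g, rfl⟩, fun _ _ => rfl⟩

/-- Inclusion. -/
def inc (κ : Coc Γ A) : A →* Tw κ where
  toFun a := ⟨a, 1⟩
  map_one' := rfl
  map_mul' a b := by ext <;> simp [κ.one_left]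

theorem inc_inj : Function.Injective (inc κ) := fun _ _ h => congrArg Tw.a h

theorem mem_center {x : Tw κ} : x ∈ Subgroup.center (Tw κ) ↔ x.g = 1 := by
  rw [Subgroup.mem_center_iff]
  constructor
  · intro h
    by_contra hx
    obtain ⟨k, -, hk⟩ := κ.nd _ hx
    have := congrArg Tw.a (h ⟨1, k⟩)
    simp at this
    exact hk this.symm
  · intro h y
    ext
    · simp [h, κ.one_left, κ.one_right, mul_comm]
    · simp [h]

theorem center_eq_ker : Subgroup.center (Tw κ) = (pr κ).ker := by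
  ext x; rw [mem_center, MonoidHom.mem_ker]; rfl

theorem center_eq_range : Subgroup.center (Tw κ) = (inc κ).range := by
  ext x; rw [mem_center]
  constructor
  · intro h; exact ⟨x.a, by ext <;> simp [inc, h]⟩
  · rintro ⟨a, rfl⟩; rfl

theorem pr_surj : Function.Surjective (pr κ) := fun g => ⟨⟨1, g⟩, rfl⟩

theorem conj_of {x : Tw κ} (hx : x ∉ Subgroup.center (Tw κ)) :
    ∃ y : Tw κ, ∃ a : A, a ≠ 1 ∧ y * x * y⁻¹ = inc κ a * x := by
  obtain ⟨k, h1, hk⟩ := κ.nd _ (mt mem_center.2 hx)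
  refine ⟨⟨1, k⟩, κ.c k x.g * (κ.c x.g k)⁻¹, fun h => hk (mul_inv_eq_one.1 h).symm, ?_⟩
  rw [mul_inv_eq_iff_eq_mul]
  ext
  · simp only [mul_a, mul_g, inc, MonoidHom.coe_mk, OneHom.coe_mk, κ.one_left, one_mul, mul_one]
    rw [mul_right_comm _ x.a, inv_mul_cancel_right, mul_comm]
  · simp [inc, h1]

end Tw

/-- `(Γ ≀ C_p) × C_p`. -/
@[ext] structure W (Γ : Type u) (p : ℕ) where
  f : ZMod p → Γ
  i : ZMod p
  j : ZMod p

namespace W
variable {p : ℕ}

instance : Mul (W Γ p) := ⟨fun x y => ⟨fun t => x.f t * y.f (t - x.i), x.i + y.i, x.j + y.j⟩⟩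
instance : One (W Γ p) := ⟨⟨fun _ => 1, 0, 0⟩⟩
instance : Inv (W Γ p) := ⟨fun x => ⟨fun t => (x.f (t + x.i))⁻¹, -x.i, -x.j⟩⟩

@[simp] theorem mul_f (x y : W Γ p) (t : ZMod p) : (x * y).f t = x.f t * y.f (t - x.i) := rfl
@[simp] theorem mul_i (x y : W Γ p) : (x * y).i = x.i + y.i := rfl
@[simp] theorem mul_j (x y : W Γ p) : (x * y).j = x.j + y.j := rfl
@[simp] theorem one_f (t : ZMod p) : (1 : W Γ p).f t = 1 := rfl
@[simp] theorem one_i : (1 : W Γ p).i = 0 := rfl
@[simp] theorem one_j : (1 : W Γ p).j = 0 := rfl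
@[simp] theorem inv_f (x : W Γ p) (t : ZMod p) : (x⁻¹).f t = (x.f (t + x.i))⁻¹ := rfl
@[simp] theorem inv_i (x : W Γ p) : (x⁻¹).i = -x.i := rfl
@[simp] theorem inv_j (x : W Γ p) : (x⁻¹).j = -x.j := rfl

instance : Group (W Γ p) := Group.ofLeftAxioms
  (fun x y z => by ext <;> simp [mul_assoc, add_assoc, sub_sub])
  (fun x => by ext <;> simp)
  (fun x => by ext <;> simp)

omit [Group Γ] in
theorem card [NeZero p] : Nat.card (W Γ p) = Nat.card Γ ^ p * (p * p) := by
  rw [Nat.card_congr (⟨fun x => (x.f, x.i, x.j), fun y => ⟨y.1, y.2.1, y.2.2⟩, fun _ => rfl,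
    fun _ => rfl⟩ : W Γ p ≃ (ZMod p → Γ) × ZMod p × ZMod p)]
  simp [Nat.card_fun]

/-- The cocycle on the wreath construction. -/
def coc [NeZero p] (κ : Coc Γ A) (ω : Multiplicative (ZMod p) →* A)
    (hω : Function.Injective ω) : Coc (W Γ p) A where
  c x y := (∏ t, κ.c (x.f t) (y.f (t - x.i))) * ω (Multiplicative.ofAdd (x.j * y.i))
  one_left g := by simp [κ.one_left]
  one_right g := by simp [κ.one_right]
  assoc x y z := by
    have e := Equiv.prod_comp (Equiv.subRight x.i) fun t => κ.c (y.f t) (z.f (t - y.i))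
    simp only [Equiv.subRight_apply] at e
    simp only [mul_f, mul_i, mul_j]
    rw [← e, mul_mul_mul_comm, ← Finset.prod_mul_distrib, ← map_mul ω, mul_mul_mul_comm,
      ← Finset.prod_mul_distrib, ← map_mul ω, ← ofAdd_add, ← ofAdd_add]
    congr 1
    · refine Finset.prod_congr rfl fun t _ => ?_
      rw [← sub_sub, κ.assoc]
    · congr 2; ring
  nd x hx := by
    classical
    by_cases hi : x.i = 0
    · by_cases hf : x.f = fun _ => 1
      · have hj : x.j ≠ 0 := fun h => hx (W.ext hf hi h)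
        refine ⟨⟨fun _ => 1, 1, 0⟩, by ext <;> simp [hf, add_comm], ?_⟩
        simp only [hf, κ.one_left, Finset.prod_const_one, one_mul, mul_one, zero_mul]
        intro h
        exact hj (by simpa using hω h)
      · obtain ⟨t, ht⟩ := Function.ne_iff.1 hf
        obtain ⟨k, h1, h2⟩ := κ.nd _ ht
        refine ⟨⟨Pi.mulSingle t k, 0, 0⟩, ?_, ?_⟩
        · ext s
          · by_cases e : s = t
            · subst e; simp [hi, h1]
            · simp [hi, e]
          · simp
          · simp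
        · simp only [hi, sub_zero, mul_zero, ofAdd_zero, map_one, mul_one]
          rw [Finset.prod_eq_single t, Finset.prod_eq_single t]
          · simpa using h2
          all_goals simp +contextual [κ.one_left, κ.one_right]
    · refine ⟨⟨fun _ => 1, 0, 1⟩, by ext <;> simp [add_comm], ?_⟩
      simp only [κ.one_left, κ.one_right, Finset.prod_const_one, one_mul, mul_zero]
      intro h
      exact hi (by simpa using (hω h).symm)

theorem embed {G : Type*} [Group G] (π : G →* Multiplicative (ZMod p))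
    (hπ : Function.Surjective π) (φ : π.ker →* Γ) (hφ : Function.Injective φ) :
    ∃ f : G →* W Γ p, Function.Injective f := by
  choose σ hσ using hπ
  have hm : ∀ (g : G) (t : ZMod p), (σ (Multiplicative.ofAdd t))⁻¹ * g *
      σ (Multiplicative.ofAdd (t - (π g).toAdd)) ∈ π.ker := by
    intro g t
    rw [MonoidHom.mem_ker, map_mul, map_mul, map_inv, hσ, hσ]
    apply Multiplicative.toAdd.injective
    simp
  refine ⟨MonoidHom.mk' (fun g => ⟨fun t => φ ⟨_, hm g t⟩, (π g).toAdd, 0⟩) ?_, ?_⟩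
  · intro g h
    ext t
    · simp only [mul_f]
      rw [← map_mul]
      congr 1
      ext
      simp [mul_assoc, sub_sub]
    · simp
    · simp
  · rw [injective_iff_map_eq_one]
    intro g hg
    have h1 : (π g).toAdd = 0 := congrArg W.i hg
    have h2 : φ ⟨_, hm g 0⟩ = 1 := congrFun (congrArg W.f hg) 0
    have h3 := congrArg Subtype.val (hφ (h2.trans (map_one φ).symm))
    simp only [h1, sub_zero, OneMemClass.coe_one] at h3
    rwa [mul_assoc, inv_mul_eq_one, eq_comm, mul_eq_right] at h3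

end W

theorem exists_pi {G : Type*} [Group G] [Finite G] [Nontrivial G] [Group.IsSolvable G] :
    ∃ p : ℕ, p.Prime ∧ ∃ π : G →* Multiplicative (ZMod p), Function.Surjective π := by
  obtain ⟨M, hM, hle⟩ := (eq_top_or_exists_le_coatom (commutator G)).resolve_left
    (Group.IsSolvable.commutator_lt_top_of_nontrivial G).ne
  have : M.Normal := Subgroup.Normal.of_commutator_le G hle
  have hs : IsSimpleGroup (G ⧸ M) := by
    have : Nontrivial (G ⧸ M) := QuotientGroup.nontrivial_iff.2 hM.1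
    refine ⟨fun K _ => ?_⟩
    have hK : M ≤ K.comap (QuotientGroup.mk' M) := fun x hx => by
      rw [Subgroup.mem_comap, QuotientGroup.mk'_apply, (QuotientGroup.eq_one_iff x).2 hx]
      exact one_mem _
    have hinj := Subgroup.comap_injective (QuotientGroup.mk'_surjective M)
    rcases hK.eq_or_lt with h | h
    · left; apply hinj; rw [← h, MonoidHom.comap_bot, QuotientGroup.ker_mk']
    · right; apply hinj; rw [hM.2 _ h, Subgroup.comap_top]
  have hc : IsMulCommutative (G ⧸ M) :=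
    Subgroup.Normal.quotient_commutative_iff_commutator_le.2 hle
  have hp : (Nat.card (G ⧸ M)).Prime := by
    let : CommGroup (G ⧸ M) := { mul_comm := hc.1.1 }
    exact IsSimpleGroup.prime_card
  have := Fact.mk hp
  let e : (G ⧸ M) ≃* Multiplicative (ZMod (Nat.card (G ⧸ M))) :=
    mulEquivOfPrimeCardEq rfl (by simp)
  exact ⟨_, hp, e.toMonoidHom.comp (QuotientGroup.mk' M),
    e.surjective.comp (QuotientGroup.mk'_surjective M)⟩

theorem exists_coc [Finite A] [IsCyclic A] (n : ℕ) : ∀ (G : Type u) [Group G] [Finite G]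
    [Group.IsSolvable G], Nat.card G = n → (∀ q : ℕ, q.Prime → q ∣ Nat.card G → q ∣ Nat.card A) →
    ∃ (Γ : Type u) (_ : Group Γ) (_ : Finite Γ) (_ : Coc Γ A) (f : G →* Γ),
      Function.Injective f ∧ ∀ q : ℕ, q.Prime → q ∣ Nat.card Γ → q ∣ Nat.card A := by
  induction n using Nat.strong_induction_on with
  | _ n ih =>
  intro G _ _ _ hn hq
  rcases subsingleton_or_nontrivial G with h | h
  · exact ⟨G, _, inferInstance, ⟨fun _ _ => 1, fun _ => rfl, fun _ => rfl, fun _ _ _ => rfl,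
      fun g hg => absurd (Subsingleton.elim _ _) hg⟩, MonoidHom.id G, Function.injective_id, hq⟩
  obtain ⟨p, hp, π, hπ⟩ := exists_pi (G := G)
  have := Fact.mk hp
  have hc := π.ker.card_mul_index
  rw [Subgroup.index_ker, MonoidHom.range_eq_top.2 hπ, Subgroup.card_top] at hc
  rw [show Nat.card (Multiplicative (ZMod p)) = p by simp] at hc
  have h0 : 0 < Nat.card π.ker := Nat.card_pos
  obtain ⟨Γ, _, _, κ, φ, hφ, hΓ⟩ := ih (Nat.card π.ker) (by
    have := hp.two_le; rw [← hn, ← hc]; nlinarith) π.ker rfl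
    fun q h1 h2 => hq q h1 (h2.trans (Dvd.intro _ hc))
  have hpA := hq p hp (Dvd.intro_left _ hc)
  obtain ⟨a, ha⟩ := exists_prime_orderOf_dvd_card' p hpA
  let e : Multiplicative (ZMod p) ≃* Subgroup.zpowers a :=
    mulEquivOfPrimeCardEq (p := p) (by simp) (by rw [Nat.card_zpowers, ha])
  obtain ⟨f, hf⟩ := W.embed π hπ φ hφ
  have hfin : Finite (W Γ p) := Nat.finite_of_card_ne_zero (by
    rw [W.card]; have := hp.pos; have : 0 < Nat.card Γ := Nat.card_pos; positivity)
  refine ⟨W Γ p, _, hfin, W.coc κ ((Subgroup.zpowers a).subtype.comp e.toMonoidHom)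
    (Subtype.val_injective.comp e.injective), f, hf, fun q h1 h2 => ?_⟩
  rw [W.card] at h2
  rcases (Nat.Prime.dvd_mul h1).1 h2 with h | h
  · exact hΓ q h1 (h1.dvd_of_dvd_pow h)
  · have : q ∣ p := ((Nat.Prime.dvd_mul h1).1 h).elim id id
    exact this.trans hpA

end H19.Gg
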