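import Cfsg.Agent.H20.Cyc6

/-! Blocks with abelian defect groups and free inertial action: orbits, orthogonality, signs. -/

set_option linter.unusedSectionVars false

namespace H20.Glu

open MonoidAlgebra Subgroup H10 Cfsg H17
open H19 (kk Blk irr eB fB lam OG red ZZ om ev IsPElt ppart rpart)
open CF (Irr dot cf vchar cfj IsChar IsLin Res fs)
open scoped ComplexConjugate

variable {O : ValuationSubring ℂ} {G : Type*} [Group G] [Finite G] {p : ℕ} [hp : Fact p.Prime]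
  [CharP (kk O) p] {D H K L U V W W' : Subgroup G} {b e f : (kk O)[G]} {χ ξ η l m : G → ℂ}
  {w w' y n : G} {ψ : (G → ℂ) → G → ℂ} {s s' : Subgroup G → ℤ}

/-- a maximal Brauer pair with abelian defect group and free inertial action -/
structure Ab (p : ℕ) (b : (kk O)[G]) (D : Subgroup G) (e : (kk O)[G]) : Prop where
  max : Max p ⊤ b D e
  ab : D ≤ cent D
  free : ∀ g ∈ TT D e, ∀ x ∈ D, x ≠ 1 → g * x * g⁻¹ = x → g ∈ cent D

namespace Ab
variable (C : Ab p b D e)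
include C

theorem pair : IsPair p ⊤ D e := C.max.isPair
theorem pg : IsPGroup p D := C.max.pg

theorem inf_cent (hV : V ≤ D) (h1 : V ≠ ⊥) : TT D e ⊓ cent V = cent D := by
  refine le_antisymm (fun n hn => ?_) (le_inf C.pair.cent_le_TT (cent_anti hV))
  obtain ⟨v, hv, h2⟩ := V.bot_or_exists_ne_one.resolve_left h1
  exact C.free n hn.1 v (hV hv) h2 (by rw [← mem_centralizer_iff.1 hn.2 v hv, mul_inv_cancel_right])

theorem mem_cent_of_cfj (hn : n ∈ TT D e) (hl : l ∈ Irr D)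
    (h1 : l ≠ CF.one D) (h : cfj n l = l) : n ∈ cent D := by
  have hL := lin_of_ab C.ab hl
  set F : D → D := fun x => ⟨x⁻¹ * (n⁻¹ * x * n),
    mul_mem (inv_mem x.2) (H13.conj_mem_of_normalizer' hn.1 x.2)⟩ with hF
  by_cases hi : Function.Injective F
  · refine (h1 (CF.cf_ext hL.cf (CF.one_mem_cf D) fun y hy => ?_)).elim
    obtain ⟨x, hx⟩ := Finite.surjective_of_injective hi ⟨y, hy⟩
    rw [CF.one_of_mem hy, ← show (x : G)⁻¹ * (n⁻¹ * x * n) = y from congrArg Subtype.val hx,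
      hL.map_mul_left (inv_mem x.2), ← CF.cfj_apply n l, h, hL.map_inv x.2,
      inv_mul_cancel₀ (hL.ne_zero x.2)]
  · obtain ⟨x, x', h2, h3⟩ := Function.not_injective_iff.1 hi
    have h4 : (x : G)⁻¹ * (n⁻¹ * x * n) = (x' : G)⁻¹ * (n⁻¹ * x' * n) := congrArg Subtype.val h2
    refine (cent D).inv_mem_iff.1 (C.free _ (inv_mem hn) _ (mul_mem x.2 (inv_mem x'.2))
      (fun h => h3 (Subtype.ext (mul_inv_eq_one.1 h))) ?_)
    calc n⁻¹ * (x * (x' : G)⁻¹) * n⁻¹⁻¹ = x * ((x : G)⁻¹ * (n⁻¹ * x * n)) * (n⁻¹ * x' * n)⁻¹ := by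
          group
      _ = x * (x' : G)⁻¹ := by rw [h4]; group

theorem inf_stab (hl : l ∈ Irr D) (h1 : l ≠ CF.one D) : TT D e ⊓ CF.stab l = cent D :=
  le_antisymm (fun _ hn => C.mem_cent_of_cfj hn.1 hl h1 hn.2)
    (le_inf C.pair.cent_le_TT (CF.cent_le_stab (CF.cf_le_supp _ (CF.irr_cf hl))))

theorem card_orb (hl : l ∈ Irr D) (h1 : l ≠ CF.one D) :
    (CF.orb (TT D e) l).card = (cent D).relIndex (TT D e) := by
  rw [CF.card_orb, ← C.inf_stab hl h1, inf_relIndex_left]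

theorem orb_one : CF.orb (TT D e) (CF.one D) = {CF.one D} :=
  CF.orb_of_le_stab (inf_le_left.trans (CF.norm_le_stab_one D))

theorem orb_subset (hl : l ∈ Irr D) : CF.orb (TT D e) l ⊆ Irr D :=
  CF.orb_subset_Irr inf_le_left hl

theorem ne_one_of_orb (h1 : l ≠ CF.one D) (h : m ∈ CF.orb (TT D e) l) : m ≠ CF.one D := by
  rintro rfl
  have := CF.orb_symm h
  rw [C.orb_one] at this
  exact h1 (Finset.mem_singleton.1 this)

theorem card_image [DecidableEq (G → ℂ)] {ι : Type*} [DecidableEq ι] {F : (G → ℂ) → ι}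
    (h : ∀ l ∈ (Irr D).erase (CF.one D), ∀ m ∈ (Irr D).erase (CF.one D),
      F l = F m ↔ m ∈ CF.orb (TT D e) l) :
    (((Irr D).erase (CF.one D)).image F).card * (cent D).relIndex (TT D e) + 1 = Nat.card D := by
  rw [← CF.card_Irr_of_comm (comm_of_le_cent C.ab), ← Finset.card_erase_add_one (CF.one_mem_Irr D),
    Finset.card_eq_sum_card_image F ((Irr D).erase _), ← smul_eq_mul, ← Finset.sum_const]
  refine congrArg (· + 1) (Finset.sum_congr rfl fun z hz => ?_)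
  obtain ⟨l, hl, rfl⟩ := Finset.mem_image.1 hz
  obtain ⟨l1, l2⟩ := Finset.mem_erase.1 hl
  rw [← C.card_orb l2 l1]
  congr 1
  ext m
  rw [Finset.mem_filter]
  refine ⟨fun hm => ?_, fun hm => (h l hl m hm.1).1 hm.2.symm⟩
  have := Finset.mem_erase.2 ⟨C.ne_one_of_orb l1 hm, C.orb_subset l2 hm⟩
  exact ⟨this, ((h l hl m this).2 hm).symm⟩

end Ab

section Orth

theorem sum_coset {P : G → Prop} [DecidablePred P] (hHK : H ≤ K) {g₀ : G} (hg : g₀ ∈ K)
    (h : ∀ g ∈ K, P g ↔ g₀⁻¹ * g ∈ H) (c : ℂ) :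
    ∑ g ∈ fs (K : Set G), (if P g then c else 0) = Nat.card H * c := by
  rw [← CF.sum_mul_left hg, ← CF.sum_fs_subset (A := (H : Set G)) hHK fun g hg' h' => by
    rw [if_neg fun h1 => h' (by simpa using (h _ (mul_mem hg hg')).1 h1)], ← CF.sum_sub_const]
  exact CF.sum_fs_congr fun g hg' => if_pos ((h _ (mul_mem hg (hHK hg'))).2 (by simpa using hg'))

theorem ev_reg (K : Subgroup G) (a : ℂ[G]) : ev (CF.reg K) a = Nat.card K * a.coeff 1 := by
  have := Fintype.ofFinite G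
  rw [H19.ev_eq_sum, Finset.sum_eq_single 1 (fun g _ h => by rw [CF.reg_of_ne _ h, mul_zero])
    (by simp), CF.reg_one, mul_comm]

theorem sum_ev_mul_ev {a : ℂ[G]} (ha : a ∈ supp ℂ K) (a' : ℂ[G]) :
    ∑ ξ ∈ Irr K, ev ξ a * ev ξ a' = ∑ g ∈ fs (K : Set G), (cj g a * a').coeff 1 := by
  have h1 : ∑ g ∈ fs (K : Set G), cj g a ∈ cen ℂ K :=
    ⟨sum_mem fun g hg => cj_mem_supp_of_nrm ha (le_nrm_self K (CF.mem_fs.1 hg)), fun g hg => by
      rw [map_sum, ← CF.sum_mul_left hg fun g => cj g a]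
      simp only [cj_mul]⟩
  have h2 := ev_reg K ((∑ g ∈ fs (K : Set G), cj g a) * a')
  rw [CF.reg_eq_sum, H19.ev_sum_left, Finset.sum_congr rfl fun ξ hξ => by
    rw [H19.ev_smul_left, ev_cen_mul hξ h1, map_sum, CF.sum_fs_congr fun g hg =>
      ev_cj (CF.irr_cf hξ) hg a, CF.sum_sub_const, ← mul_assoc,
      mul_div_cancel₀ _ (CF.irr_one_ne hξ), mul_assoc], ← Finset.mul_sum,
    mul_right_inj' (CF.card_ne K), Finset.sum_mul] at h2
  rw [h2, H19.coeff_sum_apply]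

theorem lf_mul_lf {b' : (kk O)[G]} (hb : IsBlk K b) (hb' : IsBlk K b') (h : b ≠ b') :
    lf K b * lf K b' = 0 := by
  rw [← hb.sum_pci, ← hb'.sum_pci, Finset.sum_mul_sum]
  exact Finset.sum_eq_zero fun χ h1 => Finset.sum_eq_zero fun ξ h2 =>
    pci_mul_pci (irr_of_IB h1) (irr_of_IB h2) fun e => h (hb.eq_of_IB hb' h1 (e ▸ h2))

theorem ppart_of_coeff (hb : IsBlk K b) (hw : IsPElt p w) (hc : w ∈ cent K) {x : G}
    (h : (single w (1 : ℂ) * lf K b).coeff x ≠ 0) : ppart p x = w := by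
  rw [coeff_single_mul_apply, one_mul] at h
  have := H19.ppart_mul hw (fun h' => h (hb.coeff_lf_sing h'))
    (commute_of_cent (mem_of_coeff_ne_zero hb.lf_cen.1 h) hc).symm
  rwa [mul_inv_cancel_left] at this

theorem coeff_sec_mul {K' : Subgroup G} {b' : (kk O)[G]} (hb : IsBlk K b) (hb' : IsBlk K' b')
    (hw : IsPElt p w) (hc : w ∈ cent K) (hw' : IsPElt p w') (hc' : w' ∈ cent K') (h : w ≠ w') :
    (single w (1 : ℂ) * lf K b * (single w'⁻¹ 1 * lf K' b')).coeff 1 = 0 := by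
  have := Fintype.ofFinite G
  rw [coeff_mul_left]
  refine Finset.sum_eq_zero fun x _ => ?_
  by_contra h0
  have h1 := ppart_of_coeff hb hw hc (left_ne_zero_of_mul h0)
  have h2 := ppart_of_coeff hb' hw'.inv (inv_mem hc') (right_ne_zero_of_mul h0)
  rw [mul_one, H19.isPPart_unique (H19.isPPart_ppart x⁻¹)
    (H19.isPPart_inv (H19.isPPart_ppart x)), h1, inv_inj] at h2
  exact h h2

omit [Finite G] in
theorem sc_sup_zpowers (hn : n ∈ cent V) (w : G) :
    sc n (V ⊔ zpowers w) = V ⊔ zpowers (n * w * n⁻¹) := by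
  rw [sc_sup, sc_zpowers, sc_eq_of_nrm (cent_le_nrm V hn)]

omit [Finite G] in
theorem mem_cent_sup {g : G} : g ∈ cent (V ⊔ zpowers w) ↔ g ∈ cent V ∧ g * w * g⁻¹ = w := by
  rw [cent_sup, cent_zpowers, mem_inf, mem_centralizer_singleton_iff, mul_inv_eq_iff_eq_mul]

open Classical in
theorem orth (h : Max p ⊤ b D e) (hab : D ≤ cent D) (hV : V ≤ D) (hw : w ∈ D) (hw' : w' ∈ D) :
    ∑ ξ ∈ Irr (cent V), ev ξ (single w 1 * FF p D e (V ⊔ zpowers w)) *
      ev ξ (single w'⁻¹ 1 * FF p D e (V ⊔ zpowers w')) =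
      if ∃ n ∈ TT D e ⊓ cent V, n * w * n⁻¹ = w' then
        ∑ χ ∈ IC p D e (V ⊔ zpowers w'), χ 1 * χ 1 else 0 := by
  have hW := sup_zpowers_le hV hw
  have hW' := sup_zpowers_le hV hw'
  have h1 := h.isPair.bl_blk hW
  have h2 := h.isPair.bl_blk hW'
  have hc : cent (V ⊔ zpowers w) ≤ cent V := cent_anti le_sup_left
  have c1 : w ∈ cent (cent (V ⊔ zpowers w)) := le_cent_comm.1 le_rfl (mem_sup_zpowers V w)
  have c2 : w' ∈ cent (cent (V ⊔ zpowers w')) := le_cent_comm.1 le_rfl (mem_sup_zpowers V w')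
  have s1 := h.isPair.sec_supp hab hW hw (one_mem _)
  rw [mul_one] at s1
  rw [sum_ev_mul_ev (supp_mono hc s1)]
  have k1 : ∀ g, g * w * g⁻¹ ≠ w' → (cj g (single w 1 * FF p D e (V ⊔ zpowers w)) *
      (single w'⁻¹ 1 * FF p D e (V ⊔ zpowers w'))).coeff 1 = 0 := fun g hg => by
    rw [map_mul, cj_single, h1.cj_lf]
    exact coeff_sec_mul (h1.cj g) h2 ((H19.isPElt_of_mem h.pg hw).conj g)
      (by rw [cent_sc]; exact conj_mem_sc c1) (H19.isPElt_of_mem h.pg hw') c2 hg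
  have k2 : ∀ g ∈ cent V, g * w * g⁻¹ = w' → cj g (single w 1 * FF p D e (V ⊔ zpowers w)) *
      (single w'⁻¹ 1 * FF p D e (V ⊔ zpowers w')) =
      lf (cent (V ⊔ zpowers w')) (cj g (bl p D e (V ⊔ zpowers w))) * FF p D e (V ⊔ zpowers w') ∧
      IsBlk (cent (V ⊔ zpowers w')) (cj g (bl p D e (V ⊔ zpowers w))) := fun g hg e1 => by
    have h3 := h1.cj g
    rw [← cent_sc, sc_sup_zpowers hg, e1] at h3
    refine ⟨?_, h3⟩
    rw [map_mul, cj_single, h1.cj_lf, ← cent_sc, sc_sup_zpowers hg, e1,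
      (commute_of_fixed_of_supp (single_mem_fixed c2 1) h3.lf_cen.1).eq, mul_assoc,
      ← mul_assoc (single w' 1), single_mul_single, mul_inv_cancel, mul_one, ← one_def, one_mul]
  split_ifs with h0
  · obtain ⟨n, hn, e1⟩ := h0
    have e2 : sc n (V ⊔ zpowers w) = V ⊔ zpowers w' := by rw [sc_sup_zpowers hn.2, e1]
    rw [CF.sum_fs_congr (g := fun g => if g * w * g⁻¹ = w' then
      (FF p D e (V ⊔ zpowers w')).coeff 1 else 0) fun g hg => ?_,
      sum_coset hc hn.2 fun g hg => ?_, h2.coeff_lf, ← card_sc n, ← cent_sc, e2,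
      mul_inv_cancel_left₀ (CF.card_ne _), inv_one]
    · rw [mem_cent_sup, and_iff_right ((cent V).mul_mem (inv_mem hn.2) hg), ← e1]
      exact ⟨fun h => by rw [mul_assoc n⁻¹, mul_inv_rev, ← mul_assoc, mul_assoc n⁻¹, h]; group,
        fun h => by nth_rw 2 [← h]; group⟩
    · split_ifs with h3
      · have h4 : n⁻¹ * g ∈ cent (V ⊔ zpowers w) := by
          refine mem_cent_sup.2 ⟨mul_mem (inv_mem hn.2) hg, ?_⟩
          rw [mul_assoc n⁻¹, mul_inv_rev, ← mul_assoc, mul_assoc n⁻¹, h3, ← e1]; group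
        rw [(k2 g hg h3).1, ← mul_inv_cancel_left n g, cj_mul, h1.fixed _ h4,
          h.isPair.cj_bl hn.1 hW, e2, h2.lf_idem.eq]
      · exact k1 g h3
  · refine CF.sum_fs_eq_zero fun g hg => ?_
    by_cases h3 : g * w * g⁻¹ = w'
    · have e2 : sc g (V ⊔ zpowers w) = V ⊔ zpowers w' := by rw [sc_sup_zpowers hg, h3]
      rw [(k2 g hg h3).1, lf_mul_lf (k2 g hg h3).2 h2 fun h4 => h0 ?_]
      · rfl
      obtain ⟨n, hn, c, hc', rfl⟩ := h.exists_T hab hW (e2 ▸ hW') (e2 ▸ h4)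
      refine ⟨n, ⟨hn, (mul_mem_cancel_right (hc hc')).1 hg⟩, ?_⟩
      rw [← h3, ← (mem_cent_sup.1 hc').2]
      nth_rw 2 [(mem_cent_sup.1 hc').2]
      group
    · exact k1 g h3

end Orth

section Sign

theorem nv_congr (N : NV p D e V ψ s) (h1 : ∀ W, s' W = 1 ∨ s' W = -1)
    (h : ∀ W, V ≤ W → W ≤ D → s' W = s W) : NV p D e V ψ s' :=
  ⟨N.pair, N.ab, N.le, N.mem, N.inj, N.surj, h1, (h V le_rfl N.le).trans N.self,
    fun l hl w hw W hW => by
      rw [h W (hW ▸ le_sup_left) (hW ▸ sup_zpowers_le N.le hw)]; exact N.val l hl w hw W hW⟩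

theorem cfj_mem_IC (he : IsPair p ⊤ D e) (hn : n ∈ TT D e) (hV : V ≤ D) (h : χ ∈ IC p D e V) :
    cfj n χ ∈ IC p D e (sc n V) := by
  have := (he.bl_blk hV).cfj_mem_IB h n
  rwa [he.cj_bl hn hV, ← cent_sc] at this

theorem nv_conj (N : NV p D e V ψ s) (hn : n ∈ TT D e) :
    NV p D e (sc n V) (fun l => cfj n (ψ (cfj n⁻¹ l))) fun W => s (sc n⁻¹ W) := by
  have hi : ∀ l ∈ Irr D, cfj n⁻¹ l ∈ Irr D := fun l => CF.cfj_mem_Irr_norm (inv_mem hn.1)
  have hV := sc_le_of_nrm hn.1 N.le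
  refine ⟨N.pair, N.ab, hV, fun l hl => cfj_mem_IC N.pair hn N.le (N.mem _ (hi l hl)),
    fun l hl m hm h => CF.cfj_injective _ (N.inj _ (hi l hl) _ (hi m hm) (CF.cfj_injective _ h)),
    fun χ hχ => ?_, fun W => N.sgn _, by rw [sc_inv_sc, N.self],
    fun l hl w hw W hW ξ hξ y hy hr => ?_⟩
  · have := cfj_mem_IC N.pair (inv_mem hn) hV hχ
    rw [sc_inv_sc] at this
    obtain ⟨l, hl, h⟩ := N.surj _ this
    exact ⟨cfj n l, CF.cfj_mem_Irr_norm hn.1 hl, by rw [CF.cfj_inv_cfj, h, CF.cfj_cfj_inv]⟩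
  · have hWD : W ≤ D := hW ▸ sup_zpowers_le hV hw
    have e1 := N.val _ (hi l hl) (n⁻¹ * w * n⁻¹⁻¹) (H13.conj_mem_of_normalizer (inv_mem hn.1) hw)
      (sc n⁻¹ W) (by rw [← hW, sc_sup, sc_inv_sc, sc_zpowers]) _
      (cfj_mem_IC N.pair (inv_mem hn) hWD hξ) (n⁻¹ * y * n⁻¹⁻¹)
      (by rw [cent_sc]; exact conj_mem_sc hy) (by rwa [H19.orderOf_conj'])
    rw [CF.cfj_conj, CF.cfj_conj] at e1
    rw [← e1, ← ev_cfj n⁻¹, CF.cfj_inv_cfj, map_mul, cj_single, (N.pair.bl_blk hWD).cj_lf,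
      N.pair.cj_bl (inv_mem hn) hWD, ← cent_sc]
    congr 3
    group

open Classical in
variable (p D e) in
/-- the global signs -/
noncomputable def eps : Subgroup G → ℤ := wellFounded_gt.fix fun V ih =>
  if ∃ ψ, NV p D e V ψ fun W => if h : V < W then ih W h else 1 then 1 else -1

open Classical in
theorem eps_eq (V : Subgroup G) : eps p D e V =
    if ∃ ψ, NV p D e V ψ fun W => if V < W then eps p D e W else 1 then 1 else -1 := by
  rw [eps, WellFounded.fix_eq]; rfl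

theorem eps_sgn (V : Subgroup G) : eps p D e V = 1 ∨ eps p D e V = -1 := by
  rw [eps_eq]; split_ifs <;> simp

theorem eps_sq (V : Subgroup G) : eps p D e V * eps p D e V = 1 := by
  rcases eps_sgn (p := p) (D := D) (e := e) V with h | h <;> simp [h]

theorem eps_sc (hV : V ≤ D) (hn : n ∈ TT D e) : eps p D e (sc n V) = eps p D e V := by
  classical
  induction V using WellFoundedGT.induction generalizing n with
  | ind V ih =>
    have key : ∀ {U U' : Subgroup G} {n : G}, n ∈ TT D e → sc n U = U' →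
        (∀ W, U < W → W ≤ D → eps p D e (sc n W) = eps p D e W) →
        (∃ ψ, NV p D e U ψ fun W => if U < W then eps p D e W else 1) →
        ∃ ψ, NV p D e U' ψ fun W => if U' < W then eps p D e W else 1 := by
      rintro U _ n hn rfl h ⟨ψ, N⟩
      refine ⟨_, nv_congr (nv_conj N hn) (fun W => ?_) fun W _ hW => ?_⟩
      · split_ifs; exacts [eps_sgn W, Or.inl rfl]
      · have h1 : U < sc n⁻¹ W ↔ sc n U < W := by rw [← sc_lt_sc (g := n), sc_sc_inv]
        refine (if_congr h1 rfl rfl).symm ▸ ?_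
        split_ifs with h2
        · rw [← h _ (h1.2 h2) (sc_le_of_nrm (inv_mem hn.1) hW), sc_sc_inv]
        · rfl
    rw [eps_eq, eps_eq V]
    refine if_congr ⟨key (inv_mem hn) (sc_inv_sc n V) fun W h hW => ?_,
      key hn rfl fun W h hW => ih W h hW hn⟩ rfl rfl
    rw [← ih _ (by rwa [← sc_lt_sc (g := n), sc_sc_inv]) (sc_le_of_nrm (inv_mem hn.1) hW) hn,
      sc_sc_inv]

theorem exists_nv_of (h : ∃ ψ, ∃ δ : ℤ, (δ = 1 ∨ δ = -1) ∧ ∀ [DecidableEq (Subgroup G)],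
    NV p D e V ψ fun W => if W = V then 1 else eps p D e W * δ) :
    ∃ ψ, NV p D e V ψ fun W => eps p D e V * eps p D e W := by
  classical
  have hs : ∀ W, eps p D e V * eps p D e W = 1 ∨ eps p D e V * eps p D e W = -1 := fun W => by
    rcases eps_sgn (p := p) (D := D) (e := e) V with h | h <;>
      rcases eps_sgn (p := p) (D := D) (e := e) W with h' | h' <;> simp [h, h']
  by_cases h0 : ∃ ψ, NV p D e V ψ fun W => if V < W then eps p D e W else 1
  · have h1 : eps p D e V = 1 := by rw [eps_eq]; convert if_pos h0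
    obtain ⟨ψ, N⟩ := h0
    refine ⟨ψ, nv_congr N hs fun W h2 _ => ?_⟩
    rcases h2.eq_or_lt with rfl | h2
    · rw [if_neg (lt_irrefl _), eps_sq]
    · rw [if_pos h2, h1, one_mul]
  · have h1 : eps p D e V = -1 := by rw [eps_eq]; convert if_neg h0
    obtain ⟨ψ, δ, rfl | rfl, N⟩ := h
    · refine (h0 ⟨ψ, nv_congr N (fun W => ?_) fun W h2 _ => ?_⟩).elim
      · split_ifs; exacts [eps_sgn W, Or.inl rfl]
      · rcases h2.eq_or_lt with rfl | h2
        · rw [if_neg (lt_irrefl _), if_pos rfl]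
        · rw [if_pos h2, if_neg h2.ne', mul_one]
    · refine ⟨ψ, nv_congr N hs fun W h2 _ => ?_⟩
      split_ifs with h3
      · rw [h3, eps_sq]
      · rw [h1, mul_comm]

end Sign

end H20.Glu
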