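import Cfsg.Agent.H19.Glu1

/-! Gluing the parametrisations of the subsection blocks by inclusion and exclusion. -/

set_option linter.unusedSectionVars false

namespace H20.Glu

open MonoidAlgebra Subgroup H10 Cfsg H17
open H19 (kk Blk irr eB fB lam OG red ZZ om ev IsPElt ppart rpart)
open CF (Irr dot cf vchar cfj IsChar IsLin Res fs)
open scoped ComplexConjugate

variable {O : ValuationSubring ℂ} {G : Type*} [Group G] [Finite G] {p : ℕ} [hp : Fact p.Prime]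
  [CharP (kk O) p] {D H K L U V W W' : Subgroup G} {b e f : (kk O)[G]} {χ ξ η l m : G → ℂ}
  {w w' y n : G} {ψ Φ : (G → ℂ) → G → ℂ} {s s' : Subgroup G → ℤ}

/-- the glued virtual characters of `C(V)` -/
structure Pre (p : ℕ) (D : Subgroup G) (e : (kk O)[G]) (V : Subgroup G)
    (Φ : (G → ℂ) → G → ℂ) : Prop where
  le : V ≤ D
  vch : ∀ l ∈ Irr D, Φ l ∈ vchar (cent V)
  reg : ∀ l ∈ Irr D, ∀ m ∈ Irr D, ∀ y, ¬ p ∣ orderOf y → Φ l y = Φ m y
  cen : ∀ l ∈ Irr D, ∀ v ∈ V, ∀ g, Φ l (v * g) = l v * Φ l g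
  sec : ∀ ξ ∈ cf (cent V), ∀ w ∈ D, w ∉ V → ∀ ξ' ∈ IC p D e (V ⊔ zpowers w),
    ∀ y ∈ cent (V ⊔ zpowers w), ¬ p ∣ orderOf y →
    ev ξ (single (w * y) 1 * FF p D e (V ⊔ zpowers w)) =
      eps p D e (V ⊔ zpowers w) * th D V Φ ξ w * ξ' y
  one : ∀ χ ∈ cf (cent V), ∀ χ' ∈ cf (cent V), (∀ y, ¬ p ∣ orderOf y → χ y = χ' y) →
    th D V Φ χ 1 = th D V Φ χ' 1
  nv : ∀ U, V < U → U ≤ D → ∃ ψ, NV p D e U ψ fun W => eps p D e U * eps p D e W

omit [Finite G] in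
theorem lt_sup_zpowers (hw : w ∉ V) : V < V ⊔ zpowers w :=
  left_lt_sup.2 fun h => hw (zpowers_le.1 h)

theorem eps_sq' (V : Subgroup G) : (eps p D e V : ℂ) * eps p D e V = 1 := by
  exact_mod_cast eps_sq V

theorem exists_pre (hV : V ≤ D)
    (h : ∀ U, V < U → U ≤ D → ∃ ψ, NV p D e U ψ fun W => eps p D e U * eps p D e W) :
    ∃ Φ, Pre p D e V Φ := by
  classical
  choose! Ψ N using id h
  set F := fs ((D : Set G) \ V) with hF
  set U : Finset G → Subgroup G := fun S => V ⊔ closure (S : Set G) with hU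
  set P := F.powerset.erase ∅ with hP
  have u1 : ∀ S ∈ F.powerset, U S ≤ D := fun S hS => sup_le hV ((closure_le _).2 fun x hx =>
    (CF.mem_fs.1 (Finset.mem_powerset.1 hS hx)).1)
  have u2 : ∀ S ∈ P, V < U S := fun S hS => by
    obtain ⟨x, hx⟩ := Finset.nonempty_iff_ne_empty.2 (Finset.mem_erase.1 hS).1
    exact left_lt_sup.2 fun h =>
      (CF.mem_fs.1 (Finset.mem_powerset.1 (Finset.mem_erase.1 hS).2 hx)).2 (h (subset_closure hx))
  have M := fun S (hS : S ∈ P) => N _ (u2 S hS) (u1 S (Finset.mem_of_mem_erase hS))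
  have hc : ∀ S, cent (U S) ≤ cent V := fun S => cent_anti le_sup_left
  set c : Finset G → ℤ := fun S => -(-1) ^ S.card * eps p D e (U S) with hc'
  set Φ : (G → ℂ) → G → ℂ := fun l =>
    ∑ S ∈ P, (c S : ℂ) • CF.Ind (cent V) (cent (U S)) (Ψ (U S) l) with hΦ
  have t1 : ∀ ξ ∈ cf (cent V), ∀ w, th D V Φ ξ w = ∑ S ∈ P, c S * th D (U S) (Ψ (U S)) ξ w :=
    fun ξ hξ w => by
      simp only [th, hΦ, CF.dot_sum_right, CF.dot_intCast_smul_right, Finset.sum_mul,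
        Finset.mul_sum, CF.dot_Ind_right (hc _) _ hξ, mul_assoc]
      exact Finset.sum_comm
  refine ⟨Φ, hV, fun l hl => sum_mem fun S hS => CF.intCast_smul_mem
    (CF.Ind_mem_vchar (hc S) (CF.irr_vchar ((M S hS).irr hl))) _, fun l hl m hm y hy => ?_,
    fun l hl v hv g => ?_, fun ξ hξ w hw hwV ξ' hξ' y hy hr => ?_, fun χ hχ χ' hχ' hr => ?_, h⟩
  · simp only [hΦ, Finset.sum_apply, Pi.smul_apply]
    refine Finset.sum_congr rfl fun S hS => congrArg _ ?_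
    rw [← sub_eq_zero, ← Pi.sub_apply, ← map_sub, (M S hS).Ind_sub_reg hl hm hy]
  · simp only [hΦ, Finset.sum_apply, Pi.smul_apply, smul_eq_mul, Finset.mul_sum]
    refine Finset.sum_congr rfl fun S hS => ?_
    have hs := CF.cf_le_supp _ ((M S hS).cf hl)
    rw [CF.Ind_apply_cf hs, CF.Ind_apply_cf hs, CF.sum_fs_congr fun x hx => by
      rw [show x⁻¹ * (v * g) * x = v * (x⁻¹ * g * x) by
        rw [← mul_assoc, ← mem_centralizer_iff.1 (inv_mem hx) v hv]; group,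
        (M S hS).central hl ((u2 S hS).le hv)], ← Finset.mul_sum]
    ring
  · set φ : Subgroup G → ℂ := fun U => eps p D e U * th D U (Ψ U) ξ w with hφ
    have a1 : ∀ U, V < U → U ≤ D → φ U = φ (U ⊔ zpowers w) := fun U h1 h2 => by
      have h3 := sup_zpowers_le h2 hw
      have N1 := N U h1 h2
      have N2 := N _ (h1.trans_le le_sup_left) h3
      obtain ⟨ζ, hζ⟩ := (N1.pair.bl_blk h3).IB_nonempty
      have e1 := N1.ev_th hw rfl hζ (one_mem _) reg_one (cent_anti h1.le) hξ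
      rw [N2.ev_th hw (sup_eq_left.2 le_sup_right) hζ (one_mem _) reg_one
        (cent_anti (h1.le.trans le_sup_left)) hξ] at e1
      replace e1 := mul_right_cancel₀ (CF.irr_one_ne (irr_of_IB hζ)) e1
      simp only [hφ]
      push_cast at e1
      linear_combination -eps p D e (U ⊔ zpowers w) * e1 + (eps p D e (U ⊔ zpowers w) *
        th D (U ⊔ zpowers w) (Ψ (U ⊔ zpowers w)) ξ w - eps p D e U * th D U (Ψ U) ξ w) *
        eps_sq' (p := p) (D := D) (e := e) (U ⊔ zpowers w)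
    have hwF : w ∈ F := CF.mem_fs.2 ⟨hw, hwV⟩
    have a2 : ∑ S ∈ F.powerset, (-1) ^ S.card * φ (U S ⊔ zpowers w) = 0 := by
      rw [← Finset.insert_erase hwF, Finset.sum_powerset_insert (Finset.notMem_erase w F),
        ← Finset.sum_add_distrib]
      refine Finset.sum_eq_zero fun S hS => ?_
      have : U (insert w S) ⊔ zpowers w = U S ⊔ zpowers w := by
        simp only [hU]
        rw [Finset.coe_insert, Set.insert_eq, Subgroup.closure_union, ← zpowers_eq_closure,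
          sup_comm (zpowers w), ← sup_assoc, sup_assoc _ (zpowers w), sup_idem]
      rw [this, Finset.card_insert_of_notMem fun h =>
        Finset.notMem_erase w F (Finset.mem_powerset.1 hS h), pow_succ]
      ring
    have a3 : th D V Φ ξ w = φ (V ⊔ zpowers w) := by
      rw [← Finset.add_sum_erase _ _ (Finset.empty_mem_powerset F), Finset.card_empty, pow_zero,
        one_mul, show U ∅ = V by simp [hU], add_eq_zero_iff_eq_neg] at a2
      rw [a2, t1 ξ hξ, ← Finset.sum_neg_distrib]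
      refine Finset.sum_congr rfl fun S hS => ?_
      rw [← a1 _ (u2 S hS) (u1 S (Finset.mem_of_mem_erase hS))]
      simp only [hφ, hc']
      push_cast; ring
    rw [a3, (N _ (lt_sup_zpowers hwV) (sup_zpowers_le hV hw)).ev_th hw
      (sup_eq_left.2 le_sup_right) hξ' hy hr (cent_anti le_sup_left) hξ]
    simp only [hφ]
    push_cast; ring
  · rw [t1 χ hχ, t1 χ' hχ']
    exact Finset.sum_congr rfl fun S hS => by rw [(M S hS).th_one_congr (hc S) hχ hχ' hr]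

theorem th_eq (V : Subgroup G) (Φ : (G → ℂ) → G → ℂ) (ξ : G → ℂ) :
    th D V Φ ξ = ∑ l ∈ Irr D, dot (cent V) ξ (Φ l) • l := by
  ext w; simp [th]

theorem dot_th (hl : l ∈ Irr D) : dot D (th D V Φ ξ) l = dot (cent V) ξ (Φ l) := by
  rw [th_eq, CF.dot_sum_irr (Finset.Subset.refl _) _ hl]

namespace Pre
variable (P : Pre p D e V Φ)
include P

theorem cf (hl : l ∈ Irr D) : Φ l ∈ CF.cf (cent V) := CF.vchar_cf (P.vch l hl)

theorem reg_sec (hw : w ∈ D) (hwV : w ∉ V) : ∀ ξ ∈ IC p D e (V ⊔ zpowers w),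
    ∀ ξ' ∈ IC p D e (V ⊔ zpowers w), ∀ y ∈ cent (V ⊔ zpowers w), ¬ p ∣ orderOf y → ξ y = ξ' y :=
  fun _ h _ h' _ _ hy =>
    let ⟨_, N⟩ := P.nv _ (lt_sup_zpowers hwV) (sup_zpowers_le P.le hw); N.reg h h' hy

theorem th_vchar (hξ : ξ ∈ Irr (cent V)) : th D V Φ ξ ∈ vchar D := by
  rw [th_eq]
  refine sum_mem fun l hl => ?_
  obtain ⟨n, hn⟩ := CF.vchar_dot_int (CF.irr_vchar hξ) (P.vch l hl)
  rw [hn]; exact CF.intCast_smul_mem (CF.irr_vchar hl) n

open Classical in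
theorem col (h : Max p ⊤ b D e) (hab : D ≤ cent D) (hw : w ∈ D) (hwV : w ∉ V) (hw' : w' ∈ D)
    (hwV' : w' ∉ V) : ∑ ξ ∈ Irr (cent V), th D V Φ ξ w * conj (th D V Φ ξ w') =
      if ∃ n ∈ TT D e ⊓ cent V, n * w * n⁻¹ = w' then (Nat.card D : ℂ) else 0 := by
  have hW := sup_zpowers_le P.le hw
  have hW' := sup_zpowers_le P.le hw'
  have key : ∀ ξ₁ ∈ IC p D e (V ⊔ zpowers w), ∀ ξ₂ ∈ IC p D e (V ⊔ zpowers w'),
      eps p D e (V ⊔ zpowers w) * eps p D e (V ⊔ zpowers w') * (ξ₁ 1 * ξ₂ 1) *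
        ∑ ξ ∈ Irr (cent V), th D V Φ ξ w * conj (th D V Φ ξ w') =
      if ∃ n ∈ TT D e ⊓ cent V, n * w * n⁻¹ = w' then Nat.card D * (ξ₂ 1 * ξ₂ 1) else 0 :=
    fun ξ₁ h1 ξ₂ h2 => by
      obtain ⟨ψ, N⟩ := P.nv _ (lt_sup_zpowers hwV') hW'
      have := orth h hab P.le hw hw'
      rw [Finset.sum_congr (s₁ := IC p D e _) rfl (g := fun _ => ξ₂ 1 * ξ₂ 1) fun χ hχ => by
        rw [N.reg hχ h2 reg_one], Finset.sum_const, N.card, nsmul_eq_mul] at this
      rw [← this, Finset.mul_sum]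
      refine Finset.sum_congr rfl fun ξ hξ => ?_
      have e1 := P.sec ξ (CF.irr_cf hξ) w hw hwV ξ₁ h1 1 (one_mem _) reg_one
      have e2 := P.sec ξ (CF.irr_cf hξ) w'⁻¹ (inv_mem hw') (mt V.inv_mem_iff.1 hwV') ξ₂
        (by rwa [zpowers_inv]) 1 (one_mem _) reg_one
      rw [mul_one] at e1 e2
      rw [zpowers_inv] at e2
      rw [e1, e2, CF.vchar_conj_apply (P.th_vchar hξ)]
      ring
  obtain ⟨ξ₁, h1⟩ := (h.isPair.bl_blk hW).IB_nonempty
  have h3 := CF.irr_one_ne (irr_of_IB h1)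
  split_ifs with h0
  · obtain ⟨n, hn, e1⟩ := id h0
    have e2 : sc n (V ⊔ zpowers w) = V ⊔ zpowers w' := by rw [sc_sup_zpowers hn.2, e1]
    have := key ξ₁ h1 _ (e2 ▸ cfj_mem_IC h.isPair hn.1 hW h1)
    rw [if_pos h0, CF.cfj_at_one, ← e2, eps_sc hW hn.1, eps_sq', one_mul, mul_comm] at this
    exact mul_right_cancel₀ (mul_ne_zero h3 h3) this
  · obtain ⟨ξ₂, h2⟩ := (h.isPair.bl_blk hW').IB_nonempty
    have := key ξ₁ h1 ξ₂ h2
    rw [if_neg h0] at this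
    refine (mul_eq_zero.1 this).resolve_left (mul_ne_zero (mul_ne_zero ?_ ?_)
      (mul_ne_zero h3 (CF.irr_one_ne (irr_of_IB h2))))
    all_goals exact left_ne_zero_of_mul_eq_one (eps_sq' _)

theorem gram (C : Ab p b D e) {l' m' : G → ℂ} (hl : l ∈ Irr D) (hm : m ∈ Irr D) (hl' : l' ∈ Irr D)
    (hm' : m' ∈ Irr D) (h1 : ∀ v ∈ V, l v = m v) (h2 : ∀ v ∈ V, l' v = m' v) :
    Nat.card (cent D) * dot (cent V) (Φ l - Φ m) (Φ l' - Φ m') =
      ∑ n ∈ fs (TT D e ⊓ cent V : Subgroup G), dot D (cfj n (l - m)) (l' - m') := by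
  classical
  have hC : cent D ≤ TT D e ⊓ cent V := le_inf C.pair.cent_le_TT (cent_anti P.le)
  have a0 : ∀ ξ, ∀ l ∈ Irr D, ∀ m ∈ Irr D, dot (cent V) ξ (Φ l - Φ m) = dot D (th D V Φ ξ) (l - m) :=
    fun ξ l hl m hm => by rw [CF.dot_sub_right, CF.dot_sub_right, dot_th hl, dot_th hm]
  have hD := CF.card_ne D
  rw [CF.dot_eq_sum (sub_mem (P.cf hl) (P.cf hm)), Finset.sum_congr rfl (g := fun ξ =>
    (Nat.card D : ℂ)⁻¹ * (Nat.card D : ℂ)⁻¹ * ∑ w ∈ fs (D : Set G), ∑ w' ∈ fs (D : Set G),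
      conj ((l' - m') w) * (l - m) w' * (th D V Φ ξ w * conj (th D V Φ ξ w'))) fun ξ _ => by
    rw [CF.dot_conj_symm, ← CF.dot_conj_symm ξ, a0 ξ l hl m hm, a0 ξ l' hl' m' hm',
      CF.dot_conj_symm, CF.dot_def, CF.dot_def, mul_mul_mul_comm, mul_comm (Finset.sum _ _),
      Finset.sum_mul_sum]
    exact congrArg _ (Finset.sum_congr rfl fun _ _ => Finset.sum_congr rfl fun _ _ => by ring),
    ← Finset.mul_sum, Finset.sum_comm, ← CF.sum_inv (TT D e ⊓ cent V)]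
  simp only [CF.dot_def, CF.cfj_apply, inv_inv]
  rw [← Finset.mul_sum, Finset.sum_comm (t := fs (D : Set G)), mul_assoc, mul_left_comm,
    Finset.mul_sum, Finset.mul_sum]
  refine congrArg _ (CF.sum_fs_congr fun w hw => ?_)
  rw [← Finset.sum_mul]
  by_cases hwV : w ∈ V
  · simp [h2 w hwV]
  have h3 : w ≠ 1 := fun h => hwV (h ▸ one_mem V)
  have h4 : ∀ n ∈ TT D e ⊓ cent V, (l - m) (n * w * n⁻¹) =
      ∑ w' ∈ fs (D : Set G), if n * w * n⁻¹ = w' then (l - m) w' else 0 := fun n hn => by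
    rw [Finset.sum_ite_eq, if_pos (CF.mem_fs.2 (H13.conj_mem_of_normalizer hn.1.1 hw))]
  rw [CF.sum_fs_congr h4, Finset.sum_comm, Finset.sum_comm (t := fs (D : Set G)), Finset.sum_mul,
    Finset.mul_sum, Finset.mul_sum]
  refine CF.sum_fs_congr fun w' hw' => ?_
  by_cases hwV' : w' ∈ V
  · simp [h1 w' hwV']
  rw [← Finset.mul_sum, P.col C.max C.ab hw hwV hw' hwV']
  split_ifs with h0
  · obtain ⟨n, hn, e1⟩ := h0
    rw [sum_coset hC hn fun g hg => ⟨fun h => C.free _ (mul_mem (inv_mem hn.1) hg.1) w hw h3 (by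
      rw [mul_assoc n⁻¹, mul_inv_rev, ← mul_assoc, mul_assoc n⁻¹, h, ← e1]; group), fun h => by
      rw [← e1, ← mul_inv_cancel_left n g, mul_assoc n, ← mem_centralizer_iff.1 h w hw]; group⟩]
    field_simp
  · rw [CF.sum_fs_eq_zero fun g hg => if_neg fun h => h0 ⟨g, hg, h⟩]
    simp

end Pre

end H20.Glu
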