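import Cfsg.Agent.H19.Glu2

/-! Parametrisations of all proper subsection blocks. -/

set_option linter.unusedSectionVars false

namespace H20.Glu

open MonoidAlgebra Subgroup H10 Cfsg H17
open H19 (kk Blk irr eB fB lam OG red ZZ om ev IsPElt ppart rpart)
open CF (Irr dot cf vchar cfj IsChar IsLin Res fs)
open scoped ComplexConjugate

variable {O : ValuationSubring ℂ} {G : Type*} [Group G] [Finite G] {p : ℕ} [hp : Fact p.Prime]
  [CharP (kk O) p] {D H K L U V W W' : Subgroup G} {b e f : (kk O)[G]} {χ ξ η l m : G → ℂ}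
  {w w' y n : G} {ψ Φ : (G → ℂ) → G → ℂ} {s s' : Subgroup G → ℤ}

theorem Pre.step (P : Pre p D e V Φ) (C : Ab p b D e) (hV : V ≠ ⊥) (hlt : V < D) :
    ∃ ψ, ∃ δ : ℤ, (δ = 1 ∨ δ = -1) ∧ ∀ [DecidableEq (Subgroup G)],
      NV p D e V ψ fun W => if W = V then 1 else eps p D e W * δ := by
  classical
  have hVD : V ≤ D := hlt.le
  have hb := C.pair.bl_blk hVD
  have hDK : D ≤ cent V := C.ab.trans (cent_anti hVD)
  have hVH : V ≤ cent V := hVD.trans hDK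
  have lin : ∀ {l}, l ∈ Irr D → IsLin D l := lin_of_ab C.ab
  have hiso : ∀ l ∈ Irr D, ∀ m ∈ Irr D, ∀ l' ∈ Irr D, ∀ m' ∈ Irr D, (∀ v ∈ V, l v = m v) →
      (∀ v ∈ V, l' v = m' v) → CF.dot (cent V) (Φ l - Φ m) (Φ l' - Φ m') =
        CF.dot D (l - m) (l' - m') := fun l hl m hm l' hl' m' hm' h1 h2 => by
    have := P.gram C hl hm hl' hm' h1 h2
    rw [C.inf_cent hVD hV, CF.sum_fs_congr fun n hn => by
      rw [CF.mem_stab.1 (CF.cent_le_stab (CF.cf_le_supp _ (sub_mem (CF.irr_cf hl) (CF.irr_cf hm)))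
        hn)], CF.sum_sub_const] at this
    exact mul_left_cancel₀ (CF.card_ne _) this
  have hr : 1 < V.relIndex D := by
    have h1 := CF.relIndex_pos V D
    have h2 : V.relIndex D ≠ 1 := fun h => hlt.not_ge (relIndex_eq_one.1 h)
    omega
  have key : ∀ Λ : Finset (G → ℂ), (∃ l ∈ Irr D, Λ = Lam D V l) →
      ∃ (δ : ℤ) (ζ : (G → ℂ) → G → ℂ), (δ = 1 ∨ δ = -1) ∧ (Λ.card = 2 → δ = 1) ∧
      (∀ a ∈ Λ, ζ a ∈ Irr (cent V)) ∧ (∀ a ∈ Λ, ∀ c ∈ Λ, ζ a = ζ c → a = c) ∧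
      ∀ a ∈ Λ, ∀ c ∈ Λ, Φ a - Φ c = (δ : ℂ) • (ζ a - ζ c) := by
    rintro _ ⟨l, hl, rfl⟩
    have h0 : ∀ a ∈ Lam D V l, ∀ c ∈ Lam D V l, ∀ v ∈ V, a v = c v := fun a ha c hc v hv =>
      ((mem_Lam.1 ha).2 v hv).trans ((mem_Lam.1 hc).2 v hv).symm
    refine exists_exc' (by rwa [card_Lam C.ab hVD hl]) (fun a ha => P.vch a (mem_Lam.1 ha).1)
      (fun a ha c hc => P.reg a (mem_Lam.1 ha).1 c (mem_Lam.1 hc).1 1 reg_one)
      (fun a ha c hc h => ?_) fun a ha c hc d hd h1 h2 h3 => ?_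
    · have a1 := (mem_Lam.1 ha).1
      have c1 := (mem_Lam.1 hc).1
      rw [hiso c c1 a a1 c c1 a a1 (h0 c hc a ha) (h0 c hc a ha)]
      simp only [CF.dot_sub_left, CF.dot_sub_right, CF.dot_irr a1 c1, CF.dot_irr c1 a1,
        CF.dot_irr a1 a1, CF.dot_irr c1 c1, h, h.symm, if_true, if_false]
      norm_num
    · have a1 := (mem_Lam.1 ha).1
      have c1 := (mem_Lam.1 hc).1
      have d1 := (mem_Lam.1 hd).1
      rw [hiso c c1 a a1 d d1 a a1 (h0 c hc a ha) (h0 d hd a ha)]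
      simp only [CF.dot_sub_left, CF.dot_sub_right, CF.dot_irr a1 d1, CF.dot_irr c1 a1,
        CF.dot_irr a1 a1, CF.dot_irr c1 d1, h1, h2.symm, h3, if_true, if_false]
      norm_num
  choose! δ ζ k1 k2 k3 k4 k5 using key
  set χ : (G → ℂ) → G → ℂ := fun l => ζ (Lam D V l) l with hχ
  set ε : (G → ℂ) → ℤ := fun l => δ (Lam D V l) with hε
  have f1 : ∀ l ∈ Irr D, ε l = 1 ∨ ε l = -1 := fun l hl => k1 _ ⟨l, hl, rfl⟩
  have f2 : ∀ l ∈ Irr D, χ l ∈ Irr (cent V) := fun l hl => k3 _ ⟨l, hl, rfl⟩ l (self_mem_Lam hl)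
  have f3 : ∀ l ∈ Irr D, ∀ m ∈ Lam D V l, χ l = χ m → l = m := fun l hl m hm h =>
    k4 _ ⟨l, hl, rfl⟩ l (self_mem_Lam hl) m hm (by simpa only [hχ, Lam_eq (mem_Lam.1 hm).2] using h)
  have f4 : ∀ l ∈ Irr D, ∀ m ∈ Lam D V l, Φ l - Φ m = (ε l : ℂ) • (χ l - χ m) := fun l hl m hm => by
    simpa only [hχ, Lam_eq (mem_Lam.1 hm).2] using k5 _ ⟨l, hl, rfl⟩ l (self_mem_Lam hl) m hm
  have f0 : ∀ l ∈ Irr D, (ε l : ℂ) ≠ 0 := fun l hl => by rcases f1 l hl with h | h <;> simp [h]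
  have g1 : ∀ ξ ∈ Irr (cent V), ∀ l ∈ Irr D, ∀ m ∈ Lam D V l,
      CF.dot (cent V) ξ (Φ l) - (if ξ = χ l then ε l else 0 : ℤ) =
        CF.dot (cent V) ξ (Φ m) - (if ξ = χ m then ε l else 0 : ℤ) := fun ξ hξ l hl m hm => by
    have := congrArg (CF.dot (cent V) ξ) (f4 l hl m hm)
    rw [CF.dot_sub_right, CF.dot_intCast_smul_right, CF.dot_sub_right,
      CF.dot_irr hξ (f2 l hl), CF.dot_irr hξ (f2 m (mem_Lam.1 hm).1)] at this
    split_ifs at this ⊢ <;> push_cast <;> linear_combination this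
  have g2 : ∀ ξ ∈ Irr (cent V), ∀ m ∈ Irr D, CF.dot (cent V) ξ (Φ m) ≠ 0 →
      ∀ v ∈ V, ∀ g, ξ (v * g) = m v * ξ g := fun ξ hξ m hm h v hv g => by
    have h1 := irr_central hξ (hVH hv) (le_cent_comm.1 le_rfl hv)
    rw [h1, central_eq_of_dot (hVH hv) h1 (P.cen m hm v hv) ((lin hm).mul_conj (hVD hv)) h]
  have g3 : ∀ l ∈ Irr D, ∀ v ∈ V, ∀ g, χ l (v * g) = l v * χ l g := fun l hl => by
    obtain ⟨m, hm, h1⟩ := Finset.exists_mem_ne (s := Lam D V l) (by rwa [card_Lam C.ab hVD hl]) l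
    have h2 := g1 _ (f2 l hl) l hl m hm
    rw [if_pos rfl, if_neg fun h => h1 (f3 l hl m hm h).symm] at h2
    by_cases h3 : CF.dot (cent V) (χ l) (Φ l) = 0
    · intro v hv g
      rw [g2 _ (f2 l hl) m (mem_Lam.1 hm).1 (fun h => f0 l hl ?_) v hv, (mem_Lam.1 hm).2 v hv]
      rw [h3, h] at h2
      simpa using h2
    · exact g2 _ (f2 l hl) l hl h3
  have f5 : ∀ l ∈ Irr D, ∀ m ∈ Irr D, χ l = χ m → l = m := fun l hl m hm h =>
    f3 l hl m (mem_Lam.2 ⟨hm, fun v hv => mul_right_cancel₀ (CF.irr_one_ne (f2 l hl))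
      (by rw [← g3 l hl v hv, h, g3 m hm v hv])⟩) h
  have g4 : ∀ ξ ∈ Irr (cent V), ∀ w ∈ D, w ∉ V → th D V Φ ξ w =
      ∑ m ∈ Irr D, (if ξ = χ m then ε m else 0 : ℤ) * m w := fun ξ hξ w hw hwV => by
    rw [← sub_eq_zero, th, ← Finset.sum_sub_distrib]
    simp only [← sub_mul]
    refine sum_eq_zero_of_res C.ab hVD (A := fun m => CF.dot (cent V) ξ (Φ m) -
      (if ξ = χ m then ε m else 0 : ℤ)) (fun l hl m hm h => ?_) hw hwV
    have h1 : m ∈ Lam D V l := mem_Lam.2 ⟨hm, fun v hv => (h v hv).symm⟩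
    have h2 : ε m = ε l := by simp only [hε, Lam_eq (mem_Lam.1 h1).2]
    simpa only [h2] using g1 ξ hξ l hl m h1
  have g5 : ∀ l ∈ Irr D, ∀ w ∈ D, w ∉ V → th D V Φ (χ l) w = ε l * l w := fun l hl w hw hwV => by
    rw [g4 _ (f2 l hl) w hw hwV, Finset.sum_eq_single_of_mem l hl fun m hm h => by
      rw [if_neg fun e => h (f5 l hl m hm e).symm, Int.cast_zero, zero_mul], if_pos rfl]
  have g6 := fun ξ (hξ : ξ ∈ Irr (cent V)) => P.sec ξ (CF.irr_cf hξ)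
  obtain ⟨w₀, hw₀, hw₀V⟩ := SetLike.exists_of_lt hlt
  have hW₀ := sup_zpowers_le hVD hw₀
  obtain ⟨ξ₀, hξ₀⟩ := (C.pair.bl_blk hW₀).IB_nonempty
  have g7 : ∀ l ∈ Irr D, ev (χ l) (single w₀ 1 * FF p D e (V ⊔ zpowers w₀)) / ξ₀ 1 ∉ O.nonunits :=
    fun l hl => by
      have := g6 _ (f2 l hl) w₀ hw₀ hw₀V ξ₀ hξ₀ 1 (one_mem _) reg_one
      rw [mul_one] at this
      rw [this, mul_div_cancel_right₀ _ (CF.irr_one_ne (irr_of_IB hξ₀)), g5 l hl w₀ hw₀ hw₀V]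
      refine H19.mul_not_mem_nonunits (H19.not_mem_nonunits_of_pow_eq_one two_ne_zero ?_)
        (H19.mul_not_mem_nonunits (H19.not_mem_nonunits_of_pow_eq_one two_ne_zero ?_)
          (H19.not_mem_nonunits_of_pow_eq_one (orderOf_pos w₀).ne' ((lin hl).pow_orderOf hw₀)))
      · rw [sq, eps_sq']
      · rcases f1 l hl with h | h <;> simp [h]
  have f6 : ∀ l ∈ Irr D, χ l ∈ IC p D e V := fun l hl =>
    C.pair.mem_IC_of_sec C.ab hVD hw₀ rfl (one_mem _) reg_one (f2 l hl) fun h => g7 l hl (by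
      rw [mul_one] at h; rw [h, zero_div]; exact zero_mem _)
  have f7 : ∀ ξ ∈ IC p D e V, ∃ l ∈ Irr D, χ l = ξ := fun ξ hξ => by
    by_contra! h
    have h1 := irr_of_IB hξ
    obtain ⟨l, hl, h2⟩ := exists_lin_central C.ab hVD hDK le_rfl h1
    have h3 := card_mul_dot (C.pg.to_le hVD) hVH le_rfl (CF.irr_cf h1)
      (CF.irr_vchar (f2 l hl)) h2 (g3 l hl) (fun v hv => (lin hl).mul_conj (hVD hv)) fun g hg =>
      C.max.section_zero C.ab hVD (CF.irr_cf h1) (hb.ev_mul_lf hξ) fun w hw y hy hr ⟨x, hx, e1⟩ => by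
        have hwV : w ∉ V := fun h => hg ((mem_normalizer_iff.1 (cent_le_nrm V hx) _).2 (e1 ▸ h))
        obtain ⟨ξ', h4⟩ := (C.pair.bl_blk (sup_zpowers_le hVD hw)).IB_nonempty
        rw [g6 ξ h1 w hw hwV ξ' h4 y hy hr, g4 ξ h1 w hw hwV, Finset.sum_eq_zero fun m hm => by
          rw [if_neg (h m hm).symm, Int.cast_zero, zero_mul], mul_zero, zero_mul]
    rw [CF.dot_irr_ne h1 (f2 l hl) (h l hl).symm, mul_zero, eq_comm,
      mul_eq_zero_iff_left (CF.card_ne V)] at h3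
    refine hb.ev_Zr_ne_zero hξ (f6 l hl) (hz_of_sec (C.pair.ind_bl C.ab le_sup_left hW₀)
      (cent_anti le_sup_left) (cent_anti hW₀ (C.ab hw₀))
      (le_cent_comm.1 le_rfl (mem_sup_zpowers V w₀)) (H19.isPElt_of_mem C.pg hw₀)
      (P.reg_sec hw₀ hw₀V) (f2 l hl) hξ₀ (g7 l hl)) ?_
    rw [h3, zero_div]; exact zero_mem _
  have f8 : ∀ l ∈ Irr D, ∀ m ∈ Irr D, ∀ y, ¬ p ∣ orderOf y → χ l y = χ m y := fun l hl m hm y hy =>
    reg_eq_of_bij hb C.ab hVD le_rfl f6 f5 f7 C.pg g3 (fun l hl m hm h y hy => by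
      have := congrFun (f4 l hl m (mem_Lam.2 ⟨hm, fun v hv => (h v hv).symm⟩)) y
      rw [Pi.sub_apply, P.reg l hl m hm y hy, sub_self, Pi.smul_apply, smul_eq_mul, eq_comm,
        mul_eq_zero_iff_left (f0 l hl), Pi.sub_apply, sub_eq_zero] at this
      exact this) hl hm hy
  have g8 : ∀ l ∈ Irr D, ∃ a : ℤ, th D V Φ (χ l) 1 = ε l + V.relIndex D * a := fun l hl => by
    obtain ⟨a, ha⟩ := CF.vchar_dot_int (CF.irr_vchar (f2 l hl)) (P.vch l hl)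
    refine ⟨a - ε l, ?_⟩
    rw [th, ← Finset.sum_subset (s₁ := Lam D V l) (fun m hm => (mem_Lam.1 hm).1) fun m hm h => ?_,
      Finset.sum_congr rfl (g := fun m => ((a - ε l : ℤ) : ℂ) + if l = m then (ε l : ℂ) else 0)
        fun m hm => ?_, Finset.sum_add_distrib, Finset.sum_ite_eq, if_pos (self_mem_Lam hl),
      Finset.sum_const, card_Lam C.ab hVD hl, nsmul_eq_mul, add_comm]
    · have := g1 _ (f2 l hl) l hl m hm
      rw [(lin (mem_Lam.1 hm).1).one_apply, mul_one]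
      rw [if_pos rfl, ha, if_congr (⟨f3 l hl m hm, fun h => h ▸ rfl⟩ : χ l = χ m ↔ l = m) rfl rfl]
        at this
      split_ifs at this ⊢ <;> push_cast at this ⊢ <;> linear_combination -this
    · rw [not_not.1 fun h' : CF.dot (cent V) (χ l) (Φ m) ≠ 0 => h (mem_Lam.2 ⟨hm, fun v hv =>
        mul_right_cancel₀ (CF.irr_one_ne (f2 l hl))
          (by rw [← g3 l hl v hv, g2 _ (f2 l hl) m hm h' v hv])⟩), zero_mul]
  have f9 : ∀ l ∈ Irr D, ∀ m ∈ Irr D, ε l = ε m := fun l hl m hm => by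
    rcases (Nat.succ_le_of_lt hr).eq_or_lt with h | h
    · rw [hε]
      simp only
      rw [k2 _ ⟨l, hl, rfl⟩ (by rw [card_Lam C.ab hVD hl, ← h]),
        k2 _ ⟨m, hm, rfl⟩ (by rw [card_Lam C.ab hVD hm, ← h])]
    obtain ⟨a, ha⟩ := g8 l hl
    obtain ⟨a', ha'⟩ := g8 m hm
    rw [P.one _ (CF.irr_cf (f2 l hl)) _ (CF.irr_cf (f2 m hm)) (f8 l hl m hm), ha'] at ha
    exact int_sign_eq (f1 l hl) (f1 m hm) h (by exact_mod_cast ha.symm)
  have h1 := CF.one_mem_Irr D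
  refine ⟨χ, ε (CF.one D), f1 _ h1, ⟨C.pair, C.ab, hVD, f6, f5, f7,
    fun W => ?_, if_pos rfl, fun l hl w hw W hW ξ hξ y hy hr => ?_⟩⟩
  · split_ifs
    · exact Or.inl rfl
    · rcases eps_sgn (p := p) (D := D) (e := e) W with h | h <;> rcases f1 _ h1 with h' | h' <;>
        simp [h, h']
  · by_cases hwV : w ∈ V
    · obtain rfl : V = W := (sup_eq_left.2 (zpowers_le.2 hwV)).symm.trans hW
      obtain ⟨m, hm, rfl⟩ := f7 ξ hξ
      rw [if_pos rfl, hb.ev_mul_lf (f6 l hl), ev_single_one, g3 l hl w hwV, f8 l hl m hm y hr,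
        Int.cast_one, one_mul]
    · subst hW
      rw [if_neg (lt_sup_zpowers hwV).ne', g6 _ (f2 l hl) w hw hwV ξ hξ y hy hr,
        g5 l hl w hw hwV, f9 l hl _ h1]
      push_cast; ring

theorem Ab.exists_NV (C : Ab p b D e) (hV : V ≠ ⊥) (hVD : V ≤ D) :
    ∃ ψ, NV p D e V ψ fun W => eps p D e V * eps p D e W := by
  induction V using WellFoundedGT.induction with
  | ind V ih =>
    refine exists_nv_of ?_
    rcases hVD.eq_or_lt with rfl | h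
    · obtain ⟨ψ, N⟩ := C.max.exists_NV_self C.ab
      refine ⟨ψ, 1, Or.inl rfl, nv_congr N (fun W => ?_) fun W h h' => if_pos (h'.antisymm h)⟩
      split_ifs
      · exact Or.inl rfl
      · simpa using eps_sgn W
    obtain ⟨Φ, P⟩ := exists_pre hVD fun U h1 h2 => ih U h1 h1.ne_bot h2
    exact P.step C hV h

theorem Ab.exists_pre (C : Ab p b D e) : ∃ Φ, Pre p D e ⊥ Φ :=
  Glu.exists_pre bot_le fun _ h1 h2 => C.exists_NV h1.ne' h2

end H20.Glu
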