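import Cfsg.Agent.H19.Glu3
import Cfsg.Agent.H19.Col
import Cfsg.Agent.H19.Sub

/-! Counting characters in blocks with abelian defect groups and free inertial action. -/

set_option linter.unusedSectionVars false

namespace H20.Glu

open MonoidAlgebra Subgroup H10 Cfsg H17
open H19 (kk Blk irr eB fB lam OG red ZZ om ev IsPElt ppart rpart)
open CF (Irr dot cf vchar cfj IsChar IsLin Res fs)
open scoped ComplexConjugate

section arith
variable {ι : Type*} [DecidableEq ι]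

theorem card_image_congr {α κ : Type*} [DecidableEq κ] (s : Finset α) {f : α → ι} {g : α → κ}
    (h : ∀ a ∈ s, ∀ c ∈ s, f a = f c ↔ g a = g c) : (s.image f).card = (s.image g).card := by
  have key := fun y (hy : y ∈ s.image f) => (Finset.mem_image.1 hy).choose_spec
  refine Finset.card_bij (fun y hy => g (Finset.mem_image.1 hy).choose)
    (fun y hy => Finset.mem_image_of_mem _ (key y hy).1) (fun y hy z hz e => ?_) fun z hz => ?_
  · rw [← (key y hy).2, (h _ (key y hy).1 _ (key z hz).1).2 e, (key z hz).2]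
  · obtain ⟨a, ha, rfl⟩ := Finset.mem_image.1 hz
    have h1 := Finset.mem_image_of_mem f ha
    exact ⟨_, h1, (h _ (key _ h1).1 a ha).1 (key _ h1).2⟩

theorem sum_sq_cases (X : Finset ι) {a : ι → ℤ} (h : ∀ x ∈ X, a x ≠ 0) :
    ∑ x ∈ X, a x * a x = X.card ∨ (X.card : ℤ) + 3 ≤ ∑ x ∈ X, a x * a x := by
  by_cases h1 : ∀ x ∈ X, a x * a x = 1
  · exact Or.inl (by rw [Finset.sum_congr rfl h1]; simp)
  push Not at h1
  obtain ⟨x, hx, h2⟩ := h1
  have h3 : 4 ≤ a x * a x := by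
    have := h x hx
    have h4 : a x ≠ 1 := fun e => h2 (by rw [e]; rfl)
    have h5 : a x ≠ -1 := fun e => h2 (by rw [e]; rfl)
    rcases show a x ≤ -2 ∨ 2 ≤ a x by omega with h | h <;> nlinarith
  have h4 := Finset.card_nsmul_le_sum (X.erase x) (fun x => a x * a x) 1 fun y hy =>
    Int.add_one_le_iff.2 (mul_self_pos.2 (h y (Finset.mem_of_mem_erase hy)))
  rw [← Finset.add_sum_erase _ _ hx, ← Finset.card_erase_add_one hx]
  simp only [nsmul_eq_mul, mul_one] at h4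
  right; push_cast; omega

theorem count {B : Finset ι} {Λ κ : Type*} [Fintype Λ] [Nonempty Λ] [DecidableEq κ] (F : Λ → κ)
    {v : Λ → ι → ℤ} {d : ι → ℤ} {E m : ℕ}
    (hb : ∀ i j, ∑ x ∈ B, v i x * v j x = E + if F i = F j then 1 else 0) (hd : ∀ i, 0 < d i)
    (h0 : ∀ i, ∑ x ∈ B, v i x * d x = 0) (hne : ∀ x ∈ B, ∃ i, v i x ≠ 0)
    (hm : (Finset.univ.image F).card = m) : B.card ≤ E + m ∧
      (E ≤ 3 → m < B.card → B.card = E + m ∨ (m = 3 ∧ 2 ≤ E) ∨ (m = 4 ∧ E = 3)) := by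
  classical
  obtain ⟨i⟩ := ‹Nonempty Λ›
  by_cases hr : ∃ i j, ¬ F i = F j
  · obtain ⟨δ, c, ζ, h1, h2, h3, h4, h5⟩ := H19.exc_rel (Setoid.ker F) hr hb hd h0
    set Y := Finset.univ.image ζ with hY
    have y1 : Y.card = m := hm ▸ card_image_congr _ fun a _ c _ => h2 a c
    have y2 : Y ⊆ B := Finset.image_subset_iff.2 fun i _ => h3 i
    have y3 : 1 < m := by
      obtain ⟨i, j, h⟩ := hr
      exact hm ▸ Finset.one_lt_card.2 ⟨_, Finset.mem_image_of_mem _ (Finset.mem_univ i), _,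
        Finset.mem_image_of_mem _ (Finset.mem_univ j), h⟩
    have y4 := Finset.mem_image_of_mem ζ (Finset.mem_univ i)
    have x1 := sum_sq_cases (B \ Y) (a := v i) fun x hx => by
      obtain ⟨h6, h7⟩ := Finset.mem_sdiff.1 hx
      obtain ⟨j, hj⟩ := hne x h6
      rwa [h5 i j x h6 fun k e => h7 (e ▸ Finset.mem_image_of_mem _ (Finset.mem_univ k))]
    have x2 := hb i i
    rw [← Finset.sum_sdiff y2, ← Finset.add_sum_erase _ _ y4, h4, if_pos ((Setoid.ker F).refl i),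
      Finset.sum_congr (s₁ := Y.erase _) rfl (g := fun _ => c * c) fun z hz => by
        obtain ⟨j, -, rfl⟩ := Finset.mem_image.1 (Finset.mem_of_mem_erase hz)
        rw [h4, if_neg fun h => Finset.ne_of_mem_erase hz ((h2 i j).2 h).symm, sub_zero],
      Finset.sum_const, Finset.card_erase_of_mem y4, y1, if_pos rfl, nsmul_eq_mul,
      Nat.cast_sub y3.le] at x2
    have x3 := Finset.card_sdiff_add_card_eq_card y2
    rw [y1] at x3
    obtain ⟨t, ht⟩ : ∃ t, t = (c - δ) * (c - δ) + ((m : ℤ) - (1 : ℕ)) * (c * c) := ⟨_, rfl⟩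
    have x4 : t = 1 ∨ 4 ≤ t ∨ t + 1 = m := by
      have : (1 : ℤ) ≤ m - (1 : ℕ) := by omega
      have h6 : c = 0 ∨ c = δ ∨ c = -δ ∨ 4 ≤ c * c := by
        by_cases h : 2 ≤ c
        · exact Or.inr (Or.inr (Or.inr (by nlinarith)))
        by_cases h' : c ≤ -2
        · exact Or.inr (Or.inr (Or.inr (by nlinarith)))
        omega
      rcases h6 with rfl | rfl | rfl | h
      · rcases h1 with rfl | rfl <;> simp [ht]
      · rcases h1 with rfl | rfl <;> simp [ht]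
      · rcases h1 with rfl | rfl <;> omega
      · exact Or.inr (Or.inl (by nlinarith [mul_self_nonneg (c - δ)]))
    rw [← ht] at x2
    omega
  · push Not at hr
    have e1 : ∀ j, ∀ x ∈ B, v j x = v i x := fun j x hx => by
      rw [← sub_eq_zero]
      refine H19.eq_zero_of_norm_zero (v := fun x => v j x - v i x) ?_ hx
      simp only [mul_sub, sub_mul, Finset.sum_sub_distrib, hb, hr _ i, if_true, sub_self]
    have x1 := sum_sq_cases B (a := v i) fun x hx => by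
      obtain ⟨j, hj⟩ := hne x hx
      rwa [← e1 j x hx]
    have x2 := hb i i
    have x3 : m = 1 := hm ▸ Finset.card_eq_one.2 ⟨F i, Finset.eq_singleton_iff_unique_mem.2
      ⟨Finset.mem_image_of_mem _ (Finset.mem_univ i), by simpa using fun j => hr j i⟩⟩
    rw [if_pos rfl] at x2
    omega

end arith

variable {O : ValuationSubring ℂ} {G : Type*} [Group G] [Finite G] {p : ℕ} [hp : Fact p.Prime]
  [CharP (kk O) p] {D H K L U V W W' : Subgroup G} {b e f : (kk O)[G]} {χ ξ η l m : G → ℂ}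
  {w w' y n : G} {ψ Φ : (G → ℂ) → G → ℂ} {s s' : Subgroup G → ℤ}

open Classical in
theorem Pre.gram_bot (P : Pre p D e ⊥ Φ) (C : Ab p b D e) (hl : l ∈ Irr D) (hl1 : l ≠ CF.one D)
    (hm : m ∈ Irr D) (hm1 : m ≠ CF.one D) :
    dot (cent ⊥) (Φ l - Φ (CF.one D)) (Φ m - Φ (CF.one D)) =
      (cent D).relIndex (TT D e) + if m ∈ CF.orb (TT D e) l then 1 else 0 := by
  have h1 := CF.one_mem_Irr D
  have h2 : ∀ l ∈ Irr D, ∀ v ∈ (⊥ : Subgroup G), l v = CF.one D v := fun l hl v hv => by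
    rw [mem_bot.1 hv, (lin_of_ab C.ab hl).one_apply, CF.one_one]
  have := P.gram C hl h1 hm h1 (h2 l hl) (h2 m hm)
  rw [cent_bot, inf_top_eq, CF.sum_fs_congr (g := fun n => (if cfj n l = m then 1 else 0) + 1)
    fun n hn => by
      have h3 := CF.cfj_mem_Irr_norm hn.1 hl
      simp only [map_sub, CF.cfj_one_norm hn.1, CF.dot_sub_left, CF.dot_sub_right,
        CF.dot_irr h3 hm, CF.dot_irr h3 h1, CF.dot_irr h1 hm, CF.dot_irr h1 h1, hm1.symm,
        (CF.cfj_eq_one_iff hn.1).not.2 hl1, if_true, if_false]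
      ring, Finset.sum_add_distrib, CF.sum_cfj _ _ fun a => if a = m then (1 : ℂ) else 0,
    C.inf_stab hl hl1, Finset.sum_ite_eq', CF.sum_sub_const,
    ← CF.card_mul_relIndex C.pair.cent_le_TT, nsmul_eq_mul, Nat.cast_mul, mul_one, ← mul_add,
    mul_right_inj' (CF.card_ne _)] at this
  rw [cent_bot, this, add_comm]

theorem Ab.card_le (C : Ab p b D e) (hD : D ≠ ⊥) {E : ℕ} (hE : (cent D).relIndex (TT D e) = E) :
    ∃ m, m * E + 1 = Nat.card D ∧ (IB ⊤ b).card ≤ E + m ∧ (E ≤ 3 → m < (IB ⊤ b).card →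
      (IB ⊤ b).card = E + m ∨ (m = 3 ∧ 2 ≤ E) ∨ (m = 4 ∧ E = 3)) := by
  classical
  obtain ⟨Φ, P⟩ := C.exists_pre
  set Λ := (Irr D).erase (CF.one D) with hΛ
  have h1 := CF.one_mem_Irr D
  have hb := C.pair.bl_blk (V := ⊥) bot_le
  have hv : ∀ l : Λ, Φ l - Φ (CF.one D) ∈ vchar (cent ⊥) := fun l =>
    sub_mem (P.vch _ (Finset.mem_of_mem_erase l.2)) (P.vch _ h1)
  choose v hv' using fun l => exists_int_dot (hv l)
  choose! d hd hd' using fun ξ (hξ : ξ ∈ Irr (cent (⊥ : Subgroup G))) => CF.irr_pos_one hξ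
  have a1 : ∀ ξ ∈ Irr (cent ⊥), ∀ l : Λ, (v l ξ : ℂ) =
      dot (cent ⊥) ξ (Φ l) - dot (cent ⊥) ξ (Φ (CF.one D)) := fun ξ hξ l => by
    rw [← CF.dot_sub_right, CF.dot_symm_int (hv' l ξ hξ)]
  have a2 : ∀ ξ ∈ Irr (cent ⊥), ξ ∉ IC p D e ⊥ → ∀ l, v l ξ = 0 := fun ξ hξ h l => by
    rw [← Int.cast_inj (α := ℂ), a1 ξ hξ, Int.cast_zero, sub_eq_zero]
    refine const_of_sum C.ab (A := fun l => dot (cent ⊥) ξ (Φ l)) (fun w hw h2 => ?_)
      (Finset.mem_of_mem_erase l.2) h1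
    obtain ⟨ξ', hξ'⟩ := (C.pair.bl_blk (sup_zpowers_le bot_le hw)).IB_nonempty
    have := P.sec ξ (CF.irr_cf hξ) w hw h2 ξ' hξ' 1 (one_mem _) reg_one
    rw [not_not.1 fun h0 => h (C.pair.mem_IC_of_sec C.ab bot_le hw rfl (one_mem _) reg_one hξ h0),
      eq_comm, mul_eq_zero, mul_eq_zero] at this
    exact (this.resolve_right (CF.irr_one_ne (irr_of_IB hξ'))).resolve_left
      (left_ne_zero_of_mul_eq_one (eps_sq' _))
  have a3 : ∀ l m : Λ, ∑ ξ ∈ IC p D e ⊥, v l ξ * v m ξ =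
      E + if CF.orb (TT D e) l = CF.orb (TT D e) m then 1 else 0 := fun l m => by
    obtain ⟨l1, l2⟩ := Finset.mem_erase.1 l.2
    obtain ⟨m1, m2⟩ := Finset.mem_erase.1 m.2
    have := P.gram_bot C l2 l1 m2 m1
    rw [hE, CF.dot_eq_sum (CF.vchar_cf (hv l)), Finset.sum_congr rfl fun ξ hξ => by
      rw [hv' l ξ hξ, hv' m ξ hξ, map_intCast], ← Finset.sum_subset (IB_subset _ (bl p D e ⊥))
      fun ξ hξ h => by rw [a2 ξ hξ h, Int.cast_zero, zero_mul],
      if_congr (⟨fun h => (CF.orb_eq_of_mem h).symm, fun h => h ▸ CF.self_mem_orb _ _⟩ :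
        (m : G → ℂ) ∈ CF.orb (TT D e) l ↔ CF.orb (TT D e) l = CF.orb (TT D e) m) rfl rfl] at this
    split_ifs at this ⊢ <;> exact_mod_cast this
  obtain ⟨l₀, hl₀, h2⟩ := CF.exists_Irr_not_le (H := D) hD
  have hl₀' : l₀ ∈ Λ := Finset.mem_erase.2 ⟨fun h => h2 (by rw [h, CF.cfker_one]), hl₀⟩
  have : Nonempty Λ := ⟨⟨l₀, hl₀'⟩⟩
  have e1 : (Finset.univ.image fun l : Λ => CF.orb (TT D e) (l : G → ℂ)) =
      Λ.image (CF.orb (TT D e)) := by
    ext; simp
  refine ⟨_, hE ▸ C.card_image (F := CF.orb (TT D e)) fun l _ m _ =>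
    ⟨fun h => h ▸ CF.self_mem_orb _ m, fun h => (CF.orb_eq_of_mem h).symm⟩, ?_⟩
  rw [← C.max.IC_bot]
  refine count (d := fun ξ => if ξ ∈ Irr (cent (⊥ : Subgroup G)) then d ξ else 1) _ a3
    (fun ξ => ?_) (fun l => ?_) (fun χ hχ => ?_) (by rw [e1])
  · split_ifs with h
    exacts [Int.natCast_pos.2 (hd ξ h), one_pos]
  · have := CF.cf_apply_eq_sum (CF.vchar_cf (hv l)) 1
    rw [Pi.sub_apply, P.reg _ (Finset.mem_of_mem_erase l.2) _ h1 1 reg_one, sub_self,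
      ← Finset.sum_subset (IB_subset _ (bl p D e ⊥)) fun ξ hξ h => by
        rw [hv' l ξ hξ, a2 ξ hξ h, Int.cast_zero, zero_mul]] at this
    rw [← Int.cast_inj (α := ℂ), Int.cast_zero, this, Int.cast_sum]
    refine Finset.sum_congr rfl fun ξ hξ => ?_
    rw [if_pos (irr_of_IB hξ), hv' l ξ (irr_of_IB hξ), hd' ξ (irr_of_IB hξ)]
    push_cast; rfl
  by_contra! h
  have h3 := irr_of_IB hχ
  have h4 : ∀ w ∈ D, w ≠ 1 → th D ⊥ Φ χ w = 0 := fun w hw hw1 => by
    rw [th, ← Finset.add_sum_erase _ _ h1, Finset.sum_congr rfl fun l hl => by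
      rw [sub_eq_zero.1 ((a1 χ h3 ⟨l, hl⟩).symm.trans (by rw [h, Int.cast_zero]))],
      ← Finset.mul_sum, sum_erase_one C.ab hw hw1, CF.one_of_mem hw]
    ring
  have h5 : ∀ ξ ∈ IC p D e ⊥, ξ ≠ χ → ev χ (Zr p ξ) = 0 := fun ξ hξ h6 => by
    have := card_mul_dot (V := ⊥) (ω := 1) IsPGroup.of_bot bot_le le_rfl
      (CF.irr_cf h3) (CF.irr_vchar (irr_of_IB hξ)) (by simp) (by simp) (by simp)
      fun g hg => C.max.section_zero C.ab bot_le (CF.irr_cf h3) (hb.ev_mul_lf hχ)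
        fun w hw y hy hr ⟨x, _, hx⟩ => by
          have h7 : w ≠ 1 := fun h => hg (by simpa [h] using hx)
          obtain ⟨ξ', h8⟩ := (C.pair.bl_blk (sup_zpowers_le bot_le hw)).IB_nonempty
          rw [P.sec χ (CF.irr_cf h3) w hw h7 ξ' h8 y hy hr, h4 w hw h7, mul_zero, zero_mul]
    rwa [CF.dot_irr_ne h3 (irr_of_IB hξ) h6.symm, mul_zero, eq_comm,
      mul_eq_zero_iff_left (CF.card_ne _)] at this
  obtain ⟨z₀, hz₀, h6⟩ : ∃ z ∈ IC p D e ⊥, z ≠ χ := by
    by_contra! h6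
    have := a3 ⟨l₀, hl₀'⟩ ⟨l₀, hl₀'⟩
    rw [Finset.sum_eq_zero fun z hz => by rw [h6 z hz, h, zero_mul], if_pos rfl] at this
    omega
  obtain ⟨ξ, hξ, h7⟩ := hb.exists_hz p
  by_cases h8 : ξ = χ
  · refine hb.ev_Zr_ne_zero hz₀ hξ h7 ?_
    rw [ev_Zr_comm, h8, h5 z₀ hz₀ h6, zero_div]
    exact zero_mem _
  · exact hb.ev_Zr_ne_zero hχ hξ h7 (by rw [h5 ξ hξ h8, zero_div]; exact zero_mem _)

theorem Ab.rank_sub (C : Ab p b D e) (hV : V ≠ ⊥) (hVD : V ≤ D) (hK : K = cent V) {γ : Blk O K}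
    (h : eA K γ = bl p D e V) : blockRank p (irr γ) = 1 := by
  subst hK
  obtain ⟨ψ, N⟩ := C.exists_NV hV hVD
  obtain ⟨ξ, hξ⟩ := H19.irr_nonempty γ
  refine le_antisymm ?_ (blockRank_pos γ)
  rw [← rk_top, ← Finset.card_singleton (ξ : cent V → ℂ)]
  refine rk_le_card fun χ hχ => ⟨1, fun y hy => ?_⟩
  have h1 : (⟨χ, CF.mem_Irr_top.1 (irr_of_IB hχ)⟩ : IrrCharacter _) ∈ irr γ := mem_IB_top.1 hχ
  have h2 := ext_mem_IB.2 h1
  have h3 := ext_mem_IB.2 hξ
  rw [h] at h2 h3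
  have := N.reg (y := (y : G)) h2 h3 (by rwa [orderOf_coe])
  simpa [ext_coe] using this

theorem Ab.card_eq {β : Blk O G} (C : Ab p (eG β) D e) :
    (cent D).relIndex (TT D e) * Nat.card (irr β) + 1 =
      (cent D).relIndex (TT D e) * blockRank p (irr β) + Nat.card D := by
  classical
  have := Fintype.ofFinite D
  obtain ⟨c, S⟩ := H19.exists_SB C.max
  have h1 := S.card_of_ab C.ab
  rw [← Finset.add_sum_erase _ _ (Finset.mem_univ 1), Finset.sum_congr rfl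
    (g := fun _ => Nat.card (cent D)) fun u hu => by
      have h2 : zpowers (u : G) ≠ ⊥ := fun h =>
        Finset.ne_of_mem_erase hu (Subtype.ext (zpowers_eq_bot.1 h))
      rw [C.rank_sub h2 (zpowers_le.2 u.2) (cent_zpowers _).symm (S.eq u u.2), mul_one,
        ← cent_zpowers, C.inf_cent (zpowers_le.2 u.2) h2],
    Finset.sum_const, Finset.card_erase_of_mem (Finset.mem_univ _), Finset.card_univ,
    ← Nat.card_eq_fintype_card, smul_eq_mul] at h1
  have h3 : TT D e ⊓ centralizer {((1 : D) : G)} = TT D e :=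
    inf_eq_left.2 fun x _ => mem_centralizer_singleton_iff.2 (by simp)
  rw [h3, show blockRank p (irr (c ((1 : D) : G))) = blockRank p (irr β) from S.rank_one,
    ← CF.card_mul_relIndex C.pair.cent_le_TT, mul_assoc, mul_assoc, mul_comm (_ - 1), ← mul_add,
    Nat.mul_right_inj Nat.card_pos.ne'] at h1
  have : 0 < Nat.card D := Nat.card_pos
  omega

theorem Ab.main {β : Blk O G} (C : Ab p (eG β) D e) (hD : D ≠ ⊥) {E : ℕ}
    (hE : (cent D).relIndex (TT D e) = E) :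
    Nat.card (irr β) = blockRank p (irr β) + (Nat.card D - 1) / E ∧ blockRank p (irr β) ≤ E ∧
      (E ≤ 3 → blockRank p (irr β) = E) := by
  obtain ⟨m, h1, h2, h3⟩ := C.card_le hD hE
  have h4 := C.card_eq
  have h5 : 0 < E := hE ▸ CF.relIndex_pos _ _
  have h6 := blockRank_pos (p := p) β
  rw [card_IB_top] at h2 h3
  rw [hE, ← h1, ← add_assoc, mul_comm m, ← mul_add, Nat.add_right_cancel_iff,
    Nat.mul_right_inj h5.ne'] at h4
  refine ⟨by rw [← h1, Nat.add_sub_cancel, Nat.mul_div_cancel _ h5, h4], by omega, fun h => ?_⟩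
  have key : (Nat.card D).Prime → blockRank p (irr β) = E := fun h =>
    have := Fact.mk h
    hE ▸ Cy.blockRank ⟨C.max, isCyclic_of_prime_card rfl, hD⟩
  rcases h3 h (by omega) with h7 | ⟨rfl, h7⟩ | ⟨rfl, rfl⟩
  · omega
  · obtain rfl | rfl : E = 2 ∨ E = 3 := by omega
    · exact key (h1 ▸ by norm_num)
    · obtain ⟨k, hk⟩ := IsPGroup.iff_card.1 C.pg
      have a1 := (Nat.prime_dvd_prime_iff_eq Nat.prime_two hp.out).1
        (Nat.prime_two.dvd_of_dvd_pow (hk ▸ h1 ▸ by norm_num : 2 ∣ p ^ k))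
      have a2 := (Nat.prime_dvd_prime_iff_eq Nat.prime_five hp.out).1
        (Nat.prime_five.dvd_of_dvd_pow (hk ▸ h1 ▸ by norm_num : 5 ∣ p ^ k))
      omega
  · exact key (h1 ▸ by norm_num)

end H20.Glu
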