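/-
Regular classes of a central extension, and groups acting without fixed points.
-/
import Cfsg.Agent.H21.Trip
import Cfsg.Agent.H2.FrobCompl

set_option autoImplicit false
set_option linter.unusedSectionVars false
open H17 Cfsg H15 CF H21
open scoped ComplexConjugate

namespace H19

section reg
variable {Δ : Type*} [Group Δ] [Finite Δ] {U Z : Subgroup Δ} {lam : Δ → ℂ}

theorem irr_central_mul {χ : Δ → ℂ} (hχ : χ ∈ Irr U) {z : Δ} (hz : z ∈ U) (hc : z ∈ 𝒞(U)) (x : Δ) :
    χ 1 * χ (z * x) = χ z * χ x := by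
  obtain ⟨ω, hω⟩ := exists_central_scalar hχ hz hc
  have := hω 1
  rw [mul_one] at this
  rw [hω, this]; ring

theorem over_orth (hl : IsLin Z lam) (hZ : Z ≤ U) (hc : Z ≤ 𝒞(U)) (x y : Δ) :
    (Nat.card Z : ℂ) * ∑ χ ∈ IrrO U Z lam, χ x * conj (χ y) =
      ∑ z ∈ fs (Z : Set Δ), conj (lam z) * ∑ χ ∈ Irr U, χ (z * x) * conj (χ y) := by
  classical
  simp_rw [Finset.mul_sum]
  rw [Finset.sum_comm]
  have key : ∀ χ ∈ Irr U, ∑ z ∈ fs (Z : Set Δ), conj (lam z) * (χ (z * x) * conj (χ y)) =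
      (Nat.card Z : ℂ) * (χ 1)⁻¹ * dot Z χ lam * (χ x * conj (χ y)) := fun χ hχ => by
    rw [dot_def]
    have h0 := irr_one_ne hχ
    have h1 := card_ne Z
    rw [sum_fs_congr (g := fun z => (χ 1)⁻¹ * (χ x * conj (χ y)) * (χ z * conj (lam z)))
      fun z hz => ?_, ← Finset.mul_sum]
    · field_simp
    · have := irr_central_mul hχ (hZ hz) (hc hz) x
      have e : χ (z * x) = (χ 1)⁻¹ * (χ z * χ x) := by rw [← this]; field_simp
      rw [e]; ring
  rw [Finset.sum_congr rfl key]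
  symm
  rw [← Finset.sum_subset (over_subset U Z lam) fun χ h1 h2 => by
    rw [not_not.1 fun h => h2 (mem_over.2 ⟨h1, h⟩)]; ring]
  refine Finset.sum_congr rfl fun χ hχ => ?_
  rw [(eqv_of_over hl hZ hc hχ).dot hl]
  have h0 := irr_one_ne (mem_over.1 hχ).1
  field_simp

/-- the number of characters over `lam` is at least the number of regular classes -/
theorem reg_le (hl : IsLin Z lam) (hZ : Z ≤ U) (hc : Z ≤ 𝒞(U)) {ι : Type*} [Fintype ι]
    (x : ι → Δ) (hx : ∀ i, x i ∈ U)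
    (hr : ∀ i j, ∀ g ∈ U, ∀ z ∈ Z, g * (z * x i) * g⁻¹ = x j → z = 1 ∧ i = j) :
    Fintype.card ι ≤ (IrrO U Z lam).card := by
  classical
  have key : ∀ i j, ∑ χ ∈ IrrO U Z lam, χ (x i) * conj (χ (x j)) = 0 ↔ i ≠ j := fun i j => by
    rw [← mul_eq_zero_iff_left (card_ne Z), over_orth hl hZ hc]
    rw [Finset.sum_eq_single 1 (fun z hz h1 => ?_) (fun h => (h (mem_fs.2 Z.one_mem)).elim)]
    · rw [one_mul, hl.one_apply, map_one, one_mul, column_orth (hx i)]
      split_ifs with h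
      · obtain ⟨g, hg, e⟩ := h
        have := (hr i j g hg 1 Z.one_mem (by rwa [one_mul])).2
        exact ⟨fun h => (card_ne _ h).elim, fun h => (h this).elim⟩
      · simp only [true_iff]
        rintro rfl
        exact h ⟨1, U.one_mem, by simp⟩
    · rw [column_orth (U.mul_mem (hZ (mem_fs.1 hz)) (hx i)), if_neg, mul_zero]
      rintro ⟨g, hg, e⟩
      exact h1 (hr i j g hg z (mem_fs.1 hz) e).1
  let v : ι → (IrrO U Z lam → ℂ) := fun i χ => χ.1 (x i)
  have hv : LinearIndependent ℂ v := by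
    rw [Fintype.linearIndependent_iff]
    intro c hc0 j
    have h1 : ∑ χ : IrrO U Z lam, (∑ i, c i • v i) χ * conj (χ.1 (x j)) = 0 := by
      rw [hc0]; simp
    simp only [Finset.sum_apply, Pi.smul_apply, smul_eq_mul, Finset.sum_mul, v] at h1
    rw [Finset.sum_comm] at h1
    simp_rw [mul_assoc, ← Finset.mul_sum] at h1
    have h2 : ∀ i, ∑ χ : IrrO U Z lam, χ.1 (x i) * conj (χ.1 (x j)) =
        ∑ χ ∈ IrrO U Z lam, χ (x i) * conj (χ (x j)) := fun i =>
      Finset.sum_coe_sort (IrrO U Z lam) fun χ => χ (x i) * conj (χ (x j))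
    simp_rw [h2] at h1
    rw [Finset.sum_eq_single j (fun i _ hi => by rw [(key i j).2 hi, mul_zero]) (by simp)] at h1
    exact (mul_eq_zero.1 h1).resolve_right fun h => (key j j).1 h rfl
  have := hv.fintype_card_le_finrank
  rwa [Module.finrank_fintype_fun_eq_card, Fintype.card_coe] at this

theorem sum_over_sq (hl : IsLin Z lam) (hZ : Z ≤ U) (hc : Z ≤ 𝒞(U)) :
    ∑ χ ∈ IrrO U Z lam, χ 1 * χ 1 = Z.relIndex U := by
  have := congrFun (Ind_eq_sum_over hZ hl.char) 1
  rw [Ind_one hZ, hl.one_apply, mul_one, Finset.sum_apply] at this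
  rw [this]
  refine Finset.sum_congr rfl fun χ hχ => ?_
  rw [(eqv_of_over hl hZ hc hχ).dot hl, Pi.smul_apply, smul_eq_mul]

/-- two regular elements that are not conjugate modulo `Z` -/
theorem two_le_over (hl : IsLin Z lam) (hZ : Z ≤ U) (hc : Z ≤ 𝒞(U)) {x : Δ} (hx : x ∈ U)
    (hxZ : x ∉ Z) (hr : ∀ g ∈ U, ∀ z ∈ Z, g * (z * x) * g⁻¹ = x → z = 1) :
    2 ≤ (IrrO U Z lam).card := by
  have hcz : ∀ g ∈ U, ∀ z ∈ Z, g * z * g⁻¹ = z := fun g hg z hz => by
    rw [Subgroup.mem_centralizer_iff.1 (hc hz) g hg]; simp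
  have := reg_le hl hZ hc (ι := Fin 2) ![1, x] (by intro i; fin_cases i <;> simp [hx, U.one_mem])
    (fun i j g hg z hz e => by
      fin_cases i <;> fin_cases j
      · simp only [Fin.zero_eta, Matrix.cons_val_zero, mul_one] at e
        rw [hcz g hg z hz] at e
        exact ⟨e, rfl⟩
      · simp only [Fin.zero_eta, Matrix.cons_val_zero, mul_one, Fin.mk_one, Matrix.cons_val_one] at e
        rw [hcz g hg z hz] at e
        exact (hxZ (e ▸ hz)).elim
      · simp only [Fin.zero_eta, Matrix.cons_val_zero, Fin.mk_one, Matrix.cons_val_one] at e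
        have : z * x = 1 := by
          rw [mul_inv_eq_one, mul_eq_left] at e; exact e
        exact (hxZ (by rw [eq_inv_of_mul_eq_one_right this]; exact Z.inv_mem hz)).elim
      · simp only [Fin.mk_one, Matrix.cons_val_one, Matrix.cons_val_zero] at e
        exact ⟨hr g hg z hz e, rfl⟩)
  simpa using this

theorem three_le_over (hl : IsLin Z lam) (hZ : Z ≤ U) (hc : Z ≤ 𝒞(U)) {x y : Δ} (hx : x ∈ U)
    (hxZ : x ∉ Z) (hr : ∀ g ∈ U, ∀ z ∈ Z, g * (z * x) * g⁻¹ = x → z = 1) (hy : y ∈ U)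
    (hyZ : y ∉ Z) (hr' : ∀ g ∈ U, ∀ z ∈ Z, g * (z * y) * g⁻¹ = y → z = 1)
    (hxy : ∀ g ∈ U, ∀ z ∈ Z, g * (z * x) * g⁻¹ ≠ y) :
    3 ≤ (IrrO U Z lam).card := by
  have hcz : ∀ g ∈ U, ∀ z ∈ Z, g * z * g⁻¹ = z := fun g hg z hz => by
    rw [Subgroup.mem_centralizer_iff.1 (hc hz) g hg]; simp
  have h1 : ∀ w ∉ Z, ∀ g ∈ U, ∀ z ∈ Z, g * (z * w) * g⁻¹ ≠ 1 := fun w hw g hg z hz e => by
    have : z * w = 1 := by
      rw [mul_inv_eq_one, mul_eq_left] at e; exact e
    exact hw (by rw [eq_inv_of_mul_eq_one_right this]; exact Z.inv_mem hz)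
  have h2 : ∀ w ∉ Z, ∀ g ∈ U, ∀ z ∈ Z, g * (z * 1) * g⁻¹ ≠ w := fun w hw g hg z hz e => by
    rw [mul_one, hcz g hg z hz] at e
    exact hw (e ▸ hz)
  have h3 : ∀ g ∈ U, ∀ z ∈ Z, g * (z * y) * g⁻¹ ≠ x := fun g hg z hz e => by
    refine hxy g⁻¹ (U.inv_mem hg) z⁻¹ (Z.inv_mem hz) ?_
    rw [← e]
    have := hcz g⁻¹ (U.inv_mem hg) z⁻¹ (Z.inv_mem hz)
    calc g⁻¹ * (z⁻¹ * (g * (z * y) * g⁻¹)) * g⁻¹⁻¹ = (g⁻¹ * z⁻¹ * g⁻¹⁻¹) * (z * y) := by group
      _ = y := by rw [this]; group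
  have := reg_le hl hZ hc (ι := Fin 3) ![1, x, y]
    (by intro i; fin_cases i <;> simp [hx, hy, U.one_mem])
    (fun i j g hg z hz e => by
      fin_cases i <;> fin_cases j
      · refine ⟨?_, rfl⟩
        change g * (z * 1) * g⁻¹ = 1 at e
        rwa [mul_one, hcz g hg z hz] at e
      · exact (h2 x hxZ g hg z hz e).elim
      · exact (h2 y hyZ g hg z hz e).elim
      · exact (h1 x hxZ g hg z hz e).elim
      · exact ⟨hr g hg z hz e, rfl⟩
      · exact (hxy g hg z hz e).elim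
      · exact (h1 y hyZ g hg z hz e).elim
      · exact (h3 g hg z hz e).elim
      · exact ⟨hr' g hg z hz e, rfl⟩)
  simpa using this

end reg

section fpf
variable {H A : Type*} [Group H] [Finite H] [Group A] [Finite A] [Nontrivial A]

theorem cyc_of_fpf (φ : H →* MulAut A) (hf : ∀ h : H, h ≠ 1 → ∀ v : A, φ h v = v → v = 1)
    (hH : (∀ a b : H, a * b = b * a) ∨ ∃ r : ℕ, r.Prime ∧ r ≠ 2 ∧ IsPGroup r H) : IsCyclic H := by
  let Γ := A ⋊[φ] H
  have : Finite Γ := Finite.of_equiv _ (SemidirectProduct.equivProd (φ := φ)).symm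
  let K : Subgroup Γ := (SemidirectProduct.inl : A →* Γ).range
  let C : Subgroup Γ := (SemidirectProduct.inr : H →* Γ).range
  have e : H ≃* C := MonoidHom.ofInjective SemidirectProduct.inr_injective
  have hKn : K.Normal := by
    have : K = (SemidirectProduct.rightHom : Γ →* H).ker :=
      SemidirectProduct.range_inl_eq_ker_rightHom
    rw [this]; infer_instance
  have hK : K ≠ ⊥ := by
    obtain ⟨a, ha⟩ := exists_ne (1 : A)
    intro h
    have : (SemidirectProduct.inl a : Γ) ∈ K := ⟨a, rfl⟩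
    rw [h, Subgroup.mem_bot] at this
    exact ha (SemidirectProduct.inl_injective (this.trans (map_one _).symm))
  have hn : C ≤ Subgroup.normalizer (K : Set Γ) := by rw [Subgroup.normalizer_eq_top]; exact le_top
  have hfp : ∀ a ∈ C, a ≠ 1 → K ⊓ Subgroup.centralizer {a} = ⊥ := by
    rintro _ ⟨h, rfl⟩ h1
    rw [eq_bot_iff]
    rintro _ ⟨⟨v, rfl⟩, hv⟩
    have h2 := Subgroup.mem_centralizer_singleton_iff.1 hv
    have h3 : φ h v = v := by
      have := congrArg SemidirectProduct.left h2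
      rw [SemidirectProduct.mul_left, SemidirectProduct.mul_left] at this
      simpa using this.symm
    rw [hf h (fun e => h1 (by rw [e, map_one])) v h3, map_one]
    exact Subgroup.one_mem _
  have hc : IsCyclic C := by
    rcases hH with hH | ⟨r, hr, hr2, hP⟩
    · have : IsMulCommutative C := ⟨⟨fun a b => by
        obtain ⟨a, rfl⟩ := e.surjective a
        obtain ⟨b, rfl⟩ := e.surjective b
        rw [← map_mul, hH, map_mul]⟩⟩
      exact H2.isCyclic_of_fpf_comm' C K hK hn hfp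
    · have := Fact.mk hr
      exact H2.isCyclic_of_fpf_odd_pgroup hK hn hfp (hP.of_equiv e) hr2
  exact isCyclic_of_surjective e.symm e.symm.surjective

end fpf

/-- the preimage of a cyclic subgroup under a map with central kernel is abelian -/
theorem comm_of_cyc {Δ E : Type*} [Group Δ] [Group E] (α : Δ →* E)
    (hZ : α.ker ≤ Subgroup.center Δ) {P : Subgroup E} (hP : IsCyclic P) {x y : Δ}
    (hx : α x ∈ P) (hy : α y ∈ P) : x * y = y * x := by
  let S := P.comap α
  let f : S →* P := (α.comp S.subtype).codRestrict P fun s => s.2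
  have hf : f.ker ≤ Subgroup.center S := fun s hs => by
    rw [Subgroup.mem_center_iff]
    intro t
    have : (s : Δ) ∈ α.ker := congrArg Subtype.val hs
    exact Subtype.ext (Subgroup.mem_center_iff.1 (hZ this) t)
  exact congrArg Subtype.val
    ((f.isMulCommutative_of_isCyclic_of_ker_le_center hf).1.1 ⟨x, hx⟩ ⟨y, hy⟩)

end H19
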