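/-
Central extensions with at most two characters over a central linear character.
-/
import Cfsg.Agent.H19.K3a
import Cfsg.Agent.H21.Dd1
import Cfsg.Agent.H20.Eq
import Cfsg.Agent.H20.Rk
import Cfsg.Agent.H25.Zsig

set_option autoImplicit false
set_option linter.unusedSectionVars false
open H17 Cfsg H15 CF H21
open scoped ComplexConjugate

namespace H19

theorem root_eq {O : ValuationSubring ℂ} {r : ℕ} [Fact r.Prime] [CharP (kk O) r] {a c : ℂ} {m : ℕ}
    (hm : ¬ r ∣ m) (ha : a ^ m = 1) (hc : c ^ m = 1) (h : a - c ∈ O.nonunits) : a = c := by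
  have h0 : m ≠ 0 := by rintro rfl; exact hm (dvd_zero r)
  have haO := mem_of_pow_eq_one O h0 ha
  have hcO := mem_of_pow_eq_one O h0 hc
  by_contra hne
  have h1 := geom_sum₂_mul a c m
  rw [ha, hc, sub_self, mul_eq_zero, or_iff_left (sub_ne_zero.2 hne)] at h1
  have h2 := congrArg (res O) h1
  rw [res_sum _ fun i _ => O.mul_mem _ _ (pow_mem haO _) (pow_mem hcO _), res_zero,
    Finset.sum_congr rfl (g := fun _ => res O c ^ (m - 1)) fun i hi => by
      rw [res_mul (pow_mem haO _) (pow_mem hcO _), res_pow haO, res_pow hcO,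
        (res_eq_res_iff haO hcO).2 h, ← pow_add]
      have := Finset.mem_range.1 hi
      congr 1; omega] at h2
  rw [Finset.sum_const, Finset.card_range, nsmul_eq_mul, mul_eq_zero] at h2
  rcases h2 with h2 | h2
  · exact hm ((CharP.cast_eq_zero_iff (kk O) r m).1 h2)
  · exact not_mem_nonunits_of_pow_eq_one h0 hc ((res_eq_zero_iff hcO).1 (eq_zero_of_pow_eq_zero h2))

section
variable {Δ : Type*} [Group Δ] [Finite Δ] {R Z : Subgroup Δ} {lam : Δ → ℂ}

theorem central_pow {ξ : IrrCharacter Δ} {q : Δ} (hq : q ∈ Subgroup.center Δ) {b : ℕ}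
    (hb : q ^ b = 1) : centralChar (ξ : Δ → ℂ) q = (ξ : Δ → ℂ) q / (ξ : Δ → ℂ) 1 ∧
      ((ξ : Δ → ℂ) q / (ξ : Δ → ℂ) 1) ^ b = 1 := by
  have hξ : (ξ : Δ → ℂ) ∈ Irr (⊤ : Subgroup Δ) := mem_Irr_top.2 ξ.2
  have h0 := irr_one_ne hξ
  constructor
  · have : Subgroup.centralizer ({q} : Set Δ) = ⊤ := by
      rw [eq_top_iff]
      intro x _
      exact Subgroup.mem_centralizer_singleton_iff.2 (Subgroup.mem_center_iff.1 hq x)
    rw [centralChar, this, Subgroup.index_top, Nat.cast_one, one_mul]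
  · obtain ⟨ω, hω⟩ := exists_central_scalar hξ (Subgroup.mem_top q)
      (Subgroup.mem_centralizer_iff.2 fun x _ => Subgroup.mem_center_iff.1 hq x)
    have h1 : ∀ n : ℕ, (ξ : Δ → ℂ) (q ^ n) = ω ^ n * (ξ : Δ → ℂ) 1 := fun n => by
      induction n with
      | zero => simp
      | succ n ih => rw [pow_succ', hω, ih]; ring
    have h2 := h1 1
    have h3 := h1 b
    rw [pow_one, pow_one] at h2
    rw [hb] at h3
    rw [h2, mul_div_cancel_right₀ _ h0]
    exact (mul_eq_right₀ h0).1 h3.symm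

theorem exists_twist (hl : IsLin Z lam) (hc : Z ≤ Subgroup.center Δ) (hZR : Z ≤ R)
    (hR : ∀ x ∈ R, ∀ y ∈ R, x * y = y * x) {r : ℕ} (hr : r.Prime) (hi : ¬ r ∣ R.index) :
    ∃ (μ : Δ →* ℂˣ) (b : ℕ), ¬ r ∣ b ∧ ∀ z ∈ Z, lam z ^ b = (μ z : ℂ) ^ b := by
  obtain ⟨ν₀, h1, h2⟩ := exists_lin_ext hZR hl (by
    have : ⁅R, R⁆ = ⊥ := by
      rw [Subgroup.commutator_eq_bot_iff_le_centralizer]
      exact fun x hx => Subgroup.mem_centralizer_iff.2 fun y hy => hR y hy x hx
    rw [this, bot_inf_eq]; exact bot_le)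
  obtain ⟨ν, rfl⟩ := h1.exists_hom
  obtain ⟨a, b, hb, e⟩ := Nat.exists_eq_pow_mul_and_not_dvd (Nat.card_pos (α := Δ)).ne' r hr.ne_one
  have hco : R.index.Coprime (r ^ a) := ((hr.coprime_iff_not_dvd.2 hi).symm).pow_right a
  obtain ⟨k, hk⟩ : ∃ k, R.index * k ≡ 1 [MOD r ^ a] :=
    ⟨R.index ^ ((r ^ a).totient - 1), by
      rw [← pow_succ', Nat.sub_add_cancel (Nat.totient_pos.2 (pow_pos hr.pos a))]
      exact Nat.ModEq.pow_totient hco⟩
  refine ⟨(MonoidHom.transfer ν) ^ k, b, hb, fun z hz => ?_⟩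
  have key : ∀ (j : ℕ) (g₀ : Δ), g₀⁻¹ * z ^ j * g₀ ∈ R → g₀⁻¹ * z ^ j * g₀ = z ^ j := fun j g _ => by
    rw [mul_assoc, ← Subgroup.mem_center_iff.1 (hc (Z.pow_mem hz j)) g]; simp
  have h3 : lam (z ^ R.index) = ν ⟨z ^ R.index, MonoidHom.transfer_eq_pow_aux z key⟩ := by
    rw [← h2, Res_of_mem _ (Z.pow_mem hz _), ofHom_apply]
  rw [MonoidHom.pow_apply, MonoidHom.transfer_eq_pow ν z key, Units.val_pow_eq_pow_val, ← h3,
    hl.map_pow hz, ← pow_mul, ← pow_mul, ← mul_assoc]
  have h4 : lam z ^ (r ^ a * b) = 1 := by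
    rw [← e, ← hl.map_pow hz, pow_card_eq_one', hl.one_apply]
  have h5 := (hk.mul_right' b).symm
  rw [one_mul] at h5
  exact pow_eq_pow_of_modEq h5 h4

/-- if a Sylow `r`-subgroup lifts to an abelian group, `r` odd, then `r` does not divide the index -/
theorem blk2 (hl : IsLin Z lam) (hc : Z ≤ Subgroup.center Δ) (h2 : (IrrO ⊤ Z lam).card ≤ 2)
    {r : ℕ} (hr : r.Prime) (hr2 : r ≠ 2) (hZR : Z ≤ R) (hR : ∀ x ∈ R, ∀ y ∈ R, x * y = y * x)
    (hi : ¬ r ∣ R.index) : ¬ r ∣ Z.index := by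
  classical
  have := Fact.mk hr
  obtain ⟨O, hO⟩ := exists_val r
  obtain ⟨μ, b, hb, hμ⟩ := exists_twist hl hc hZR hR hr hi
  have hc' : Z ≤ 𝒞((⊤ : Subgroup Δ)) := fun z hz =>
    Subgroup.mem_centralizer_iff.2 fun x _ => Subgroup.mem_center_iff.1 (hc hz) x
  let W : Subgroup Δ :=
    { carrier := {z | z ∈ Z ∧ lam z = μ z}
      one_mem' := ⟨Z.one_mem, by simp [hl.one_apply]⟩
      mul_mem' := fun {x y} hx hy => ⟨Z.mul_mem hx.1 hy.1, by
        rw [hl.map_mul hx.1 hy.1, hx.2, hy.2, map_mul, Units.val_mul]⟩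
      inv_mem' := fun {x} hx => ⟨Z.inv_mem hx.1, by
        rw [hl.map_inv hx.1, hx.2, map_inv, Units.val_inv_eq_inv_val]⟩ }
  have hWZ : W ≤ Z := fun _ h => h.1
  have hWn : W.Normal := ⟨fun w hw g => by
    rw [Subgroup.mem_center_iff.1 (hc hw.1) g, mul_inv_cancel_right]; exact hw⟩
  let f := QuotientGroup.mk' W
  have hf : Function.Surjective f := QuotientGroup.mk'_surjective W
  have hm : ∀ ν : Δ →* ℂˣ, IsLin ⊤ fun x => (ν x : ℂ) := fun ν =>
    isLin_of_mul (fun x hx => (hx (Subgroup.mem_top x)).elim) (by simp) (by simp)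
  have hcen : ∀ z ∈ Z, f z ∈ Subgroup.center (Δ ⧸ W) ∧ f z ^ b = 1 := fun z hz => ⟨by
    rw [Subgroup.mem_center_iff]
    intro g
    obtain ⟨g, rfl⟩ := hf g
    rw [← map_mul, Subgroup.mem_center_iff.1 (hc hz) g, map_mul], by
    rw [← map_pow]
    exact (QuotientGroup.eq_one_iff _).2 ⟨Z.pow_mem hz b, by
      rw [hl.map_pow hz, hμ z hz, map_pow, Units.val_pow_eq_pow_val]⟩⟩
  have key : ∀ χ ∈ IrrO ⊤ Z lam, ∃ n : ℕ, χ 1 = n ∧ r ^ W.index.factorization r ∣ n := by
    intro χ hχ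
    have he := eqv_of_over hl le_top hc' hχ
    have h1 := mem_Irr_top.1 (mul_lin_mem_Irr (mem_over.1 hχ).1 (hm μ⁻¹))
    obtain ⟨ψ, hψ⟩ := exists_infl f hf (χ := ⟨_, h1⟩) (by
      intro w hw
      have hw' : w ∈ W := (QuotientGroup.eq_one_iff w).1 hw
      refine mem_cfker.2 fun x => ?_
      change χ (w * x) * (μ⁻¹ (w * x) : ℂ) = χ x * (μ⁻¹ x : ℂ)
      rw [he w hw'.1, hw'.2, map_mul, Units.val_mul, MonoidHom.inv_apply μ w,
        Units.val_inv_eq_inv_val]
      field_simp)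
    have hψ' : ∀ x, (ψ : Δ ⧸ W → ℂ) (f x) = χ x * (μ x : ℂ)⁻¹ := fun x => by
      have := congrArg (fun c : IrrCharacter Δ => (c : Δ → ℂ) x) hψ
      simp only [infl_apply] at this
      rw [this]
      change χ x * (μ⁻¹ x : ℂ) = _
      rw [MonoidHom.inv_apply, Units.val_inv_eq_inv_val]
    have hψ1 : (ψ : Δ ⧸ W → ℂ) 1 = χ 1 := by
      rw [← map_one f, hψ']; simp
    let β := H19.lam O ψ
    let F : IrrCharacter (Δ ⧸ W) → (Δ → ℂ) := fun ξ => (infl f hf ξ : Δ → ℂ) * fun x => (μ x : ℂ)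
    have hF : ∀ ξ ∈ irr β, F ξ ∈ IrrO ⊤ Z lam := fun ξ hξ => by
      have h3 : F ξ ∈ Irr ⊤ := mul_lin_mem_Irr (mem_Irr_top.2 (infl f hf ξ).2) (hm μ)
      refine (eqv_of_apply h3 le_top hc' fun z hz => ?_).mem_over hl h3
      obtain ⟨a1, a2⟩ := central_pow (ξ := ξ) (hcen z hz).1 (hcen z hz).2
      obtain ⟨b1, b2⟩ := central_pow (ξ := ψ) (hcen z hz).1 (hcen z hz).2
      have h4 := (lam_eq_iff ξ ψ).1 hξ (f z)
      rw [a1, b1] at h4
      have h5 := root_eq hb a2 b2 h4
      have h6 := he z hz 1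
      rw [mul_one] at h6
      have h7 := irr_one_ne (mem_over.1 hχ).1
      have h8 := irr_one_ne (mem_Irr_top.2 ξ.2)
      rw [hψ', hψ1, h6, div_eq_iff h8] at h5
      change (ξ : Δ ⧸ W → ℂ) (f z) * (μ z : ℂ) = lam z * ((ξ : Δ ⧸ W → ℂ) (f 1) * (μ 1 : ℂ))
      rw [h5, map_one, map_one, Units.val_one]
      field_simp
    have hk : Nat.card (irr β) ≤ 2 := by
      refine le_trans ?_ h2
      rw [← Nat.card_eq_finsetCard]
      refine Nat.card_le_card_of_injective (fun ξ : irr β => (⟨F ξ, hF ξ ξ.2⟩ : IrrO ⊤ Z lam))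
        fun ξ ξ' e => Subtype.ext (infl_injective f hf (Subtype.ext (funext fun x => ?_)))
      have := congrFun (congrArg Subtype.val e) x
      exact mul_right_cancel₀ (μ x).ne_zero this
    have hd : blockDefect r (irr β) = 0 := by
      by_contra hd
      have h3 := rank_lt_card hd
      have h4 := H20.blockRank_pos (p := r) β
      have h5 := (H20.card_eq_of_le_four (p := r) (β := β) (by omega) (by omega)).1
      have h6 : r ∣ 2 := by
        rw [show 2 = Nat.card (irr β) by omega, h5]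
        exact dvd_pow_self r hd
      exact hr2 ((Nat.prime_dvd_prime_iff_eq hr Nat.prime_two).1 h6)
    have h3 := H20.defect_add_emin r (irr_nonempty β)
    have h4 := H20.emin_le (p := r) (mem_irr_lam (O := O) ψ)
    refine ⟨charDegree (ψ : Δ ⧸ W → ℂ), by rw [irr_charDegree_cast, hψ1], ?_⟩
    refine (pow_dvd_pow r ?_).trans (Nat.ordProj_dvd _ r)
    change (Nat.card (Δ ⧸ W)).factorization r ≤ H20.vd r ψ
    change H20.emin r (irr β) ≤ _ at h4
    omega
  intro hdvd
  choose! n hn using key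
  have h3 := sum_over_sq hl le_top hc'
  rw [Finset.sum_congr rfl (g := fun χ => ((n χ * n χ : ℕ) : ℂ)) fun χ hχ => by
    rw [(hn χ hχ).1, Nat.cast_mul], ← Nat.cast_sum, Nat.cast_inj, Subgroup.relIndex_top_right] at h3
  have h0 : Z.index ≠ 0 := Subgroup.index_ne_zero_of_finite
  have h4 : Z.index.factorization r ≤ W.index.factorization r :=
    (Nat.factorization_le_iff_dvd h0 Subgroup.index_ne_zero_of_finite).2
      (Subgroup.index_dvd_of_le hWZ) r
  have h5 : r ^ (W.index.factorization r + W.index.factorization r) ∣ Z.index := by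
    rw [← h3, pow_add]
    exact Finset.dvd_sum fun χ hχ => mul_dvd_mul (hn χ hχ).2 (hn χ hχ).2
  have h6 := (hr.pow_dvd_iff_le_factorization h0).1 h5
  have h7 := hr.factorization_pos_of_dvd h0 hdvd
  omega

end

section core
variable {Δ A : Type*} [Group Δ] [Finite Δ] [Group A] [Finite A] {lam : Δ → ℂ} {p : ℕ}
  (α : Δ →* MulAut A)

theorem cent_of_center {Z : Subgroup Δ} (hc : Z ≤ Subgroup.center Δ) (U : Subgroup Δ) :
    Z ≤ 𝒞(U) := fun _ hz =>
  Subgroup.mem_centralizer_iff.2 fun x _ => Subgroup.mem_center_iff.1 (hc hz) x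

theorem core_semi (hodd : Odd (Nat.card A)) (hA : ∀ a b : A, a * b = b * a)
    (hl : IsLin α.ker lam) (hc : α.ker ≤ Subgroup.center Δ)
    (htr : ∀ a b : A, a ≠ 1 → b ≠ 1 → ∃ g, α g a = b) (h2 : (IrrO ⊤ α.ker lam).card ≤ 2)
    (hs : ∀ g, ∀ a ≠ 1, α g a = a → α g = 1) : Nat.card A ≤ 3 := by
  classical
  by_contra h3
  have : Nontrivial A := Finite.one_lt_card_iff_nontrivial.1 (by omega)
  have hreg : ∀ x, ∀ g ∈ (⊤ : Subgroup Δ), ∀ z ∈ α.ker, g * (z * x) * g⁻¹ = x → z = 1 := by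
    intro x g _ z hz e
    have h1 : α g * α x = α x * α g := by
      have := congrArg α e
      rw [map_mul, map_mul, map_mul, MonoidHom.mem_ker.1 hz, one_mul, map_inv,
        mul_inv_eq_iff_eq_mul] at this
      exact this
    let P := Subgroup.closure {α g, α x}
    have hP : P ≤ α.range := by
      rw [Subgroup.closure_le]
      rintro _ (rfl | rfl) <;> exact ⟨_, rfl⟩
    have hm : IsMulCommutative P := Subgroup.isMulCommutative_closure (by
      rintro _ (rfl | rfl) _ (rfl | rfl) <;> simp [h1])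
    have hcy : IsCyclic P := cyc_of_fpf P.subtype (fun h hh v hv => by
      obtain ⟨d, hd⟩ := hP h.2
      by_contra hv1
      exact hh (Subtype.ext (hd.symm.trans (hs d v hv1 (by rw [hd]; exact hv)))))
      (Or.inl hm.1.1)
    have h4 := comm_of_cyc α hc hcy (x := g) (y := x) (Subgroup.subset_closure (by simp))
      (Subgroup.subset_closure (by simp))
    rw [← mul_assoc, Subgroup.mem_center_iff.1 (hc hz) g, mul_assoc z, h4, mul_assoc,
      mul_inv_cancel_right, mul_eq_right] at e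
    exact e
  obtain ⟨a, ha⟩ := exists_ne (1 : A)
  have ha' : a⁻¹ ≠ a := fun e => by
    have h1 : a ^ 2 = 1 := by rw [sq]; exact (inv_eq_iff_mul_eq_one.1 e)
    have h2 := pow_gcd_eq_one.2 ⟨h1, pow_card_eq_one'⟩
    rw [(Nat.coprime_two_left.2 hodd).gcd_eq_one, pow_one] at h2
    exact ha h2
  obtain ⟨t, ht⟩ := htr a a⁻¹ ha (inv_ne_one.2 ha)
  have ht1 : α t ≠ 1 := fun e => ha' (by rw [← ht, e]; rfl)
  have ht2 : α t * α t = 1 := by
    rw [← map_mul]
    exact hs _ a ha (by rw [map_mul, MulAut.mul_apply, ht, map_inv, ht, inv_inv])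
  have hinv : ∀ v, α t v = v⁻¹ := fun v => by
    by_contra hv
    refine ht1 (hs t (v * α t v) (fun e => hv (eq_inv_of_mul_eq_one_right e)) ?_)
    rw [map_mul, ← MulAut.mul_apply _ (α t) (α t), ht2, MulAut.one_apply, hA]
  obtain ⟨b, hb⟩ : ∃ b : A, b ∉ ({1, a, a⁻¹} : Finset A) := by
    by_contra h
    push Not at h
    have := Fintype.ofFinite A
    have h4 := Finset.card_le_card (s := Finset.univ) fun x _ => h x
    rw [Finset.card_univ, ← Nat.card_eq_fintype_card] at h4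
    exact h3 (h4.trans Finset.card_le_three)
  simp only [Finset.mem_insert, Finset.mem_singleton, not_or] at hb
  obtain ⟨y, hy⟩ := htr a b ha hb.1
  have := three_le_over hl le_top (cent_of_center hc ⊤) (Subgroup.mem_top t) ht1 (hreg t)
    (Subgroup.mem_top y) (fun e => hb.2.1 (by rw [← hy, MonoidHom.mem_ker.1 e]; rfl)) (hreg y)
    (fun g _ z hz e => hb.2.2 (by
      rw [← hy, ← e, map_mul, map_mul, map_mul, MonoidHom.mem_ker.1 hz, one_mul, MulAut.mul_apply,
        MulAut.mul_apply, hinv, map_inv (α g), ← MulAut.mul_apply, ← map_mul, mul_inv_cancel,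
        map_one, MulAut.one_apply]))
  omega

theorem stab_comm (hp : p.Prime) (hA : ∀ a b : A, a * b = b * a)
    (hc : α.ker ≤ Subgroup.center Δ) (hi : ¬ p ∣ α.ker.index) (hn : Nat.card A ∣ p ^ 2) {a : A}
    (ha : a ≠ 1) {g h : Δ} (hg : α g a = a) (hh : α h a = a) : g * h = h * g := by
  have := Fact.mk hp
  let N := Subgroup.zpowers a
  have hN : N.Normal := ⟨fun n hn g => by rwa [hA g, mul_inv_cancel_right]⟩
  let U := (MulAction.stabilizer (MulAut A) a).comap α
  have hU : ∀ g : U, N.map (α g : A →* A) = N := fun g => by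
    rw [MonoidHom.map_zpowers]
    exact congrArg Subgroup.zpowers g.2
  let β : U →* MulAut (A ⧸ N) :=
    { toFun := fun g => QuotientGroup.congr N N (α g) (hU g)
      map_one' := by
        ext v
        obtain ⟨v, rfl⟩ := QuotientGroup.mk_surjective v
        simp [QuotientGroup.congr_mk]
      map_mul' := fun g h => by
        ext v
        obtain ⟨v, rfl⟩ := QuotientGroup.mk_surjective v
        simp [QuotientGroup.congr_mk] }
  have hB : Nat.card (A ⧸ N) ∣ p := by
    have h1 : p ∣ Nat.card N := by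
      obtain ⟨k, -, hk⟩ := (Nat.dvd_prime_pow hp).1 ((Subgroup.card_subgroup_dvd_card N).trans hn)
      rw [hk]
      refine dvd_pow_self p ?_
      rintro rfl
      rw [pow_zero, Subgroup.card_eq_one, Subgroup.zpowers_eq_bot] at hk
      exact ha hk
    rw [Subgroup.card_eq_card_quotient_mul_card_subgroup N, sq] at hn
    exact Nat.dvd_of_mul_dvd_mul_right hp.pos ((mul_dvd_mul_left _ h1).trans hn)
  have hcy : IsCyclic (MulAut (A ⧸ N)) := by
    rcases (Nat.dvd_prime hp).1 hB with h1 | h1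
    · have := (Nat.card_eq_one_iff_unique.1 h1).1
      have : Subsingleton (MulAut (A ⧸ N)) := ⟨fun _ _ => MulEquiv.ext fun _ => Subsingleton.elim _ _⟩
      infer_instance
    · have := isCyclic_of_prime_card h1
      have e2 := IsCyclic.mulAutMulEquiv (A ⧸ N)
      rw [h1] at e2
      have := ZMod.isCyclic_units_prime hp
      exact isCyclic_of_surjective e2.symm e2.symm.surjective
  have hk : β.ker ≤ Subgroup.center U := fun s hs => by
    have h1 : ∀ v, α s (v⁻¹ * α s v) = v⁻¹ * α s v := fun v => by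
      have h2 : ((α s v : A) : A ⧸ N) = v := DFunLike.congr_fun (MonoidHom.mem_ker.1 hs) (v : A ⧸ N)
      obtain ⟨k, hk⟩ := QuotientGroup.eq.1 h2.symm
      have h3 : α s a = a := s.2
      rw [← hk, map_zpow, h3]
    have h2 : ∀ v (k : ℕ), (α s ^ k) v = v * (v⁻¹ * α s v) ^ k := fun v k => by
      induction k with
      | zero => simp
      | succ k ih => rw [pow_succ', MulAut.mul_apply, ih, map_mul, map_pow, h1, pow_succ', ← mul_assoc,
          mul_inv_cancel_left]
    have h3 : α s ^ p ^ 2 = 1 := MulEquiv.ext fun v => by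
      rw [h2, orderOf_dvd_iff_pow_eq_one.1 ((orderOf_dvd_natCard _).trans hn), mul_one]; rfl
    have h4 : α s ^ α.ker.index = 1 := by
      rw [← map_pow]; exact Subgroup.pow_index_mem α.ker s
    have h5 := pow_gcd_eq_one.2 ⟨h3, h4⟩
    rw [((hp.coprime_iff_not_dvd.2 hi).pow_left 2).gcd_eq_one, pow_one] at h5
    rw [Subgroup.mem_center_iff]
    exact fun t => Subtype.ext (Subgroup.mem_center_iff.1 (hc h5) t)
  exact congrArg Subtype.val
    ((β.isMulCommutative_of_isCyclic_of_ker_le_center hk).1.1 ⟨g, hg⟩ ⟨h, hh⟩)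

theorem core (hp : p.Prime) (hp2 : p ≠ 2) (hP : IsPGroup p A) (hA : ∀ a b : A, a * b = b * a)
    (hl : IsLin α.ker lam) (hc : α.ker ≤ Subgroup.center Δ) (hi : ¬ p ∣ α.ker.index)
    (htr : ∀ a b : A, a ≠ 1 → b ≠ 1 → ∃ g, α g a = b) (h2 : (IrrO ⊤ α.ker lam).card ≤ 2)
    (h1 : ∀ a : A, a ≠ 1 → (IrrO ((MulAction.stabilizer (MulAut A) a).comap α) α.ker lam).card ≤ 1) :
    Nat.card A ≤ 3 := by
  have := Fact.mk hp
  obtain ⟨n, hn⟩ := IsPGroup.iff_card.1 hP
  rcases le_or_gt n 2 with h | h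
  · refine core_semi α (hn ▸ (hp.odd_of_ne_two hp2).pow) hA hl hc htr h2 fun g a ha hg => ?_
    by_contra hg1
    have := two_le_over (U := (MulAction.stabilizer (MulAut A) a).comap α) hl
      (fun z hz => by
        change α z a = a
        rw [MonoidHom.mem_ker.1 hz]; rfl) (cent_of_center hc _) (x := g) hg hg1
      (fun k hk z hz e => by
        rwa [← mul_assoc, Subgroup.mem_center_iff.1 (hc hz) k, mul_assoc z,
          stab_comm α hp hA hc hi (hn ▸ pow_dvd_pow p h) ha hk hg, mul_assoc,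
          mul_inv_cancel_right, mul_eq_right] at e)
    have := h1 a ha
    omega
  exfalso
  have hp3 : 3 ≤ p := by have := hp.two_le; omega
  obtain ⟨r, hr⟩ := H25.zsigmondy (a := p) (n := n) hp.two_le (by omega) (by omega) (by omega)
  have hrn := hr.lt hp.one_le (by omega)
  have := Fact.mk hr.1
  have : Nontrivial A := Finite.one_lt_card_iff_nontrivial.1 (hn ▸ Nat.one_lt_pow (by omega) hp.one_lt)
  have hfix : ∀ σ : MulAut A, IsPGroup r (Subgroup.zpowers σ) → σ ≠ 1 → ∀ v, σ v = v → v = 1 := by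
    intro σ hσ h0 v hv
    let F : Subgroup A := (σ : A →* A).eqLocus (MonoidHom.id A)
    have h3 := hσ.card_modEq_card_fixedPoints A
    have h4 : MulAction.fixedPoints (Subgroup.zpowers σ) A = F := by
      ext w
      refine ⟨fun hw => hw ⟨σ, Subgroup.mem_zpowers σ⟩, fun hw s => ?_⟩
      exact (Subgroup.zpowers_le.2 (show σ ∈ MulAction.stabilizer (MulAut A) w from hw)) s.2
    rw [h4] at h3
    obtain ⟨k, hk, e⟩ := (Nat.dvd_prime_pow hp).1 (hn ▸ Subgroup.card_subgroup_dvd_card F)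
    change _ ≡ Nat.card F [MOD r] at h3
    rw [hn, e] at h3
    rcases hk.eq_or_lt with rfl | hk
    · have := Subgroup.eq_top_of_card_eq F (e.trans hn.symm)
      refine (h0 (MulEquiv.ext fun w => ?_)).elim
      exact (this ▸ Subgroup.mem_top w : w ∈ F)
    rcases Nat.eq_zero_or_pos k with rfl | hk0
    · rw [pow_zero, Subgroup.card_eq_one] at e
      exact Subgroup.mem_bot.1 (e ▸ hv : v ∈ ⊥)
    refine (hr.2.2 k hk0 hk ?_).elim
    have h5 : 1 ≡ p ^ n [MOD r] := (Nat.modEq_iff_dvd' (Nat.one_le_pow _ _ hp.pos)).2 hr.2.1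
    exact (Nat.modEq_iff_dvd' (Nat.one_le_pow _ _ hp.pos)).1 (h5.trans h3)
  obtain ⟨S⟩ : Nonempty (Sylow r α.range) := inferInstance
  let P : Subgroup (MulAut A) := (S : Subgroup α.range).map α.range.subtype
  have hPr : IsPGroup r P := S.isPGroup'.map _
  have hcy : IsCyclic P := cyc_of_fpf P.subtype (fun σ h0 v hv =>
    hfix σ (hPr.to_le (Subgroup.zpowers_le.2 σ.2)) (fun e => h0 (Subtype.ext e)) v hv)
    (Or.inr ⟨r, hr.1, by omega, hPr⟩)
  refine blk2 hl hc h2 hr.1 (by omega) (R := P.comap α) (fun z hz => ?_)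
    (fun x hx y hy => comm_of_cyc α hc hcy hx hy) ?_ ?_
  · change α z ∈ P
    rw [MonoidHom.mem_ker.1 hz]; exact P.one_mem
  · rw [Subgroup.index_comap, Subgroup.relIndex, Subgroup.subgroupOf,
      Subgroup.comap_map_eq_self_of_injective α.range.subtype_injective]
    exact S.not_dvd_index
  · obtain ⟨a, ha⟩ := exists_ne (1 : A)
    let _ : MulAction Δ A := MulAction.compHom A α
    have h3 : α.ker ≤ MulAction.stabilizer Δ a := fun z hz => by
      change α z a = a
      rw [MonoidHom.mem_ker.1 hz]; rfl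
    refine dvd_trans ?_ (Subgroup.index_dvd_of_le h3)
    have h4 : MulAction.orbit Δ a = {1}ᶜ := by
      ext b
      refine ⟨?_, fun hb => htr a b ha hb⟩
      rintro ⟨g, rfl⟩
      exact (map_ne_one_iff (α g) (α g).injective).2 ha
    rw [MulAction.index_stabilizer, h4, Set.ncard_compl, Set.ncard_singleton, hn]
    exact hr.2.1

end core

end H19
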