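/-
Blocks with a normal abelian defect group and at most three characters.
-/
import Cfsg.Agent.H19.K3b
import Cfsg.Agent.H19.V4
import Cfsg.Agent.H21.Trip3
import Cfsg.Agent.H20.Cyc2
import Cfsg.Agent.H20.FR
import Cfsg.Agent.H20.Frat
import Cfsg.Agent.H9.Basic

set_option autoImplicit false
set_option linter.unusedSectionVars false

open scoped MonoidAlgebra ComplexConjugate
open Cfsg H17 Subgroup Finset
open H20 (br sc cent nrm vd emin eG eA fA cj bl Max IsBlk TT ctr IB lf isBlk_eA isBlk_eG NV)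
open CF (Irr dot cf cfj IsLin cfker)
open H21 (IrrO)

namespace H19

variable {G : Type*} [Group G] [Finite G] {O : ValuationSubring ℂ} {p : ℕ} [hp : Fact p.Prime]
  [CharP (kk O) p] {β : Blk O G} {A C K : Subgroup G} {e f : (kk O)[G]} {χ θ : G → ℂ}

theorem two_dvd_card [CharP (kk O) 2] {H : Subgroup G} {x : G} {b : Blk O H}
    (hH : H = centralizer {x}) (hx : x ^ 2 = 1) (hi : Induces H b β) (hd : blockDefect 2 (irr b) ≠ 0)
    (h0 : ∀ χ ∈ irr β, blockHeight 2 (irr β) χ = 0) : 2 ∣ Nat.card (irr β) := by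
  classical
  have hζ : IsPrimitiveRoot (-1 : ℂ) (2 ^ (0 + 1)) := IsPrimitiveRoot.neg_one 0 (by norm_num)
  have hm := HM_ctr hH hi hζ hx
  have hv : ∀ χ ∈ univ.filter (· ∈ irr β), ∀ ψ ∈ univ.filter (· ∈ irr β),
      O.valuation (2 ^ blockDefect 2 (irr b) * ctr 2 (x ^ (1 : ℤ)) b χ ψ) = 1 := fun χ hχ ψ hψ => by
    rw [zpow_one]
    exact (H20.val_ctr_iff hH.le (isPElt_iff.2 ⟨1, hx⟩) hi (mem_filter.1 hχ).2 (mem_filter.1 hψ).2).2
      ⟨h0 _ (mem_filter.1 hχ).2, h0 _ (mem_filter.1 hψ).2⟩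
  obtain ⟨χ, hχ⟩ := irr_nonempty β
  have hχ : χ ∈ univ.filter (· ∈ irr β) := mem_filter.2 ⟨mem_univ _, hχ⟩
  rw [H20.card_eq_filter]
  have : ∀ ψ : IrrCharacter G, ∃ c : ℤ, 2 ^ blockDefect 2 (irr b) * ctr 2 (x ^ (1 : ℤ)) b χ ψ = c :=
    fun ψ => by
      obtain ⟨A, hA⟩ := mem_PF.1 (hm.pf χ ψ)
      exact ⟨A.eval (-1), (hA 1).trans (by
        rw [zpow_one, ← Int.cast_one, ← Int.cast_neg, ← eq_intCast (algebraMap ℤ ℂ),
          Polynomial.aeval_algebraMap_apply_eq_algebraMap_eval, eq_intCast])⟩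
  choose c hc using this
  have h1 := hm.sq 1 odd_one χ hχ
  rw [sum_congr rfl (g := fun ψ => (c ψ : ℂ) * c ψ) fun ψ _ => by
    rw [← hm.cj 1 χ ψ]; simp only [hc, map_intCast]] at h1
  simp only [hc] at h1
  obtain ⟨d, hd'⟩ := Nat.exists_eq_succ_of_ne_zero hd
  rw [hd'] at h1
  have h2 : ∑ ψ with ψ ∈ irr β, c ψ * c ψ = 2 * (2 ^ d * c χ) := by
    rw [← mul_assoc, ← pow_succ']; exact_mod_cast h1
  have h3 : (2 : ℤ) ∣ ∑ ψ with ψ ∈ irr β, (c ψ * c ψ - 1) := dvd_sum fun ψ hψ => by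
    obtain ⟨k, hk⟩ := odd_of_val (c := c ψ) (hv χ hχ ψ hψ) (by rw [hc, sub_self]; exact zero_mem _)
    exact ⟨2 * (k * k + k), by rw [hk]; ring⟩
  rw [sum_sub_distrib, h2, sum_const, nsmul_one] at h3
  omega

/-- characters over a character of a covered block -/
theorem mem_IB_of_over (hCK : C ≤ K) (hf : IsBlk K f) (he : IsBlk C e) (h : f * e = e)
    (hθ : θ ∈ IB C e) (hχ : χ ∈ IrrO K C θ) : χ ∈ IB K f := by
  classical
  obtain ⟨h1, h2⟩ := H21.mem_over.1 hχ
  obtain ⟨f', hf', h3⟩ := H20.exists_IB O h1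
  by_contra hne
  have h4 : f' * f = 0 := hf.mul_eq_zero hf' (by rintro rfl; exact hne h3)
  have hc : Commute (lf K f') (lf C e) :=
    H20.commute_of_fixed_of_supp hf'.lf_cen.2 (H20.supp_mono hCK he.lf_cen.1)
  have h5 : lf K f' * lf C e = 0 := idem_eq_zero_of_nonunits
    (hf'.lf_idem.mul_of_commute hc he.lf_idem) ((red_eq_zero_iff (mul_mem hf'.lf_OG he.lf_OG)).1 (by
      rw [red_mul hf'.lf_OG he.lf_OG, hf'.red_lf, he.red_lf, ← h, ← mul_assoc, h4, zero_mul]))
  have h6 := hf'.ev_lf_mul h3 (1 * lf C e)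
  rw [he.ev_mul_lf_eq_sum hCK (CF.irr_cf h1) (one_mem _), one_mul, h5, map_zero] at h6
  have h7 : ∀ ψ ∈ IB C e, ∃ n : ℕ, dot C χ ψ * ev ψ 1 = n ∧ (ψ = θ → n ≠ 0) := fun ψ hψ => by
    obtain ⟨a, ha⟩ := (CF.irr_char h1).dot_nat_of_le hCK (CF.irr_char (H20.irr_of_IB hψ))
    obtain ⟨c, hc, hc'⟩ := CF.irr_pos_one (H20.irr_of_IB hψ)
    refine ⟨a * c, by rw [ha, MonoidAlgebra.one_def, H20.ev_single_one, hc', Nat.cast_mul], ?_⟩
    rintro rfl
    exact mul_ne_zero (fun h0 => h2 (by rw [ha, h0, Nat.cast_zero])) hc.ne'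
  choose! n hn using h7
  rw [sum_congr rfl fun ψ hψ => (hn ψ hψ).1, ← Nat.cast_sum, eq_comm, Nat.cast_eq_zero,
    sum_eq_zero_iff] at h6
  exact (hn θ hθ).2 rfl (h6 θ hθ)

theorem vanish_of_normal (hf : IsBlk K f) (hA : H20.IsDef p K f A) (hn : K ≤ nrm A)
    (hχ : χ ∈ IB K f) {g : G} (hg : g ∈ K) (h : ppart p g ∉ A) : χ g = 0 := by
  have := H20.ev_eq_zero_of_br (p := p) (CF.irr_cf (H20.irr_of_IB hχ)) hg hf.lf_cen.1 hf.lf_OG
    hf.lf_idem (hf.lf_cen.2 g hg) (by
      rw [hf.red_lf]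
      by_contra h0
      obtain ⟨x, hx, h1⟩ := hA.exists_conj_le hf (ppart_isPElt g).isPGroup_zpowers
        (zpowers_le.2 (H20.ppart_mem hg)) h0
      rw [H20.sc_le_iff, H20.sc_eq_of_nrm (inv_mem (hn hx))] at h1
      exact h (h1 (mem_zpowers _)))
  rwa [hf.ev_mul_lf hχ, H20.ev_single_one] at this

theorem card_le_rank {γ : Blk O K} (hA : H20.IsDef p K (eA K γ) A) (hn : K ≤ nrm A)
    {S : Finset (G → ℂ)} (hS : ∀ χ ∈ S, χ ∈ IB K (eA K γ) ∧ A ≤ cfker χ) :
    S.card ≤ blockRank p (irr γ) := by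
  classical
  let V := Submodule.span ℂ ((fun χ : IrrCharacter K => pRegularPart p (χ : K → ℂ)) '' irr γ)
  have hV : ∀ χ : S, pRegularPart p (CF.res K χ) ∈ V := fun χ => by
    obtain ⟨ξ, h1, h2⟩ := H20.exists_of_IB (hS χ χ.2).1
    exact Submodule.subset_span ⟨ξ, h1, by rw [h2, CF.res_ext0]⟩
  have hI : S ⊆ Irr K := fun χ h => H20.irr_of_IB (hS χ h).1
  have hv : LinearIndependent ℂ fun χ : S => (⟨_, hV χ⟩ : V) := by
    rw [Fintype.linearIndependent_iff]
    intro c hc ψ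
    have h1 : ∀ y : K, ¬ p ∣ orderOf y → ∑ χ : S, c χ * χ.1 y = 0 := fun y hy => by
      have := congrFun (congrArg Subtype.val hc) y
      simpa [pRegularPart, IsPRegular, hy] using this
    have h2 : ∑ χ : S, c χ • χ.1 = 0 := by
      funext g
      rw [Finset.sum_apply]
      by_cases hg : g ∈ K
      · by_cases h : ppart p g ∈ A
        · refine Eq.trans (sum_congr rfl fun χ _ => ?_) (h1 ⟨rpart p g, H20.rpart_mem hg⟩
            (by rw [← orderOf_coe]; exact rpart_reg g))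
          rw [Pi.smul_apply, smul_eq_mul, ← CF.cfker_mul_left ((hS χ χ.2).2 h) (rpart p g),
            ppart_mul_rpart]
        · exact sum_eq_zero fun χ _ => by
            rw [Pi.smul_apply, vanish_of_normal (isBlk_eA K γ) hA hn (hS χ χ.2).1 hg h, smul_zero]
      · exact sum_eq_zero fun χ _ => by
          rw [Pi.smul_apply, CF.cf_zero (CF.irr_cf (hI χ.2)) hg, smul_zero]
    have h3 := congrArg (fun φ => dot K φ ψ) h2
    simp only [CF.dot_sum_left, CF.dot_smul_left, CF.dot_zero_left] at h3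
    rwa [sum_eq_single ψ (fun χ _ h => by
      rw [CF.dot_irr_ne (hI χ.2) (hI ψ.2) fun e => h (Subtype.ext e), mul_zero]) (by simp),
      CF.dot_irr_self (hI ψ.2), mul_one] at h3
  have := hv.fintype_card_le_finrank
  rwa [Fintype.card_coe] at this

theorem exists_canon [hA : A.Normal] (h : Max p ⊤ (eG β) A e) (hab : A ≤ cent A) :
    ∃ θ ∈ IB (cent A) e, A ≤ cfker θ ∧ TT A e = CF.stab θ := by
  obtain ⟨ψ, N⟩ := h.exists_NV_self hab
  have hb := h.isPair.blk_top
  have hs := h.isPair.bl_self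
  have hn : ∀ g, g ∈ nrm A := fun g => by rw [nrm, normalizer_eq_top]; trivial
  have h1 : ψ (CF.one A) ∈ IB (cent A) e := hs ▸ N.mem _ (CF.one_mem_Irr A)
  have h2 : A ≤ cfker (ψ (CF.one A)) := fun v hv => CF.mem_cfker.2 fun x => by
    rw [N.central (CF.one_mem_Irr A) hv, CF.one_of_mem hv, one_mul]
  have h3 : ∀ g, cfj g (ψ (CF.one A)) ∈ IB (cent A) (cj g e) := fun g => by
    have := hb.cfj_mem_IB h1 g
    rwa [H20.sc_eq_of_nrm (H20.nrm_le_nrm_cent A (hn g))] at this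
  refine ⟨_, h1, h2, le_antisymm (fun g hg => ?_) fun g hg => ⟨hn g, ?_⟩⟩
  · have h4 := h3 g
    rw [show cj g e = e from hg.2, ← hs] at h4
    obtain ⟨l, hl, e1⟩ := N.surj _ h4
    have h5 := (CF.le_cfker_cfj (hn g)).2 h2
    rw [CF.mem_stab, ← e1]
    congr 1
    refine CF.cf_ext (CF.irr_cf hl) (CF.one_mem_cf A) fun v hv => ?_
    have h6 := N.central hl hv 1
    rw [e1, CF.cfker_mul_left (h5 hv), ← e1] at h6
    rw [CF.one_of_mem hv]
    exact (mul_eq_right₀ (CF.irr_one_ne (N.irr hl))).1 h6.symm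
  · have h4 := h3 g
    rw [CF.mem_stab.1 hg] at h4
    exact (hb.cj_of_nrm (H20.nrm_le_nrm_cent A (hn g))).eq_of_IB hb h4 h1

theorem card_over_le_rank [hA : A.Normal] {b : ∀ u : G, Blk O (centralizer ({u} : Set G))}
    (S : SB p β A e b) (hab : A ≤ cent A) (hθ : θ ∈ IB (cent A) e) (hk : A ≤ cfker θ)
    (hT : TT A e = CF.stab θ) {u : G} (hu : u ∈ A) :
    (IrrO (TT A e ⊓ centralizer {u}) (cent A) θ).card ≤ blockRank p (irr (b u)) := by
  have hn : ∀ K : Subgroup G, K ≤ nrm A := fun K => by rw [nrm, normalizer_eq_top]; exact le_top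
  have h1 : cent A ≤ centralizer {u} := fun x hx =>
    mem_centralizer_singleton_iff.2 (mem_centralizer_iff.1 hx u hu).symm
  have hP := S.max.isPair
  rw [← H21.card_over h1 ((hn _).trans (H20.nrm_le_nrm_cent A)) (H20.irr_of_IB hθ)
    (by rw [hT, inf_comm])]
  refine card_le_rank (S.isDef hu (hab.trans h1)) (hn _) fun χ hχ =>
    ⟨mem_IB_of_over h1 (isBlk_eA _ _) hP.blk_top ?_ hθ hχ, (CF.le_cfker_over_iff h1 hab (hn _)
      (H21.mem_over.1 hχ).1 (H20.irr_of_IB hθ) (H21.mem_over.1 hχ).2).2 hk⟩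
  have h2 := hP.br_bl (zpowers_le.2 hu) le_rfl (H20.le_nrm_of_ab hab (zpowers_le.2 hu))
  rwa [hP.bl_self, ← S.eq u hu,
    (isBlk_eA _ (b u)).br_eq_self_of_normal hP.pg (hab.trans h1) (hn _)] at h2

theorem trans_of_card {b : ∀ u : G, Blk O (centralizer ({u} : Set G))} (S : SB p β A e b)
    (hab : A ≤ cent A) (hk : Nat.card (irr β) = blockRank p (irr β) + 1) {a : G} (ha : a ∈ A)
    (h1 : a ≠ 1) : blockRank p (irr (b a)) = 1 ∧ ∀ u ∈ A, u ≠ 1 → ∃ t ∈ TT A e, t * a * t⁻¹ = u := by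
  classical
  have := Fintype.ofFinite A
  have h2 := S.card_of_ab hab
  let φ : TT A e →* MulAut A := A.normalizerMonoidHom.comp (inclusion inf_le_left)
  let _ : MulAction (TT A e) A := MulAction.compHom A φ
  have hst : ∀ u : A, Nat.card (TT A e ⊓ centralizer {(u : G)} : Subgroup G) *
      (MulAction.orbit (TT A e) u).ncard = Nat.card (TT A e) := fun u => by
    rw [← CF.card_mul_relIndex (inf_le_left : TT A e ⊓ centralizer {(u : G)} ≤ _),
      ← MulAction.index_stabilizer, relIndex]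
    congr 2
    ext t
    rw [MulAction.mem_stabilizer_iff, mem_subgroupOf, Subgroup.mem_inf, and_iff_right t.2,
      mem_centralizer_singleton_iff, Subtype.ext_iff]
    exact mul_inv_eq_iff_eq_mul
  rw [← add_sum_erase _ _ (mem_univ 1), hk, OneMemClass.coe_one, S.rank_one,
    show centralizer {(1 : G)} = ⊤ by ext; simp [mem_centralizer_singleton_iff], inf_top_eq,
    mul_add, mul_one, add_right_inj] at h2
  set w : A → ℕ := fun u => Nat.card (TT A e ⊓ centralizer {(u : G)} : Subgroup G)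
  change _ = ∑ u ∈ univ.erase (1 : A), w u * blockRank p (irr (b u)) at h2
  have hw : ∀ u, 0 < w u := fun u => Nat.card_pos
  let a' : A := ⟨a, ha⟩
  let X := (MulAction.orbit (TT A e) a').toFinset
  have hX : X ⊆ univ.erase 1 := fun u hu => by
    obtain ⟨t, rfl⟩ := Set.mem_toFinset.1 hu
    exact mem_erase.2 ⟨(map_ne_one_iff (φ t) (φ t).injective).2 fun h => h1 (congrArg Subtype.val h),
      mem_univ _⟩
  have h3 : ∑ u ∈ X, w u = Nat.card (TT A e) := by
    have h0 : 0 < (MulAction.orbit (TT A e) a').ncard :=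
      (Set.ncard_pos (Set.toFinite _)).2 ⟨_, MulAction.mem_orbit_self _⟩
    refine Nat.eq_of_mul_eq_mul_right h0 ?_
    rw [sum_mul, sum_congr rfl (g := fun _ => Nat.card (TT A e)) fun u hu => by
      rw [← MulAction.orbit_eq_iff.2 (Set.mem_toFinset.1 hu)]; exact hst u, sum_const, smul_eq_mul,
      mul_comm, Set.ncard_eq_toFinset_card']
  have h4 : ∀ u ∈ univ.erase (1 : A), w u ≤ w u * blockRank p (irr (b u)) := fun u _ =>
    Nat.le_mul_of_pos_right _ (H20.blockRank_pos _)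
  have h5 := sum_le_sum h4
  have h6 := sum_le_sum_of_subset (f := w) hX
  constructor
  · by_contra h7
    have := sum_lt_sum h4 ⟨a', hX (Set.mem_toFinset.2 (MulAction.mem_orbit_self _)),
      lt_mul_of_one_lt_right (hw _) (lt_of_le_of_ne (H20.blockRank_pos (p := p) (b a)) (Ne.symm h7))⟩
    omega
  · intro u hu hu1
    by_contra h7
    have := sum_lt_sum_of_subset (f := w) hX (i := ⟨u, hu⟩)
      (mem_erase.2 ⟨fun h => hu1 (congrArg Subtype.val h), mem_univ _⟩) (fun h => by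
        obtain ⟨t, ht⟩ := Set.mem_toFinset.1 h
        exact h7 ⟨t, t.2, congrArg Subtype.val ht⟩) (hw _) fun _ _ _ => Nat.zero_le _
    omega

theorem card_le_three [hA : A.Normal] (hD : H20.IsDef p ⊤ (eG β) A) (hab : A ≤ cent A)
    (hk : Nat.card (irr β) ≤ 3) : Nat.card A ≤ 3 := by
  classical
  by_cases hd : blockDefect p (irr β) = 0
  · rw [hD.card_eq_pow, hd]; simp
  have h1 := rank_lt_card hd
  have h2 := H20.blockRank_pos (p := p) β
  by_cases hl : blockRank p (irr β) = 1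
  · rw [hD.card_eq_pow, ← (H20.card_eq_of_le_four hl (by omega)).1]; exact hk
  obtain ⟨e, he⟩ := H20.exists_max (isBlk_eG β) hD
  obtain ⟨b, S⟩ := exists_SB he
  have hc : ∀ u ∈ A, cent A ≤ centralizer {u} := fun u hu x hx =>
    mem_centralizer_singleton_iff.2 (mem_centralizer_iff.1 hx u hu).symm
  have hcomm : ∀ a ∈ A, ∀ c ∈ A, a * c = c * a := fun a ha c hc => mem_centralizer_iff.1 (hab hc) a ha
  have hp2 : p ≠ 2 := by
    rintro rfl
    have := two_dvd_card rfl (one_pow 2) (S.induces A.one_mem)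
      (by rwa [S.defect_eq A.one_mem (hab.trans (hc 1 A.one_mem))])
      ((isDef_iff_H20.2 hD).comm_iff_height.1 hcomm)
    omega
  obtain ⟨θ, hθ, hker, hT⟩ := exists_canon he hab
  have hcT : cent A ≤ TT A e := he.isPair.cent_le_TT
  obtain ⟨Δ, Q, _, _, _, _, f, ρ, lam, Ψ, h, -⟩ := H21.exists_trip hcT le_rfl
    (inf_le_left.trans (H20.nrm_le_nrm_cent A)) (H20.le_nrm_self _) (H20.irr_of_IB hθ) hT.le
  let φ : TT A e →* MulAut A := A.normalizerMonoidHom.comp (inclusion inf_le_left)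
  have hφ : ∀ (t : TT A e) (u : A), φ t u = u ↔ (t : G) ∈ centralizer {(u : G)} := fun t u => by
    rw [mem_centralizer_singleton_iff, Subtype.ext_iff]
    exact mul_inv_eq_iff_eq_mul
  have hφ1 : ∀ t : TT A e, φ t = 1 ↔ (t : G) ∈ cent A := fun t =>
    ⟨fun h => mem_centralizer_iff.2 fun u hu => (mem_centralizer_singleton_iff.1
      ((hφ t ⟨u, hu⟩).1 (by rw [h]; rfl))).symm,
    fun h => MulEquiv.ext fun u => (hφ t u).2 (hc u u.2 h)⟩
  let α : Δ →* MulAut A := (f.liftOfSurjective h.fsurj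
    ⟨φ, fun t ht => (hφ1 t).2 ((h.f_eq_one t).1 ht)⟩).comp ρ
  have hα : ∀ (t : TT A e) (d : Δ), f t = ρ d → α d = φ t := fun t d e => by
    simp only [α, MonoidHom.comp_apply]
    rw [← e, MonoidHom.liftOfRightInverse_comp_apply]
  have hker' : α.ker = ρ.ker := by
    ext d
    obtain ⟨t, ht⟩ := h.exists_lift d
    rw [MonoidHom.mem_ker, MonoidHom.mem_ker, hα t d ht, hφ1, ← ht, h.f_eq_one]
  have hle : ∀ u ∈ A, (IrrO (H21.up f ρ (TT A e ⊓ centralizer {u})) ρ.ker lam).card ≤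
      blockRank p (irr (b u)) := fun u hu =>
    (card_le_card_of_injOn Ψ (fun χ hχ => h.mem_over (H20.irr_of_IB hθ) (le_inf hcT (hc u hu))
      inf_le_left hχ) fun χ hχ ξ hξ e => h.inj (le_inf hcT (hc u hu)) inf_le_left hχ hξ e).trans
      (card_over_le_rank S hab hθ hker hT hu)
  have htr := fun (a : A) (ha : a ≠ 1) =>
    trans_of_card S hab (by omega) a.2 fun h => ha (Subtype.ext h)
  refine core (lam := lam) α hp.out hp2 hD.pg (fun a c => Subtype.ext (hcomm a a.2 c c.2))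
    (hker' ▸ h.lin) (hker' ▸ h.cent) ?_ (fun a c ha hc => ?_) ?_ fun a ha => ?_
  · rw [hker', ← relIndex_top_right, ← h.up_L, h.relIndex_ker hcT le_rfl]
    exact he.not_dvd_TT hab
  · obtain ⟨t, ht, e⟩ := (htr a ha).2 c c.2 fun h => hc (Subtype.ext h)
    obtain ⟨d, hd⟩ := h.exists_lift' ⟨t, ht⟩
    exact ⟨d, by rw [hα _ d hd]; exact Subtype.ext e⟩
  · have := hle 1 A.one_mem
    rw [S.rank_one, show centralizer {(1 : G)} = ⊤ by ext; simp [mem_centralizer_singleton_iff],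
      inf_top_eq, h.up_L] at this
    rw [hker']
    omega
  · have := hle a a.2
    rw [(htr a ha).1] at this
    rw [hker']
    convert this using 3
    ext d
    obtain ⟨t, ht⟩ := h.exists_lift d
    rw [h.mem_up (le_inf hcT (hc a a.2)) ht, mem_comap, MulAction.mem_stabilizer_iff, hα t d ht,
      Subgroup.mem_inf, and_iff_right t.2]
    exact hφ t a

theorem card_le_three_of_height [hA : A.Normal] (hD : H20.IsDef p ⊤ (eG β) A)
    (hk : Nat.card {χ : IrrCharacter G // χ ∈ irr β ∧ blockHeight p (irr β) χ = 0} ≤ 3) :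
    Nat.card A ≤ 3 := by
  classical
  have := Fintype.ofFinite G
  have := Fintype.ofFinite (G ⧸ ⁅A, A⁆)
  let f := QuotientGroup.mk' ⁅A, A⁆
  have hf : Function.Surjective f := QuotientGroup.mk'_surjective _
  have hle : ⁅A, A⁆ ≤ A := commutator_le_left A A
  have hp' : IsPGroup p (⁅A, A⁆ : Subgroup G) := hD.pg.to_le hle
  obtain ⟨c, hc, hc'⟩ := H20.exists_dom_isDef f hf (by rwa [QuotientGroup.ker_mk']) hD
  have hn : (A.map f).Normal := hA.map f hf
  have hcomm : ∀ a ∈ A.map f, ∀ c ∈ A.map f, a * c = c * a := by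
    rintro _ ⟨a, ha, rfl⟩ _ ⟨c, hc, rfl⟩
    rw [← commutatorElement_eq_one_iff_mul_comm, ← map_commutatorElement]
    exact (QuotientGroup.eq_one_iff _).2 (commutator_mem_commutator ha hc)
  have h0 := (isDef_iff_H20.2 hc').comm_iff_height.1 hcomm
  let g : A →* A.map f := f.subgroupMap A
  have hg : Function.Surjective g := f.subgroupMap_surjective A
  have hgk : g.ker = ⁅A, A⁆.subgroupOf A := by
    ext x
    rw [MonoidHom.mem_ker, Subtype.ext_iff, mem_subgroupOf]
    exact QuotientGroup.eq_one_iff _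
  have h1 : Nat.card A = Nat.card (A.map f) * Nat.card (⁅A, A⁆ : Subgroup G) := by
    rw [card_eq_card_quotient_mul_card_subgroup g.ker,
      Nat.card_congr (QuotientGroup.quotientKerEquivOfSurjective g hg).toEquiv, hgk,
      Nat.card_congr (subgroupOfEquivOfLe hle).toEquiv]
  have h2 : emin p (irr c) = emin p (irr β) := by
    obtain ⟨j, hj⟩ := IsPGroup.iff_card.1 hp'
    have a1 := H20.defect_add_emin p (irr_nonempty β)
    have a2 := H20.defect_add_emin p (irr_nonempty c)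
    rw [hD.card_eq_pow, hc'.card_eq_pow, hj, ← pow_add, Nat.pow_right_inj hp.out.one_lt] at h1
    rw [card_eq_card_quotient_mul_card_subgroup ⁅A, A⁆, hj,
      Nat.factorization_mul Nat.card_pos.ne' (pow_pos hp.out.pos j).ne', Finsupp.add_apply,
      hp.out.factorization_pow, Finsupp.single_eq_same] at a1
    omega
  have h3 : Nat.card (A.map f) ≤ 3 := by
    refine card_le_three hc' (fun a ha => mem_centralizer_iff.2 fun c hc => hcomm c hc a ha)
      (le_trans ?_ hk)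
    have h4 : ∀ ψ ∈ irr c, infl f hf ψ ∈ irr β := fun ψ hψ => by
      rw [mem_irr, lam_infl, mem_irr.1 hψ, hc]
    refine Nat.card_le_card_of_injective (fun ψ : irr c => ⟨infl f hf ψ, h4 ψ ψ.2, ?_⟩)
      fun ψ ξ e => Subtype.ext (infl_injective f hf (congrArg Subtype.val e))
    rw [H20.height_eq_zero_iff (h4 ψ ψ.2), ← h2, ← (H20.height_eq_zero_iff ψ.2).1 (h0 ψ ψ.2), vd,
      charDegree_infl]
  have h4 : IsCyclic (A.map f) := by
    have := Nat.card_pos (α := A.map f)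
    obtain h | h | h : Nat.card (A.map f) = 1 ∨ Nat.card (A.map f) = 2 ∨ Nat.card (A.map f) = 3 := by
      omega
    · have := (Nat.card_eq_one_iff_unique.1 h).1
      infer_instance
    · exact isCyclic_of_prime_card h
    · exact isCyclic_of_prime_card h
  have := hD.pg.isNilpotent
  have h5 : IsCyclic A := H9.isCyclic_of_quotient_commutator (N := g.ker) (by
    rw [hgk, ← map_subtype_commutator, subgroupOf, comap_map_eq_self_of_injective A.subtype_injective])
    (isCyclic_of_surjective _ (QuotientGroup.quotientKerEquivOfSurjective g hg).symm.surjective)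
  have h6 : ⁅A, A⁆ = ⊥ := by
    rw [commutator_eq_bot_iff_le_centralizer]
    exact fun a ha => mem_centralizer_iff.2 fun c hc =>
      congrArg Subtype.val (h5.isMulCommutative.1.1 ⟨c, hc⟩ ⟨a, ha⟩)
  rwa [h1, card_eq_one.2 h6, mul_one]

theorem card_eq_three (hD : H20.IsDef p ⊤ (eG β) A) (h3 : Nat.card A ≤ 3)
    (hk : Nat.card (irr β) = 3) : Nat.card A = 3 := by
  have h1 := hD.card_eq_pow
  by_cases hd : blockDefect p (irr β) = 0
  · obtain ⟨χ, hχ⟩ := irr_nonempty β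
    simp [H20.irr_eq_singleton_of_defect hd hχ] at hk
  have h2 : p ≤ Nat.card A := Nat.le_of_dvd Nat.card_pos (h1 ▸ dvd_pow_self p hd)
  have h4 := hp.out.two_le
  by_contra h5
  obtain rfl : p = 2 := by omega
  have := card_le_two_of_defect (β := β) ((Nat.pow_le_pow_iff_right one_lt_two).1 (by omega))
  omega

end H19
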