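import Cfsg.Agent.H21.CD3
import Cfsg.Agent.H21.GBr
import Cfsg.Agent.H1.PSolv
import Cfsg.Agent.H15.Syl
import Cfsg.Agent.H9.Basic

/-!
Navarro–Wolf: if every irreducible character of `p'`-degree of a `p`-solvable and `q`-solvable
group has `q'`-degree then `N(P) ≤ N(Q)` for suitable Sylow subgroups.
-/

set_option autoImplicit false

open H17 Cfsg H15 CF H21
open scoped ComplexConjugate Pointwise

universe u

namespace H19.NW

variable {G : Type u} [Group G] [Finite G] {N K H T P Q S : Subgroup G} {p q : ℕ}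
  {θ χ : G → ℂ}

omit [Finite G] in
theorem smul_eq_cj (g : G) (H : Subgroup G) : MulAut.conj g • H = cj(g, H) := rfl

/-- a constituent of `p'`-degree of an induced character -/
theorem exists_over_nd (hp : p.Prime) (hHK : H ≤ K) (hθ : θ ∈ Irr H) (h1 : ¬ p ∣ H.relIndex K)
    (h2 : ¬ p ∣ charDegree θ) : ∃ χ ∈ IrrO K H θ, ¬ p ∣ charDegree χ := by
  classical
  by_contra hc
  push Not at hc
  have h3 := congrFun (Ind_eq_sum_over hHK (irr_char hθ)) 1
  rw [Ind_one hHK, Finset.sum_apply] at h3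
  have h4 : ∀ χ ∈ IrrO K H θ, ∃ n : ℕ, (dot H χ θ • χ) 1 = (p * n : ℕ) := by
    intro χ hχ
    obtain ⟨n, -, e⟩ := over_pos hHK (irr_char hθ) hχ
    obtain ⟨m, hm⟩ := hc χ hχ
    refine ⟨n * m, ?_⟩
    rw [Pi.smul_apply, e, ← deg_cast (mem_over.1 hχ).1, hm, smul_eq_mul]
    push_cast; ring
  choose! f hf using h4
  rw [Finset.sum_congr rfl hf, ← deg_cast hθ, ← Nat.cast_sum, ← Finset.mul_sum,
    ← Nat.cast_mul] at h3
  have h5 : p ∣ H.relIndex K * charDegree θ := ⟨_, by exact_mod_cast h3⟩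
  exact (hp.dvd_mul.1 h5).elim h1 h2

theorem over_trans (hNH : N ≤ H) (hHK : H ≤ K) {φ : G → ℂ} (hφ : φ ∈ Irr H) (hθ : θ ∈ Irr N)
    (e : Res (N : Set G) φ = θ) (hχ : χ ∈ IrrO K H φ) : χ ∈ IrrO K N θ := by
  obtain ⟨h1, h2⟩ := mem_over.1 hχ
  refine mem_over.2 ⟨h1, ?_⟩
  have h3 := ((irr_char h1).Res hHK).dot_ne_zero_of_common ((irr_char hθ).Ind hNH) hφ
    (by rwa [dot_Res_left]) (by
      rw [dot_Ind_left' hNH _ (irr_cf hφ), e, dot_irr_self hθ]; exact one_ne_zero)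
  rwa [dot_Ind_right hNH _ (Res_mem_cf hHK (irr_cf h1)), dot_Res_left_of_le hNH] at h3

theorem hallOK [Fact p.Prime] [Fact q.Prime] (hps : IsPSolvable p G) (hqs : IsPSolvable q G) :
    H1.HallOK {p, q} G := by
  refine H1.PiSep.hallOK (H1.piSep_of_forall_quotient fun N _ hN => ?_) (Or.inl fun X _ _ h =>
    isSolvable_of_two_primes (p := p) (q := q) Fact.out Fact.out fun r hr hd => h r hr hd)
  have : Nontrivial (G ⧸ N) := QuotientGroup.nontrivial_iff.2 hN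
  obtain ⟨M, hM, h0, -, hmin⟩ := H1.exists_minimal_normal_le (⊤ : Subgroup (G ⧸ N)) top_ne_bot
  refine ⟨M, hM, h0, ?_⟩
  rcases H1.IsPSolvable.minimal_normal (H1.IsPSolvable.subgroup (H1.IsPSolvable.quotient hps N) M)
    hmin with h1 | h1
  · exact Or.inl ((IsPGroup.isPi h1).mono_mem (π := {p, q}) (by simp))
  rcases H1.IsPSolvable.minimal_normal (H1.IsPSolvable.subgroup (H1.IsPSolvable.quotient hqs N) M)
    hmin with h2 | h2
  · exact Or.inl ((IsPGroup.isPi h2).mono_mem (π := {p, q}) (by simp))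
  refine Or.inr fun r hr hd hm => ?_
  rcases hm with rfl | rfl
  · exact hr.one_lt.ne' (Nat.eq_one_of_dvd_coprimes h1 hd dvd_rfl)
  · exact hr.one_lt.ne' (Nat.eq_one_of_dvd_coprimes h2 hd dvd_rfl)

/-- a subgroup over `P` of `q'`-index contains an `N(P)`-conjugate of a Hall subgroup -/
theorem exists_cj_le [Fact p.Prime] [Fact q.Prime] (hps : IsPSolvable p G)
    (hqs : IsPSolvable q G) (hP : Syl(p, P, ⊤)) (hH : IsPiHallOf {p, q} H ⊤) (hPH : P ≤ H)
    (hPT : P ≤ T) (hT : ¬ q ∣ T.relIndex ⊤) : ∃ n ∈ 𝒩(P), cj(n, H) ≤ T := by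
  obtain ⟨L, hL, hPL⟩ := (hallOK (H1.IsPSolvable.subgroup hps T)
    (H1.IsPSolvable.subgroup hqs T)).exists_ge hPT (hP.isPi.mono_mem (π := {p, q}) (by simp))
  have h1 : IsPiHallOf {p, q} L ⊤ := hL.trans_idx le_top fun r hr hd hm => by
    rcases hm with rfl | rfl
    · exact hP.idx_of_le hPT r hr hd rfl
    · exact hT hd
  obtain ⟨g, -, e⟩ := (hallOK (H1.IsPSolvable.subgroup hps ⊤)
    (H1.IsPSolvable.subgroup hqs ⊤)).conj hH h1
  rw [smul_eq_cj] at e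
  have h2 : Syl(p, cj(g, P), L) := (hP.cj_top g).of_le (e ▸ cj_mono hPH) le_top
  obtain ⟨m, hm, e2⟩ := h2.exists_cj_eq (hP.of_le hPL le_top)
  refine ⟨m * g, mem_norm_iff_cj.2 (by rw [cj_mul, e2]), ?_⟩
  rw [cj_mul, e, cj_of_mem hm]
  exact hL.le

/-- invariant irreducible characters determine the fixed points -/
theorem cent_le (hPS : P ≤ S) (hn : S ≤ 𝒩(N)) (hc : (Nat.card N).Coprime (Nat.card S))
    (hs : Group.IsSolvable S) (h : IrrS N P ⊆ IrrS N S) : N ⊓ 𝒞(P) ≤ 𝒞(S) := by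
  have hsP : Group.IsSolvable P := H1.isSolvable_of_le hs hPS
  have hcP : (Nat.card N).Coprime (Nat.card P) :=
    hc.coprime_dvd_right (Subgroup.card_dvd_of_le hPS)
  have h1 := card_inv_classes (hPS.trans hn) hcP (Or.inl hsP)
  have h2 := card_inv_classes hn hc (Or.inl hs)
  rw [← card_Irr, ← card_IrrS hsP N (hPS.trans hn) hcP] at h1
  rw [← card_Irr, ← card_IrrS hs N hn hc, ← h.antisymm (IrrS_mono hPS), ← h1] at h2
  have h3 := (Nat.bijective_iff_injective_and_card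
    (Subtype.map id fun X (hX : ∀ s ∈ S, ∀ g g' : N, (g' : G) = s * g * s⁻¹ →
      ConjClasses.mk g = X → ConjClasses.mk g' = X) s hs => hX s (hPS hs))).2
    ⟨Subtype.map_injective _ Function.injective_id, h2⟩
  let : MulAction G G := MulAction.compHom G (MulAut.conj : G →* MulAut G)
  have h4 : 𝒞(S).subgroupOf (N ⊓ 𝒞(P)) = ⊤ := H8.eq_top_of_forall_conj_mem fun x => by
    have hx : ∀ a ∈ P, a * (x : G) * a⁻¹ = x := fun a ha => by
      rw [mem_cent.1 x.2.2 a ha]; group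
    obtain ⟨⟨X, hX⟩, e⟩ := h3.2 ⟨ConjClasses.mk ⟨x, x.2.1⟩, fun s hs g g' e h => by
      rw [ConjClasses.mk_eq_mk_iff_isConj, isConj_iff] at h ⊢
      obtain ⟨k, hk⟩ := h
      refine ⟨⟨s * k * s⁻¹, H16.conj_mem (hn (hPS hs)) k.2⟩, Subtype.ext ?_⟩
      have h1 := congrArg Subtype.val hk
      simp only [Subgroup.coe_mul, Subgroup.coe_inv, e] at h1 ⊢
      rw [show s * k * s⁻¹ * (s * g * s⁻¹) * (s * k * s⁻¹)⁻¹ = s * (k * g * (k : G)⁻¹) * s⁻¹ by
        group, h1, hx s hs]⟩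
    have e' : X = ConjClasses.mk ⟨x, x.2.1⟩ := congrArg Subtype.val e
    subst e'
    obtain ⟨k, hk, h5⟩ := H1.glauberman_exists hn hc.symm (Or.inl hs) (x : G) fun a ha => by
      have := hX a ha ⟨x, x.2.1⟩ ⟨_, H16.conj_mem (hn ha) x.2.1⟩ rfl rfl
      rw [eq_comm, ConjClasses.mk_eq_mk_iff_isConj, isConj_iff] at this
      obtain ⟨k, hk⟩ := this
      exact ⟨k, k.2, (congrArg Subtype.val hk).symm⟩
    obtain ⟨c, hc, h6⟩ := H1.glauberman_conj (hPS.trans hn) hcP.symm (Or.inl hsP) hk hx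
      fun a ha => h5 a (hPS ha)
    refine ⟨⟨c⁻¹, inv_mem hc⟩, fun a ha => ?_⟩
    have h7 : a * (k * x * k⁻¹) * a⁻¹ = k * x * k⁻¹ := h5 a ha
    have h8 : c * x * c⁻¹ = k * x * k⁻¹ := h6
    rw [← h8] at h7
    simpa [mul_inv_eq_iff_eq_mul] using h7
  exact Subgroup.subgroupOf_eq_top.1 h4

/-- hypothesis on degrees -/
abbrev Hd (p q : ℕ) (G : Type u) [Group G] : Prop := DegP (fun d => ¬ p ∣ d → ¬ q ∣ d) G

variable [hp : Fact p.Prime] [hq : Fact q.Prime]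

theorem key (hps : IsPSolvable p G) (hqs : IsPSolvable q G) (hd : Hd p q G) [N.Normal]
    (hP : Syl(p, P, ⊤)) (hH : IsPiHallOf {p, q} H ⊤) (hPH : P ≤ H) (hQH : Q ≤ H)
    (hn : 𝒩(P) ≤ 𝒩(N ⊔ Q)) (hNT : N ≤ T) (hPT : P ≤ T) {φ : G → ℂ} (hφ : φ ∈ Irr T)
    (hθ : θ ∈ Irr N) (e : Res (N : Set G) φ = θ) (h : ¬ p ∣ charDegree φ) : N ⊔ Q ≤ stab θ := by
  obtain ⟨χ, h1, h2⟩ := exists_over_nd hp.out le_top hφ (fun hd => hP.idx_of_le hPT p hp.out hd rfl) h
  have h3 := over_trans hNT le_top hφ hθ e h1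
  obtain ⟨m, -, -, h4⟩ := deg_clifford le_top (top_le_norm N) hθ h3
  have h5 := hd.top (mem_over.1 h1).1 h2
  have h6 : T ≤ stab θ := e ▸ le_stab_Res (le_top.trans (top_le_norm N)) (irr_cf hφ)
  obtain ⟨n, h7, h8⟩ := exists_cj_le hps hqs hP hH hPH (hPT.trans h6) fun hd =>
    h5 (h4 ▸ (hd.mul_left _).mul_right _)
  rw [← cj_of_mem_norm (hn h7), cj_sup, cj_of_mem_norm (top_le_norm N (Subgroup.mem_top n))]
  exact sup_le (hNT.trans h6) ((cj_mono hQH).trans h8)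

theorem case_p (hpq : p ≠ q) (hps : IsPSolvable p G) (hqs : IsPSolvable q G) (hd : Hd p q G)
    [N.Normal] (hN : IsPiSubgroup {p} N) (hP : Syl(p, P, ⊤)) (hQ : Syl(q, Q, ⊤))
    (hn : 𝒩(P) ≤ 𝒩(N ⊔ Q)) : 𝒩(P) ≤ 𝒩(Q) := by
  have hNP : N ≤ P := hP.le_of_norm' hN le_top (le_top.trans (top_le_norm N))
  have hPK : P ≤ 𝒩(N ⊔ Q) := (le_norm_self P).trans hn
  have hQN : Q ≤ 𝒩(N) := le_top.trans (top_le_norm N)
  have hQK : Syl(q, Q, N ⊔ Q) := hQ.of_le le_sup_right le_top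
  have hH : IsPiHallOf {p, q} (P ⊔ (N ⊔ Q)) ⊤ := isPiHallOf_mk le_top
    ((hP.isPi.mono_mem (by simp)).sup_of_le_norm
      ((hN.mono_mem (by simp)).sup_of_le_norm' (hQ.isPi.mono_mem (by simp)) hQN) hPK)
    fun r hr h hm => by
      rcases hm with rfl | rfl
      · exact hP.idx_of_le le_sup_left r hr h rfl
      · exact hQ.idx_of_le (le_sup_right.trans le_sup_right) r hr h rfl
  have h1 : P = N ⊔ (P ⊓ 𝒩(Q)) := by
    have h2 := hQK.frattini (M := P ⊔ (N ⊔ Q)) le_sup_right (sup_le hPK (le_norm_self _))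
    rw [sup_assoc, sup_eq_right.2 (le_inf (le_sup_right.trans le_sup_right) (le_norm_self Q))] at h2
    have h3 := H1.sup_inf_assoc_of_le_normalizer (B := (P ⊔ (N ⊔ Q)) ⊓ 𝒩(Q)) hNP
      (Or.inr (le_top.trans (top_le_norm N)))
    rw [h2, inf_eq_right.2 le_sup_left, inf_right_comm,
      inf_eq_right.2 (le_sup_left : P ≤ P ⊔ (N ⊔ Q))] at h3
    exact h3
  have h2 : P ≤ 𝒩(Q) := by
    have := hP.nilpotent
    refine (H9.le_of_le_sup_commutator (L := P ⊓ 𝒩(Q)) inf_le_left ?_).trans inf_le_right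
    by_contra h3
    obtain ⟨l, hl, h4, h5⟩ := exists_lin_not_le le_sup_right
      (sup_le inf_le_left (commutator_le_of_le le_rfl le_rfl)) h3
    have h6 := key hps hqs hd hP hH le_sup_left (le_sup_right.trans le_sup_right) hn hNP le_rfl
      hl.mem_Irr (hl.Res hNP).mem_Irr rfl (by rw [deg_lin hl]; exact hp.out.not_dvd_one)
    have h7 := ((hl.Res hNP).le_stab_iff hQN).1 (le_sup_right.trans h6)
    rw [hl.char.cfker_Res (irr_ne_zero hl.mem_Irr)] at h7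
    have h8 := H1.commutator_sup_centralizer hQN
      (hQ.isPi.coprime (hN.compl_of_ne hpq)) (Or.inl hQ.isPi.solvable)
    refine h5 (h1.le.trans (sup_le (h8.ge.trans (sup_le ?_ ?_)) (le_sup_left.trans h4)))
    · rw [Subgroup.commutator_comm]
      exact h7.trans inf_le_right
    · exact (inf_le_inf hNP (cent_le_norm Q)).trans (le_sup_left.trans h4)
  exact hQK.le_norm_of_normal (sup_le (hNP.trans h2) (le_norm_self Q)) hn

theorem case_c (hpq : p ≠ q) (hps : IsPSolvable p G) (hqs : IsPSolvable q G) (hd : Hd p q G)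
    [N.Normal] (hN : IsPiSubgroup {p}ᶜ N) (hN' : IsPiSubgroup {q}ᶜ N) (hP : Syl(p, P, ⊤))
    (hQ : Syl(q, Q, ⊤)) (hPQ : P ≤ 𝒩(Q)) (hn : 𝒩(P) ≤ 𝒩(N ⊔ Q)) : 𝒩(P) ≤ 𝒩(Q) := by
  have hT : ∀ A : Subgroup G, A ≤ 𝒩(N) := fun A => le_top.trans (top_le_norm N)
  have hS : IsPiSubgroup {p, q} (P ⊔ Q) :=
    (hP.isPi.mono_mem (by simp)).sup_of_le_norm (hQ.isPi.mono_mem (by simp)) hPQ
  have hH : IsPiHallOf {p, q} (P ⊔ Q) ⊤ := isPiHallOf_mk le_top hS
    fun r hr h hm => by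
      rcases hm with rfl | rfl
      · exact hP.idx_of_le le_sup_left r hr h rfl
      · exact hQ.idx_of_le le_sup_right r hr h rfl
  have h1 : N ⊓ 𝒞(P) ≤ 𝒞(P ⊔ Q) := by
    have h0 : IsPiSubgroup {p, q}ᶜ N := by
      rintro r hr h (rfl | rfl)
      · exact hN r hr h rfl
      · exact hN' r hr h rfl
    refine cent_le le_sup_left (hT _) (h0.coprime' hS)
      (H1.isSolvable_sup hP.isPi.solvable hQ.isPi.solvable hPQ) fun θ hθ => ?_
    obtain ⟨h2, h3⟩ := mem_IrrS.1 hθ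
    obtain ⟨φ, hφ, e⟩ := exists_ext_hall (T := P ⊔ N) le_sup_right (hT _) h2
      (sup_le h3 (le_stab (irr_cf h2)))
      ((hN.coprime' hP.isPi).coprime_dvd_right (relIndex_sup_dvd' (hT P)))
    have h4 := key hps hqs hd hP hH le_sup_left le_sup_right hn le_sup_right le_sup_left hφ h2 e
      (by
        rw [deg_congr (φ := φ) (ψ := θ) (by rw [← e, Res_one])]
        exact fun h => hN p hp.out (h.trans (deg_dvd_card h2)) rfl)
    exact mem_IrrS.2 ⟨h2, sup_le h3 (le_sup_right.trans h4)⟩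
  have hK : IsPiSubgroup {p}ᶜ (N ⊔ Q) := hN.sup_of_le_norm' (hQ.isPi.compl_of_ne hpq.symm) (hT Q)
  have hQK : Syl(q, Q, N ⊔ Q) := hQ.of_le le_sup_right le_top
  intro g hg
  obtain ⟨c, hc, e⟩ := (hallOK (H1.IsPSolvable.subgroup hqs (N ⊔ Q))
    (H1.IsPSolvable.subgroup hqs (N ⊔ Q))).invariant_conj ((le_norm_self P).trans hn)
    (hP.isPi.coprime hK) (Or.inl hP.isPi.solvable) (H₁ := Q) (H₂ := cj(g, Q))
    (by simpa using hQK) (by simpa using hQK.cj_of_mem_norm (hn hg)) hPQ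
    (by simpa only [cj_of_mem_norm hg] using cj_le_norm (g := g) hPQ)
  rw [mem_norm_iff_cj, ← e, smul_eq_cj, ← mem_norm_iff_cj]
  obtain ⟨x, hx, y, hy, rfl⟩ := Subgroup.mem_sup_of_normal_left.1 hc.1
  obtain ⟨x', hx', y', hy', e'⟩ := H1.exists_centralizer_mul_centralizer (hT P) hPQ
    (hP.isPi.coprime hN.inf_left) (Or.inl hP.isPi.solvable) hx hy hc.2
  rw [e']
  exact mul_mem (cent_le_norm Q (cent_anti le_sup_right (h1 hx'))) (le_norm_self Q hy'.1)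

theorem lemC (hpq : p ≠ q) (n : ℕ) : ∀ (G : Type u) [Group G] [Finite G], Nat.card G = n →
    IsPSolvable p G → IsPSolvable q G → Hd p q G → ∀ P : Subgroup G, Syl(p, P, ⊤) →
    ∃ Q : Subgroup G, Syl(q, Q, ⊤) ∧ 𝒩(P) ≤ 𝒩(Q) := by
  induction n using Nat.strong_induction_on with
  | _ n ih =>
  intro G _ _ hn hps hqs hd P hP
  rcases subsingleton_or_nontrivial G with h0 | h0
  · obtain ⟨Q, hQ⟩ := exists_syl q (⊤ : Subgroup G)
    exact ⟨Q, hQ, (Subsingleton.elim _ _).le⟩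
  obtain ⟨N, hN, h1, -, hmin⟩ := H1.exists_minimal_normal_le (⊤ : Subgroup G) top_ne_bot
  have hs := QuotientGroup.mk'_surjective N
  obtain ⟨R, hR, h2⟩ := ih _ (hn ▸ H1.card_quotient_lt h1) (G ⧸ N) rfl
    (H1.IsPSolvable.quotient hps N) (H1.IsPSolvable.quotient hqs N) (hd.quot N)
    (P.map (QuotientGroup.mk' N)) (by
      simpa only [Subgroup.map_top_of_surjective _ hs] using hP.map (QuotientGroup.mk' N))
  set K := R.comap (QuotientGroup.mk' N) with hK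
  have h3 : 𝒩(P) ≤ 𝒩(K) := by
    refine le_trans ?_ (Subgroup.le_normalizer_comap _)
    rw [← Subgroup.map_le_iff_le_comap]
    exact (Subgroup.le_normalizer_map _).trans h2
  have hNK : N ≤ K := fun x hx => by
    rw [hK, Subgroup.mem_comap, QuotientGroup.mk'_apply, (QuotientGroup.eq_one_iff x).2 hx]
    exact one_mem _
  have h4 : H1.IsPiNat {q}ᶜ (K.relIndex ⊤) := by
    have := hR.idx
    rw [Subgroup.relIndex_top_right] at this ⊢
    rwa [hK, Subgroup.index_comap_of_surjective _ hs]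
  have h5 : H1.IsPiNat {q} (N.relIndex K) := by
    rw [← H1.card_map_mk'_eq_relIndex, hK, Subgroup.map_comap_eq_self_of_surjective hs]
    exact hR.isPi
  have h6 : ∀ Q, Syl(q, Q, K) → Syl(q, Q, ⊤) ∧ 𝒩(P) ≤ 𝒩(N ⊔ Q) := fun Q hQ =>
    ⟨hQ.trans_idx le_top h4, by rwa [sup_comm, hQ.sup_eq_of_idx hNK h5]⟩
  obtain ⟨Q, hQ⟩ := exists_syl q K
  rcases H1.IsPSolvable.minimal_normal (H1.IsPSolvable.subgroup hps N) hmin with h7 | h7
  · exact ⟨Q, (h6 Q hQ).1, case_p hpq hps hqs hd (IsPGroup.isPi h7) hP (h6 Q hQ).1 (h6 Q hQ).2⟩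
  rcases H1.IsPSolvable.minimal_normal (H1.IsPSolvable.subgroup hqs N) hmin with h8 | h8
  · refine ⟨Q, (h6 Q hQ).1, ?_⟩
    have := (h6 Q hQ).2
    rwa [sup_eq_right.2 (hQ.le_of_norm' (IsPGroup.isPi h8) hNK (le_top.trans (top_le_norm N)))]
      at this
  have h9 : IsPiSubgroup {p}ᶜ K := (isPi_compl_of_coprime h7).of_relIndex fun r hr hd h =>
    hpq (h.symm.trans (h5 r hr hd))
  obtain ⟨Q, hQ, h10⟩ := (hallOK (H1.IsPSolvable.subgroup hqs K)
    (H1.IsPSolvable.subgroup hqs K)).exists_invariant ((le_norm_self P).trans h3)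
    (hP.isPi.coprime h9) (Or.inl hP.isPi.solvable)
  replace hQ : Syl(q, Q, K) := by simpa using hQ
  exact ⟨Q, (h6 Q hQ).1, case_c hpq hps hqs hd (isPi_compl_of_coprime h7)
    (isPi_compl_of_coprime h8) hP (h6 Q hQ).1 h10 (h6 Q hQ).2⟩

end H19.NW
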