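import Cfsg.Agent.H19.NW1
import Cfsg.Agent.H20.PSol
import Cfsg.Agent.H20.Cyc6

/-!
The principal block of a `p`-solvable group and the Navarro–Wolf theorems.
-/

set_option autoImplicit false

open H17 Cfsg H15 CF H21
open scoped ComplexConjugate Pointwise

universe u

namespace H19.NW

variable {G : Type u} [Group G] [Finite G] {p q : ℕ} [hp : Fact p.Prime] [hq : Fact q.Prime]
  {M : Ideal AlgInt}

/-- the principal block of a `p`-solvable group -/
theorem mem_B0 (hM : IsPModular p M) (hs : IsPSolvable p G) (χ : IrrCharacter G) :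
    χ ∈ principalBlock M G ↔ pPrimeCore p G ≤ cfker (χ : G → ℂ) := by
  classical
  obtain ⟨O, hO, _⟩ := H19.exists_over hM
  rw [hO.principalBlock_eq]
  have := Fintype.ofFinite G
  let K := pPrimeCore p G
  have hK : ¬ p ∣ Nat.card K := H1.not_dvd_card_pPrimeCore hM.1
  have h1 := H20.eA_mem_fixed_of_inv (O := O) hK (θ := H19.triv K) fun _ _ => rfl
  have h3 := H20.fong (QuotientGroup.mk' K) (QuotientGroup.mk'_surjective _)
    (by rwa [QuotientGroup.ker_mk']) (H1.isPGroup_pCore p)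
    (H1.IsPSolvable.centralizer_pCore_le (H1.IsPSolvable.quotient hs _)
      (H1.pPrimeCore_quotient_pPrimeCore p))
    (by rw [QuotientGroup.ker_mk']; exact H20.isBlk_eA _ _) h1 IsPGroup.of_bot
  rw [H20.cent_bot, H20.br_bot] at h3
  obtain ⟨β, -, h5⟩ := H20.exists_blk_of_inv hK h3
  have h6 : ∀ ψ : IrrCharacter G, ψ ∈ H19.irr β ↔ K ≤ cfker (ψ : G → ℂ) := fun ψ => by
    rw [h5, le_cfker_iff_dot_one le_top (top_le_norm K) (mem_Irr_top.2 ψ.2), dot_eq, CF.res_one]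
    rfl
  have h7 : β = H19.B0 O G := by
    have := (h6 (H19.triv _)).2 fun x _ => mem_cfker.2 fun _ => rfl
    exact this.symm
  exact h7 ▸ h6 χ

theorem idx_of_hd (hpq : p ≠ q) (hps : IsPSolvable p G) (hqs : IsPSolvable q G)
    (hd : Hd p q (G ⧸ pPrimeCore p G)) : ¬ q ∣ (pPrimeCore p G).relIndex ⊤ := by
  obtain ⟨P, hP⟩ := exists_syl p (⊤ : Subgroup (G ⧸ pPrimeCore p G))
  have h0 := H1.IsPSolvable.quotient hps (pPrimeCore p G)
  obtain ⟨Q, hQ, h⟩ := lemC hpq _ _ rfl h0 (H1.IsPSolvable.quotient hqs _) hd P hP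
  have h1 : IsPiSubgroup {p} (pCore p (G ⧸ pPrimeCore p G)) :=
    IsPGroup.isPi (H1.isPGroup_pCore p)
  have h2 := hQ.isPi.compl_of_ne hpq.symm
  have h3 := (le_cent_of_coprime (((hP.le_of_norm' h1 le_top (le_top.trans (top_le_norm _))).trans
    (le_norm_self P)).trans h) (le_top.trans (top_le_norm _)) (h2.coprime' h1)).trans
    (H1.IsPSolvable.centralizer_pCore_le h0 (H1.pPrimeCore_quotient_pPrimeCore p))
  rw [(h1.of_le h3).eq_bot h2] at hQ
  have h4 := hQ.not_dvd_idx hq.out rfl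
  rwa [Subgroup.relIndex_bot_left, Subgroup.card_top, ← Subgroup.index_eq_card,
    ← Subgroup.relIndex_top_right] at h4

omit hq in
theorem hd_of (hM : IsPModular p M) (hs : IsPSolvable p G)
    (h : ∀ χ : IrrCharacter G, χ ∈ principalBlock M G → ¬ p ∣ charDegree (χ : G → ℂ) →
      ¬ q ∣ charDegree (χ : G → ℂ)) : Hd p q (G ⧸ pPrimeCore p G) := fun ψ hψ =>
  h ⟨_, hψ.inflate⟩ ((mem_B0 hM hs _).2 fun x hx => mem_cfker.2 fun y => by
    change ψ ((x * y : G) : G ⧸ _) = ψ (y : G ⧸ _)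
    rw [QuotientGroup.mk_mul, (QuotientGroup.eq_one_iff x).2 hx, one_mul])

omit hp hq [Finite G] in
theorem syl_le {Q : Subgroup G} (hQ : IsPiSubgroup {q} Q)
    (h : ¬ q ∣ (pPrimeCore p G).relIndex ⊤) : Q ≤ pPrimeCore p G :=
  le_of_isPi_of_idx hQ le_top (top_le_norm _) fun r _ hd e => h ((show r = q from e) ▸ hd)

theorem exists_comm (hqs : IsPSolvable q G)
    (h1 : ¬ q ∣ (pPrimeCore p G).relIndex ⊤) (h2 : ¬ p ∣ (pPrimeCore q G).relIndex ⊤) :
    ∃ P Q : Subgroup G, Syl(p, P, ⊤) ∧ Syl(q, Q, ⊤) ∧ P ≤ 𝒞(Q) := by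
  obtain ⟨P, hP⟩ := exists_syl p (⊤ : Subgroup G)
  obtain ⟨Q, hQ, h3⟩ := (hallOK (H1.IsPSolvable.subgroup hqs (pPrimeCore p G))
    (H1.IsPSolvable.subgroup hqs _)).exists_invariant (A := P) (le_top.trans (top_le_norm _))
    (hP.isPi.coprime (isPi_compl_of_not_dvd (H1.not_dvd_card_pPrimeCore hp.out)))
    (Or.inl hP.isPi.solvable)
  replace hQ : Syl(q, Q, pPrimeCore p G) := by simpa using hQ
  refine ⟨P, Q, hP, hQ.trans_idx le_top fun r _ hd e => h1 ((show r = q from e) ▸ hd),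
    le_cent_of_comm_le_bot ?_⟩
  rw [← hQ.isPi.inf_eq_bot (K := pPrimeCore q G)
    (isPi_compl_of_not_dvd (H1.not_dvd_card_pPrimeCore hq.out))]
  exact le_inf (comm_le_right h3) ((Subgroup.commutator_mono (syl_le hP.isPi h2) le_rfl).trans
    (comm_le_left (le_top.trans (top_le_norm _))))

theorem nd_of_comm (hpq : p ≠ q) (hM : IsPModular p M) (hps : IsPSolvable p G)
    {P Q : Subgroup G} (hP : Syl(p, P, ⊤)) (hQ : Syl(q, Q, ⊤)) (h : Q ≤ 𝒞(P))
    (χ : IrrCharacter G) (hχ : χ ∈ principalBlock M G) : ¬ q ∣ charDegree (χ : G → ℂ) := by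
  set K := pPrimeCore p G
  have hs := QuotientGroup.mk'_surjective K
  have h0 := H1.IsPSolvable.quotient hps K
  have h1 : IsPiSubgroup {p} (pCore p (G ⧸ K)) := IsPGroup.isPi (H1.isPGroup_pCore p)
  have h2 : Syl(p, P.map (QuotientGroup.mk' K), ⊤) := by
    simpa only [Subgroup.map_top_of_surjective _ hs] using hP.map (QuotientGroup.mk' K)
  have h3 := ((map_le_cent (QuotientGroup.mk' K) h).trans (cent_anti
    (h2.le_of_norm' h1 le_top (le_top.trans (top_le_norm _))))).trans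
    (H1.IsPSolvable.centralizer_pCore_le h0 (H1.pPrimeCore_quotient_pPrimeCore p))
  have h4 := (h1.of_le h3).eq_bot ((hQ.isPi.compl_of_ne hpq.symm).map _)
  rw [Subgroup.map_eq_bot_iff, QuotientGroup.ker_mk'] at h4
  have h5 := mem_Irr_top.2 χ.2
  obtain ⟨m, h6, h7⟩ := deg_over le_top (top_le_norm K) (one_mem_Irr K) (mem_over.2
    ⟨h5, (le_cfker_iff_dot_one le_top (top_le_norm K) h5).1 ((mem_B0 hM hps χ).1 hχ)⟩)
  rw [h7, deg_one, mul_one]
  exact fun hd => hQ.idx_of_le h4 q hq.out (hd.trans h6) rfl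

/-- a character of `p'`-degree in the principal block, nontrivial on a Sylow subgroup -/
theorem exists_B0 (hM : IsPModular p M) (hps : IsPSolvable p G) (hd : p ∣ Nat.card G)
    {P : Subgroup G} (hP : Syl(p, P, ⊤)) : ∃ χ : IrrCharacter G, χ ∈ principalBlock M G ∧
      ¬ p ∣ charDegree (χ : G → ℂ) ∧ ¬ P ≤ cfker (χ : G → ℂ) := by
  set K := pPrimeCore p G
  have hn : ∀ A : Subgroup G, A ≤ 𝒩(K) := fun A => le_top.trans (top_le_norm K)
  have hK : IsPiSubgroup {p}ᶜ K := isPi_compl_of_not_dvd (H1.not_dvd_card_pPrimeCore hp.out)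
  have h1 : ¬ P ≤ K ⊔ ⁅P, P⁆ := fun h => by
    have := hP.nilpotent
    have h2 := H1.sup_inf_assoc_of_le_normalizer (A := ⁅P, P⁆) (B := K) (C := P)
      (commutator_le_of_le le_rfl le_rfl) (Or.inl (hn _))
    rw [hK.inf_eq_bot' hP.isPi, sup_comm, inf_eq_right.2 h, sup_comm] at h2
    exact hP.ne_bot hp.out rfl (by rwa [Subgroup.card_top])
      (le_bot_iff.1 (H9.le_of_le_sup_commutator bot_le h2.le))
  have h2 : ⁅K ⊔ P, K ⊔ P⁆ ≤ K ⊔ ⁅P, P⁆ := by
    have h3 : K ⊔ P ≤ 𝒩(K ⊔ ⁅P, P⁆) := sup_le (le_norm_of_le le_sup_left)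
      (le_norm_sup (hn P) (le_norm_comm (le_norm_self P) (le_norm_self P)))
    refine comm_sup_left_le ((comm_le_left (hn _)).trans le_sup_left) ?_ (le_sup_left.trans h3)
      (le_sup_right.trans h3)
    rw [Subgroup.commutator_comm]
    exact comm_sup_left_le ((comm_le_left (hn _)).trans le_sup_left) le_sup_right
      (le_sup_left.trans h3) (le_sup_right.trans h3)
  obtain ⟨l, hl, h3, h4⟩ := exists_lin_not_le h2
    (sup_le_sup_left (commutator_le_of_le le_rfl le_rfl) K) h1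
  obtain ⟨χ, h5, h6⟩ := exists_over_nd hp.out le_top hl.mem_Irr
    (fun h => hP.idx_of_le le_sup_right p hp.out h rfl)
    (by rw [deg_lin hl]; exact hp.out.not_dvd_one)
  obtain ⟨h7, h8⟩ := mem_over.1 h5
  refine ⟨⟨χ, mem_Irr_top.1 h7⟩, (mem_B0 hM hps _).2 ?_, h6, fun h => h4 ?_⟩
  · exact (le_cfker_over_iff le_top le_sup_left (hn _) h7 hl.mem_Irr h8).2 (le_sup_left.trans h3)
  · exact le_cfker_of_under le_top le_sup_right (irr_char h7) hl.mem_Irr h8 h

end H19.NW
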