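import Cfsg.Agent.H8.A8h

/-! Construction of the swapping involution in the 3-local set-up for degree 8. -/

set_option autoImplicit false
open Subgroup Equiv H8A

namespace H19.Set2

variable {G : Type*} [Group G] [Finite G] {ι : L0 →* G}

def DL : List L0 :=
  [1, z0, z0⁻¹, d0, d0⁻¹, z0 * d0, z0 * d0⁻¹, z0⁻¹ * d0, z0⁻¹ * d0⁻¹]

def f0 : L0 := el 1 (swap 0 1 * swap 1 2 * swap 2 3 * swap 3 4)

instance decL0 : DecidablePred (· ∈ L0) := fun p =>
  decidable_of_iff (Perm.sign p.1 * Perm.sign p.2 = 1) Iff.rfl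

theorem DL_mul : ∀ a ∈ DL, ∀ b ∈ DL, a * b ∈ DL := by decide +kernel
theorem DL_inv : ∀ a ∈ DL, a⁻¹ ∈ DL := by decide +kernel
theorem DL_comm : ∀ a ∈ DL, ∀ b ∈ DL, a * b = b * a := by decide +kernel
theorem DL_u : ∀ a ∈ DL, u0 * a * u0 = a⁻¹ ∧ a * a * a = 1 := by decide +kernel
theorem DL_nodup : DL.Nodup := by decide +kernel
theorem cntQ : Fintype.card {x : L0 // x * z0 * x⁻¹ ∈ DL ∧ x * d0 * x⁻¹ ∈ DL} = 36 := by
  decide +kernel
theorem DL_r : ∀ e ∈ DL, r0 * e * r0⁻¹ = 1 ∨ r0 * e * r0⁻¹ = e ∨ r0 * e * r0⁻¹ = e * e →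
    (e = 1 ∨ e = z0 ∨ e = z0⁻¹) ∨ e = d0 ∨ e = d0⁻¹ := by decide +kernel
theorem DL_y : ∀ e ∈ DL, (e = 1 ∨ e = z0 ∨ e = z0⁻¹) ∨ (e = d0 ∨ e = d0⁻¹) ∨
    ∃ w ∈ [1, r0, u0, u0 * r0], w * e * w⁻¹ = z0 * d0 := by decide +kernel
theorem w_Q : ∀ w ∈ [1, r0, u0, u0 * r0], w * z0 * w⁻¹ ∈ DL ∧ w * d0 * w⁻¹ ∈ DL := by
  decide +kernel
theorem no_inv : ∀ x : L0, x * x = 1 → x * (z0 * d0) = (z0 * d0) * x → x = 1 := by
  refine all_L0 ?_
  decide +kernel
theorem f0_ord : orderOf f0 = 5 := by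
  haveI : Fact (Nat.Prime 5) := ⟨by norm_num⟩
  exact orderOf_eq_prime (by decide +kernel) (by decide +kernel)
theorem f0_z : f0 * z0 = z0 * f0 := by decide +kernel
theorem z0_3 : z0 ^ 3 = 1 := by decide +kernel
theorem u0_2 : u0 * u0 = 1 := by decide +kernel

omit [Finite G] in
theorem memD {g : G} : g ∈ closure ({ι z0, ι d0} : Set G) ↔ ∃ e ∈ DL, ι e = g := by
  constructor
  · intro h
    induction h using closure_induction with
    | mem x hx =>
      rcases hx with rfl | rfl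
      · exact ⟨z0, by simp [DL], rfl⟩
      · exact ⟨d0, by simp [DL], rfl⟩
    | one => exact ⟨1, by simp [DL], map_one ι⟩
    | mul x y _ _ hx hy =>
      obtain ⟨a, ha, rfl⟩ := hx
      obtain ⟨b, hb, rfl⟩ := hy
      exact ⟨a * b, DL_mul a ha b hb, map_mul ι a b⟩
    | inv x _ hx =>
      obtain ⟨a, ha, rfl⟩ := hx
      exact ⟨a⁻¹, DL_inv a ha, map_inv ι a⟩
  · rintro ⟨e, he, rfl⟩
    have hz : ι z0 ∈ closure ({ι z0, ι d0} : Set G) := subset_closure (by simp)
    have hd : ι d0 ∈ closure ({ι z0, ι d0} : Set G) := subset_closure (by simp)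
    simp only [DL, List.mem_cons, List.not_mem_nil, or_false] at he
    rcases he with rfl | rfl | rfl | rfl | rfl | rfl | rfl | rfl | rfl <;>
      (try simp only [map_one, map_mul, map_inv]) <;>
      first
        | exact one_mem _
        | assumption
        | exact inv_mem ‹_›
        | exact mul_mem hz hd
        | exact mul_mem hz (inv_mem hd)
        | exact mul_mem (inv_mem hz) hd
        | exact mul_mem (inv_mem hz) (inv_mem hd)

theorem memN (inj : Function.Injective ι) {x : L0} :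
    ι x ∈ normalizer ((closure ({ι z0, ι d0} : Set G) : Subgroup G) : Set G) ↔
      x * z0 * x⁻¹ ∈ DL ∧ x * d0 * x⁻¹ ∈ DL := by
  have k : ∀ e : L0, ι x * ι e * (ι x)⁻¹ = ι (x * e * x⁻¹) := fun e => by simp
  constructor
  · intro h
    have a : ∀ e ∈ DL, x * e * x⁻¹ ∈ DL := fun e he => by
      obtain ⟨e', he', h'⟩ := memD.1 ((mem_normalizer_iff.1 h (ι e)).1 (memD.2 ⟨e, he, rfl⟩))
      rw [k] at h'
      exact inj h' ▸ he'
    exact ⟨a z0 (by simp [DL]), a d0 (by simp [DL])⟩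
  · rintro ⟨h1, h2⟩
    refine mem_normalizer_fintype fun g hg => ?_
    replace hg : g ∈ closure ({ι z0, ι d0} : Set G) := hg
    show _ ∈ closure ({ι z0, ι d0} : Set G)
    induction hg using closure_induction with
    | mem y hy =>
      rcases hy with rfl | rfl
      · exact memD.2 ⟨_, h1, (k _).symm⟩
      · exact memD.2 ⟨_, h2, (k _).symm⟩
    | one => simp
    | mul a b _ _ ha hb =>
      have : ι x * (a * b) * (ι x)⁻¹ = ι x * a * (ι x)⁻¹ * (ι x * b * (ι x)⁻¹) := by group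
      exact this ▸ mul_mem ha hb
    | inv a _ ha =>
      have : ι x * a⁻¹ * (ι x)⁻¹ = (ι x * a * (ι x)⁻¹)⁻¹ := by group
      exact this ▸ inv_mem ha

theorem cardB (inj : Function.Injective ι) :
    Nat.card ↥(ι.range ⊓ normalizer ((closure ({ι z0, ι d0} : Set G) : Subgroup G) : Set G) :
      Subgroup G) = 36 := by
  rw [← map_comap_eq, card_map_of_injective inj, ← cntQ, ← Nat.card_eq_fintype_card]
  exact Nat.card_congr (Equiv.subtypeEquivRight fun x => memN inj)

theorem cardD (inj : Function.Injective ι) :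
    Nat.card (closure ({ι z0, ι d0} : Set G)) = 9 := by
  classical
  have : ((closure ({ι z0, ι d0} : Set G) : Subgroup G) : Set G) = ↑(DL.toFinset.image ι) := by
    ext g
    simp only [SetLike.mem_coe, memD, Finset.coe_image, List.coe_toFinset, Set.mem_image,
      Set.mem_setOf_eq]
  have h2 : Nat.card (closure ({ι z0, ι d0} : Set G)) =
      ((closure ({ι z0, ι d0} : Set G) : Subgroup G) : Set G).ncard := rfl
  rw [h2, this, Set.ncard_coe_finset, Finset.card_image_of_injective _ inj,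
    List.toFinset_card_of_nodup DL_nodup]
  rfl

/-- index two: the quotient of two outside elements is inside -/
theorem two {A B : Subgroup G} (h : Nat.card B = 2 * Nat.card (A ⊓ B : Subgroup G)) {a b : G}
    (ha : a ∈ B) (hb : b ∈ B) (na : a ∉ A) (nb : b ∉ A) : a * b ∈ A := by
  have i : (A.subgroupOf B).index = 2 := by
    have e := (A.subgroupOf B).index_mul_card
    have c : Nat.card (A.subgroupOf B) = Nat.card (A ⊓ B : Subgroup G) := by
      rw [← inf_subgroupOf_right]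
      exact Nat.card_congr (subgroupOfEquivOfLe inf_le_right).toEquiv
    rw [c, h] at e
    exact Nat.eq_of_mul_eq_mul_right Nat.card_pos e
  have := (mul_mem_iff_of_index_two i (a := ⟨a, ha⟩) (b := ⟨b, hb⟩)).2
    (by simp [mem_subgroupOf, na, nb])
  exact this

theorem set2 (inj : Function.Injective ι) (nz : ι.range = normalizer (zpowers (ι z0) : Set G))
    (n27 : ¬ 27 ∣ Nat.card G) (D : Subgroup G) (hD : D = closure {ι z0, ι d0})
    (h72 : Nat.card (normalizer (D : Set G)) = 72) (y : G) (hy : y ∈ D)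
    (hy' : y ∉ zpowers (ι z0)) (h18 : Nat.card (centralizer ({y} : Set G)) = 18)
    (hyn : centralizer ({y} : Set G) ≤ normalizer (D : Set G)) : ∃ s, Hy ι s := by
  subst hD
  set N := normalizer ((closure ({ι z0, ι d0} : Set G) : Subgroup G) : Set G) with hN
  have hz : ι z0 ∈ closure ({ι z0, ι d0} : Set G) := subset_closure (by simp)
  have inz : ∀ e : L0, (e = 1 ∨ e = z0 ∨ e = z0⁻¹) → ι e ∈ zpowers (ι z0) := by
    rintro e (rfl | rfl | rfl)
    · simp
    · exact mem_zpowers _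
    · rw [map_inv]; exact inv_mem (mem_zpowers _)
  have mem_of : ∀ g : G, g * ι z0 * g⁻¹ ∈ zpowers (ι z0) → g ∈ ι.range := by
    intro g e
    rw [nz]
    refine mem_normalizer_fintype ?_
    rintro _ ⟨k, rfl⟩
    simp only [← conj_zpow]
    exact zpow_mem e k
  have cB := cardB inj
  have rN : ι r0 ∈ N := (memN inj).2 (w_Q r0 (by simp))
  have key : ∀ g ∈ N, g ∉ ι.range → g * ι z0 * g⁻¹ = ι d0 ∨ g * ι z0 * g⁻¹ = (ι d0)⁻¹ := by
    intro g hg ng
    obtain ⟨e, he, h'⟩ := memD.1 ((mem_normalizer_iff.1 hg _).1 hz)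
    have m : g⁻¹ * (ι r0 * g) ∈ ι.range :=
      two (by rw [h72, cB]) (inv_mem hg) (mul_mem rN hg) (fun h => ng (by simpa using h))
        (fun h => ng ((mul_mem_cancel_left (MonoidHom.mem_range.2 ⟨r0, rfl⟩)).1 h))
    rw [nz] at m
    obtain ⟨k, hk⟩ := (mem_normalizer_iff.1 m _).1 (mem_zpowers (ι z0))
    have e3 : e ^ 3 = 1 := by
      have := (DL_u e he).2
      rwa [pow_three', ]
    have hk2 : r0 * e * r0⁻¹ = e ^ k := inj (by
      rw [map_zpow, map_mul, map_mul, map_inv, h', conj_zpow]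
      simp only at hk
      rw [hk]; group)
    have c : r0 * e * r0⁻¹ = 1 ∨ r0 * e * r0⁻¹ = e ∨ r0 * e * r0⁻¹ = e * e := by
      have e3' : e ^ (3 : ℤ) = 1 := by exact_mod_cast e3
      rw [hk2, zpow_eq_zpow_emod k e3']
      have : k % 3 = 0 ∨ k % 3 = 1 ∨ k % 3 = 2 := by omega
      rcases this with h | h | h <;> rw [h]
      · exact Or.inl (zpow_zero e)
      · exact Or.inr (Or.inl (zpow_one e))
      · exact Or.inr (Or.inr (zpow_two e))
    rcases DL_r e he c with h | rfl | rfl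
    · exact absurd (mem_of g (h' ▸ inz e h)) ng
    · exact Or.inl h'.symm
    · exact Or.inr (by rw [← h', map_inv])
  obtain ⟨g, hg, ng⟩ : ∃ g ∈ N, g ∉ ι.range := by
    by_contra! h
    rw [inf_eq_right.2 h, h72] at cB
    omega
  obtain ⟨e, he, rfl⟩ := memD.1 hy
  obtain ⟨c18, cN⟩ : Nat.card (centralizer ({ι (z0 * d0)} : Set G)) = 18 ∧
      centralizer ({ι (z0 * d0)} : Set G) ≤ N := by
    rcases DL_y e he with h | h | ⟨w, hw, h⟩
    · exact absurd (inz e h) hy'
    · exfalso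
      have c1 : Commute (g * ι f0 * g⁻¹) (g * ι z0 * g⁻¹) := by
        have : ι f0 * ι z0 = ι z0 * ι f0 := by rw [← map_mul, f0_z, map_mul]
        calc _ = g * (ι f0 * ι z0) * g⁻¹ := by group
          _ = _ := by rw [this]; group
      have c2 : Commute (g * ι f0 * g⁻¹) (ι d0) := by
        rcases key g hg ng with k | k <;> rw [k] at c1
        · exact c1
        · simpa using c1
      have c3 : g * ι f0 * g⁻¹ ∈ centralizer ({ι e} : Set G) := by
        rw [mem_centralizer_singleton_iff]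
        rcases h with rfl | rfl
        · exact c2.eq
        · rw [map_inv]; exact c2.inv_right.eq
      have o := orderOf_dvd_natCard _ c3
      have o2 : orderOf (g * ι f0 * g⁻¹) = 5 := by
        refine Eq.trans ?_ ((orderOf_injective ι inj f0).trans f0_ord)
        exact (SemiconjBy.orderOf_eq g (by simp [SemiconjBy])).symm
      rw [o2, h18] at o
      omega
    · have wN : ι w ∈ N := (memN inj).2 (w_Q w hw)
      have q : ∀ x, x ∈ centralizer ({ι (z0 * d0)} : Set G) ↔
          (ι w)⁻¹ * x * ι w ∈ centralizer ({ι e} : Set G) := fun x => by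
        rw [mem_centralizer_singleton_iff, mem_centralizer_singleton_iff, ← h, map_mul, map_mul,
          map_inv]
        constructor
        · intro k
          calc _ = (ι w)⁻¹ * (x * (ι w * ι e * (ι w)⁻¹)) * ι w := by group
            _ = _ := by rw [k]; group
        · intro k
          calc _ = ι w * ((ι w)⁻¹ * x * ι w * ι e) * (ι w)⁻¹ := by group
            _ = _ := by rw [k]; group
      refine ⟨?_, fun x hx => ?_⟩
      · rw [← h18]
        exact Nat.card_congr (Equiv.subtypeEquiv (MulAut.conj (ι w)⁻¹).toEquiv fun x => by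
          simpa using q x)
      · have := mul_mem (mul_mem wN (hyn ((q x).1 hx))) (inv_mem wN)
        simpa [mul_assoc] using this
  haveI : Fact (Nat.Prime 2) := ⟨Nat.prime_two⟩
  obtain ⟨⟨s0, hs⟩, os⟩ := exists_prime_orderOf_dvd_card' (G := centralizer ({ι (z0 * d0)} : Set G))
    2 (by rw [c18]; norm_num)
  have os' : orderOf s0 = 2 := by rw [← os]; exact orderOf_coe ⟨s0, hs⟩
  have s2 : s0 * s0 = 1 := by rw [← pow_two, ← os', pow_orderOf_eq_one]
  have si : s0⁻¹ = s0 := inv_eq_of_mul_eq_one_right s2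
  have sc : s0 * ι (z0 * d0) = ι (z0 * d0) * s0 := mem_centralizer_singleton_iff.1 hs
  have ns : s0 ∉ ι.range := by
    rintro ⟨x, rfl⟩
    have := no_inv x (inj (by rw [map_mul, s2, map_one])) (inj (by rw [map_mul, sc, ← map_mul]))
    rw [this, map_one, orderOf_one] at os'
    omega
  have sz : s0 * ι z0 * s0⁻¹ = ι d0 := by
    refine (key s0 (cN hs) ns).resolve_right fun k => ?_
    have k2 : s0 * ι d0 * s0⁻¹ = (ι z0)⁻¹ := by
      have : ι d0 = s0 * (ι z0)⁻¹ * s0⁻¹ := by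
        rw [← inv_inv (ι d0), ← k]; group
      rw [this]
      calc _ = s0 * s0 * (ι z0)⁻¹ * (s0 * s0)⁻¹ := by group
        _ = _ := by rw [s2]; group
    have k3 : ι (z0 * d0) = ι (d0⁻¹ * z0⁻¹) := by
      calc ι (z0 * d0) = s0 * ι (z0 * d0) * s0⁻¹ := by rw [sc]; group
        _ = s0 * ι z0 * s0⁻¹ * (s0 * ι d0 * s0⁻¹) := by rw [map_mul]; group
        _ = _ := by rw [k, k2, map_mul, map_inv, map_inv]
    exact absurd (inj k3) (by decide +kernel)
  have u2 : ι u0 * ι u0 = 1 := by rw [← map_mul, u0_2, map_one]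
  have uD : ∀ a ∈ DL, ι u0 * ι a * ι u0 = (ι a)⁻¹ := fun a ha => by
    rw [← map_mul, ← map_mul, (DL_u a ha).1, map_inv]
  have DC : closure ({ι z0, ι d0} : Set G) ≤ centralizer ({ι (z0 * d0)} : Set G) := by
    intro x hx
    obtain ⟨a, ha, rfl⟩ := memD.1 hx
    rw [mem_centralizer_singleton_iff, ← map_mul, ← map_mul, DL_comm a ha _ (by simp [DL])]
  have DR : closure ({ι z0, ι d0} : Set G) ≤ ι.range := by
    intro x hx
    obtain ⟨a, -, rfl⟩ := memD.1 hx
    exact ⟨a, rfl⟩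
  have us : ι u0 * s0 * ι u0 ∈ centralizer ({ι (z0 * d0)} : Set G) := by
    rw [mem_centralizer_singleton_iff]
    have k := uD (z0 * d0) (by simp [DL])
    generalize ι (z0 * d0) = t at k sc
    have k' : ι u0 * t⁻¹ * ι u0 = t := by
      rw [← k]
      calc _ = ι u0 * ι u0 * t * (ι u0 * ι u0) := by group
        _ = t := by rw [u2]; group
    have ci : s0 * t⁻¹ = t⁻¹ * s0 := (Commute.inv_right sc).eq
    calc ι u0 * s0 * ι u0 * t = ι u0 * s0 * (ι u0 * t * ι u0) * ι u0 := by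
          rw [mul_assoc (ι u0 * s0) _ (ι u0), mul_assoc (ι u0 * t), u2]; group
      _ = ι u0 * (s0 * t⁻¹) * ι u0 := by rw [k]; group
      _ = (ι u0 * t⁻¹ * ι u0) * (ι u0 * s0 * ι u0) := by
          rw [ci]
          calc _ = ι u0 * t⁻¹ * (ι u0 * ι u0) * s0 * ι u0 := by rw [u2]; group
            _ = _ := by group
      _ = _ := by rw [k']
  have m : s0 * (ι u0 * s0 * ι u0) ∈ closure ({ι z0, ι d0} : Set G) :=
    two (by rw [inf_eq_left.2 DC, c18, cardD inj]) hs us (fun h => ns (DR h)) (fun h => ns (by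
      have := DR h
      have ur : ι u0 ∈ ι.range := ⟨u0, rfl⟩
      rwa [mul_mem_cancel_right ur, mul_mem_cancel_left ur] at this))
  obtain ⟨a, ha, h⟩ := memD.1 m
  have a3 : ι a * ι a * ι a = 1 := by rw [← map_mul, ← map_mul, (DL_u a ha).2, map_one]
  have az : ι a * ι z0 = ι z0 * ι a := by
    rw [← map_mul, ← map_mul, DL_comm a ha _ (by simp [DL])]
  have ua := uD a ha
  generalize ι a = b at h a3 az ua
  have h1 : ι u0 * s0 * ι u0 = s0 * b := by rw [h, ← mul_assoc, s2, one_mul]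
  have h2 : s0 * b * s0 = b⁻¹ := by
    refine eq_inv_of_mul_eq_one_left ?_
    calc _ = s0 * b * (s0 * b) := by group
      _ = ι u0 * s0 * (ι u0 * ι u0) * s0 * ι u0 := by rw [← h1]; group
      _ = ι u0 * (s0 * s0) * ι u0 := by rw [u2]; group
      _ = 1 := by rw [s2, mul_one, u2]
  have bi : b⁻¹ = b * b := inv_eq_of_mul_eq_one_left a3
  have ss : s0 * b⁻¹ * (s0 * b⁻¹) = 1 := by
    have : s0 * b⁻¹ * s0 = b := by
      calc _ = (s0⁻¹ * b * s0⁻¹)⁻¹ := by group
        _ = b := by rw [si, h2, inv_inv]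
    calc _ = s0 * b⁻¹ * s0 * b⁻¹ := by group
      _ = 1 := by rw [this]; group
  refine ⟨s0 * b⁻¹, inj, nz, n27, ss, ?_, ?_, c18⟩
  · have : s0 * b⁻¹ = (s0 * b⁻¹)⁻¹ := (inv_eq_of_mul_eq_one_right ss).symm
    nth_rewrite 2 [this]
    rw [← sz]
    calc _ = s0 * (b⁻¹ * (ι z0 * b)) * s0⁻¹ := by group
      _ = _ := by rw [← az]; group
  · have k : ι u0 * b⁻¹ * ι u0 = b := by
      rw [← ua]
      calc _ = ι u0 * ι u0 * b * (ι u0 * ι u0) := by group
        _ = b := by rw [u2]; group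
    have : ι u0 * (s0 * b⁻¹) * ι u0 = s0 * b⁻¹ := by
      calc _ = ι u0 * s0 * (ι u0 * ι u0) * b⁻¹ * ι u0 := by rw [u2]; group
        _ = ι u0 * s0 * ι u0 * (ι u0 * b⁻¹ * ι u0) := by group
        _ = s0 * (b * b) := by rw [h1, k]; group
        _ = _ := by rw [bi]
    calc s0 * b⁻¹ * ι u0 = ι u0 * (s0 * b⁻¹) * ι u0 * ι u0 := by rw [this]
      _ = ι u0 * (s0 * b⁻¹) * (ι u0 * ι u0) := by group
      _ = _ := by rw [u2, mul_one]

end H19.Set2
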