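import Cfsg.Agent.H19.TmH
import Cfsg.Agent.H20.PSol

/-! Tame blocks with three Brauer characters. -/

set_option autoImplicit false
set_option linter.unusedSectionVars false

open scoped MonoidAlgebra
open Cfsg H17 Subgroup
open H20 (cent nrm eG eA FR)

namespace H19

universe u

variable {G : Type*} [Group G] [Finite G] {O : ValuationSubring ℂ} {D : Subgroup G} {k : ℕ}
  {x y t : G} {β : Blk O G}

theorem pr_indFun {p : ℕ} [Fintype G] {T : Subgroup G} (ψ : T → ℂ) :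
    pRegularPart p (indFun T ψ) = indFun T (pRegularPart p ψ) := by
  funext g
  have h1 : ∀ a : G, orderOf (a⁻¹ * g * a) = orderOf g := fun a => by
    simpa using (MulAut.conj a⁻¹).orderOf_eq g
  by_cases h : p ∣ orderOf g
  · rw [pr_of_sing _ h, indFun_apply, Finset.sum_eq_zero, mul_zero]
    intro a _
    by_cases ha : a⁻¹ * g * a ∈ T
    · rw [extendByZero_of_mem _ ha, pr_of_sing _ (by rwa [← orderOf_coe, h1])]
    · rw [extendByZero_of_not_mem _ ha]
  · rw [pr_of_reg _ h, indFun_apply, indFun_apply]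
    refine congrArg _ (Finset.sum_congr rfl fun a _ => ?_)
    by_cases ha : a⁻¹ * g * a ∈ T
    · rw [extendByZero_of_mem _ ha, extendByZero_of_mem _ ha,
        pr_of_reg _ (by rwa [← orderOf_coe, h1])]
    · rw [extendByZero_of_not_mem _ ha, extendByZero_of_not_mem _ ha]

theorem blockRank_le_of_ind {p : ℕ} [Fintype G] {T : Subgroup G} {A : Set (IrrCharacter G)}
    {A' : Set (IrrCharacter T)} (h : ∀ χ ∈ A, ∃ ψ ∈ A', (χ : G → ℂ) = indFun T (ψ : T → ℂ)) :
    blockRank p A ≤ blockRank p A' := by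
  refine le_trans (Submodule.finrank_mono ?_) (Submodule.finrank_map_le (indLin T) _)
  rw [Submodule.span_le]
  rintro _ ⟨χ, hχ, rfl⟩
  obtain ⟨ψ, hψ, h1⟩ := h χ hχ
  exact ⟨_, Submodule.subset_span ⟨ψ, hψ, rfl⟩, by simp only [h1, indLin_apply, pr_indFun]⟩

theorem MC.map {Q : Type*} [Group Q] (m : MC D k x y t) (f : G →* Q) (hf : ∀ d ∈ D, f d = 1 → d = 1) :
    MC (D.map f) k (f x) (f y) (f t) := by
  refine ⟨m.ox ▸ orderOf_eq_orderOf_iff.2 fun n => ⟨fun h => hf _ (pow_mem m.xD n)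
    (by rwa [map_pow]), fun h => by rw [← map_pow, h, map_one]⟩,
    by simp only [← map_mul, ← map_inv, m.cx], ?_, ?_, fun ⟨i, hi⟩ => m.ny ⟨i, ?_⟩, fun g => ?_⟩
  · exact m.ht.imp (fun h => by rw [h, map_one]) (And.imp_right fun h => by rw [h, map_pow])
  · exact m.yy.imp (fun h => by rw [← map_mul, h, map_one]) fun h => by rw [← map_mul, h, map_pow]
  · exact mul_inv_eq_one.1 (hf _ (mul_mem (zpow_mem m.xD i) (inv_mem m.yD))
      (by rw [map_mul, map_inv, map_zpow, mul_inv_eq_one]; exact hi))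
  · simp only [mem_map, m.mem]
    constructor
    · rintro ⟨_, ⟨i, rfl | rfl⟩, rfl⟩
      exacts [⟨i, Or.inl (map_zpow _ _ _)⟩, ⟨i, Or.inr (by rw [map_mul, map_zpow])⟩]
    · rintro ⟨i, rfl | rfl⟩
      exacts [⟨_, ⟨i, Or.inl rfl⟩, map_zpow _ _ _⟩, ⟨_, ⟨i, Or.inr rfl⟩, by rw [map_mul, map_zpow]⟩]

theorem MC.not_conj (m : MC D k x y t) {V : Subgroup G} [hV : V.Normal] (h1 : V ≤ D)
    (h2 : cent V ≤ V) (hy : IsConj (x ^ 2 ^ (k + 1)) y)
    (h : 1 ≤ k ∨ IsConj (x ^ 2 ^ (k + 1)) (x * y)) : False := by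
  have hz : x ^ 2 ^ (k + 1) ∈ cent V := fun v hv => (m.le_cent_z (h1 hv) _ rfl).symm
  have a1 : ∀ v, IsConj (x ^ 2 ^ (k + 1)) v → v ∈ cent V := fun v hv => by
    obtain ⟨g, rfl⟩ := isConj_iff.1 hv
    exact (inferInstance : (centralizer (V : Set G)).Normal).conj_mem _ hz g
  obtain ⟨u, a2, a3, a4⟩ : ∃ u ∈ V, u ∈ zpowers x ∧ u * u ≠ 1 := by
    rcases h with h | h
    · refine ⟨x * y * x⁻¹ * y⁻¹, mul_mem (hV.conj_mem _ (h2 (a1 _ hy)) x) (inv_mem (h2 (a1 _ hy))),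
        ?_⟩
      rw [show x * y * x⁻¹ * y⁻¹ = x * (y * x * y⁻¹)⁻¹ by group, m.cx, mul_inv_rev, inv_inv]
      refine ⟨mul_mem (mem_zpowers x) (mul_mem (inv_mem m.tX) (mem_zpowers x)), fun c => ?_⟩
      have h3 := MC.comm (mem_zpowers x) (inv_mem m.tX)
      rw [show x * (t⁻¹ * x) * (x * (t⁻¹ * x)) = x ^ (1 + 1 + 1 + 1 : ℤ) * (t * t)⁻¹ by
        rw [← h3, mul_inv_rev, ← mul_assoc x x, mul_assoc (x * x), ← mul_assoc t⁻¹, ← mul_assoc t⁻¹,
          ← h3, mul_assoc x t⁻¹, ← h3]; simp only [zpow_add, zpow_one, mul_assoc], m.tt, inv_one, mul_one, m.eq_one_iff] at c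
      obtain ⟨k, rfl⟩ := Nat.exists_eq_add_of_le' h
      have := (Dvd.intro_left (2 ^ k) (by ring) : (8 : ℤ) ∣ 2 ^ (k + 1 + 2)).trans c
      omega
    · refine ⟨x, by simpa using mul_mem (h2 (a1 _ h)) (inv_mem (h2 (a1 _ hy))), mem_zpowers x,
        fun c => ?_⟩
      rw [← zpow_two, m.eq_one_iff] at c
      have := (Dvd.intro_left (2 ^ k) (by ring) : (4 : ℤ) ∣ 2 ^ (k + 2)).trans c
      omega
  exact m.ny (m.memX_of_comm a3 a4 m.yD (by rw [← a1 _ hy u a2, mul_inv_cancel_right]))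

variable [CharP (kk O) 2]

theorem MC.conj_of_rank (m : MC D k x y t) (hy : y * y = 1) (hD : H20.IsDef 2 ⊤ (eG β) D)
    (h3 : 3 ≤ blockRank 2 (irr β)) :
    IsConj (x ^ 2 ^ (k + 1)) y ∧ (1 ≤ k ∨ IsConj (x ^ 2 ^ (k + 1)) (x * y)) := by
  classical
  obtain ⟨e, h⟩ := H20.exists_max (H20.isBlk_eG β) hD
  obtain ⟨b, hb⟩ := exists_SB h
  have a1 : ∀ v, v ∉ zpowers x → v * v = 1 → ¬ Unf b x v → IsConj (x ^ 2 ^ (k + 1)) v :=
    fun v h1 h2 h3 => by
      simp only [Unf, not_forall, not_not] at h3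
      obtain ⟨u, hu, h3⟩ := h3
      rcases m.eq_of_sq hu (h3.sq_iff.2 h2) with rfl | rfl
      exacts [absurd (isConj_one_right.1 h3.isConj ▸ one_mem _) h1, h3.isConj]
  rcases m.ht with rfl | ⟨hk, rfl⟩
  · have h1 := (m.dih (m.sq_dih hy) hb).2.1
    rw [m.card_UU] at h1
    have h2 : ¬ Unf b x y := fun c => by rw [if_pos c] at h1; omega
    refine ⟨a1 y m.ny hy h2, Or.inr (a1 _ m.nxy (m.sq_dih hy _ m.xyD m.nxy) fun c => ?_)⟩
    rw [if_pos (c := _ ∧ _) ⟨c, fun c' => h2 (c.of_sconj (H20.sconj_symm c'))⟩] at h1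
    omega
  · obtain ⟨γ, h1, -, h2, -⟩ := m.qd hb hk hy (by
      rw [show x * y * (x * y) = x * (y * x * y⁻¹) * (y * y) by group, m.cx, hy, mul_inv_cancel_left,
        mul_one]
      exact m.z_ne)
    exact ⟨a1 y m.ny hy fun c => by rw [if_pos c] at h2; omega, Or.inl hk⟩

theorem MC.odd_center (m : MC D k x y t) (hy : y * y = 1) (hD : H20.IsDef 2 ⊤ (eG β) D)
    (h3 : 3 ≤ blockRank 2 (irr β)) : Odd (Nat.card (center G)) := by
  refine Nat.not_even_iff_odd.1 fun h => ?_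
  obtain ⟨c, hc, h1⟩ := H10.exists_orderOf_eq_of_dvd h.two_dvd
  have h2 : cent (zpowers c) = ⊤ := eq_top_iff.2 fun g _ a ha =>
    (mem_center_iff.1 (zpowers_le.2 hc ha) g).symm
  have h4 : c ∈ D := hD.le_of_normal (IsPGroup.of_card (n := 1) (by rw [Nat.card_zpowers, h1]; rfl))
    le_top (le_top.trans (h2.ge.trans (centralizer_le_normalizer _)))
    (by rw [h2]; exact (H20.isBlk_eG β).supp) (mem_zpowers c)
  have h5 : x * x ≠ 1 := fun c => by
    rw [← zpow_two, m.eq_one_iff] at c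
    have := (Dvd.intro_left (2 ^ k) (by ring) : (4 : ℤ) ∣ 2 ^ (k + 2)).trans c
    omega
  have h6 := m.memX_of_comm (mem_zpowers x) h5 h4
    (by rw [← mem_center_iff.1 hc, mul_inv_cancel_right])
  rcases m.eq_of_sq h6 (by rw [← sq, ← h1, pow_orderOf_eq_one]) with rfl | rfl
  · simp at h1
  obtain ⟨g, hg⟩ := isConj_iff.1 (m.conj_of_rank hy hD h3).1
  rw [mem_center_iff.1 hc, mul_inv_cancel_right] at hg
  exact m.ny (hg ▸ h6)

theorem rank_lt_of_psolv (G : Type u) [Group G] [Finite G] (hs : IsPSolvable 2 G) (β : Blk O G) :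
    ∀ D k x y t, H20.IsDef 2 ⊤ (eG β) D → MC D k x y t → y * y = 1 → blockRank 2 (irr β) < 3 := by
  refine H20.fong_ind (O := O) (p := 2) (fun G _ _ β => ∀ D k x y t, H20.IsDef 2 ⊤ (eG β) D →
    MC D k x y t → y * y = 1 → blockRank 2 (irr β) < 3) ?_ ?_ G hs β
  · intro G _ _ T K _ C β β' _ hK hKT hC hF hO hF' he h0 ih P k x y t hP m hy
    have := Fintype.ofFinite G
    obtain ⟨D, hD⟩ := H20.exists_isDef 2 ⊤ (H20.isBlk_eG β').ne_zero
    obtain ⟨g, -, hg⟩ := hP.exists_conj (H20.isPrim_eG β)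
      (hF'.isDef (H20.isBlk_eG β) (by rw [he]; exact H20.isDef_emb_top.2 hD))
    have m' := m.map (MulAut.conj g).toMonoidHom fun d _ h => (MulAut.conj g).map_eq_one_iff.1 h
    rw [show P.map _ = _ from hg] at m'
    have m'' := m'.sub (map_subtype_le D)
    rw [subgroupOf, comap_map_eq_self_of_injective T.subtype_injective] at m''
    exact (blockRank_le_of_ind fun χ hχ => hF.exists_irr_under hO he hχ (h0 χ hχ)).trans_lt
      (ih D _ _ _ _ hD m'' (Subtype.ext (by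
        rw [coe_mul, ← map_mul, hy, map_one, OneMemClass.coe_one])))
  · intro G _ _ θ β hs hi he he' P k x y t hP m hy
    have hK : ¬ 2 ∣ Nat.card (pPrimeCore 2 G) := H1.not_dvd_card_pPrimeCore Nat.prime_two
    have hS : H10.IsSylowIn 2 P ⊤ := (he ▸ hP).isSylowIn_of_coprime hK (H20.isBlk_eA _ _)
      (H20.top_le_nrm _) le_top (he ▸ (H20.isBlk_eG β).fixed)
    have h1 := hS.map (QuotientGroup.mk' (pPrimeCore 2 G))
    rw [map_top_of_surjective _ (QuotientGroup.mk'_surjective _)] at h1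
    by_contra h3
    obtain ⟨h4, h5⟩ := m.conj_of_rank hy hP (not_lt.1 h3)
    refine (m.map (QuotientGroup.mk' (pPrimeCore 2 G)) fun d hd h => ?_).not_conj
      (h1.le_of_NN (H1.isPGroup_pCore 2) le_top le_normalizer_of_normal)
      (H1.IsPSolvable.centralizer_pCore_le (H1.IsPSolvable.quotient hs _)
        (H1.pPrimeCore_quotient_pPrimeCore 2)) (by
          rw [← map_pow]; exact MonoidHom.map_isConj _ h4)
      (h5.imp_right fun h => by rw [← map_pow, ← map_mul]; exact MonoidHom.map_isConj _ h)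
    obtain ⟨j, hj⟩ := m.exists_ord hd
    have := (Nat.Prime.coprime_iff_not_dvd Nat.prime_two).2 hK
    exact orderOf_eq_one_iff.1 (Nat.Coprime.eq_one_of_dvd (hj ▸ this.pow_left j)
      (Subgroup.orderOf_dvd_natCard _ ((QuotientGroup.eq_one_iff d).1 h)))

end H19
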